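import Cfsg.Agent.H14.Bgl4

/-! Finite overgroups of a Chevalley group over a finite subfield: specialisation to a finite field. -/

open Matrix
set_option linter.unusedSectionVars false

namespace H14
open RootSys PreSt St Cfsg.Lie

universe u

theorem exists_spec {k : Type u} [Field k] (p : ℕ) [Fact p.Prime] [CharP k p] {S : Set k} (hS : S.Finite) :
    ∃ (R : Subring k) (F : Type u) (_ : Field F) (_ : Finite F) (π : R →+* F), S ⊆ R ∧ ∀ s : R, s.1 ∈ S → π s = 0 → s = 0 := by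
  let _ := ZMod.algebra k p
  let A := Algebra.adjoin (ZMod p) (S ∪ Inv.inv '' S)
  have : Algebra.FiniteType (ZMod p) A := .adjoin_of_finite (hS.union (hS.image _))
  obtain ⟨m, hm⟩ := Ideal.exists_maximal A
  let _ := Ideal.Quotient.field m
  have := finite_of_finite_type_of_isJacobsonRing (ZMod p) (A ⧸ m)
  refine ⟨A.toSubring, A ⧸ m, inferInstance, Module.finite_of_finite (ZMod p), Ideal.Quotient.mk m,
    fun s hs => Algebra.subset_adjoin (.inl hs), fun s hs h => by_contra fun h0 => ?_⟩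
  have := congrArg (Ideal.Quotient.mk m) (Subtype.ext (mul_inv_cancel₀ fun e => h0 (Subtype.ext e)) :
    (s * ⟨s.1⁻¹, Algebra.subset_adjoin (.inr ⟨_, hs, rfl⟩)⟩ : A) = 1)
  rw [map_mul, map_one] at this
  exact left_ne_zero_of_mul_eq_one this h

theorem subfield_cases {K : Type*} [Field K] [Finite K] {E F : Subfield K} (h : E ≤ F) {r : ℕ} (hr : r.Prime)
    (hK : Nat.card K = Nat.card E ^ r) : F = E ∨ F = ⊤ := by
  let _ := (Subfield.inclusion h).toAlgebra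
  have h1 : Nat.card F = Nat.card E ^ _ := Module.natCard_eq_pow_finrank
  have h2 : Nat.card K = Nat.card F ^ _ := Module.natCard_eq_pow_finrank
  have h3 := Nat.pow_right_injective (Finite.one_lt_card (α := E)) (hK.symm.trans (h2.trans (by rw [h1, ← pow_mul])))
  refine ((Nat.dvd_prime hr).1 ⟨_, h3⟩).imp (fun e => ?_) fun e => ?_
  · exact (SetLike.coe_injective (Set.eq_of_subset_of_ncard_le h (by rw [e, pow_one] at h1; exact h1.le))).symm
  · rw [e, eq_comm, mul_eq_left₀ hr.ne_zero] at h3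
    exact SetLike.coe_injective (Set.eq_of_subset_of_ncard_le (Set.subset_univ _)
      (by rw [h3, pow_one] at h2; rw [Subfield.coe_top, Set.ncard_univ]; exact h2.le))

namespace Good
variable {D : ChevalleyDatum} (G : Good D) {K : Type*} [Field K]

theorem fix_x {φ : K →+* K} {r : Fin D.nroots} {t : K} :
    (∀ i j, φ (((G.SG K).x r t).1.1 i j) = ((G.SG K).x r t).1.1 i j) ↔ φ t = t :=
  ⟨fun h => (G.SG_sep K).x_inj ((G.mapG_x φ r t).symm.trans (Subtype.ext (Units.ext (Matrix.ext h)))),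
    fun h i j => congrArg (fun g : D.group K => g.1.1 i j) ((G.mapG_x φ r t).trans (congrArg _ h))⟩

/-- root elements over a commutative ring -/
noncomputable def xR {R : Type*} [CommRing R] (r : Fin D.nroots) (t : R) : GL D.Idx R :=
  ⟨G.C.adRep.X r t, G.C.adRep.X r (-t), G.C.adRep.X_mul_neg r t, G.C.adRep.X_neg_mul r t⟩

theorem map_xR {R : Type*} [CommRing R] (f : R →+* K) (r : Fin D.nroots) (t : R) :
    GeneralLinearGroup.map f (G.xR r t) = (G.S K).x r (f t) := Units.ext (G.C.adRep.X_map f r t)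

theorem exists_params {M : Subgroup (GL D.Idx K)} [Finite M] (h : M ≤ D.group K) : ∃ S : Set K, S.Finite ∧
    M ≤ Subgroup.closure {g | ∃ r, ∃ t ∈ S, g = (G.S K).x r t} := by
  have key : ∀ g ∈ (G.S K).U Set.univ, ∃ S : Set K, S.Finite ∧ g ∈ Subgroup.closure {g | ∃ r, ∃ t ∈ S, g = (G.S K).x r t} :=
    fun g hg => U_induction (P := fun g => ∃ S : Set K, S.Finite ∧ g ∈ Subgroup.closure {g | ∃ r, ∃ t ∈ S, g = (G.S K).x r t})
      ⟨∅, Set.finite_empty, one_mem _⟩ (fun r _ t g _ ⟨S, a, b⟩ => ⟨insert t S, a.insert t,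
      mul_mem (Subgroup.subset_closure ⟨r, t, .inl rfl, rfl⟩) (Subgroup.closure_mono (by
        rintro _ ⟨r, t, c, d⟩; exact ⟨r, t, .inr c, d⟩) b)⟩) hg
  choose f h1 h2 using fun g : M => key g ((G.group_eq K).le (h g.2))
  exact ⟨⋃ g, f g, Set.finite_iUnion h1, fun g hg => Subgroup.closure_mono (by
    rintro _ ⟨r, t, c, d⟩; exact ⟨r, t, Set.mem_iUnion.2 ⟨_, c⟩, d⟩) (h2 ⟨g, hg⟩)⟩

theorem le_sub' [Finite K] (hD : D ∈ [chevG2, chevB2, chevD4, chevF4, chevE6, chevE7, chevE8]) (p : ℕ) [Fact p.Prime]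
    [CharP K p] {M : Subgroup (D.group K)} (h : ∀ r, (G.SG K).x r 1 ∈ M) : ∃ (F : Subfield K) (φ : K →+* K),
      (∀ t, φ t = t ^ Nat.card F) ∧ (∀ t, φ t = t ↔ t ∈ F) ∧ (∀ r t, (G.SG K).x r t ∈ M ↔ t ∈ F) ∧
        ∀ g ∈ M, ∀ i j, g.1.1 i j ∈ F := by
  obtain ⟨G', h1⟩ := H14.le_sub (K := K) hD p
  have e : ∀ r t, (G'.SG K).x r t = (G.SG K).x r t := fun r t => G.eq_SG_x.1 (G'.coe_SG_x r t)
  obtain ⟨F, h2, h3⟩ := h1 M fun r => e r 1 ▸ h r
  obtain ⟨φ, h4, h5⟩ := exists_frob p F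
  exact ⟨F, φ, h4, h5, fun r t => ⟨fun a => (h5 t).1 (G.fix_x.1 fun i j => (h5 _).2 (h3 _ a i j)), fun a => e r t ▸ h2 r t a⟩, h3⟩

end Good

theorem bgl {k : Type u} [Field k] [IsAlgClosed k] (p : ℕ) [hp : Fact p.Prime] [CharP k p] {D : ChevalleyDatum}
    (hD : D ∈ [chevG2, chevB2, chevD4, chevF4, chevE6, chevE7, chevE8]) {a : ℕ} (ha : a ≠ 0) {M : Subgroup (GL D.Idx k)}
    [Finite M] (hM : M ≤ D.group k) (G : Good D) (h : ∀ r t, t ^ p ^ a = t → (G.S k).x r t ∈ M) :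
    ∃ n, 1 ≤ n ∧ (∀ r t, t ^ (p ^ a) ^ n = t → (G.S k).x r t ∈ M) ∧ ∀ g ∈ M, ∀ i j, g.1 i j ^ (p ^ a) ^ n = g.1 i j := by
  let _ := ZMod.algebra k p
  let γ : GaloisField p a →+* k := (IsAlgClosed.lift (R := ZMod p)).toRingHom
  obtain ⟨S, h1, h2⟩ := G.exists_params hM
  let T : Set k := ⋃ n ∈ Set.Ioc 1 (Nat.card M), {t | t ^ n = t}
  have hT : T.Finite := (Set.finite_Ioc _ _).biUnion fun n hn => (Polynomial.finite_setOfPred_isRoot
    (FiniteField.X_pow_card_sub_X_ne_zero k hn.1)).subset fun t ht => by simpa [sub_eq_zero] using ht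
  have := hT.to_subtype
  obtain ⟨R, F, _, _, π, h3, h4⟩ := exists_spec p ((((h1.union hT).union (Set.finite_range γ)).union
    (Set.finite_range fun x : M × T × Fin D.nroots × D.Idx × D.Idx =>
      x.1.1.1 x.2.2.2.1 x.2.2.2.2 - ((G.S k).x x.2.2.1 x.2.1).1 x.2.2.2.1 x.2.2.2.2)).union
    (Set.finite_range fun x : M × Set.Iic (Nat.card M) × D.Idx × D.Idx =>
      x.1.1.1 x.2.2.1 x.2.2.2 ^ x.2.1.1 - x.1.1.1 x.2.2.1 x.2.2.2))
  let γ' : GaloisField p a →+* F := π.comp (γ.codRestrict R fun x => h3 (.inl (.inl (.inr ⟨x, rfl⟩))))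
  have : CharP F p := (γ'.charP_iff_charP p).1 inferInstance
  have := Fintype.ofFinite F
  let Γ := Subgroup.closure {g | ∃ r, ∃ t : R, g = G.xR r t} ⊓ M.comap (GeneralLinearGroup.map R.subtype)
  have h5 : ∀ r (t : R), (G.S k).x r t ∈ M → (G.SG F).x r (π t) ∈ (Γ.map (GeneralLinearGroup.map π)).subgroupOf (D.group F) :=
    fun r t e => ⟨_, ⟨Subgroup.subset_closure ⟨r, t, rfl⟩, (G.map_xR R.subtype r t ▸ e : _ ∈ M)⟩, G.map_xR π r t⟩
  obtain ⟨E, φ, h6, h7, h8, h9⟩ := G.le_sub' hD p fun r => by simpa using h5 r 1 (h r 1 (one_pow _))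
  let _ := (γ'.codRestrict E fun x => (h8 (G.R.simple ⟨0, G.two_le.trans_lt' two_pos⟩) _).1 (h5 _ _ (h _ _ (by
    have := Fintype.ofFinite (GaloisField p a)
    change γ x ^ _ = γ x
    rw [← GaloisField.card p a ha, Nat.card_eq_fintype_card]
    exact (map_pow γ _ _).symm.trans (congrArg γ (FiniteField.pow_card x)))))).toAlgebra
  have h10 : Nat.card E = _ ^ _ := Module.natCard_eq_pow_finrank (K := GaloisField p a)
  rw [GaloisField.card p a ha] at h10
  have : Finite Γ := .of_injective (fun g : Γ => (⟨_, g.2.2⟩ : M)) fun a b e =>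
    Subtype.ext (Units.ext (Matrix.ext fun i j => Subtype.ext (congrArg (fun g : M => g.1.1 i j) e)))
  have h11 : Nat.card E ≤ Nat.card M := (Nat.card_le_card_of_injective (β := Γ.map (GeneralLinearGroup.map π))
    (fun t : E => ⟨(G.S F).x _ t.1, (h8 (G.R.simple ⟨0, G.two_le.trans_lt' two_pos⟩) t.1).2 t.2⟩) fun a b e =>
      Subtype.ext ((G.sep F).x_inj (congrArg Subtype.val e))).trans
    ((Nat.card_le_card_of_surjective _ (MonoidHom.subgroupMap_surjective _ Γ)).trans (Nat.card_le_card_of_injective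
      (fun g : Γ => (⟨_, g.2.2⟩ : M)) fun a b e =>
        Subtype.ext (Units.ext (Matrix.ext fun i j => Subtype.ext (congrArg (fun g : M => g.1.1 i j) e)))))
  refine ⟨_, Module.finrank_pos (R := GaloisField p a) (M := E), fun r t ht => ?_, fun g hg i j => ?_⟩
  · have h12 : t ∈ T := Set.mem_biUnion ⟨Finite.one_lt_card, h11⟩ (h10 ▸ ht :)
    have h13 := h3 (.inl (.inl (.inl (.inr h12))))
    obtain ⟨g, ⟨-, hg⟩, e⟩ := (h8 r (π ⟨t, h13⟩)).2 ((h7 _).1 (by
      rw [h6, ← map_pow, h10]; exact congrArg π (Subtype.ext ht)))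
    refine (Units.ext (Matrix.ext fun i j => ?_) : GeneralLinearGroup.map R.subtype g = (G.S k).x r t) ▸ hg
    have e1 := congrArg (fun g : GL D.Idx k => g.1 i j) (G.map_xR R.subtype r ⟨t, h13⟩)
    have := h4 (g.1 i j - (G.xR r ⟨t, h13⟩).1 i j) (.inl (.inr ⟨(⟨_, hg⟩, ⟨t, h12⟩, r, i, j), congrArg (_ - ·) e1.symm⟩))
      ((map_sub π _ _).trans (sub_eq_zero.2 (congrArg (fun g : GL D.Idx F => g.1 i j) (e.trans (G.map_xR π r _).symm))))
    exact (congrArg Subtype.val (sub_eq_zero.1 this)).trans e1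
  obtain ⟨g, a, rfl⟩ : g ∈ (Subgroup.closure {g | ∃ r, ∃ t : R, g = G.xR r t}).map (GeneralLinearGroup.map R.subtype) := by
    refine (Subgroup.closure_le _).2 ?_ (h2 hg)
    rintro _ ⟨r, t, b, rfl⟩
    exact ⟨_, Subgroup.subset_closure ⟨r, ⟨t, h3 (.inl (.inl (.inl (.inl b))))⟩, rfl⟩, G.map_xR _ _ _⟩
  have h12 : GeneralLinearGroup.map π g ∈ D.group F := (G.group_eq F).ge ((Subgroup.closure_le
    (((G.S F).U Set.univ).comap (GeneralLinearGroup.map π))).2 (by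
    rintro _ ⟨r, t, rfl⟩
    exact (G.map_xR π r t ▸ x_mem_U (Set.mem_univ r) _ : _ ∈ (G.S F).U _)) a)
  have := h4 (g.1 i j ^ Nat.card E - g.1 i j) (.inr ⟨(⟨_, hg⟩, ⟨_, h11⟩, i, j), rfl⟩) (by
    rw [map_sub, map_pow, ← h6, sub_eq_zero]
    exact (h7 _).2 (h9 ⟨_, h12⟩ ⟨g, ⟨a, hg⟩, rfl⟩ i j))
  exact h10 ▸ congrArg Subtype.val (sub_eq_zero.1 this)

end H14
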