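import Cfsg.Agent.H14.Bgl4

/-! Overgroups of the points over the subfield in a twisted group. -/

open Matrix
set_option linter.unusedSectionVars false

namespace H14
open RootSys PreSt St Cfsg.Lie

variable {ι κ : Type*} [Fintype κ] [DecidableEq κ] [Fintype ι] [DecidableEq ι] {R : RootSys ι κ}

namespace St
variable {C : Chev R} {K G : Type*} [Field K] [Group G] {S : St C K G}

theorem Tw.fix_n (T : S.Tw) {w : Equiv.Perm ι} (hw : w ∈ T.W1) {u' n u : G} (hu' : u' ∈ S.U {r | R.pos r}) (hn : (n, w) ∈ S.NW)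
    (hu : u ∈ S.U {r | R.pos r ∧ ¬ R.pos (w r)}) (hg : u' * n * u ∈ T.fix) : T.σ n = n := by
  have h1 := NW.mul_inv_mem_H (Tw.W1_conj hw ▸ T.NW_σ hn) hn
  obtain ⟨e1, -⟩ := canonical_unique T.sep hn (mul_mem (U_le_B (T.σ_mem_Up hu')) (H_le_B h1)) (U_le_B hu')
    (Tw.σ_mem_Uw hw hu) hu (by rw [← Tw.mem_fix.1 hg]; simp [mul_assoc])
  have e3 := T.sep.eq_one_of_mem_H (mul_mem (inv_mem (T.σ_mem_Up hu')) hu') (by rwa [inv_mul_eq_iff_eq_mul.2 e1.symm])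
  rwa [inv_mul_eq_one.1 e3, mul_eq_left, mul_inv_eq_one] at e1

/-- the orbit of a root -/
def Tw.O (T : S.Tw) (r : ι) : Set ι := {s | s ∈ [r, T.ρ r, T.ρ (T.ρ r)]}

/-- a twisting endomorphism together with a field endomorphism -/
structure Twd (T : S.Tw) (σ : G →* G) (φ : K →+* K) (ε : ι → ℤ) : Prop where
  x : ∀ r t, σ (S.x r t) = S.x r (φ t)
  f : ∀ r t, T.f r t = ε r * φ t
  orb : ∀ r, (T.ρ r = r ∧ ε r = 1) ∨ T.ρ r ≠ r ∧ (∃ δ, T.ρ δ = δ ∧ R.pair δ r = 1) ∧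
    (T.ρ (T.ρ r) = r ∧ ε (T.ρ r) * ε r = 1 ∨
      T.ρ (T.ρ r) ≠ r ∧ T.ρ (T.ρ (T.ρ r)) = r ∧ ε (T.ρ (T.ρ r)) * (ε (T.ρ r) * ε r) = 1)
  ht : ∀ r, R.ht (T.ρ r) = R.ht r
  comm : ∀ r, ¬ R.IsSum r (T.ρ r)
  levi : ∀ i r, R.InJ (T.orb i) r → r ∈ T.O (R.simple i) ∨ r ∈ T.O (R.neg (R.simple i))

namespace Twd
variable {T : S.Tw} {σ : G →* G} {φ : K →+* K} {ε : ι → ℤ} (h : Twd T σ φ ε)

/-- the two endomorphisms -/
def fam (b : Bool) : S.Tw := cond b T (Tw.ofField T.sep T.top σ φ h.x)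

theorem mem {g : G} : g ∈ Fix h.fam ↔ g ∈ T.fix ∧ σ g = g := mem_Fix.trans (Bool.forall_bool.trans and_comm)

include h

theorem cyc (r : ι) : T.ρ (T.ρ (T.ρ r)) = r ∨ T.ρ (T.ρ r) = r := by rcases h.orb r with a | ⟨-, -, a | a⟩ <;> simp [a]

theorem ρ_mem (r s : ι) : T.ρ s ∈ T.O r ↔ s ∈ T.O r := by
  simp only [Tw.O, List.mem_cons, List.not_mem_nil, or_false, Set.mem_ofPred_eq]
  rcases h.cyc r with a | a
  · conv_lhs => rw [← a]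
    simp only [a, T.ρ.apply_eq_iff_eq]
    rw [← T.ρ.apply_eq_iff_eq (x := s) (y := T.ρ (T.ρ r)), a]
    tauto
  · rw [a, ← T.ρ.apply_eq_iff_eq (x := s) (y := T.ρ r), a, T.ρ.apply_eq_iff_eq]
    tauto

theorem ht_eq (r : ι) : ∀ s ∈ T.O r, R.ht s = R.ht r := by simp [Tw.O, h.ht]

theorem not_sum (r : ι) : ∀ s ∈ T.O r, ∀ s' ∈ T.O r, ¬ R.IsSum s s' := by
  have h1 := h.comm r
  have h2 := h.comm (T.ρ r)
  have h3 := h.comm (T.ρ (T.ρ r))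
  rcases h.cyc r with a | a <;> simp_all [Tw.O, not_isSum_self, isSum_comm (r := T.ρ _) (s := r),
    isSum_comm (r := T.ρ (T.ρ r)) (s := T.ρ r)]

theorem half (r : ι) : ∃ f : (κ → ℤ) →+ ℤ, ∀ s ∈ T.O r, 0 < f (R.cf s) := by
  by_cases hr : R.pos r
  · exact ⟨htf κ, fun s hs => by rwa [htf_cf, h.ht_eq r s hs, ← pos_iff_ht_pos]⟩
  · exact ⟨-htf κ, fun s hs => htf_neg (by rwa [pos_iff_ht_pos, h.ht_eq r s hs, ← pos_iff_ht_pos])⟩

theorem ord (r : ι) {A : Set ι} (hA : A ⊆ T.O r) : S.Ord A :=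
  have ⟨f, hf⟩ := h.half r
  ord_of_into (fun a ha s hs => ⟨ne_neg_of_pos _ (hf a (hA ha)) (hf s (hA hs)), by
    simp [C.terms_of_not (h.not_sum r a (hA ha) s (hA hs))]⟩) f fun a ha => hf a (hA ha)

theorem commute (r : ι) : ∀ u ∈ S.U (T.O r), ∀ v ∈ S.U (T.O r), Commute u v :=
  have ⟨_, hf⟩ := h.half r
  commute_U _ fun a ha s hs => S.commute_of_not (ne_neg_of_pos _ (hf a ha) (hf s hs)) (h.not_sum r a ha s hs)

theorem eq_one {r : ι} {g : G} (hg : g ∈ S.U (T.O r \ {r})) (h1 : g ∈ T.fix) : g = 1 := by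
  obtain ⟨f, hf⟩ := h.half r
  have key : ∀ s, g ∈ S.U (T.O r \ {s}) → g ∈ S.U (T.O r \ {T.ρ s}) := fun s e =>
    Tw.mem_fix.1 h1 ▸ T.σ_mem_U (fun a ha => by exact ⟨(h.ρ_mem r a).2 ha.1, T.ρ.injective.ne ha.2⟩) e
  have := T.sep.inf_ord (h.ord r fun _ h => h.1.1) (h.ord r Set.sdiff_subset) f (fun s hs => hf s hs.1.1)
    (fun s hs => hf s hs.1) (T.sep.inf_ord (h.ord r Set.sdiff_subset) (h.ord r Set.sdiff_subset) f (fun s hs => hf s hs.1)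
      (fun s hs => hf s hs.1) hg (key _ hg)) (key _ (key _ hg))
  simpa using U_mono (B := ∅) (fun s hs => by simp [Tw.O] at hs; tauto) this

theorem x_fix {r : ι} (hr : T.ρ r = r) {t : K} : S.x r t ∈ T.fix ↔ φ t = t := by
  rw [Tw.mem_fix, T.σ_x, hr, h.f, ((h.orb r).resolve_right fun e => e.1 hr).2, Int.cast_one, one_mul]
  exact ⟨T.sep.x_inj, congrArg _⟩

theorem x_mem {r : ι} (hr : T.ρ r = r) {t : K} (ht : φ t = t) : S.x r t ∈ Fix h.fam :=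
  h.mem.2 ⟨(h.x_fix hr).2 ht, by rw [h.x, ht]⟩

theorem three {r : ι} (h1 : T.ρ (T.ρ r) ≠ r) {t : K} (ht : φ (φ (φ t)) = t) :
    S.x r t * (S.x (T.ρ r) (ε r * φ t) * S.x (T.ρ (T.ρ r)) (ε (T.ρ r) * ε r * φ (φ t))) ∈ T.fix := by
  obtain ⟨-, a, b⟩ := ((h.orb r).resolve_left fun e => h1 (by simp [e])).2.2.resolve_left fun e => h1 e.1
  have := congrArg (Int.cast (R := K)) b
  push_cast at this
  simp only [Tw.mem_fix, map_mul, T.σ_x, h.f, map_intCast, a, ht, ← mul_assoc]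
  rw [mul_assoc (ε _ : K) (ε _) (ε r), this, one_mul, mul_assoc (S.x r t)]
  exact (h.commute r _ (mul_mem (x_mem_U (by simp [Tw.O]) _) (x_mem_U (by simp [Tw.O]) _)) _ (x_mem_U (by simp [Tw.O]) _)).eq

theorem blk : Blk h.fam T.O := by
  refine ⟨T.sep, by simp [Tw.O], h.ht_eq, fun r a => by cases a; exacts [fun _ => Iff.rfl, h.ρ_mem r],
    fun a => by cases a; exacts [fun _ => rfl, h.ht], h.not_sum, fun r => ?_⟩
  rcases h.orb r with a | ⟨a, -, b | b⟩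
  · exact ⟨1, one_mem _, by simpa using h.x_mem a.1 (map_one φ)⟩
  · refine ⟨S.x (T.ρ r) (ε r), x_mem_U (by simp [Tw.O, a]) _, h.mem.2 ⟨?_, by simp [h.x]⟩⟩
    simp only [Tw.mem_fix, map_mul, T.σ_x, h.f, map_intCast, b.1, map_one, mul_one, ← Int.cast_mul, b.2, Int.cast_one]
    exact (h.commute r _ (x_mem_U (by simp [Tw.O]) _) _ (x_mem_U (by simp [Tw.O]) _)).eq
  · exact ⟨_, mul_mem (x_mem_U (by simp [Tw.O, a]) _) (x_mem_U (by simp [Tw.O, b.1]) _),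
      h.mem.2 ⟨h.three b.1 (by simp), by simp [h.x]⟩⟩

theorem inJ {J : Set κ} (hJ : ∀ j, T.π j ∈ J ↔ j ∈ J) {r s : ι} (hs : s ∈ T.O r) : R.InJ J s ↔ R.InJ J r := by
  simp only [Tw.O, List.mem_cons, List.not_mem_nil, or_false, Set.mem_ofPred_eq] at hs
  rcases hs with rfl | rfl | rfl <;> simp [Tw.inJ_ρ_iff hJ]

theorem rep {w : Equiv.Perm ι} (hw : w ∈ T.W1) : ∃ n ∈ Fix h.fam, (n, w) ∈ S.NW := by
  refine Tw.W1_induction (P := fun w => ∃ n ∈ Fix h.fam, (n, w) ∈ S.NW) ⟨1, one_mem _, one_mem S.NW⟩ ?_ hw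
  rintro w - i - ⟨n, h1, h2⟩
  obtain ⟨y, h3, h4⟩ := h.blk.lead (R.neg (R.simple i))
  obtain ⟨f, hf⟩ := h.half (R.neg (R.simple i))
  obtain ⟨u', hu', s, hs, h5, u, hu, e⟩ := Tw.exists_n (i := i) (T := T) ⟨U_mono (fun s hs => by
    exact ⟨by rw [pos_iff_ht_pos, h.ht_eq _ s hs, ht_neg, ht_simple]; simp,
      (h.inJ (fun _ => Tw.π_mem_orb) hs).2 (R.inJ_neg.2 (R.inJ_simple.2 (T.mem_orb i)))⟩)
    (mul_mem (x_mem_U (h.blk.mem _) 1) (U_mono Set.sdiff_subset h3)), (h.mem.1 h4).1⟩ fun e =>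
      (T.sep.mem_of_ord (h.ord _ Set.sdiff_subset) f (fun s hs => hf s hs.1) (hf _ (h.blk.mem _)) one_ne_zero
        (by rw [eq_inv_of_mul_eq_one_left e]; exact inv_mem h3)).2 (Set.mem_singleton _)
  exact ⟨n * s, mul_mem h1 (h.mem.2 ⟨hs, (h.fam false).fix_n (Tw.mem_W1.2 ⟨NW.mem_W h5, rfl⟩) (U_mono (fun _ h => h.1) hu'.1) h5
    ((T.Uw_w0 _).ge hu).1 (e ▸ (h.mem.1 h4).2)⟩), NW.mul h2 h5⟩

variable {M : Subgroup G}

theorem ovg (h1 : Fix h.fam ≤ M) : Ovg h.fam M :=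
  ⟨T.sep, T.top, inf_le_right.trans h1, fun _ _ hw => have ⟨n, a, b⟩ := h.rep (hw true); ⟨n, ⟨h1 a, a⟩, b⟩, fun r hr =>
    have ⟨y, a, b⟩ := h.blk.lead r
    ⟨y, U_mono (fun s hs => by exact ⟨hs.2, h.blk.pos hr hs.1, h.ht_eq r s hs.1, fun _ hJ => (h.inJ (hJ true) hs.1).1⟩) a, b⟩⟩

omit h in
variable (T M) in
/-- parameters of elements of `M` belonging to an orbit -/
def P (r : ι) (t : K) : Prop := ∃ y ∈ S.U (T.O r \ {r}), S.x r t * y ∈ M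

theorem P_add {r : ι} {t u : K} : P T M r t → P T M r u → P T M r (t + u) := fun ⟨y, a, b⟩ ⟨z, c, d⟩ =>
  ⟨y * z, mul_mem a c, by
    simpa [S.x_add, mul_assoc, (h.commute r _ (U_mono Set.sdiff_subset a) _ (x_mem_U (h.blk.mem r) u)).left_comm] using mul_mem b d⟩

theorem P_smul (h1 : Fix h.fam ≤ M) {r : ι} (hr : T.ρ r ≠ r) {c t : K} (hc : φ c = c) : P T M r t → P T M r (c * t) := by
  rintro ⟨y, a, b⟩
  by_cases h0 : c = 0
  · exact ⟨1, one_mem _, by simp [h0]⟩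
  obtain ⟨δ, h2, h3⟩ := ((h.orb r).resolve_left fun e => hr e.1).2.1
  have h4 : ∀ c, φ c = c → S.n δ c ∈ M := fun c hc => h1 (mul_mem (mul_mem (h.x_mem h2 hc)
    (h.x_mem (by rw [T.ρ_neg, h2]) (by simp [hc]))) (h.x_mem h2 hc))
  have h5 : S.h δ c ∈ M := mul_mem (h4 c hc) (h4 _ (by simp))
  have := mul_mem (mul_mem h5 b) (inv_mem h5)
  rw [← mul_assoc, S.h_mul_x _ _ h0, h3, _root_.zpow_one, mul_assoc, mul_assoc, ← mul_assoc (S.h δ c)] at this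
  exact ⟨_, H_conj_mem_U (h_mem_H δ h0) a, this⟩

theorem P_one (h1 : Fix h.fam ≤ M) {r : ι} (hr : T.ρ r ≠ r) {c : K} (hc : φ c = c) : P T M r c := by
  simpa using h.P_smul h1 hr hc ((h.blk.lead r).imp fun _ a => ⟨a.1, h1 a.2⟩)

theorem P_W (h1 : Fix h.fam ≤ M) {r s : ι} (L : List κ) (hL : (∀ r, T.ρ (L.foldr R.sref r) = L.foldr R.sref (T.ρ r)) ∧
    L.foldr R.sref r = s ∧ T.ρ s ≠ s) {t : K} : P T M r t → P T M s t := by
  rintro ⟨y, a, b⟩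
  have hw : R.wprod L ∈ T.W1 := Tw.mem_W1.2 ⟨R.wprod_mem_W L, Equiv.ext fun r => by simpa [wprod_apply] using hL.1 r⟩
  obtain ⟨n, h2, h3⟩ := h.rep hw
  obtain ⟨c, h4, h5⟩ := NW.act h3 r
  rw [wprod_apply, hL.2.1] at h5
  have h6 : φ c = c := by
    have := congrArg σ (h5 1)
    rw [map_mul, map_mul, (h.mem.1 h2).2, h.x, h.x, map_one, h5, mul_one, mul_left_inj] at this
    exact (T.sep.x_inj this).symm
  have := mul_mem (mul_mem (h1 h2) b) (inv_mem (h1 h2))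
  rw [← mul_assoc, h5, mul_assoc, mul_assoc, ← mul_assoc n] at this
  simpa [h4] using h.P_smul h1 hL.2.2 (c := c⁻¹) (by simp [h6]) ⟨_, NW.conj_mem_U h3 (fun k hk => by
    rw [← hL.2.1, ← wprod_apply]
    exact ⟨by simpa [Tw.O, Tw.W1_apply hw] using hk.1, (R.wprod L).injective.ne hk.2⟩) a, this⟩

theorem mem_of_P (h2 : M ≤ T.fix) {r : ι} {t : K} (h3 : P T M r t) {y : G} (hy : y ∈ S.U (T.O r \ {r}))
    (h4 : S.x r t * y ∈ T.fix) : S.x r t * y ∈ M := by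
  obtain ⟨z, a, b⟩ := h3
  rwa [← inv_mul_eq_one.1 (h.eq_one (mul_mem (inv_mem a) hy) (by simpa [-x_inv] using mul_mem (inv_mem (h2 b)) h4))]

theorem exists_eq {r : ι} {g : G} (hg : g ∈ S.U (T.O r)) : ∃ t, ∃ y ∈ S.U (T.O r \ {r}), g = S.x r t * y := by
  obtain ⟨a, ha, b, hb, rfl⟩ := (h.ord r subset_rfl).exists_mul {r} hg
  obtain ⟨t, rfl⟩ := mem_U_singleton.1 (U_mono Set.inter_subset_right ha)
  exact ⟨t, b, hb, rfl⟩

theorem small (h2 : M ≤ T.fix) {r : ι} (hr : T.ρ r ≠ r) (h3 : ∀ t, P T M r t → φ t = t) : M ⊓ S.U (T.O r) ≤ Fix h.fam := by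
  rintro g ⟨a, b⟩
  obtain ⟨t, y, c, rfl⟩ := h.exists_eq b
  exact h.mem_of_P (fun _ e => (h.mem.1 e).1) (h.P_one le_rfl hr (h3 t ⟨y, c, a⟩)) c (h2 a)

theorem big (hG : T.Gen) (h1 : Fix h.fam ≤ M) (h2 : M ≤ T.fix) {β : ι} (h3 : ∀ t, P T M β t) (Ls : List (List κ))
    (h4 : (∀ L ∈ Ls, (∀ r, T.ρ (L.foldr R.sref r) = L.foldr R.sref (T.ρ r)) ∧ T.ρ (L.foldr R.sref β) ≠ L.foldr R.sref β) ∧
      ∀ i, ∀ a ∈ [R.simple i, R.neg (R.simple i)], T.ρ a = a ∨ ∃ L ∈ Ls,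
        a ∈ [L.foldr R.sref β, T.ρ (L.foldr R.sref β), T.ρ (T.ρ (L.foldr R.sref β))]) : T.fix ≤ M := by
  have key : ∀ i, ∀ a ∈ [R.simple i, R.neg (R.simple i)], S.U (T.O a) ⊓ T.fix ≤ M := fun i a ha g ⟨b, c⟩ => by
    obtain e | ⟨L, e1, e2⟩ := h4.2 i a ha
    · obtain ⟨t, y, d, rfl⟩ := h.exists_eq b
      obtain rfl : y = 1 := by simpa using U_mono (B := ∅) (fun s hs => by simp [Tw.O, e] at hs) d
      simpa using h1 (h.x_mem e ((h.x_fix e).1 (by simpa using c)))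
    · obtain ⟨t, y, d, rfl⟩ := h.exists_eq (r := L.foldr R.sref β) (U_mono (fun s hs => by
        simp only [Tw.O, List.mem_cons, List.not_mem_nil, or_false, Set.mem_ofPred_eq] at hs
        rcases hs with rfl | rfl | rfl
        exacts [e2, (h.ρ_mem _ _).2 e2, (h.ρ_mem _ _).2 ((h.ρ_mem _ _).2 e2)]) b)
      exact h.mem_of_P h2 (h.P_W h1 L ⟨(h4.1 L e1).1, rfl, (h4.1 L e1).2⟩ (h3 t)) d c
  refine hG M fun i => ⟨(inf_le_inf_right _ (U_mono fun r hr => (h.levi i r hr.2).resolve_right fun e => ?_)).trans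
    (key i _ (by simp)), (inf_le_inf_right _ (U_mono fun r hr => (h.levi i r hr.2).resolve_left fun e => ?_)).trans
    (key i _ (by simp))⟩
  · simpa [h.ht_eq _ _ e, ht_neg, ht_simple] using (R.pos_iff_ht_pos r).1 hr.1
  · exact hr.1 (h.blk.pos (R.pos_simple i) e)

theorem le_Fix [Finite K] [Finite G] (p : ℕ) [Fact p.Prime] [CharP K p] (hh : S.HMul) (hZ : Subgroup.center G = ⊥)
    (hc : R.Conn) (h1 : Fix h.fam ≤ M) {θ : ι} {m : ℤ} (Ls : List (List κ))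
    (h2 : ((∀ k, k ≠ θ → R.ht k < R.ht θ) ∧ T.ρ θ = θ ∧ (∃ β, R.pos β ∧ ∀ s ∈ [β, T.ρ β, T.ρ (T.ρ β)], R.pair θ s = 0) ∧
      (∃ i, T.π i ≠ i ∧ ε (R.simple i) = 1) ∧ R.ht θ < 2 * m) ∧
      (∀ L ∈ Ls, ∀ r, T.ρ (L.foldr R.sref r) = L.foldr R.sref (T.ρ r)) ∧
      ∀ β ∈ R.Ht m, ∃ L ∈ Ls, (∀ s ∈ R.Ht m, R.pos (L.foldr R.sref s)) ∧ L.foldr R.sref β ∉ R.Ht m)
    (hC : ∀ r, R.pos r → R.ht r < m → ∀ c ∈ S.U (R.Ht (R.ht r)), (∀ y ∈ S.U {r | R.pos r} ⊓ Fix h.fam, Commute c y) →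
      S.lc r c = 0) (h3 : M ⊓ S.U (R.Ht m) ≤ Fix h.fam) : M ≤ Fix h.fam := by
  obtain ⟨⟨hθ, a1, ⟨β, a2, a3⟩, ⟨i, a5, a6⟩, a7⟩, a8, a9⟩ := h2
  obtain ⟨z, a4, a4'⟩ := h.blk.lead β
  obtain ⟨f, hf⟩ := h.half β
  have h6 : ∀ k, R.ht k ≤ R.ht θ := fun k => by by_cases h : k = θ; exacts [h ▸ le_rfl, (hθ k h).le]
  refine (h.ovg h1).le_Fix p hh hc (fun a => (h.fam a).injective hZ) ((h.ovg h1).borel_le h.blk hh hZ (m := m)
    (fun c h7 h8 => mem_Ht_of_lc T.sep h7 fun r a b d => hC r a b c d h8) (fun r a s b c => ?_) h3 fun β a => ?_) hθ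
    (h.x_mem a1 (map_one φ)) (h.x_mem (by rw [T.ρ_neg, a1]) (map_one φ))
    ⟨_, ⟨U_mono (fun s hs => by exact ⟨h.blk.pos a2 hs, a3 s hs⟩) (mul_mem (x_mem_U (h.blk.mem β) 1)
      (U_mono Set.sdiff_subset a4)), a4'⟩, fun e => (T.sep.mem_of_ord (h.ord _ Set.sdiff_subset) f (fun s hs => hf s hs.1)
        (hf _ (h.blk.mem _)) one_ne_zero (by rw [eq_inv_of_mul_eq_one_left e]; exact inv_mem a4)).2 (Set.mem_singleton _)⟩
    fun hp => ?_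
  · have := h6 (R.plus r s)
    have := a.2
    have := b.2
    rw [c.ht_plus] at *
    omega
  · obtain ⟨L, b, c⟩ := a9 β a
    refine ⟨_, R.wprod_mem_W L, fun a => Tw.mem_W1.2 ⟨R.wprod_mem_W L, ?_⟩, by simpa only [wprod_apply] using c⟩
    cases a
    exacts [rfl, Equiv.ext fun r => by simpa [wprod_apply, fam] using a8 L b r]
  subst hp
  obtain ⟨y, b1, b2⟩ := h.blk.lead (R.simple i)
  have b3 := mul_mem (x_mem_U (S := S.toPreSt) (h.blk.mem (R.simple i)) 1) (U_mono Set.sdiff_subset b1)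
  have b4 := U_mono (B := {r | R.pos r}) (fun s hs => h.blk.pos (R.pos_simple i) hs) b3
  have b5 := not_mem_simple T.sep i (U_mono (fun s hs => by exact ⟨h.blk.pos (R.pos_simple i) hs.1, hs.2⟩) b1)
  refine ⟨_, ⟨b4, b2⟩, orderOf_eq_prime (U_induction (P := fun g : G => g ^ 2 = (1 : G)) (one_pow _) (fun r a t g b c => by
    rw [(h.commute _ _ (x_mem_U a t) g b).mul_pow, c, sq, ← S.x_add, CharTwo.add_self_eq_zero, x_zero, mul_one]) b3)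
    (fun e => b5 (e ▸ one_mem _)), not_isConj T.sep T.top hθ b4 b5 (.inr ⟨_, a5, ?_⟩)⟩
  rw [← Tw.mem_fix.1 (h.mem.1 b2).1, map_mul, T.σ_x, T.ρ_simple, h.f, a6, map_one, Int.cast_one, mul_one]
  exact not_mem_simple T.sep _ (T.σ_mem_U (fun s hs => by
    exact ⟨(T.pos_ρ s).2 (h.blk.pos (R.pos_simple i) hs.1), T.ρ_simple i ▸ T.ρ.injective.ne hs.2⟩) b1)

end Twd
end St
end H14
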