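import Cfsg.Agent.H14.Bgl6
import Cfsg.Agent.H14.Bgl5
import Cfsg.Agent.H14.TwD4
import Cfsg.Agent.H14.TwE6

/-! The subgroups of points over the subfield in ²E₆(q) and ³D₄(q) are maximal. -/

open Matrix
set_option linter.unusedSectionVars false
set_option synthInstance.maxSize 10000
set_option maxRecDepth 100000

namespace H14
open RootSys PreSt St Cfsg.Lie

namespace Good
variable {D : ChevalleyDatum} (G : Good D) {K : Type*} [Field K] {g : GrD} (hg : g.Ok D) {hK : g.Fits K} {φ : K →+* K}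
  {hφ : Function.Surjective φ}

theorem twd (h0 : g.lg = 0) (h1 : ∀ r : Fin D.nroots, (hg.rho r = r ∧ g.gam r = 1) ∨ hg.rho r ≠ r ∧
    (∃ δ, hg.rho δ = δ ∧ G.R.pair δ r = 1) ∧ (hg.rho (hg.rho r) = r ∧ g.gam (hg.rho r) * g.gam r = 1 ∨
      hg.rho (hg.rho r) ≠ r ∧ hg.rho (hg.rho (hg.rho r)) = r ∧ g.gam (hg.rho (hg.rho r)) * (g.gam (hg.rho r) * g.gam r) = 1))
    (h2 : ∀ r, G.R.ht (hg.rho r) = G.R.ht r ∧ D.commTerms r (hg.rho r) = [])
    (h3 : ∀ i r, (∀ j, ¬ hg.pi.SameCycle i j → G.R.cf r j = 0) →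
      r ∈ [G.R.simple i, hg.rho (G.R.simple i), hg.rho (hg.rho (G.R.simple i))] ∨
      r ∈ [G.R.neg (G.R.simple i), hg.rho (G.R.neg (G.R.simple i)), hg.rho (hg.rho (G.R.neg (G.R.simple i)))]) :
    Twd (G.tw hg hK φ hφ) (G.mapG φ) φ fun r => g.gam r :=
  ⟨G.mapG_x φ, fun r t => show φ (g.gam r * t ^ g.ex r) = _ by simp [GrD.ex_eq_one h0], h1, fun r => (h2 r).1, fun r h => by
    obtain ⟨L, e1, -⟩ := G.C.terms_of_isSum h
    simpa [G.commTerms_eq, show hg.rho r = (G.tw hg hK φ hφ).ρ r from rfl, e1] using (h2 r).2, h3⟩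

theorem cj {Γ : Type*} [Group Γ] (S : St G.C K Γ) (r s k : Fin D.nroots) (N : ℤ)
    (h : s.val ≠ D.neg r ∧ D.commTerms r s = [(k.val, N, 1, 1)]) (t u : K) :
    MulAut.conj (S.x r t)⁻¹ (S.x s u) = S.x s u * S.x k (-(N * t * u)) := by
  rw [MulAut.conj_apply, _root_.inv_inv, mul_assoc, S.comm' fun e => h.1 (G.neg r ▸ congrArg _ e),
    G.terms_eq (L := [(k, N, 1, 1)]) h.2, mul_assoc, inv_mul_cancel_left]
  simp [PreChev.tval]

end Good

variable {K : Type*} [Field K] [Finite K] (p : ℕ) [Fact p.Prime] [CharP K p] {φ : K →+* K}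

theorem E6.twd (h2 : ∀ t, φ (φ t) = t) : Twd (E6.T φ h2) (goodE6.mapG φ) φ fun r => grE6.gam r :=
  goodE6.twd okgrE6 rfl (by decide +kernel) (by decide +kernel) (by decide +kernel)

include p in
theorem E6.bgl (h2 : ∀ t, φ (φ t) = t) {M : Subgroup (chevE6.group K)} (h3 : Fix (E6.twd h2).fam ≤ M)
    (h4 : M ≤ (E6.T φ h2).fix) : M ≤ Fix (E6.twd h2).fam ∨ (E6.T φ h2).fix ≤ M := by
  have h := E6.twd h2
  have e : (E6.T φ h2).ρ = okgrE6.rho := rfl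
  have h5 : (E6.T φ h2).ρ 66 ≠ 66 := by rw [e]; decide +kernel
  by_cases h6 : ∀ t, Twd.P (E6.T φ h2) M 66 t → φ t = t
  · have h7 : ∀ β γ, okgrE6.rho β = β ∧ okgrE6.rho γ = γ → ∀ t, (goodE6.SG K).x γ t ∈ M →
        (goodE6.SG K).x β t ∈ M ⊓ Fix h.fam := fun β γ a t b =>
      have c := h.x_mem a.1 ((h.x_fix a.2).1 (h4 b)); ⟨h3 c, c⟩
    have h8 : ∀ β, okgrE6.rho β = β → (goodE6.SG K).x β 1 ∈ M := fun β a => h3 (h.x_mem a (map_one φ))
    refine .inl (h.le_Fix p (goodE6.SG_hmul K) (goodE6.center_eq_bot K) goodE6.conn h3 (θ := 71) (m := 8)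
      [[0, 5], [2, 4], [2, 4, 3], [2, 4, 3, 1]] (by
        rw [e, show (E6.T φ h2).π = okgrE6.pi from rfl]; and_intros <;> decide +kernel) (fun r a b c d e => ?_) ?_)
    · obtain ⟨δ, -, c1, c2, c3⟩ := (by decide +kernel : ∀ r, goodE6.R.pos r → goodE6.R.ht r < 8 →
        ∃ δ ∈ [37, 36, 39, 42, 38, 46, 56], goodE6.R.pos δ ∧ (chevE6.chainM r δ 1).natAbs = 1 ∧ ∀ β,
          ∀ s ∈ [δ, okgrE6.rho δ, okgrE6.rho (okgrE6.rho δ)],
            goodE6.R.cf β + goodE6.R.cf s = goodE6.R.cf r + goodE6.R.cf δ → s = δ) r a b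
      exact h.blk.lc_cent a c1 (by
        rw [← goodE6.chainM_one]; rcases Int.natAbs_eq_iff.1 c2 with c2 | c2 <;> simp [c2]) c3 d e
    rw [show goodE6.R.Ht 8 = fs [66, 68, 69, 70, 71] from Set.ext (by decide +kernel)]
    refine goodE6.remove (B := [66, 68, 69, 71]) 70 46 71 (h8 _ (by decide +kernel)) (by decide +kernel)
      (h7 _ _ (by decide +kernel)) (goodE6.remove (B := [66, 68, 71]) 69 39 70 (h8 _ (by decide +kernel)) (by decide +kernel)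
      (h7 _ _ (by decide +kernel)) (goodE6.remove (B := [66, 68]) 71 25 70 (h8 _ (by decide +kernel)) (by decide +kernel)
      (h7 _ _ (by decide +kernel)) ((inf_le_inf_left _ (U_mono ?_)).trans (h.small h4 h5 h6))))
    exact (by decide +kernel : ∀ s ∈ fs [66, 68], s ∈ [66, okgrE6.rho 66, okgrE6.rho (okgrE6.rho 66)])
  obtain ⟨t, h7, h8⟩ := by simpa using h6
  refine .inr (h.big E6.gen h3 h4 (β := 66) (fun s => ?_) [[2, 4, 3, 2, 4, 1, 3, 0, 5, 2, 4, 0, 5],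
    [0, 5, 2, 4, 3, 2, 4, 1, 3, 0, 5, 2, 4, 0, 5], [3, 0, 5, 2, 4, 1, 3, 0, 5, 2, 4, 0, 5],
    [2, 4, 3, 0, 5, 2, 4, 1, 3, 0, 5, 2, 4, 0, 5]] (by rw [e]; and_intros <;> decide +kernel))
  have h9 := sub_ne_zero.2 h8
  have h10 := sub_ne_zero.2 (Ne.symm h8)
  have := h.P_add (h.P_one h3 h5 (c := s - (φ s - s) / (φ t - t) * t) (by simp [h2]; field_simp; ring))
    (h.P_smul h3 h5 (c := (φ s - s) / (φ t - t)) (by simp [h2]; field_simp; ring) h7)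
  rwa [sub_add_cancel] at this

theorem D4.twd (h2 : ∀ t, φ (φ (φ t)) = t) : Twd (D4.T φ h2) (goodD4.mapG φ) φ fun r => grD4.gam r :=
  goodD4.twd okgrD4 rfl (by decide +kernel) (by decide +kernel) (by decide +kernel)

theorem D4.cent (h2 : ∀ t, φ (φ (φ t)) = t) {c : chevD4.group K} (hc : c ∈ (goodD4.SG K).U (goodD4.R.Ht 2))
    (h3 : ∀ y ∈ (goodD4.SG K).U {r | goodD4.R.pos r} ⊓ Fix (D4.twd h2).fam, Commute c y) :
    ∀ r ∈ [15, 16, 19], (goodD4.SG K).lc r c = 0 := by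
  have h := D4.twd h2
  have hS := goodD4.SG_sep K
  have e : (D4.T φ h2).ρ = okgrD4.rho := rfl
  have key : ∀ (a b d : Fin chevD4.nroots) (e e' : ℤ), (okgrD4.rho a = b ∧ okgrD4.rho b = d ∧ d ≠ a ∧ grD4.gam a = e ∧
      grD4.gam b * grD4.gam a = e') ∧ (a ≠ b ∧ b ≠ d ∧ goodD4.R.pos a) ∧ (∀ s ∈ [a, b, d], s ∈ goodD4.R.Ht (goodD4.R.ht a) ∧
        s ∈ goodD4.R.Ht (goodD4.R.ht b) ∧ s ∈ goodD4.R.Ht (goodD4.R.ht d)) →
      ∃ y ∈ (goodD4.SG K).U (goodD4.R.Ht (goodD4.R.ht a)), Commute c y ∧ (goodD4.SG K).lc a y = 1 ∧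
        (goodD4.SG K).lc b y = e ∧ (goodD4.SG K).lc d y = e' := by
    rintro a _ _ _ _ ⟨⟨rfl, rfl, a1, rfl, rfl⟩, ⟨a2, a3, a4⟩, a5⟩
    simp only [List.forall_mem_cons] at a5
    obtain ⟨⟨b1, b2, b3⟩, ⟨b4, b5, b6⟩, ⟨b7, b8, b9⟩, -⟩ := a5
    have h4 := mul_mem (x_mem_U (S := (goodD4.SG K).toPreSt) b1 1) (mul_mem (x_mem_U b4 (grD4.gam a : K))
      (x_mem_U b7 (grD4.gam (okgrD4.rho a) * grD4.gam a : K)))
    refine ⟨_, h4, h3 _ ⟨U_mono (fun _ h => h.1) h4, h.mem.2 ⟨by simpa [e] using h.three a1 (h2 1), by simp [h.x]⟩⟩, ?_, ?_, ?_⟩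
    · rw [lc_mul hS a4 (x_mem_U b1 _) (mul_mem (x_mem_U b4 _) (x_mem_U b7 _)), lc_mul hS a4 (x_mem_U b4 _) (x_mem_U b7 _),
        lc_x hS a4 b1, lc_x hS a4 b4, lc_x hS a4 b7]
      simp [a2, a1.symm]
    · rw [lc_mul hS b4.1 (x_mem_U b2 _) (mul_mem (x_mem_U b5 _) (x_mem_U b8 _)), lc_mul hS b4.1 (x_mem_U b5 _) (x_mem_U b8 _),
        lc_x hS b4.1 b2, lc_x hS b4.1 b5, lc_x hS b4.1 b8]
      simp [a2.symm, a3]
    · rw [lc_mul hS b7.1 (x_mem_U b3 _) (mul_mem (x_mem_U b6 _) (x_mem_U b9 _)), lc_mul hS b7.1 (x_mem_U b6 _) (x_mem_U b9 _),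
        lc_x hS b7.1 b3, lc_x hS b7.1 b6, lc_x hS b7.1 b9]
      simp [a1, a3.symm]
  obtain ⟨y, y1, y2, y3, y4, y5⟩ := key 18 13 12 1 1 (by decide +kernel)
  obtain ⟨z, z1, z2, z3, z4, z5⟩ := key 21 17 20 (-1) 1 (by decide +kernel)
  have key2 : ∀ (k a : Fin chevD4.nroots) (P : Finset _) {y}, y ∈ (goodD4.SG K).U (goodD4.R.Ht (goodD4.R.ht a)) →
      Commute c y → (goodD4.R.pos k ∧ goodD4.R.ht k = 2 + goodD4.R.ht a) ∧ (∀ r s, (r, s) ∈ P ↔ goodD4.R.pos r ∧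
        goodD4.R.pos s ∧ goodD4.R.ht r = 2 ∧ goodD4.R.cf k = goodD4.R.cf r + goodD4.R.cf s) →
      ∑ p ∈ P, chevD4.chainM p.1 p.2 1 * (goodD4.SG K).lc p.1 c * (goodD4.SG K).lc p.2 y = 0 := fun k a P y a1 a2 a3 => by
    simpa only [goodD4.chainM_one] using lc_commute hS a3.1.1 a3.1.2 hc a1 a2 (fun r s b1 b2 b3 b4 =>
      .inl ((a3.2 r s).2 ⟨b1, b2, b3, b4⟩)) fun p hp => (a3.2 _ _).1 hp
  have e1 := key2 21 18 {(19, 13), (16, 18)} y1 y2 (by decide +kernel)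
  have e2 := key2 20 18 {(19, 12), (15, 18)} y1 y2 (by decide +kernel)
  have e3 := key2 23 21 {(15, 21), (16, 20), (19, 17)} z1 z2 (by decide +kernel)
  rw [Finset.sum_insert (by decide)] at e1 e2 e3
  rw [Finset.sum_insert (by decide)] at e3
  simp only [Finset.sum_singleton, y3, y4, y5, z3, z4, z5, (by decide +kernel : chevD4.chainM (19 : Fin chevD4.nroots)
    (13 : Fin chevD4.nroots) 1 = -1 ∧ chevD4.chainM (16 : Fin chevD4.nroots) (18 : Fin chevD4.nroots) 1 = 1 ∧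
    chevD4.chainM (19 : Fin chevD4.nroots) (12 : Fin chevD4.nroots) 1 = -1 ∧
    chevD4.chainM (15 : Fin chevD4.nroots) (18 : Fin chevD4.nroots) 1 = 1 ∧
    chevD4.chainM (15 : Fin chevD4.nroots) (21 : Fin chevD4.nroots) 1 = -1 ∧
    chevD4.chainM (16 : Fin chevD4.nroots) (20 : Fin chevD4.nroots) 1 = -1 ∧
    chevD4.chainM (19 : Fin chevD4.nroots) (17 : Fin chevD4.nroots) 1 = -1)] at e1 e2 e3
  push_cast at e1 e2 e3
  simp only [List.forall_mem_cons]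
  exact ⟨by linear_combination -e1 - e3, by linear_combination -e2 - e3, by linear_combination -e1 - e2 - e3, by simp⟩

theorem D4.sharp (h2 : ∀ t, φ (φ (φ t)) = t) {M : Subgroup (chevD4.group K)} (h3 : Fix (D4.twd h2).fam ≤ M)
    (h4 : M ≤ (D4.T φ h2).fix) {t : K} (h5 : Twd.P (D4.T φ h2) M 17 t) : Twd.P (D4.T φ h2) M 17 (φ t * φ (φ t)) := by
  have h := D4.twd h2
  have e : (D4.T φ h2).ρ = okgrD4.rho := rfl
  have key : ∀ (L : List _) (a b d : Fin chevD4.nroots) (c c' : ℤ), (okgrD4.rho a = b ∧ okgrD4.rho b = d ∧ d ≠ a ∧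
      grD4.gam a = c ∧ grD4.gam b * grD4.gam a = c') ∧ (∀ r, okgrD4.rho (L.foldr goodD4.R.sref r) =
        L.foldr goodD4.R.sref (okgrD4.rho r)) ∧ L.foldr goodD4.R.sref 17 = a ∧ okgrD4.rho a ≠ a →
      (goodD4.SG K).x a t * ((goodD4.SG K).x b (c * φ t) * (goodD4.SG K).x d (c' * φ (φ t))) ∈ M := by
    rintro L a _ _ _ _ ⟨⟨rfl, rfl, a1, rfl, rfl⟩, a2⟩
    push_cast
    exact h.mem_of_P h4 (h.P_W h3 L a2 h5) (mul_mem (x_mem_U (by simpa [Tw.O, e] using a2.2.2) _)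
      (x_mem_U (by simpa [Tw.O, e] using a1) _)) (h.three a1 (h2 t))
  have h6 := key [1, 0, 2, 3] 18 13 12 1 1 (by decide +kernel)
  have h7 := key [0, 2, 3] 19 16 15 (-1) (-1) (by decide +kernel)
  have h8 : ∀ r, okgrD4.rho r = r → ∀ c, φ c = c → (goodD4.SG K).x r c ∈ M := fun r a c b => h3 (h.x_mem a b)
  have h9 : φ (t * φ t * φ (φ t)) = t * φ t * φ (φ t) := by simp [h2]; ring
  have c1 := fun (r s : Fin chevD4.nroots) (a : s.val ≠ chevD4.neg r ∧ nl 0 (chevD4.commTerms r s) = []) =>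
    goodD4.commute_of_nl (goodD4.SG K).toPreSt (p := 0) (by simp) a.1 a.2
  have := mul_mem (mul_mem (inv_mem h6) (h8 14 (by decide +kernel) 1 (map_one φ))) h6
  rw [show ∀ a b c d : chevD4.group K, (a * (b * c))⁻¹ * d * (a * (b * c)) =
    MulAut.conj c⁻¹ (MulAut.conj b⁻¹ (MulAut.conj a⁻¹ d)) from fun _ _ _ _ => by simp [mul_assoc],
    goodD4.cj _ 18 14 19 (-1) (by decide +kernel), map_mul, goodD4.cj _ 13 14 16 1 (by decide +kernel),
    goodD4.cj _ 13 19 21 1 (by decide +kernel), map_mul, map_mul, map_mul, goodD4.cj _ 12 14 15 1 (by decide +kernel),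
    goodD4.cj _ 12 16 17 1 (by decide +kernel), goodD4.cj _ 12 19 20 1 (by decide +kernel),
    goodD4.cj _ 12 21 22 1 (by decide +kernel)] at this
  simp only [Int.cast_one, Int.cast_neg, one_mul, mul_one, neg_mul, mul_neg, _root_.neg_neg, mul_assoc] at this h7
  rw [mul_mem_cancel_left (h8 14 (by decide +kernel) 1 (map_one φ)), ← mul_assoc ((goodD4.SG K).x 17 _),
    (goodD4.SG K).comm' (r := 19) (s := 17) (by decide +kernel), goodD4.terms_eq (L := [(23, -1, 1, 1)]) (by decide +kernel),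
    (c1 15 16 (by decide +kernel) _ _).left_comm, mul_assoc, mul_assoc, (c1 15 19 (by decide +kernel) _ _).left_comm,
    (c1 16 19 (by decide +kernel) _ _).left_comm, ← mul_assoc ((goodD4.SG K).x 16 _), ← mul_assoc, mul_mem_cancel_left h7]
    at this
  simp only [List.map_cons, List.map_nil, List.prod_cons, List.prod_nil, mul_one, ← mul_assoc] at this
  rw [mul_mem_cancel_right (h8 22 (by decide +kernel) _ (by convert h9 using 1 <;> ring_nf)),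
    (c1 17 23 (by decide +kernel) _ _).eq, mul_assoc, mul_assoc, mul_mem_cancel_left (h8 23 (by decide +kernel) _ (by
      simp only [PreChev.tval]; convert h9 using 1 <;> ring_nf)), mul_comm (φ (φ t))] at this
  exact ⟨_, mul_mem (x_mem_U (by rw [Tw.O, e]; decide +kernel) _) (x_mem_U (by rw [Tw.O, e]; decide +kernel) _), this⟩

include p in
theorem D4.bgl (h2 : ∀ t, φ (φ (φ t)) = t) {M : Subgroup (chevD4.group K)} (h3 : Fix (D4.twd h2).fam ≤ M)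
    (h4 : M ≤ (D4.T φ h2).fix) : M ≤ Fix (D4.twd h2).fam ∨ (D4.T φ h2).fix ≤ M := by
  have h := D4.twd h2
  have e : (D4.T φ h2).ρ = okgrD4.rho := rfl
  have h5 : (D4.T φ h2).ρ 17 ≠ 17 := by rw [e]; decide +kernel
  by_cases h6 : ∀ t, Twd.P (D4.T φ h2) M 17 t → φ t = t
  · have h7 : ∀ β γ, okgrD4.rho β = β ∧ okgrD4.rho γ = γ → ∀ t, (goodD4.SG K).x γ t ∈ M →
        (goodD4.SG K).x β t ∈ M ⊓ Fix h.fam := fun β γ a t b =>
      have c := h.x_mem a.1 ((h.x_fix a.2).1 (h4 b)); ⟨h3 c, c⟩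
    have h8 : ∀ β, okgrD4.rho β = β → (goodD4.SG K).x β 1 ∈ M := fun β a => h3 (h.x_mem a (map_one φ))
    refine .inl (h.le_Fix p (goodD4.SG_hmul K) (goodD4.center_eq_bot K) goodD4.conn h3 (θ := 23) (m := 3)
      [[0, 2, 3], [0, 2, 3, 1]] (by
        rw [e, show (D4.T φ h2).π = okgrD4.pi from rfl]; and_intros <;> decide +kernel) (fun r a b c d e => ?_) ?_)
    · obtain ⟨c1, c2⟩ | ⟨δ, -, c1, c2, c3⟩ := (by decide +kernel : ∀ r, goodD4.R.pos r → goodD4.R.ht r < 3 →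
        r ∈ [15, 16, 19] ∧ goodD4.R.ht r = 2 ∨ ∃ δ ∈ [14, 12], goodD4.R.pos δ ∧ (chevD4.chainM r δ 1).natAbs = 1 ∧ ∀ β,
          ∀ s ∈ [δ, okgrD4.rho δ, okgrD4.rho (okgrD4.rho δ)],
            goodD4.R.cf β + goodD4.R.cf s = goodD4.R.cf r + goodD4.R.cf δ → s = δ) r a b
      · exact D4.cent h2 (c2 ▸ d) e r c1
      exact h.blk.lc_cent a c1 (by
        rw [← goodD4.chainM_one]; rcases Int.natAbs_eq_iff.1 c2 with c2 | c2 <;> simp [c2]) c3 d e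
    rw [show goodD4.R.Ht 3 = fs [17, 20, 21, 22, 23] from Set.ext (by decide +kernel)]
    refine goodD4.remove (B := [17, 20, 21, 23]) 22 14 23 (h8 _ (by decide +kernel)) (by decide +kernel)
      (h7 _ _ (by decide +kernel)) (goodD4.remove (B := [17, 20, 21]) 23 9 22 (h8 _ (by decide +kernel)) (by decide +kernel)
      (h7 _ _ (by decide +kernel)) ((inf_le_inf_left _ (U_mono ?_)).trans (h.small h4 h5 h6)))
    exact (by decide +kernel : ∀ s ∈ fs [17, 20, 21], s ∈ [17, okgrD4.rho 17, okgrD4.rho (okgrD4.rho 17)])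
  obtain ⟨t, h7, h8⟩ := by simpa using h6
  refine .inr (h.big D4.gen h3 h4 (β := 17) (fun s => ?_) [[1, 0, 2, 3], [0, 2, 3, 1, 0, 2, 3]]
    (by rw [e]; and_intros <;> decide +kernel))
  let d : K → K → K → K := fun a b c => a * (φ b * φ (φ c) - φ (φ b) * φ c) + φ a * (φ (φ b) * c - b * φ (φ c)) +
    φ (φ a) * (b * φ c - φ b * c)
  have h9 : ∀ a b c, φ (d a b c) = d a b c := fun a b c => by simp [d, h2]; ring
  have h10 : d 1 t (φ t * φ (φ t)) ≠ 0 := by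
    rw [show d 1 t (φ t * φ (φ t)) = -((φ t - t) * φ (φ t - t) * φ (φ (φ t - t))) by simp [d, h2]; ring]
    simp only [ne_eq, neg_eq_zero, mul_eq_zero, map_eq_zero, or_self]
    exact sub_ne_zero.2 h8
  have := h.P_add (h.P_add (h.P_one h3 h5 (c := d s t (φ t * φ (φ t)) / d 1 t (φ t * φ (φ t))) (by rw [map_div₀, h9, h9]))
    (h.P_smul h3 h5 (c := d 1 s (φ t * φ (φ t)) / d 1 t (φ t * φ (φ t))) (by rw [map_div₀, h9, h9]) h7))
    (h.P_smul h3 h5 (c := d 1 t s / d 1 t (φ t * φ (φ t))) (by rw [map_div₀, h9, h9]) (D4.sharp h2 h3 h4 h7))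
  convert this using 1
  field_simp
  simp [d, h2]
  ring

theorem Good.twd_max {D : ChevalleyDatum} (G : Good D) {T : (G.SG K).Tw} {ε : Fin D.nroots → ℤ} (h : Twd T (G.mapG φ) φ ε)
    {Γ M : Subgroup (GL D.Idx K)} (hT : G.IsTw T Γ) {q n : ℕ} (hq : 1 < q) (hn : 1 < n) (hK : Nat.card K = q ^ n)
    (hφ : ∀ t, φ t = t ^ q) {r : Fin D.nroots} (h1 : ∀ t, Twd.P T T.fix r t)
    (h2 : ∀ H, Fix h.fam ≤ H → H ≤ T.fix → H ≤ Fix h.fam ∨ T.fix ≤ H)
    (hM : ∀ g, g ∈ M ↔ g ∈ Γ ∧ ∀ i j, g.1 i j ^ q = g.1 i j) : M ≠ Γ ∧ ∀ H, M ≤ H → H ≤ Γ → H = M ∨ H = Γ := by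
  have h3 : ∀ g : D.group K, g.1 ∈ M ↔ g ∈ Fix h.fam := fun g => by
    rw [hM, h.mem, hT.mem, Subtype.ext_iff, Units.ext_iff, ← Matrix.ext_iff]
    simp only [G.mapG_apply, hφ]
  refine ⟨fun e => ?_, fun H a b => (h2 (H.subgroupOf _) (fun g c => a ((h3 g).2 c)) fun g c => hT.mem.1 (b c)).imp
    (fun e => le_antisymm (fun g c => (h3 ⟨g, hT.le (b c)⟩).2 (e c)) a)
    fun e => le_antisymm b fun g c => e (x := ⟨g, hT.le c⟩) (hT.mem.1 c)⟩
  have h4 : ∀ t : K, t = t ^ q := fun t => by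
    obtain ⟨y, a, b⟩ := h1 t
    obtain ⟨f, hf⟩ := h.half r
    have := (h.mem.1 ((h3 _).1 (e.ge (hT.mem.2 b)))).2
    rw [map_mul, h.x, hφ, ← eq_inv_mul_iff_mul_eq, ← mul_inv_eq_one, ← mul_assoc, x_inv, ← x_add, mul_inv_eq_one,
      ← mul_inv_eq_iff_eq_mul] at this
    by_contra h5
    exact (T.sep.mem_of_ord (h.ord _ Set.sdiff_subset) f (fun s hs => hf s hs.1) (hf _ (h.blk.mem _))
      (fun e => h5 (neg_add_eq_zero.1 e).symm) (this ▸ mul_mem ((h.fam false).σ_mem_U (fun _ => id) a) (inv_mem a))).2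
      (Set.mem_singleton _)
  have := card_pow_eq (K := K) hq (hK ▸ Nat.sub_one_dvd_pow_sub_one _ _)
  rw [Nat.card_congr (Equiv.subtypeUnivEquiv h4), hK] at this
  exact (Nat.pow_right_injective hq (this.trans (pow_one q).symm)).not_gt hn

end H14
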