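import Cfsg.Agent.H14.Alc
import Cfsg.Agent.H27.Spec10

/-! The group of type E7 over the field with two elements has no element of order 65. -/

open Matrix
set_option linter.unusedSectionVars false
set_option maxRecDepth 100000
set_option synthInstance.maxSize 10000

namespace H14
open RootSys PreSt St Cfsg.Lie

theorem exists_unit_order (K : Type*) [Field K] [IsAlgClosed K] (p : ℕ) [Fact p.Prime] [CharP K p] {m : ℕ} (hm : ¬ p ∣ m) :
    ∃ z : Kˣ, orderOf z = m := by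
  obtain ⟨z, hz⟩ := H27.Sp.exists_prim (K := K) hm
  have h0 : m ≠ 0 := by rintro rfl; simp at hm
  exact ⟨(hz.isUnit h0).unit, by rw [← orderOf_units, IsUnit.unit_spec, ← hz.eq_orderOf]⟩

theorem eq_one_of_char_pow {K α : Type*} [Field K] (p : ℕ) [hp : Fact p.Prime] [CharP K p] {c : α → Kˣ} (h : c ^ p = 1) :
    c = 1 := funext fun i => Units.ext (frobenius_inj K p (by
  rw [frobenius_def, Pi.one_apply, Units.val_one, _root_.map_one]; simpa using congrArg Units.val (congrFun h i)))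

theorem Good.exists_ss {D : ChevalleyDatum} (G : Good D) {F : Type*} [Field F] [Fintype F] (p : ℕ) [hp : Fact p.Prime]
    [CharP F p] (hi : ∀ c, mpow (AlgebraicClosure F)ˣ G.R.A c = 1 → c = 1) {g : D.group F} (hg : ¬ p ∣ orderOf g) :
    ∃ c : Fin D.rank → (AlgebraicClosure F)ˣ, ∃ w ∈ G.R.W, mpow _ ((Fintype.card F : ℤ) • G.R.cm w) c = c ∧
      orderOf c = orderOf g := by
  obtain ⟨ν, c, -, -, -, -, -, w, hw, h1, -, u, hu, h2⟩ := G.jordan_pow hi g
  obtain ⟨k, hk⟩ := Good.exists_pow_U (G := G) p hi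
  have h3 := ((h2 (orderOf g)).1 (by simp)).2
  obtain rfl : u = 1 := orderOf_eq_one_iff.1 (Nat.eq_one_of_dvd_coprimes
    (((Nat.Prime.coprime_iff_not_dvd hp.1).2 hg).pow_left k)
    (orderOf_dvd_of_pow_eq_one (hk u (U_mono Set.inter_subset_left hu))) (orderOf_dvd_of_pow_eq_one (by simpa using h3)))
  exact ⟨c, w, hw, h1, orderOf_eq_orderOf_iff.2 fun n => by simpa using (h2 n).symm⟩

instance instNzE7n : NeZero chevE7.nroots := ⟨by decide⟩

theorem E7.alc13 : goodE7.R.chkAlc 125 [0, 1, 0, 0, 1, 0, 1] 2 13 2 [[], [11, 15, 21, 30, 23, 16, 8]] = true := by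
  decide +kernel

theorem E7.not_65 (g : chevE7.group (ZMod 2)) : orderOf g ≠ 65 := fun hg => by
  obtain ⟨c, w, hw, h1, h2⟩ := goodE7.exists_ss 2 (fun c hc => eq_one_of_char_pow 2 (kerE7 c hc)) (g := g) (by simp [hg])
  rw [hg] at h2
  rw [ZMod.card] at h1
  obtain ⟨z, hz⟩ := exists_unit_order (AlgebraicClosure (ZMod 2)) 2 (m := 13) (by decide)
  have hw' := goodE7.R.W_le_Aut hw
  have h3 : ∀ k : ℕ, mpow _ (((2 : ℕ) : ℤ) • goodE7.R.cm w) (c ^ k) = c ^ k := fun k => by rw [map_pow, h1]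
  obtain ⟨v, hv, μ, h4, h5⟩ := exists_alc E7.alc13 hz (by decide) (c := c ^ 5) (by rw [← pow_mul]; exact orderOf_dvd_iff_pow_eq_one.1 h2.dvd)
    hw' (h3 5)
  have hv' := goodE7.R.W_le_Aut hv
  have inj : ∀ k, mpow _ (goodE7.R.cm v) (c ^ k) = 1 → 65 ∣ k := fun k h => h2 ▸ orderOf_dvd_of_pow_eq_one (by
    rw [← mpow_one (c ^ k), ← cm_one (R := goodE7.R), ← inv_mul_cancel v, cm_mul (inv_mem hv'), mpow_mul, h, _root_.map_one])
  obtain rfl | rfl : μ = [] ∨ μ = [11, 15, 21, 30, 23, 16, 8] := by simpa using h4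
  · exact absurd (inj 5 (h5.trans (funext fun i => by simp [vec]))) (by decide)
  have h6 := fix_conj hw' hv' (h3 5)
  rw [h5, dvd_of_fix, hz] at h6
  have hu := goodE7.R.W.mul_mem (goodE7.R.W.mul_mem hv hw) (goodE7.R.W.inv_mem hv)
  let L : List (Fin chevE7.rank) := [0, 3, 1, 2, 3, 4, 3, 1, 2, 0, 3, 2, 5, 4, 3, 1, 6, 5, 4, 3, 2, 0]
  let Ts : List (Fin chevE7.rank → Fin chevE7.nroots) := [![0, 62, 94, 72, 78, 74, 66], ![0, 62, 94, 72, 78, 75, 59],
    ![0, 62, 94, 82, 47, 83, 66], ![0, 62, 94, 82, 47, 84, 59], ![0, 63, 94, 71, 78, 74, 66], ![0, 63, 94, 71, 78, 75, 59],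
    ![0, 63, 94, 81, 47, 83, 66], ![0, 63, 94, 81, 47, 84, 59]]
  have h7 := tup_mem (Ts := Ts) (t := fun i => goodE7.R.wprod L (goodE7.R.simple i))
    (by simp only [wprod_apply]; decide +kernel) (by simp only [Set.mem_ofPred_eq]; decide +kernel)
    (mem_WA_of_fix (by decide) (mul_mem hu (inv_mem (goodE7.R.wprod_mem_W L))) h6 (by
      simp only [RootSys.cm, wprod_apply]; decide +kernel))
  simp only [← Equiv.Perm.mul_apply, inv_mul_cancel_right] at h7
  have h8 := zpow_pe_eq_one (fix_conj hw' hv' (h3 13)) (chkP_spec (List.all_eq_true.1 (by decide +kernel : (Ts.all fun t =>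
    chkP (of fun i j => goodE7.R.co (t i) j) [1, 0, -1, 0, 1, 0, -1, 0, 1, 0, -1]) = true) _ h7))
  rw [show pe ((2 : ℕ) : ℤ) [1, 0, -1, 0, 1, 0, -1, 0, 1, 0, -1] = -(819 : ℕ) by decide, _root_.zpow_neg, inv_eq_one,
    zpow_natCast, ← map_pow, ← pow_mul] at h8
  exact absurd (inj _ h8) (by decide)

open H27.Sp in
theorem spec_65 {K G : Type*} [Field K] [IsAlgClosed K] [CharP K 2] [Group G] [Finite G] {Q : ℤ} {n : ℕ}
    (hS : Spec (K := K) G 2 (Adm Q n)) (h : 0 < n ∧ 65 ∣ gs Q n ∧ IsCoprime 65 (Q - 1)) : 65 ∈ om G := by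
  obtain ⟨a, h0, h1, -⟩ := exists_primz (K := K) (p := 2) (m := 65) (by decide)
  have h2 : a ^ Q ^ n = a := (fix_iff h0).2 ((h1 _).2 (gs_mul Q n ▸ h.2.1.mul_right _))
  refine hS.mem (D := orb (pm (· ^ Q)) n (a, 1)) ((pre_orb h0 h2 one_pos).adm (by simp) (by
    rw [detD_orb h0, (h1 _).2 h.2.1, one_pow])) fun N hN => ?_
  have := (fix_iff (pow_ne_zero N h0)).1 ((kill_orb h.1 h2).1 hN).1
  rw [← zpow_natCast, ← _root_.zpow_mul, h1] at this
  exact Int.natCast_dvd_natCast.1 (h.2.2.dvd_of_dvd_mul_right this)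

open H27.Sp in
theorem psp_65 {F : Type*} [Field F] [Fintype F] (h : Fintype.card F = 8) (m : ℕ) : 65 ∈ om (Cfsg.PSp (2 + m) F) := by
  have : CharP F 2 := charP_of_card_eq_prime_pow (f := 3) h
  have hQ := qp_nat (F := F) (p := 2)
  obtain ⟨a, h1, h2, h3⟩ := exists_tb (K := AlgebraicClosure F) hQ (M := 65) (ε := -1) two_pos (Or.inr rfl)
    (by rw [Nat.card_eq_fintype_card, h]; decide) (by decide)
  refine (psp_spec F (AlgebraicClosure F) (p := 2) (by omega)).mem ⟨(rl_alt h1.toPre h1.sym h2).add (rl_alt_ones m), by simp; ring⟩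
    fun N hN => ?_
  have := hN.1 _ (Multiset.mem_add.2 (Or.inl (self_mem_tb two_pos a 1))) _ (Multiset.mem_add.2 (Or.inl (inv_mem_tb two_pos a 1)))
  have h4 : a ≠ 0 := h1.ne _ (self_mem_tb two_pos a 1)
  have h5 := (h3 (N * 2)).1 (by rw [_root_.zpow_mul, zpow_natCast, zpow_two]; nth_rw 1 [this]; simp [h4])
  exact Int.natCast_dvd_natCast.1 (IsCoprime.dvd_of_dvd_mul_right (by decide) h5)

theorem E7.isEmpty {G : Type*} [Group G] (h : 65 ∈ H27.Sp.om G) (H : Subgroup (chevE7.group (ZMod 2))) : IsEmpty (H ≃* G) :=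
  ⟨fun e => by
    obtain ⟨g, hg⟩ := H27.Sp.om_mono (H.subtype.comp e.symm.toMonoidHom) (H.subtype_injective.comp e.symm.injective) h
    exact E7.not_65 g hg⟩

end H14
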