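/-
S3521: extremely primitive groups of affine type, the abstract module setting.
-/
import Cfsg.Agent.H17.GS10
import Cfsg.Agent.H24.FrobStruct

set_option autoImplicit false
set_option linter.unusedVariables false
set_option linter.unusedSectionVars false
set_option linter.style.haveILetI false

namespace H14.EP
open Cfsg Subgroup H19 H17.GS
open MulAction (stabilizer mem_stabilizer_iff)
open scoped commutatorElement

universe u v

/-- the point stabilizer `H` acting on the regular normal subgroup `A` -/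
structure EP (H : Type u) [Group H] (A : Type v) [CommGroup A] [MulDistribMulAction H A] : Prop where
  nt : ∃ v : A, v ≠ 1
  mx : ∀ v : A, v ≠ 1 → ∀ K : Subgroup H, stabilizer H v ≤ K → K = stabilizer H v ∨ K = ⊤
  irr : ∀ B : Subgroup A, (∀ h : H, ∀ b ∈ B, h • b ∈ B) → B = ⊥ ∨ B = ⊤
  ff : ∀ h : H, (∀ v : A, h • v = v) → h = 1
  ns : ¬ Sol (⊤ : Subgroup H)

variable {H : Type u} [Group H] [Finite H] {A : Type v} [CommGroup A] [Finite A] [MulDistribMulAction H A]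
  {J K X Y M : Subgroup H} {u v w x : A} {a c g h t : H}

local notation "S" => stabilizer H

theorem sJ (g : H) (v : A) : S (g • v) = cj g (S v) := by
  ext k; rw [mem_cj, mem_stabilizer_iff, mem_stabilizer_iff, mul_smul, mul_smul, inv_smul_eq_iff]

theorem sm1 (g : H) (h : v ≠ 1) : g • v ≠ 1 := fun e => h (by
  rw [← inv_smul_smul g v, e, smul_one])

theorem smul_m (h1 : a ∈ S u) (h2 : a ∈ S v) : a ∈ S (u * v) := by
  rw [mem_stabilizer_iff] at *; rw [smul_mul', h1, h2]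

theorem scm (h1 : a ∈ S u) (e : a * c = c * a) : a ∈ S (c • u) := by
  rw [mem_stabilizer_iff] at *; rw [← mul_smul, e, mul_smul, h1]

namespace EP
variable (o : EP H A)
include o

theorem cf (hv : v ≠ 1) (l : K ≤ S v) (n : ⊤ ≤ N(K)) : K = ⊥ := by
  let B : Subgroup A :=
    { carrier := {w | K ≤ S w}
      one_mem' := fun k _ => smul_one k
      mul_mem' := fun {a b} ha hb k hk => smul_m (ha hk) (hb hk)
      inv_mem' := fun {a} ha k hk => by
        rw [mem_stabilizer_iff, smul_inv', mem_stabilizer_iff.1 (ha hk)] }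
  rcases o.irr B (fun h b hb => by
    change K ≤ S (h • b)
    rw [sJ, ← cj_of_mem_norm (n (mem_top h))]; exact cj_mono h hb) with e | e
  · exact absurd (e.le (show v ∈ B from l)) hv
  · exact eq_bot_iff.2 fun k hk => o.ff k fun w => (e.ge (mem_top w) : K ≤ S w) hk

theorem nrm (hv : v ≠ 1) (l : K ≤ S v) (k0 : K ≠ ⊥) (n : S v ≤ N(K)) : N(K) ≤ S v :=
  ((o.mx v hv _ n).resolve_right fun e => k0 (o.cf hv l e.ge)).le

theorem inv2 : ∃ v : A, v ≠ 1 ∧ v * v = 1 := by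
  obtain ⟨t, -, t2⟩ := exists_inv fun k : OG (⊤ : Subgroup H) => o.ns k.sol
  have tt : t * t = 1 := by rw [← pow_two, ← t2, pow_orderOf_eq_one]
  obtain ⟨w, hw⟩ : ∃ w : A, t • w ≠ w := by
    by_contra! k
    rw [o.ff t k, orderOf_one] at t2; omega
  have v1 : w⁻¹ * t • w ≠ 1 := fun e => hw (inv_mul_eq_one.1 e).symm
  have tv : t • (w⁻¹ * t • w) = (w⁻¹ * t • w)⁻¹ := by
    rw [smul_mul', smul_inv', ← mul_smul, tt, one_smul, mul_inv_rev, inv_inv]
  generalize w⁻¹ * t • w = v at v1 tv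
  refine ⟨v, v1, by_contra fun n => ?_⟩
  have nt : t ∉ S v := fun m => n (by
    rw [mem_stabilizer_iff, tv] at m; exact mul_eq_one_iff_eq_inv.2 m.symm)
  have tn : t ∈ N(S v) := by
    rw [mem_norm_iff_cj, ← sJ, tv]; ext k
    rw [mem_stabilizer_iff, mem_stabilizer_iff, smul_inv', inv_inj]
  have e : S v = ⊥ := by_contra fun k => nt (o.nrm v1 le_rfl k le_normalizer tn)
  rcases o.mx v v1 (zpowers t) (e ▸ bot_le) with k | k
  · exact nt (k ▸ mem_zpowers t)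
  · exact o.ns (k ▸ sol_of_ab (comm_zpowers t))

theorem sq (v : A) : v * v = 1 := by
  obtain ⟨w, w1, w2⟩ := o.inv2
  rcases o.irr (powMonoidHom 2 : A →* A).ker (fun h b hb => by
    simp only [MonoidHom.mem_ker, powMonoidHom_apply] at hb ⊢
    rw [← smul_pow', hb, smul_one]) with e | e
  · exact absurd (e.le (by simpa [pow_two] using w2)) w1
  · simpa [pow_two] using e.ge (mem_top v)

theorem m1 (e : u * v = 1) : v = u := by
  rw [← one_mul v, ← o.sq u, mul_assoc, e, mul_one]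

theorem sw {a b c d : A} (e : a * b = c * d) : a * d = c * b := by
  calc a * d = a * (b * b) * d := by rw [o.sq, mul_one]
    _ = a * b * (b * d) := by simp only [mul_assoc]
    _ = c * b * (d * d) := by rw [e]; simp only [mul_assoc, mul_comm, mul_left_comm]
    _ = _ := by rw [o.sq, mul_one]

theorem fix (tt : t * t = 1) : ∃ w : A, w ≠ 1 ∧ t ∈ S w := by
  obtain ⟨v, hv⟩ := o.nt
  by_cases e : t • v = v
  · exact ⟨v, hv, e⟩
  · refine ⟨v * t • v, fun k => e (o.m1 k), ?_⟩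
    rw [mem_stabilizer_iff, smul_mul', ← mul_smul, tt, one_smul, mul_comm]

theorem cen (n : ⊤ ≤ N(K)) (k0 : K ≠ ⊥) (hv : v ≠ 1) : C(K) ⊓ S v = ⊥ := by_contra fun e =>
  k0 (o.cf hv ((norms_of_cents (cents_symm inf_le_left)).trans (o.nrm hv inf_le_right e
    (norms_inf (norms_cent (le_top.trans n)) le_normalizer))) n)

theorem odd (n : ⊤ ≤ N(K)) (k0 : K ≠ ⊥) : OG C(K) := by_contra fun k => by
  obtain ⟨t, ht, t2⟩ := exists_inv k
  obtain ⟨w, w1, m⟩ := o.fix (t := t) (by rw [← pow_two, ← t2, pow_orderOf_eq_one])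
  rw [mem_bot.1 ((o.cen n k0 w1).le ⟨ht, m⟩), orderOf_one] at t2; omega

theorem noab (n : ⊤ ≤ N(K)) (ab : Ab K) : K = ⊥ := by_contra fun k0 => by
  haveI : K.Normal := normalizer_eq_top_iff.1 (top_le_iff.1 n)
  obtain ⟨v, hv⟩ := o.nt
  haveI : Nontrivial A := ⟨v, 1, hv⟩
  have cy : IsCyclic (⊤ : Subgroup K) := H24.isCyclic_of_fpf ((MulDistribMulAction.toMulAut H A).comp K.subtype)
    (fun a a1 w e => by_contra fun w1 => a1 (Subtype.ext (mem_bot.1
      ((o.cen n k0 w1).le ⟨comm_iff_le_cent.1 ab a.2, e⟩)))) ⊤ ⟨⟨fun x y => Subtype.ext (ab.1.1 x.1 y.1)⟩⟩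
  haveI : IsCyclic K := isCyclic_of_surjective (topEquiv (G := K)) topEquiv.surjective
  have d : ⁅(⊤ : Subgroup H), ⊤⁆ ≤ C(K) := commutator_le.2 fun x _ y _ => mem_cent.2 fun k hk => by
    have e : MulAut.conjNormal (H := K) ⁅x, y⁆ = 1 := by
      rw [map_commutatorElement, commutatorElement_eq_one_iff_mul_comm]
      apply (IsCyclic.mulAutMulEquiv K).injective
      rw [map_mul, map_mul, mul_comm]
    have := congrArg (fun f : MulAut K => (f ⟨k, hk⟩ : H)) e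
    simp only [MulAut.conjNormal_apply, MulAut.one_apply] at this
    exact (mul_inv_eq_iff_eq_mul.1 this).symm
  exact o.ns (sol_of_quo (norms_cent n) (sol_mono (o.odd n k0).sol inf_le_left)
    (sol_of_ab ((ab_quo_iff (norms_cent n)).2 d)))

theorem fit : Fit (⊤ : Subgroup H) = ⊥ := by_contra fun k =>
  nil_center_ne_bot (Fit_nil ⊤) k (o.noab (norms_inf (Fit_norm ⊤) (norms_cent (Fit_norm ⊤))) (comm_center _))

theorem comp : ∃ J : Subgroup H, Comp J ⊤ := by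
  by_contra! k
  have := charF_of_lay (Lay_eq_bot.2 k)
  rw [o.fit] at this
  exact o.ns (sol_mono (sol_of_nil nil_bot) fun x hx => this ⟨hx, mem_cent.2 fun h hh => by simp [mem_bot.1 hh]⟩)

theorem sim (hJ : Comp J ⊤) : Sim J := sim_of_center hJ.qs (eq_bot_iff.2 (hJ.center_le.trans o.fit.le))

theorem cb (hJ : Comp J ⊤) (n : ⊤ ≤ N(J)) : C(J) = ⊥ := by_contra fun k =>
  (o.sim hJ).nsol (sol_mono (o.odd (norms_cent n) k).sol (cents_symm le_rfl))

theorem tr (hJ : Comp J ⊤) (hv : v ≠ 1) (g : H) : ∃ m ∈ S v, cj g J = cj m J := by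
  have n : ⊤ ≤ N(Lay (⊤ : Subgroup H)) := Lay_normal.norm
  rcases o.mx v hv (S v ⊔ Lay ⊤) le_sup_left with e | e
  · exact absurd (o.cf hv (le_sup_right.trans e.le) n) (ne_bot_mono hJ.le_Lay (o.sim hJ).ne)
  · obtain ⟨m, hm, l, hl, rfl⟩ := (mem_sup_of_norm' (le_top.trans n)).1 (e.ge (mem_top g))
    exact ⟨m, hm, by rw [cj_mul, cj_of_mem_norm (hJ.normal_Lay.norm hl)]⟩

theorem nle (hJ : Comp J ⊤) (hv : v ≠ 1) : ¬ J ≤ S v := fun l => by
  refine ne_bot_mono (fun x hx g => ?_) (o.sim hJ).ne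
    (o.cf hv (normalCore_le (S v)) (normalIn_top (H := (S v).normalCore)).norm)
  obtain ⟨m, hm, e⟩ := o.tr hJ hv g
  exact cj_le_of_mem hm l (e ▸ conj_mem_cj.2 hx)

theorem exi (hJ : Comp J ⊤) (hv : v ≠ 1) : ∃ g ∈ J, g * g = 1 ∧ g ∉ S v := by
  by_contra! k
  have s := o.sim hJ
  obtain ⟨t, ht, t2⟩ := exists_inv fun k : OG J => s.nsol k.sol
  rcases s.cases (Ohm1_le 2 J) (norms_Ohm1 2 le_normalizer) with e | e
  · exact Ohm1_ne_bot Nat.prime_two (t2 ▸ orderOf_dvd_card' ht) e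
  · exact o.nle hJ hv (e.ge.trans (Ohm1_le_iff.2 fun x hx x2 => k x hx (by rwa [← pow_two])))

theorem eqc (hJ : Comp J ⊤) (hv : v ≠ 1) (g : H) : #(cj g J ⊓ S v) = #(J ⊓ S v) := by
  obtain ⟨m, hm, e⟩ := o.tr hJ hv g
  rw [e, ← card_cj m (J ⊓ S v), cj_inf, cj_of_mem hm]

end EP

/-- the projection of `M` into `X` -/
def Pj (M X : Subgroup H) : Subgroup H where
  carrier := {t | t ∈ X ∧ ∃ c ∈ C(X), t * c ∈ M}
  one_mem' := ⟨one_mem _, 1, one_mem _, by simpa using one_mem M⟩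
  mul_mem' := fun {a b} ⟨a1, c, c1, c2⟩ ⟨b1, d, d1, d2⟩ => ⟨mul_mem a1 b1, c * d, mul_mem c1 d1, by
    have := mul_mem c2 d2
    rwa [mul_assoc, ← mul_assoc c, ← mem_cent.1 c1 b b1, mul_assoc, ← mul_assoc a] at this⟩
  inv_mem' := fun {a} ⟨a1, c, c1, c2⟩ => ⟨inv_mem a1, c⁻¹, inv_mem c1, by
    have := inv_mem c2
    rwa [mem_cent.1 c1 a a1, mul_inv_rev] at this⟩

theorem cJ (hJ : Comp J ⊤) (g : H) : Comp (cj g J) ⊤ := hJ.conj (le_normalizer (mem_top g))

theorem Pj_le : Pj M X ≤ X := fun x hx => hx.1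

theorem EP.dich (o : EP H A) (hJ : Comp J ⊤) (hv : v ≠ 1) :
    (∀ g, ∀ t ∈ cj g J, ∀ c ∈ C(cj g J), t * c ∈ S v → t ∈ S v) ∨
      ∀ g, cj g J ⊓ S v = ⊥ ∧ ∀ t ∈ cj g J, ∃ c ∈ C(cj g J), t * c ∈ S v := by
  have n : S v ≤ N(⨆ g, Pj (S v) (cj g J)) := fun m hm => mem_norm_of_cj_le (cj_le_iff.2 (iSup_le fun g =>
    fun t ⟨t1, c, c1, c2⟩ => mem_cj_inv.2 (mem_iSup_of_mem (m * g) ⟨by rw [cj_mul]; exact conj_mem_cj.2 t1,
      m * c * m⁻¹, by rw [cj_mul, ← cj_cent]; exact conj_mem_cj.2 c1, by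
        rw [show m * t * m⁻¹ * (m * c * m⁻¹) = m * (t * c) * m⁻¹ by group]
        exact mul_mem (mul_mem hm c2) (inv_mem hm)⟩)))
  rcases o.mx v hv (S v ⊔ ⨆ g, Pj (S v) (cj g J)) le_sup_left with e | e
  · exact .inl fun g t t1 c c1 c2 => e.le (mem_sup_right (mem_iSup_of_mem g ⟨t1, c, c1, c2⟩))
  refine .inr fun g => ?_
  have k : ∀ t ∈ cj g J, ∃ c ∈ C(cj g J), t * c ∈ S v := fun t ht => by
    obtain ⟨m, hm, π, hπ, rfl⟩ := (mem_sup_of_norm' n).1 (e.ge (mem_top t))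
    have l : (⨆ g, Pj (S v) (cj g J)) ≤ Pj (S v) (cj g J) ⊔ C(cj g J) := iSup_le fun g' => by
      by_cases q : cj g' J = cj g J
      · rw [q]; exact le_sup_left
      · exact le_sup_of_le_right (Pj_le.trans ((cJ hJ g').cents (cJ hJ g) q))
    obtain ⟨p, ⟨p1, d, d1, d2⟩, c, c1, rfl⟩ := (mem_sup_of_norm (norms_of_cents (cent_mono Pj_le))).1 (l hπ)
    refine ⟨c⁻¹ * d, mul_mem (inv_mem c1) d1, ?_⟩
    rw [show m * (p * c) * (c⁻¹ * d) = m * (p * d) by group]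
    exact mul_mem hm d2
  refine ⟨((o.sim (cJ hJ g)).cases inf_le_left fun t ht => ?_).resolve_right fun q =>
    o.nle (cJ hJ g) hv (q.ge.trans inf_le_right), k⟩
  obtain ⟨c, c1, c2⟩ := k t ht
  have a : t * c ∈ N(cj g J ⊓ S v) := by
    rw [mem_norm_iff_cj, cj_inf, cj_of_mem c2, cj_mul, cj_of_mem_cent c1, cj_of_mem ht]
  simpa using mul_mem a (inv_mem (cent_le_norm _ (cent_mono inf_le_left c1)))

theorem EP.typ (o : EP H A) (hJ : Comp J ⊤) (hv : v ≠ 1) (n : J ⊓ S v ≠ ⊥) (ht : t ∈ J) (hc : c ∈ C(J))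
    (m : t * c ∈ S v) : t ∈ S v := by
  rcases o.dich hJ hv with k | k
  · exact k 1 t (by simpa) c (by simpa) m
  · exact absurd (by simpa using (k 1).1) n

theorem EP.nj (o : EP H A) (hJ : Comp J ⊤) (hv : v ≠ 1) (n : J ⊓ S v ≠ ⊥) (hy : a ∈ J) (m : a ∈ N(J ⊓ S v)) :
    a ∈ S v := by
  refine o.nrm (K := ⨆ g, cj g J ⊓ S v) hv (iSup_le fun g => inf_le_right)
    (ne_bot_mono (le_iSup_of_le 1 (by simp)) n) (fun m hm => mem_norm_of_cj_le (cj_le_iff.2 (iSup_le fun g =>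
      cj_le_iff.1 (le_iSup_of_le (m * g) (by rw [cj_inf, cj_of_mem hm, cj_mul])))))
    (mem_norm_of_cj_le (cj_le_iff.2 (iSup_le fun g => cj_le_iff.1 (le_iSup_of_le g (le_of_eq ?_)))))
  by_cases q : J = cj g J
  · rw [← q]; exact cj_of_mem_norm m
  · exact cj_of_mem_cent (cent_mono inf_le_left (hJ.cents (cJ hJ g) q hy))

end H14.EP
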