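/-
S3521: the stabilizer has a single component.
-/
import Cfsg.Agent.H14.EP1

set_option autoImplicit false
set_option linter.unusedVariables false
set_option linter.unusedSectionVars false
set_option linter.style.haveILetI false

namespace H14.EP
open Cfsg Subgroup H19 H17.GS
open MulAction (stabilizer mem_stabilizer_iff)

universe u v

variable {H : Type u} [Group H] [Finite H] {A : Type v} [CommGroup A] [Finite A] [MulDistribMulAction H A]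
  {J K X Y M : Subgroup H} {u v w x : A} {a c g h k r s t : H} {n : ℕ}

local notation "S" => stabilizer H

/-- two components, `n` the largest even order of a vector stabilizer in `J` -/
structure Cx (A : Type v) [CommGroup A] [MulDistribMulAction H A] (J : Subgroup H) (k : H) (n : ℕ) : Prop
    extends EP H A where
  cp : Comp J ⊤
  ne : J ≠ cj k J
  ev : 2 ∣ n
  hm : ∀ v : A, v ≠ 1 → 2 ∣ #(J ⊓ stabilizer H v) → #(J ⊓ stabilizer H v) ≤ n

/-- vectors with large stabilizer -/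
structure Mx (J : Subgroup H) (n : ℕ) (v : A) : Prop where
  ne : v ≠ 1
  card : #(J ⊓ stabilizer H v) = n

namespace Cx
variable (o : Cx A J k n)
include o

theorem mxl (g : H) (hu : Mx J n u) (hw : w ≠ 1) (l : cj g J ⊓ S u ≤ S w) : cj g J ⊓ S w = cj g J ⊓ S u := by
  have l' : cj g J ⊓ S u ≤ cj g J ⊓ S w := le_inf inf_le_left l
  have a := o.eqc o.cp hu.ne g
  have b := o.eqc o.cp hw g
  have d := card_dvd l'
  rw [a, b, hu.card] at d
  exact (eq_of_le_of_card_ge l' (by rw [a, b, hu.card]; exact o.hm w hw (o.ev.trans d))).symm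

theorem mx1 (hu : Mx J n u) (hw : w ≠ 1) (l : J ⊓ S u ≤ S w) : J ⊓ S w = J ⊓ S u := by
  simpa using o.mxl 1 hu hw (by simpa using l)

theorem mxJ (hu : Mx J n u) (h : H) : Mx J n (h • u) := ⟨sm1 h hu.ne, by
  rw [← hu.card, ← o.eqc o.cp hu.ne h⁻¹, ← card_cj h (cj h⁻¹ J ⊓ S u), cj_inf, cj_cj_inv, sJ]⟩

theorem nb (hu : Mx J n u) : J ⊓ S u ≠ ⊥ := fun e => by
  have := o.ev
  rw [← hu.card, e, card_bot] at this; omega

theorem key (hu : Mx J n w) (gJ : g ∈ J) (gg : g * g = 1) (gn : g ∉ S w) :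
    (∀ a ∈ J ⊓ S w, a ∈ S (g • w) → a = 1) ∧
      ∀ t ∈ J ⊓ S w, t * t = 1 → J ⊓ S w ≤ S (g • w * t • g • w) := by
  have cK := cJ o.cp k
  obtain ⟨h, hK, hh, hn⟩ := o.exi cK hu.ne
  have JK : ∀ a ∈ J, ∀ b ∈ cj k J, a * b = b * a := fun a ha b hb =>
    (mem_cent.1 (o.cp.cents cK o.ne ha) b hb).symm
  have hC : h ∈ C(J) := mem_cent.2 fun a ha => JK a ha h hK
  obtain ⟨u, rfl⟩ : ∃ u, w = h • u := ⟨h • w, by rw [← mul_smul, hh, one_smul]⟩
  have e0 : h • h • u = u := by rw [← mul_smul, hh, one_smul]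
  have mu : Mx J n u := e0 ▸ o.mxJ hu h
  have hn' : h ∉ S u := fun m => hn (scm m rfl)
  have Au : J ⊓ S (h • u) ≤ S u := fun a ha => e0 ▸ scm ha.2 (JK a ha.1 h hK)
  have gn' : g ∉ S u := fun m => gn (scm m (JK g gJ h hK))
  have gu : ∀ y : A, g • g • y = y := fun y => by rw [← mul_smul, gg, one_smul]
  have x1 : u * g • h • u ≠ 1 := fun e => gn' (o.typ o.cp mu.ne (o.nb mu) gJ hC (by
    rw [mem_stabilizer_iff, mul_smul]; exact o.m1 e))
  have gx : g * h ∈ S (u * g • h • u) := by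
    rw [mem_stabilizer_iff, smul_mul', mul_smul, mul_smul, ← mul_smul h g, ← JK g gJ h hK, mul_smul, e0, gu, mul_comm]
  rcases o.dich o.cp x1 with d | d
  · have m := d 1 g (by simpa) h (by simpa) gx
    rw [mem_stabilizer_iff, smul_mul', gu] at m
    have y1 : u * g • u ≠ 1 := fun e => gn' (o.m1 e)
    refine absurd ((o.mxl k mu y1 fun b hb => smul_m hb.2 (scm hb.2 (JK g gJ b hb.1).symm)).le ⟨hK, ?_⟩).2 hn'
    change h • (u * g • u) = u * g • u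
    rw [smul_mul', ← mul_smul h g, ← JK g gJ h hK, mul_smul]
    exact o.sw ((mul_comm _ _).trans m)
  obtain ⟨d1, d2⟩ := d 1
  rw [cj_one] at d1 d2
  have f0 : ∀ a ∈ J ⊓ S (h • u), a ∈ S (g • h • u) → a = 1 := fun a ha m =>
    mem_bot.1 (d1.le ⟨ha.1, smul_m (Au ha) m⟩)
  refine ⟨f0, fun t ht tt => ?_⟩
  by_cases t1 : t = 1
  · intro a _
    rw [t1, one_smul, o.sq]; exact smul_one a
  obtain ⟨c, cC, m⟩ := d2 t ht.1
  have Jc : ∀ a ∈ J, a * c = c * a := mem_cent.1 cC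
  have tu : ∀ y : A, t • t • y = y := fun y => by rw [← mul_smul, tt, one_smul]
  rw [mem_stabilizer_iff, smul_mul', Jc t ht.1, mul_smul, mem_stabilizer_iff.1 (Au ht), ← Jc t ht.1, mul_smul,
    ← mul_smul c g, ← Jc g gJ, mul_smul] at m
  -- `m : c • u * t • g • c • h • u = u * g • h • u`
  have z : u * c • u = g • h • u * t • g • c • h • u := (o.sw (m.symm.trans (mul_comm _ _))).trans (mul_comm _ _)
  have zA : J ⊓ S (h • u) ≤ S (u * c • u) := fun a ha => smul_m (Au ha) (scm (Au ha) (Jc a ha.1))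
  have tz := zA ht
  rw [z, mem_stabilizer_iff, smul_mul', tu] at tz
  have w0 : h • u * c • h • u = 1 := by_contra fun w1 => t1 (f0 t ht (by
    have q := o.mx1 hu w1 fun a ha => smul_m ha.2 (scm ha.2 (Jc a ha.1))
    have tw : t ∈ S (g • (h • u * c • h • u)) := by
      rw [mem_stabilizer_iff, smul_mul', smul_mul']; exact o.sw tz
    rw [sJ, mem_cj] at tw ⊢
    exact (q.le ⟨J.mul_mem (J.mul_mem (J.inv_mem gJ) ht.1) gJ, tw⟩).2))
  rwa [z, o.m1 w0] at zA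

theorem f1 (hu : Mx J n u) (gJ : g ∈ J) (gg : g * g = 1) (ha : a ∈ J ⊓ S u) (a1 : a ≠ 1) (e : a * g = g * a) :
    g ∈ S u := by_contra fun gn => a1 ((o.key hu gJ gg gn).1 a ha (scm ha.2 e))

theorem f2 (hu : Mx J n u) (hs : s ∈ J ⊓ S u) (ss : s * s = 1) (ht : t ∈ J ⊓ S u) (tt : t * t = 1) :
    s * t = t * s := by
  obtain ⟨g, gJ, gg, gn⟩ := o.exi o.cp hu.ne
  obtain ⟨k0, k1⟩ := o.key hu gJ gg gn
  have a := k1 s hs ss ht
  have b := k1 t ht tt hs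
  rw [mem_stabilizer_iff, smul_mul'] at a b
  have e : (t * s)⁻¹ * (s * t) = 1 := k0 _ (mul_mem (inv_mem (mul_mem ht hs)) (mul_mem hs ht)) (by
    rw [mem_stabilizer_iff, mul_smul, inv_smul_eq_iff, mul_smul, mul_smul]
    exact mul_left_cancel ((o.sw b).symm.trans ((mul_comm _ _).trans (o.sw a))))
  exact (inv_mul_eq_one.1 e).symm

theorem f3 (hu : Mx J n u) (rJ : r ∈ J) (rr : r * r = 1) (rn : r ∉ S u) (gJ : g ∈ J) (gg : g * g = 1) (gn : g ∉ S u)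
    (hs : s ∈ J ⊓ S u) (ht : t ∈ J ⊓ S u) (tt : t * t = 1) (t1 : t ≠ 1) (e : g * r * s * (g * r)⁻¹ = t) : s = t := by
  have yJ := mul_mem gJ rJ
  have mu := o.mxJ hu (g * r)
  have t' : t ∈ J ⊓ S ((g * r) • u) := ⟨ht.1, by rw [sJ, ← e]; exact conj_mem_cj.2 hs.2⟩
  have gn' : g ∉ S ((g * r) • u) := fun m => gn (o.f1 hu gJ gg ht t1 (o.f2 mu t' tt ⟨gJ, m⟩ gg))
  obtain ⟨k0, k1⟩ := o.key hu rJ rr rn
  have k2 := (o.key mu gJ gg gn').2 t t' tt
  rw [← mul_smul g, ← mul_assoc, gg, one_mul] at k2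
  have z1 : r • u * t • r • u ≠ 1 := fun q => t1 (k0 t ht (o.m1 q))
  have q := (o.mx1 hu z1 (k1 t ht tt)).symm.trans (o.mx1 mu z1 k2)
  have y : g * r ∈ S u := o.nj o.cp hu.ne (o.nb hu) yJ (by
    rw [mem_norm_iff_cj, cj_inf, cj_of_mem yJ, ← sJ, q])
  have y1 : g * r = 1 := k0 _ ⟨yJ, y⟩ (by
    rw [sJ, mem_cj, inv_eq_of_mul_eq_one_right rr, mul_assoc, mul_assoc, rr, mul_one]
    have := inv_mem y
    rwa [mul_inv_rev, inv_eq_of_mul_eq_one_right rr, inv_eq_of_mul_eq_one_right gg] at this)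
  rw [← e, y1]; group

theorem swp (hu : Mx J n u) (gJ : g ∈ J) (gg : g * g = 1) (gn : g ∉ S u) (ht : t ∈ J ⊓ S u) (tt : t * t = 1)
    (t1 : t ≠ 1) : ∃ r ∈ J, r * r = 1 ∧ r ∉ S u ∧ r * t * r⁻¹ = g := by
  have tt' : (⟨t, ht.1⟩ : J) * ⟨t, ht.1⟩ = 1 := Subtype.ext tt
  have gg' : (⟨g, gJ⟩ : J) * ⟨g, gJ⟩ = 1 := Subtype.ext gg
  by_cases od : Odd (orderOf ((⟨t, ht.1⟩ : J) * ⟨g, gJ⟩))
  · obtain ⟨r, e, ⟨y, q⟩, -⟩ := dih_swap tt' gg' od
    have e' : (r : H) * t * r⁻¹ = g := congrArg Subtype.val e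
    exact ⟨r, r.2, congrArg Subtype.val (q ▸ conj_sq tt' y : r * r = 1), fun m => gn (e' ▸
      mul_mem (mul_mem m ht.2) (inv_mem m)), e'⟩
  · obtain ⟨z, z1, z2, a, b, -⟩ := dih_even tt' gg' od
    have z1' : (z : H) ≠ 1 := fun e => z1 (Subtype.ext e)
    have m := o.f1 hu z.2 (congrArg Subtype.val z2) ht t1 (congrArg Subtype.val (mem_cent1.1 a)).symm
    exact absurd (o.f1 hu gJ gg ⟨z.2, m⟩ z1' (congrArg Subtype.val (mem_cent1.1 b))) gn

theorem uq (hu : Mx J n u) (hs : s ∈ J ⊓ S u) (ss : s * s = 1) (s1 : s ≠ 1) (ht : t ∈ J ⊓ S u) (tt : t * t = 1)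
    (t1 : t ≠ 1) : s = t := by
  obtain ⟨g, gJ, gg, gn⟩ := o.exi o.cp hu.ne
  obtain ⟨r, a1, a2, a3, a4⟩ := o.swp hu gJ gg gn hs ss s1
  obtain ⟨q, b1, b2, b3, b4⟩ := o.swp hu gJ gg gn ht tt t1
  refine o.f3 hu a1 a2 a3 b1 b2 b3 hs ht tt t1 ?_
  calc _ = q * (r * s * r⁻¹) * q⁻¹ := by group
    _ = q * q * t * (q * q)⁻¹ := by rw [a4, ← b4]; group
    _ = t := by rw [b2]; group

theorem fin (hu : Mx J n u) : False := by
  have sj := o.sim o.cp
  obtain ⟨t, ht, t2⟩ := exists_orderOf_eq_prime Nat.prime_two (hu.card ▸ o.ev)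
  have tt := mul_self_of_ord2 t2
  have t1 : t ≠ 1 := fun e => by rw [e, orderOf_one] at t2; omega
  obtain ⟨P, hP, l⟩ := (pg_zpowers tt).exists_syl (zpowers_le.2 ht.1)
  have tP := l (mem_zpowers t)
  obtain ⟨j, hj, j2⟩ := exists_inv_pg (hP.pi.infl C(P)) (hP.pi.center_ne_bot (ne_bot_of_mem tP t1))
  have jj := mul_self_of_ord2 j2
  have j1 : j ≠ 1 := fun e => by rw [e, orderOf_one] at j2; omega
  obtain rfl := o.uq hu ⟨hP.le hj.1, o.f1 hu (hP.le hj.1) jj ht t1 (mem_cent.1 hj.2 t tP)⟩ jj j1 ht tt t1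
  have := Hub0.zs hP tP fun g hg m => o.uq hu ⟨hP.le m, o.f1 hu (hP.le m) (conj_sq tt g) ht t1
    (mem_cent.1 hj.2 _ m).symm⟩ (conj_sq tt g) (by simpa using t1) ht tt t1
  rw [sj.O_eq, le_bot_iff, commg_eq_bot] at this
  exact t1 (mem_bot.1 (sj.center.le ⟨ht.1, cents_symm this (mem_zpowers j)⟩))

end Cx

theorem EP.main (o : EP H A) : ∃ T : Subgroup H, T.Normal ∧ IsSimpleGroup T ∧ ¬ IsMulCommutative T ∧ C(T) = ⊥ := by
  obtain ⟨J, hJ⟩ := o.comp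
  have sj := o.sim hJ
  have n : ⊤ ≤ N(J) := fun k _ => mem_norm_iff_cj.2 (by_contra fun ne => by
    obtain ⟨t, ht, t2⟩ := exists_inv fun k : OG J => sj.nsol k.sol
    obtain ⟨w, w1, m⟩ := o.fix (mul_self_of_ord2 t2)
    obtain ⟨u, ⟨u1, u2⟩, hu⟩ := Set.exists_max_image {v : A | v ≠ 1 ∧ 2 ∣ #(J ⊓ S v)} (fun v => #(J ⊓ S v))
      (Set.toFinite _) ⟨w, w1, t2 ▸ orderOf_dvd_card' (H := J ⊓ S w) ⟨ht, m⟩⟩
    exact Cx.fin (k := k) ⟨o, hJ, fun e => ne e.symm, u2, fun v a b => hu v ⟨a, b⟩⟩ ⟨u1, rfl⟩)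
  exact ⟨J, normalizer_eq_top_iff.1 (top_le_iff.1 n), sj.simple, sj.nab, o.cb hJ n⟩

end H14.EP
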