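import Cfsg.Agent.H17.FV0
import Cfsg.Agent.H11.LowDim
import Cfsg.Agent.S0016

/-! S5720, chunk G3: the kernel of a minimal odd cover of `SL₂(p)` is central. -/

set_option autoImplicit false
set_option linter.unusedSectionVars false
set_option linter.unusedVariables false

open Subgroup H17.FV
open scoped MatrixGroups commutatorElement

namespace H14.FV

universe u
variable {X : Type u} [Group X] {O S Q : Subgroup X} {a b i t x y x' y' : X}

theorem nt2 (h : NT X) (ha : a ^ 3 = 1) (hb : b ^ 3 = 1) (c : Commute a b) (a1 : a ≠ 1) (b1 : b ≠ 1) :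
    b = a ∨ b = a⁻¹ := by
  by_cases e : a * b = 1
  · exact Or.inr (eq_inv_of_mul_eq_one_right e)
  · exact Or.inl (h a b ha hb (by rw [c.mul_pow, ha, hb, one_mul]) a1 b1 e).symm

theorem cq (h1 : x⁻¹ * x' ∈ center X) (h2 : y⁻¹ * y' ∈ center X) : ⁅x', y'⁆ = ⁅x, y⁆ := by
  obtain ⟨c, rfl⟩ : ∃ c, x' = x * c := ⟨x⁻¹ * x', by group⟩
  obtain ⟨d, rfl⟩ : ∃ d, y' = y * d := ⟨y⁻¹ * y', by group⟩
  rw [inv_mul_cancel_left, mem_center_iff] at h1 h2
  calc ⁅x * c, y * d⁆ = x * (c * (y * d)) * c⁻¹ * x⁻¹ * d⁻¹ * y⁻¹ := by rw [commutatorElement_def]; group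
    _ = x * y * (d * x⁻¹) * d⁻¹ * y⁻¹ := by rw [← h1]; group
    _ = ⁅x, y⁆ := by rw [← h2, commutatorElement_def]; group

theorem cj (h : t ∈ center X) (g : X) : g * t * g⁻¹ = t := by
  rw [mem_center_iff.1 h g, mul_inv_cancel_right]

theorem cinv (h : ⁅x, y⁆ ∈ center X) : ⁅x⁻¹, y⁻¹⁆ = ⁅x, y⁆ := by
  rw [← cj h (y * x)⁻¹, commutatorElement_def, commutatorElement_def]; group

theorem odd1 [Finite X] (ho : Odd (Nat.card O)) (hx : x ∈ O) : ∃ k, (x * x) ^ k = x := by
  obtain ⟨k, hk⟩ := ho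
  have : x ^ Nat.card O = 1 := congrArg Subtype.val (pow_card_eq_one' (x := (⟨x, hx⟩ : O)))
  exact ⟨k + 1, by rw [← sq, ← pow_mul, mul_add, mul_one, pow_succ' x (2 * k + 1), ← hk, this, mul_one]⟩

theorem core [Finite X] [hO : O.Normal] [hS : S.Normal] (h : NT X) (ho : Odd (Nat.card O)) (hSO : S ≤ O)
    (hc : ⁅S, O⁆ ≤ center X) (a3 : a ^ 3 = 1) (aO : a ∉ O) (ia : i * a * i⁻¹ * a ∈ O) (hx : x ∈ S)
    (e : x⁻¹ * (i * x * i⁻¹) ∈ center X ∨ x⁻¹⁻¹ * (i * x * i⁻¹) ∈ center X) : Commute a x := by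
  have aa : a⁻¹ * a⁻¹ = a := by
    rw [← mul_inv_rev, inv_eq_iff_mul_eq_one, ← a3, pow_succ, sq]
  have ai : a⁻¹ = a * a := by rw [inv_eq_iff_mul_eq_one, ← a3, pow_succ', sq]
  have k : ∀ s ∈ S, ∀ o ∈ O, ⁅s, o⁆ ∈ center X := fun s hs o ho => hc (commutator_mem_commutator hs ho)
  have hu : a * x * a⁻¹ ∈ S := hS.conj_mem x hx a
  have hv : a⁻¹ * x * a ∈ S := by simpa using hS.conj_mem x hx a⁻¹
  have c0 := k x hx _ (hSO hu)
  have k2 : ∀ w : X, w⁻¹ * (i * x * i⁻¹) ∈ center X →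
      (a⁻¹ * w * a)⁻¹ * (i * (a * x * a⁻¹) * i⁻¹) ∈ center X := fun w hw => by
    have h1 : a⁻¹ * (i * x * i⁻¹) * a ∈ S := by simpa using hS.conj_mem _ (hS.conj_mem x hx i) a⁻¹
    have := mul_mem hw (k _ (inv_mem h1) _ ia)
    rw [← cj hw a⁻¹] at this
    convert this using 1
    simp only [commutatorElement_def]; group
  have c1 : ⁅x, a * x * a⁻¹⁆ = ⁅x, a⁻¹ * x * a⁆ := by
    have e0 : ⁅x, a * x * a⁻¹⁆ = ⁅i * x * i⁻¹, i * (a * x * a⁻¹) * i⁻¹⁆ := by
      rw [← cj c0 i]; simp only [commutatorElement_def]; group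
    rw [e0]
    rcases e with e | e
    · exact cq e (k2 _ e)
    · rw [cq e (k2 _ e), ← cinv (k x hx _ (hSO hv))]; congr 1; group
  have c2 : ⁅x, a * x * a⁻¹⁆ * ⁅x, a * x * a⁻¹⁆ = 1 := by
    nth_rw 1 [← cj c0 a⁻¹]
    nth_rw 2 [c1]
    simp only [commutatorElement_def]; group
  have c3 : Commute x (a * x * a⁻¹) := by
    obtain ⟨k, hk⟩ := odd1 ho (hSO (commutator_le_left S S (commutator_mem_commutator hx hu)))
    rw [c2, one_pow] at hk
    exact commutatorElement_eq_one_iff_commute.1 hk.symm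
  have c4 : Commute x (a⁻¹ * x * a) := by
    rw [← commutatorElement_eq_one_iff_commute, ← c1, commutatorElement_eq_one_iff_commute]; exact c3
  have c5 : Commute (a * x * a⁻¹) (a⁻¹ * x * a) := by
    have := c3.map (MulAut.conj a)
    simp only [MulAut.conj_apply] at this
    rwa [show a * (a * x * a⁻¹) * a⁻¹ = (a * a) * x * (a⁻¹ * a⁻¹) by group, aa, ← ai] at this
  have := h a (x * a * x⁻¹) a3 (by rw [conj_pow, a3]; group) (by
    calc (a * (x * a * x⁻¹)) ^ 3 = a * x * a * x⁻¹ * a * x * a * x⁻¹ * a * x * a * x⁻¹ := by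
          simp only [pow_succ, pow_zero, one_mul, mul_assoc]
      _ = a * x * (a⁻¹ * a⁻¹) * x⁻¹ * a * x * a * x⁻¹ * (a⁻¹ * a⁻¹) * x * a * x⁻¹ := by rw [aa]
      _ = (a * x * a⁻¹) * ((a⁻¹ * x * a)⁻¹ * x) * (a * x * a⁻¹)⁻¹ * (a⁻¹ * x * a) * x⁻¹ := by group
      _ = 1 := by
        rw [(c5.inv_right.mul_right c3.symm).eq, mul_inv_cancel_right, mul_assoc _ x, c4.eq]; group)
    (fun e => aO (e ▸ one_mem _)) (fun e => aO (by rw [conj_eq_one_iff.1 e]; exact one_mem _)) (fun e => aO (by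
      have : a * a = (a * x * a⁻¹)⁻¹ * (a * (x * a * x⁻¹)) * x := by group
      rw [e, mul_one, ← ai] at this
      exact inv_mem_iff.1 (this ▸ hSO (mul_mem (inv_mem hu) hx))))
  exact (eq_mul_inv_iff_mul_eq.1 this)

theorem step [Finite X] [hO : O.Normal] [hS : S.Normal] (h : NT X) (ho : Odd (Nat.card O)) (hSO : S ≤ O)
    (hc : ⁅S, O⁆ ≤ center X) (a3 : a ^ 3 = 1) (aO : a ∉ O) (ia : i * a * i⁻¹ * a ∈ O)
    (ii : i * i ∈ center X) : a ∈ centralizer (S : Set X) := fun s hs => by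
  have h1 := hS.conj_mem s hs i
  have e : i * (i * s * i⁻¹) * i⁻¹ = s := by
    rw [show i * (i * s * i⁻¹) * i⁻¹ = (i * i) * s * (i * i)⁻¹ by group, ← mem_center_iff.1 ii,
      mul_inv_cancel_right]
  have c1 := core h ho hSO hc a3 aO ia (mul_mem h1 hs) (Or.inl (by
    rw [show i * (i * s * i⁻¹ * s) * i⁻¹ = i * (i * s * i⁻¹) * i⁻¹ * (i * s * i⁻¹) by group, e]
    convert hc (commutator_mem_commutator (inv_mem hs) (hSO (inv_mem h1))) using 1
    rw [commutatorElement_def]; group))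
  have c2 := core h ho hSO hc a3 aO ia (mul_mem hs (inv_mem h1)) (Or.inr (by
    rw [show i * (s * (i * s * i⁻¹)⁻¹) * i⁻¹ = i * s * i⁻¹ * (i * (i * s * i⁻¹) * i⁻¹)⁻¹ by group, e]
    convert (center X).one_mem using 1
    group))
  have c3 := c2.mul_right c1
  rw [mul_assoc, inv_mul_cancel_left] at c3
  obtain ⟨k, hk⟩ := odd1 ho (hSO hs)
  have := c3.pow_right k
  rw [hk] at this
  exact this.eq.symm

theorem c3 [Finite X] (hQ : IsPGroup 3 Q) (h : Q ≠ ⊥) : ∃ t ∈ Q, t ≠ 1 ∧ t ^ 3 = 1 ∧ ∀ y ∈ Q, Commute t y := by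
  haveI : Nontrivial Q := (nontrivial_iff_ne_bot Q).2 h
  haveI := hQ.center_nontrivial
  have hc : IsPGroup 3 (center Q) := hQ.to_subgroup _
  obtain ⟨z, hz⟩ := exists_prime_orderOf_dvd_card' (G := center Q) 3
    (hc.card_eq_or_dvd.resolve_left Finite.one_lt_card.ne')
  refine ⟨z.1.1, z.1.2, fun e => ?_, ?_, fun y hy => (congrArg Subtype.val (mem_center_iff.1 z.2 ⟨y, hy⟩)).symm⟩
  · rw [show z = 1 from Subtype.ext (Subtype.ext e), orderOf_one] at hz; omega
  · have := pow_orderOf_eq_one z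
    rw [hz] at this
    exact congrArg (fun w : center Q => w.1.1) this

theorem cen3 [hQ : Q.Normal] (h : NT X) (hp : commutator X = ⊤) (ht : t ∈ Q) (t1 : t ≠ 1) (t3 : t ^ 3 = 1)
    (c : ∀ y ∈ Q, Commute t y) : t ∈ center X := by
  have k : ∀ g : X, g * t * g⁻¹ = t ∨ g * t * g⁻¹ = t⁻¹ := fun g => nt2 h t3 (by rw [conj_pow, t3]; group)
    (c _ (hQ.conj_mem t ht g)) t1 (fun e => t1 (conj_eq_one_iff.1 e))
  have : commutator X ≤ centralizer {t} := commutator_le.2 fun g _ w _ => mem_centralizer_singleton_iff.2 (by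
    have e : (g * w) * t * (g * w)⁻¹ = (w * g) * t * (w * g)⁻¹ := by
      have e1 : ∀ g w : X, (g * w) * t * (g * w)⁻¹ = g * (w * t * w⁻¹) * g⁻¹ := fun g w => by group
      have e2 : ∀ g : X, g * t⁻¹ * g⁻¹ = (g * t * g⁻¹)⁻¹ := fun g => by group
      rw [e1, e1]
      rcases k g with e | e <;> rcases k w with e' | e' <;> simp only [e, e', e2, inv_inv]
    have e3 : ∀ s : X, s = t ∨ s = t⁻¹ → ⁅g, w⁆ * s * ⁅g, w⁆⁻¹ = s → ⁅g, w⁆ * t = t * ⁅g, w⁆ := by
      rintro s (rfl | rfl) e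
      · exact mul_inv_eq_iff_eq_mul.1 e
      · exact (Commute.inv_right_iff.1 (mul_inv_eq_iff_eq_mul.1 e)).eq
    refine e3 _ (k (w * g)) ?_
    nth_rw 2 [← e]
    rw [commutatorElement_def]; group)
  exact mem_center_iff.2 fun g => mem_centralizer_singleton_iff.1 (this (hp ▸ mem_top g))

theorem no3 [Finite X] (h : NT X) (hp : commutator X = ⊤) (ht : t ∈ center X) (t3 : t ^ 3 = 1) : t = 1 := by
  by_contra t1
  haveI : Fact (Nat.Prime 3) := ⟨Nat.prime_three⟩
  obtain ⟨P⟩ : Nonempty (Sylow 3 X) := inferInstance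
  have k : ∀ y : X, y ^ 3 = 1 → y ≠ 1 → y = t ∨ y = t⁻¹ := fun y y3 y1 =>
    nt2 h t3 y3 (mem_center_iff.1 ht y).symm t1 y1
  have k2 : ∀ H K : Subgroup P, Nat.card H = 3 → Nat.card K = 3 → H ≤ K := fun H K hH hK x hx => by
    have p3 : ∀ L : Subgroup P, Nat.card L = 3 → ∀ z ∈ L, z.1 ^ 3 = 1 := fun L hL z hz => by
      have := pow_card_eq_one' (x := (⟨z, hz⟩ : L))
      rw [hL] at this
      exact congrArg (fun w : L => w.1.1) this
    by_cases x1 : x = 1
    · rw [x1]; exact one_mem _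
    obtain ⟨y, hy, y1⟩ := (K.bot_or_exists_ne_one).resolve_left (fun e => by simp [e] at hK)
    have : x = y ∨ x = y⁻¹ := by
      rcases k _ (p3 H hH x hx) (fun e => x1 (Subtype.ext e)) with e | e <;>
        rcases k _ (p3 K hK y hy) (fun e => y1 (Subtype.ext e)) with e' | e' <;>
        simp [Subtype.ext_iff, e, e']
    rcases this with rfl | rfl
    exacts [hy, inv_mem hy]
  haveI : IsCyclic P := (Cfsg.Agent.S0016.result 3 P.isPGroup' fun H K hH hK =>
    le_antisymm (k2 H K hH hK) (k2 K H hK hH)).resolve_right (fun e => by simp at e)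
  letI : CommGroup P := IsCyclic.commGroup
  have e := MonoidHom.transfer_eq_pow (MonoidHom.id P) t fun k g _ => by
    rw [mul_assoc, ← mem_center_iff.1 (pow_mem ht k), inv_mul_cancel_left]
  have e2 : MonoidHom.transfer (MonoidHom.id P) t = 1 :=
    Abelianization.commutator_subset_ker _ (hp ▸ mem_top t)
  rw [e2] at e
  have := orderOf_dvd_of_pow_eq_one (congrArg Subtype.val e).symm
  rw [orderOf_eq_prime t3 t1] at this
  exact P.not_dvd_index this

theorem els (p : ℕ) [Fact p.Prime] (hp : 7 ≤ p) : ∃ A I : SL(2, ZMod p), A ^ 3 = 1 ∧ A ∉ center _ ∧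
    I * A = A⁻¹ * I ∧ I * I ≠ 1 ∧ I * I * (I * I) = 1 := by
  have nz : ∀ n : ℕ, 0 < n → n < 7 → (n : ZMod p) ≠ 0 := fun n h1 h2 e =>
    absurd (Nat.le_of_dvd h1 ((ZMod.natCast_eq_zero_iff n p).1 e)) (by omega)
  have h2 : (2 : ZMod p) ≠ 0 := by simpa using nz 2 (by omega) (by omega)
  have h3 : (3 : ZMod p) ≠ 0 := by simpa using nz 3 (by omega) (by omega)
  obtain ⟨u, y, e⟩ := FiniteField.exists_root_sum_quadratic (Polynomial.degree_X_pow_add_C two_pos (4 : ZMod p))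
    (Polynomial.degree_C_mul_X_pow 2 h3) (by
      rw [ZMod.card]; exact ((Fact.out : p.Prime).eq_two_or_odd.resolve_left (by omega)))
  simp only [Polynomial.eval_add, Polynomial.eval_mul, Polynomial.eval_pow, Polynomial.eval_X,
    Polynomial.eval_C] at e
  obtain ⟨x, rfl⟩ : ∃ x, u = 2 * x + y := ⟨(u - y) / 2, by field_simp; ring⟩
  have e' : x ^ 2 + x * y + y ^ 2 = -1 := mul_left_cancel₀ (mul_ne_zero h2 h2) (by linear_combination e)
  obtain ⟨A, hA⟩ : ∃ A : SL(2, ZMod p), (A : Matrix (Fin 2) (Fin 2) (ZMod p)) = !![0, -1; 1, -1] :=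
    ⟨⟨_, by simp [Matrix.det_fin_two]⟩, rfl⟩
  obtain ⟨I, hI⟩ : ∃ A : SL(2, ZMod p), (A : Matrix (Fin 2) (Fin 2) (ZMod p)) = !![x, y; x + y, -x] :=
    ⟨⟨_, by simp [Matrix.det_fin_two]; linear_combination -e'⟩, rfl⟩
  have a3 : A ^ 3 = 1 := by
    ext i j; fin_cases i <;> fin_cases j <;> simp [hA, pow_succ, Matrix.mul_apply, Fin.sum_univ_two]
  have ii : I * I = -1 := by
    ext i j; fin_cases i <;> fin_cases j <;> simp [hI, Matrix.mul_apply, Fin.sum_univ_two] <;>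
      first | linear_combination e' | ring
  refine ⟨A, I, a3, fun h => ?_, ?_, ?_, by rw [ii]; simp⟩
  · obtain ⟨r, -, hr⟩ := Matrix.SpecialLinearGroup.mem_center_iff.1 h
    simpa [hA] using congrFun (congrFun hr 1) 0
  · rw [eq_inv_mul_iff_mul_eq]
    ext i j; fin_cases i <;> fin_cases j <;> simp [hA, hI, Matrix.mul_apply, Fin.sum_univ_two] <;> ring
  · rw [ii]; intro h
    have := congrFun (congrFun (congrArg Subtype.val h) 0) 0
    simp at this
    exact h2 (by linear_combination -this)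

theorem g3 : G3.{u} := by
  intro X _ _ p _ f hp m ui nt
  haveI : Fact (Nat.Prime 3) := ⟨Nat.prime_three⟩
  have h4 : 4 ≤ Fintype.card (ZMod p) := by rw [ZMod.card]; omega
  have per : commutator X = ⊤ := m.min _ (by
    rw [commutator_def, map_commutator, map_top_of_surjective _ m.surj]; exact H11.sl2_perfect h4)
  have sup : ∀ Y : Subgroup X, Y ⊔ f.ker = ⊤ → Y = ⊤ := fun Y e => m.min _ (by
    have := congrArg (map f) e
    rwa [Subgroup.map_sup, (Subgroup.map_eq_bot_iff _).2 le_rfl, sup_bot_eq, map_top_of_surjective _ m.surj] at this)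
  have nor : ∀ N : Subgroup X, N.Normal → ∀ a ∈ N, f a ∉ center _ → N = ⊤ := fun N hN a ha h => m.min _ (by
    haveI := H11.psl2_simple h4
    have hM := hN.map f m.surj
    rcases (hM.map _ (QuotientGroup.mk'_surjective (center SL(2, ZMod p)))).eq_bot_or_eq_top with e | e
    · exact absurd ((QuotientGroup.eq_one_iff _).1 ((Subgroup.map_eq_bot_iff _).1 e (mem_map_of_mem f ha))) h
    · have := congrArg (comap (QuotientGroup.mk' _)) e
      rw [comap_map_eq, QuotientGroup.ker_mk', comap_top] at this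
      exact top_le_iff.1 (H11.sl2_perfect h4 ▸ hM.commutator_le_of_self_sup_commutative_eq_top this inferInstance))
  have n3 : ¬ 3 ∣ Nat.card f.ker := fun d => by
    obtain ⟨Q⟩ : Nonempty (Sylow 3 f.ker) := inferInstance
    haveI := normalizer_eq_top_iff.1 (sup _ Q.normalizer_sup_eq_top)
    obtain ⟨t, ht, t1, t3, c⟩ := c3 (Q.isPGroup'.map f.ker.subtype) fun e =>
      Q.ne_bot_of_dvd_card d ((map_eq_bot_iff_of_injective _ f.ker.subtype_injective).1 e)
    exact t1 (no3 nt per (cen3 nt per ht t1 t3 c) t3)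
  have pw : ∀ x ∈ f.ker, x ^ Nat.card f.ker = 1 := fun x hx =>
    congrArg Subtype.val (pow_card_eq_one' (x := (⟨x, hx⟩ : f.ker)))
  obtain ⟨A, I, A3, AZ, IA, I2, I4⟩ := els p hp
  obtain ⟨a0, rfl⟩ := m.surj A
  obtain ⟨i0, rfl⟩ := m.surj I
  obtain ⟨k, hk⟩ := m.odd
  have a3 : (a0 ^ Nat.card f.ker) ^ 3 = 1 := by
    rw [← pow_mul, mul_comm, pow_mul]; exact pw _ (by rw [MonoidHom.mem_ker, map_pow, A3])
  have aZ : f (a0 ^ Nat.card f.ker) ∉ center _ := fun h => AZ (by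
    rw [map_pow, ← Nat.div_add_mod (Nat.card f.ker) 3, pow_add, pow_mul, A3, one_pow, one_mul] at h
    rcases (by omega : Nat.card f.ker % 3 = 1 ∨ Nat.card f.ker % 3 = 2) with e | e <;> rw [e] at h
    · rwa [pow_one] at h
    · have := mul_mem h h
      rwa [← pow_add, pow_succ, A3, one_mul] at this)
  have z2 : (i0 * i0) ^ Nat.card f.ker * (i0 * i0) ^ Nat.card f.ker = 1 := by
    rw [← (Commute.refl _).mul_pow]; exact pw _ (by rw [MonoidHom.mem_ker, map_mul, map_mul, I4])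
  have z1 : (i0 * i0) ^ Nat.card f.ker ≠ 1 := fun e => I2 (by
    have := congrArg f e
    rwa [map_pow, map_mul, map_one, hk, pow_succ, pow_mul, sq, I4, one_pow, one_mul] at this)
  have ii : i0 ^ Nat.card f.ker * i0 ^ Nat.card f.ker ∈ center X := by
    rw [← (Commute.refl _).mul_pow]
    exact mem_center_iff.2 fun g => mul_inv_eq_iff_eq_mul.1 (ui _ _ (by rw [conj_mul, z2]; group) z2
      (fun e => z1 (conj_eq_one_iff.1 e)) z1)
  have ia : i0 ^ Nat.card f.ker * a0 ^ Nat.card f.ker * (i0 ^ Nat.card f.ker)⁻¹ * a0 ^ Nat.card f.ker ∈ f.ker := by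
    have s1 : SemiconjBy (f i0) (f a0) (f a0)⁻¹ := IA
    have s2 : SemiconjBy (f i0 ^ Nat.card f.ker) (f a0) (f a0)⁻¹ := by
      have : Commute (f i0 * f i0) (f a0) := (s1.inv_right.mul_left s1).trans (by rw [inv_inv])
      rw [hk, pow_succ', pow_mul, sq]
      exact s1.mul_left (this.pow_left k)
    rw [MonoidHom.mem_ker, map_mul, map_mul, map_mul, map_inv, map_pow, map_pow, (s2.pow_right _).eq]
    group
  have fr : f.ker ≤ frattini X := le_iInf₂ fun M hM => by_contra fun e =>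
    hM.1 (sup M (hM.2 _ (left_lt_sup.2 e)))
  obtain ⟨n, hn⟩ := (isNilpotent_iff_lowerCentralSeries _).1 (frattini_nilpotent (G := X))
  have nn : ∀ j, (f.ker.lowerCentralSeries j).Normal := fun j => by
    induction j with
    | zero => exact inferInstanceAs f.ker.Normal
    | succ j ih => rw [Subgroup.lowerCentralSeries_succ]; infer_instance
  refine Nat.decreasingInduction (motive := fun j _ => f.ker.lowerCentralSeries j ≤ center X)
    (fun j _ ih => ?_) ((lowerCentralSeries_mono n fr).trans (hn.le.trans bot_le)) n.zero_le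
  haveI := nn j
  have := nor _ inferInstance _ (step nt m.odd (lowerCentralSeries_le_self _ j) ih a3
    (fun e => aZ (by rw [MonoidHom.mem_ker.1 e]; exact one_mem _)) ia ii) aZ
  exact centralizer_eq_top_iff_subset.1 this

end H14.FV
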