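import Cfsg.Agent.H14.G2Spec2
import Cfsg.Agent.H5.Spec

/-! Affine extensions of the groups of type G2 in characteristic two. -/

open Matrix
set_option linter.unusedSectionVars false
set_option maxRecDepth 100000
set_option synthInstance.maxSize 10000

namespace H14
open RootSys PreSt St Cfsg.Lie H5

theorem exists_affine {G V : Type*} [Group G] [Finite G] [CommGroup V] (φ : G →* MulAut V) (h2 : ∀ v : V, v ^ 2 = 1)
    {W : Subgroup V} (hW : ∀ g, ∀ v ∈ W, φ g v ∈ W) (hi : (W : Set V).Infinite)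
    (hf : ∀ g, Odd (orderOf g) → ∀ v ∈ W, v ≠ 1 → φ g v = v → Ord G (2 * orderOf g)) (N : ℕ) :
    ∃ (H : Type) (_ : Group H) (_ : Finite H), N < Nat.card H ∧ ∀ n, Squarefree n → (Ord G n ↔ Ord H n) := by
  obtain ⟨S, h3, h4⟩ := hi.exists_subset_card_eq (N + 1)
  obtain ⟨M, hM⟩ : ∃ M, M = Subgroup.closure (Set.range fun p : G × S => φ p.1 p.2) := ⟨_, rfl⟩
  have h5 : M ≤ W := hM ▸ (Subgroup.closure_le _).2 (by rintro _ ⟨p, rfl⟩; exact hW _ _ (h3 p.2.2))
  have h0 : ∀ (g) (s : S), φ g s ∈ M := fun g s => hM ▸ Subgroup.subset_closure ⟨(g, s), rfl⟩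
  have h6 : ∀ g, M ≤ M.comap (φ g).toMonoidHom := fun g =>
    hM.trans_le ((Subgroup.closure_le _).2 (by rintro _ ⟨p, rfl⟩; simpa using h0 (g * p.1) p.2))
  have : Finite M := by
    have : Group.FG M := hM ▸ (Group.fg_iff_subgroup_fg _).2 ((Subgroup.fg_iff _).2 ⟨_, rfl, Set.finite_range _⟩)
    exact CommGroup.finite_of_fg_isMulTorsion _ fun v => isOfFinOrder_iff_pow_eq_one.2 ⟨2, two_pos, Subtype.ext (h2 _)⟩
  let H : Subgroup (V ⋊[φ] G) :=
    { carrier := {h | h.left ∈ M}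
      mul_mem' := fun a b => M.mul_mem a (h6 _ b)
      one_mem' := M.one_mem
      inv_mem' := fun a => h6 _ (inv_mem a) }
  have : Finite H := Finite.of_injective (fun h : H => ((⟨h.1.left, h.2⟩ : M), h.1.right)) fun a b e =>
    Subtype.ext (SemidirectProduct.ext (congrArg (·.1.1) e) (congrArg (·.2) e))
  obtain ⟨H', _, _, ⟨e⟩⟩ := Finite.exists_type_univ_nonempty_mulEquiv.{_, 0} H
  refine ⟨H', inferInstance, inferInstance, ?_, fun n hn => Iff.trans ⟨fun h => h.inj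
    (f := SemidirectProduct.inr.codRestrict H fun _ => M.one_mem) fun a b e =>
      SemidirectProduct.inr_injective (congrArg Subtype.val e), ?_⟩ (ord_congr e)⟩
  · rw [← Nat.card_congr e.toEquiv, ← Nat.add_one_le_iff, ← h4, ← Nat.card_eq_finsetCard]
    exact Nat.card_le_card_of_injective (fun s : S => (⟨.inl s, show s.1 ∈ M by simpa using h0 1 s⟩ : H))
      fun a b e => Subtype.ext (SemidirectProduct.inl_injective (congrArg Subtype.val e))
  rintro ⟨⟨x, hx⟩, rfl⟩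
  rw [Subgroup.orderOf_mk] at hn ⊢
  obtain ⟨v, h7⟩ : x ^ orderOf x.right ∈ SemidirectProduct.inl.range := by
    rw [SemidirectProduct.range_inl_eq_ker_rightHom, MonoidHom.mem_ker, map_pow]; exact pow_orderOf_eq_one _
  obtain ⟨k, h8⟩ : orderOf x.right ∣ orderOf x := orderOf_map_dvd SemidirectProduct.rightHom x
  have h9 : k ∣ 2 := Nat.dvd_of_mul_dvd_mul_left (orderOf_pos x.right)
    (h8 ▸ orderOf_dvd_of_pow_eq_one (by rw [pow_mul, ← h7, ← map_pow, h2, map_one]))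
  rcases (Nat.dvd_prime Nat.prime_two).1 h9 with rfl | rfl
  · exact ⟨_, (h8.trans (mul_one _)).symm⟩
  rw [h8, mul_comm] at hn ⊢
  refine hf _ (Nat.coprime_two_left.1 (Nat.coprime_of_squarefree_mul hn)) v (h5 (show .inl v ∈ H from h7 ▸ pow_mem hx _))
    (fun e => ?_) ?_
  · have := Nat.le_of_dvd (orderOf_pos _) (h8 ▸ orderOf_dvd_of_pow_eq_one (by rw [← h7, e, map_one]))
    have := orderOf_pos x.right
    omega
  · simpa [← h7, mul_comm v] using congrArg (·.left) (Commute.self_pow x (orderOf x.right)).eq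

theorem G2.exists_fpf (F : Type*) [Field F] [Fintype F] [CharP F 2] :
    ∃ (φ : chevG2.group F →* MulAut (Multiplicative (Fin 7 → AlgebraicClosure F))) (W : Subgroup _),
      (∀ g, ∀ v ∈ W, φ g v ∈ W) ∧ (SetLike.coe W).Infinite ∧
      ∀ g, Odd (orderOf g) → ∀ v ∈ W, v ≠ 1 → φ g v = v → Ord (chevG2.group F) (2 * orderOf g) := by
  obtain ⟨θ, hθ⟩ := goodG2.exists_rep kerG2 (repG2.hmul (AlgebraicClosure F))
  have h1 : ∀ y v, ((θ y).1 *ᵥ v) 3 = v 3 := fun y =>
    U_induction (P := fun y => ∀ v, ((θ y).1 *ᵥ v) 3 = v 3) (by simp) (fun r _ t g _ ih v => by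
      have h : ∀ b : Fin 7, 2 ∣ sd4 e1G2 (64 * r + 8 * 3 + b) ∧ 2 ∣ sd4 e2G2 (64 * r + 8 * 3 + b) := by revert r; decide +kernel
      simp only [← CharP.intCast_eq_zero_iff (AlgebraicClosure F) 2, show (2 : ℤ) = (2 : ℕ) from rfl] at h
      rw [map_mul, hθ, Units.val_mul, ← mulVec_mulVec, ← ih v]
      simp [Rep.X, xexp, repG2, matG2, mulVec, dotProduct, h, one_apply])
    ((goodG2.SG_top _).ge (Subgroup.mem_top y))
  refine ⟨((MulAutMultiplicative _).symm.toMonoidHom.comp (DistribMulAction.toAddAut _ _)).comp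
    (θ.comp (goodG2.mapG (algebraMap F _))), (Pi.evalAddMonoidHom (fun _ => AlgebraicClosure F) 3).ker.toSubgroup,
    fun g v h => (h1 _ _).trans h,
    Set.infinite_of_injective_forall_mem (f := fun t => .ofAdd (Pi.single 0 t)) (fun a b e => Pi.single_injective 0 e)
      fun t => by simp, fun g h2 v h3 h4 h5 => ?_⟩
  obtain ⟨z, ν, c, -, -, -, -, -, w, h6, h7, -, u, h9, x, h10⟩ := goodG2.jordan kerG2 g
  obtain ⟨Φ, -⟩ := goodG2.exists_fr' F kerG2
  have h11 : ∀ n : ℤ, g ^ n = 1 ↔ c ^ n = 1 ∧ u ^ n = 1 := fun n => by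
    rw [← Φ.tor_mul_zpow (goodG2.tor_inj kerG2) h9, ← map_eq_one_iff _ (goodG2.mapG_inj (algebraMap F (AlgebraicClosure F))),
      map_zpow, h10, conj_zpow, conj_eq_one_iff]
  obtain rfl : u = 1 := (pow_eq_one_iff_of_coprime (Nat.Coprime.pow_left 3 (Nat.coprime_two_left.2 h2))).1
    ⟨G2.pow_eq_one 2 (htf _) (n := 7) (by decide +kernel) (by decide) (fun r h => htf_pos h.1) h9,
      by exact_mod_cast ((h11 (orderOf g)).1 (by simp)).2⟩
  replace h5 : (θ (goodG2.mapG (algebraMap F _) g)).1 *ᵥ v.toAdd = v.toAdd := h5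
  rw [h10, mul_one, map_mul, map_mul, (goodG2.SG_hmul _).map (repG2.hmul _) hθ, Units.val_mul, Units.val_mul, ← mulVec_mulVec,
    ← mulVec_mulVec] at h5
  have h12 : ∀ y, (θ x⁻¹).1 *ᵥ (θ x).1 *ᵥ y = y := fun y => by rw [mulVec_mulVec, ← Units.val_mul, ← map_mul]; simp
  replace h5 := (h12 _).symm.trans (congrArg _ h5)
  obtain ⟨a, h13⟩ := Function.ne_iff.1 fun e : (θ x⁻¹).1 *ᵥ v.toAdd = 0 => h4 (by
    simpa [mulVec_mulVec, ← Units.val_mul] using congrArg ((θ x).1 *ᵥ ·) e)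
  obtain ⟨r, h14⟩ : ∃ r, repG2.wt a = goodG2.R.wt r := by
    have : a ≠ 3 := fun e => h13 (e ▸ (h1 _ _).trans h3)
    clear h13; revert a; decide +kernel
  have h15 := congrFun h5 a
  rw [Rep.coe_tor, mulVec_diagonal, mul_eq_right₀ h13, h14, Units.val_eq_one] at h15
  have h16 := G2.exists_ord 2 (F := F) rfl
  simp only [List.forall_mem_cons] at h16
  have h17 : 1 ≤ Fintype.card F := Fintype.card_pos
  refine ((G2.tor_pow (W_le_Aut _ h6) h7).2 r h15).elim (fun e => Ord.of_dvd h16.2.2.2.1 ?_) fun e => Ord.of_dvd h16.2.2.2.2.1 ?_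
  all_goals exact Nat.mul_dvd_mul_left 2 (orderOf_dvd_of_pow_eq_one (by exact_mod_cast (h11 _).2 ⟨e, by simp⟩))

end H14
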