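import Cfsg.Agent.H24.ND0

/-! S4780: the vanishing part of the Camina property. -/

set_option autoImplicit false
set_option linter.unusedSectionVars false
set_option linter.unusedVariables false

open Subgroup MulAction H19 H20 H6 Cfsg H3.PT H3.GR H3.ND H24.ND
open scoped commutatorElement

namespace H14.ND

universe u
variable {G : Type u} [Group G] [Finite G] {N K W : Subgroup G} {p : ℕ} {ψ : G → ℂ} {c d : G}

instance Wd_n [hN : N.Normal] : (Wd N).Normal := ⟨fun n hn g => mem_W.2 ⟨hN.conj_mem n (mem_W.1 hn).1 g,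
  fun x => by
    have := (inferInstance : (⁅N, N⁆ : Subgroup G).Normal).conj_mem _ ((mem_W.1 hn).2 (g⁻¹ * x * g)) g
    convert this using 1
    group⟩⟩

theorem W_le [N.Normal] : Wd N ≤ N := fun _ h => (mem_W.1 h).1

theorem inj [N.Normal] [W.Normal] (hW : W ≤ N) (h : Fpf N W d) {w : Du N} (hk : w ∈ Du.Kr hW)
    (e : d • w = w) : w = 0 :=
  Du.eq_zero (by
    rw [h.eq_triv (nr (mem_top d)) (nr (mem_top d)) ⟨hW, nr⟩ w.lin hk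
      fun y _ => congrFun ((Du.stab w).le e).2 y, cker_triv])

/-- characters trivial on `W` fixing `ψ` -/
def St (hW : W ≤ N) (hψ : ψ ∈ Irr N) : AddSubgroup (Du N) where
  carrier := {w | w ∈ Du.Kr hW ∧ w.fn * ψ = ψ}
  zero_mem' := ⟨zero_mem _, by
    have := neg_mul' (0 : Du N) hψ
    have e := neg_mul' (0 : Du N) (irr_mul_lin hψ (0 : Du N).lin)
    rw [neg_zero] at this e
    rw [← mul_assoc, ← Du.fn_add, add_zero] at this
    exact this⟩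
  add_mem' := fun {a b} ha hb => ⟨add_mem ha.1 hb.1, by rw [Du.fn_add, mul_assoc, hb.2, ha.2]⟩
  neg_mem' := fun {a} ha => ⟨neg_mem ha.1, by
    have := neg_mul' a hψ
    rwa [ha.2] at this⟩

theorem sub_mul {a b : Du N} (hψ : ψ ∈ Irr N) (e : a.fn * ψ = b.fn * ψ) : (a - b).fn * ψ = ψ := by
  rw [sub_eq_neg_add, Du.fn_add, mul_assoc, e, neg_mul' b hψ]

theorem lemA [N.Normal] [W.Normal] (hW : W ≤ N) (h : Fpf N W d) (hψ : ψ ∈ Irr N) (hd : cfj d⁻¹ ψ = ψ)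
    {μ : Du N} (hμ : μ ∈ Du.Kr hW) (e : (d • μ).fn * ψ = μ.fn * ψ) : μ.fn * ψ = ψ := by
  have k : ∀ s ∈ St hW hψ, d • s ∈ St hW hψ := fun s hs => ⟨Du.Kr_inv hW d s hs.1, by
    rw [Du.fn_smul]
    calc cfj d⁻¹ s.fn * ψ = cfj d⁻¹ s.fn * cfj d⁻¹ ψ := by rw [hd]
      _ = ψ := by rw [← cfj_mul_fun, hs.2, hd]⟩
  have k2 : ∀ s t : Du N, s ∈ Du.Kr hW → t ∈ Du.Kr hW → d • s - s = d • t - t → s = t :=
    fun s t hs ht e => sub_eq_zero.1 (inj hW h (sub_mem hs ht) (by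
      rw [smul_sub, sub_eq_sub_iff_sub_eq_sub, e]))
  let F : St hW hψ → St hW hψ := fun s => ⟨d • s.1 - s.1, sub_mem (k _ s.2) s.2⟩
  have hF : Function.Injective F := fun s t e =>
    Subtype.ext (k2 _ _ s.2.1 t.2.1 (congrArg Subtype.val e))
  obtain ⟨s, hs⟩ := Finite.surjective_of_injective hF
    ⟨d • μ - μ, sub_mem (Du.Kr_inv hW d μ hμ) hμ, sub_mul hψ e⟩
  rw [← k2 _ _ s.2.1 hμ (congrArg Subtype.val hs)]
  exact s.2.2

theorem fixall [N.Normal] [W.Normal] (hW : W ≤ N) (dG : ⁅(⊤ : Subgroup G), ⊤⁆ ≤ N)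
    (fw : ∀ x, x ∉ N → Fpf N W x) (st : ∀ ψ ∈ Irr N, deg ψ ≠ 1 → ¬ H20.inertia ⊤ ψ ≤ N)
    (hψ : ψ ∈ Irr N) (h1 : deg ψ ≠ 1) {l : Du N} (hl : l ∈ Du.Kr hW) : l.fn * ψ = ψ := by
  obtain ⟨d, hd, d1⟩ := SetLike.not_le_iff_exists.1 (st ψ hψ h1)
  obtain ⟨c, hc, c1⟩ := SetLike.not_le_iff_exists.1 (st _ (irr_mul_lin hψ l.lin) (by
    rwa [deg_congr (ψ := ψ) (by rw [Pi.mul_apply, l.lin.one, one_mul])]))
  have hd' : cfj d⁻¹ ψ = ψ := (inv_mem hd).2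
  have hc' : (c • l).fn * cfj c⁻¹ ψ = l.fn * ψ := by
    rw [Du.fn_smul, ← cfj_mul_fun]; exact (inv_mem hc).2
  have hi : cfj c⁻¹ ψ ∈ Irr N := irr_cfj hψ (nr (mem_top _))
  have e1 : cfj c⁻¹ ψ = (l - c • l).fn * ψ := by
    rw [sub_eq_neg_add, Du.fn_add, mul_assoc, ← hc', neg_mul' _ hi]
  have e2 : cfj d⁻¹ (cfj c⁻¹ ψ) = cfj c⁻¹ ψ := by
    have : c⁻¹ * d⁻¹ = ⁅c⁻¹, d⁻¹⁆ * (d⁻¹ * c⁻¹) := by rw [commutatorElement_def]; group
    rw [← cfj_mul, this, cfj_mul, (irr_cinv hψ).cfj_eq (dG (commutator_mem_commutator (mem_top _)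
      (mem_top _))), cfj_mul, hd']
  have hm : l - c • l ∈ Du.Kr hW := sub_mem hl (Du.Kr_inv hW c l hl)
  have e3 : (l - c • l).fn * ψ = ψ := lemA hW (fw d d1) hψ hd' hm (by
    rw [← e1, ← e2, Du.fn_smul]
    conv_rhs => rw [e1, cfj_mul_fun, hd'])
  rw [e3] at e1
  exact lemA hW (fw c c1) hψ e1 hl (by rw [← hc', e1])

theorem van [N.Normal] (dG : ⁅(⊤ : Subgroup G), ⊤⁆ ≤ N) (fw : ∀ x, x ∉ N → Fpf N (Wd N) x)
    (st : ∀ ψ ∈ Irr N, deg ψ ≠ 1 → ¬ H20.inertia ⊤ ψ ≤ N) :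
    ∀ ψ ∈ Irr N, deg ψ ≠ 1 → ∀ n, ψ n ≠ 0 → n ∈ Wd N := fun ψ hψ h1 n h2 => by
  have a : n ∈ N := by_contra fun e => h2 (irr_zero hψ e)
  refine Du.sep le_W W_le a fun l hl => ?_
  have := congrFun (fixall W_le dG fw st hψ h1 (l := l) hl) n
  rw [Pi.mul_apply, mul_eq_right₀ h2] at this
  rw [l.lin.mem_cker a, this]

theorem cj [N.Normal] (van : ∀ ψ ∈ Irr N, deg ψ ≠ 1 → ∀ n, ψ n ≠ 0 → n ∈ Wd N) :
    ∀ n ∈ N, n ∉ Wd N → ∀ y ∈ ⁅N, N⁆, ∃ g ∈ N, g * n * g⁻¹ = y * n := fun n hn h1 y hy =>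
  conj_of_irr_eq hn (mul_mem (der_le N hy) hn) fun ψ hψ => by
    by_cases e : deg ψ = 1
    · rw [cker_mul ((der_le_cker hψ).2 e hy)]
    · rw [not_ne_iff.1 (mt (van ψ hψ e _) h1), not_ne_iff.1 (mt (van ψ hψ e _) fun e' =>
        h1 ((mul_mem_cancel_left (le_W hy)).1 e'))]

/-- assembling `Ca` from the three other fields -/
theorem ca [N.Normal] (h : Nd N K p) (fw : ∀ x, x ∉ N → Fpf N (Wd N) x)
    (cw : (N.relIndex ⊤).Coprime ((Wd N).relIndex N))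
    (st : ∀ ψ ∈ Irr N, deg ψ ≠ 1 → ¬ H20.inertia ⊤ ψ ≤ N) : Ca N K p :=
  { h with fw := fw, cw := cw, st := st, van := van h.dG fw st, cj := cj (van h.dG fw st) }

end H14.ND
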