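/-
Subgroups `Ω₈⁺(4)` of `E₈(2)`: centralizers of subgroups of the torus.
-/
import Cfsg.Agent.H14.O80

set_option autoImplicit false
set_option linter.unusedSectionVars false
set_option maxRecDepth 100000

namespace H14.O8
open Cfsg Cfsg.Lie H14.RootSys H14.PreSt H14.St Matrix Subgroup
open MulAut (conj)

section
variable {ι κ : Type*} [Fintype κ] [DecidableEq κ] [Fintype ι] [DecidableEq ι] {R : RootSys ι κ}
  {C : Chev R} {K G : Type*} [Field K] [Group G] {S : St C K G} (hh : S.HMul) (hS : S.Sep) {Z : Set (κ → Kˣ)}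
include hS

theorem mem_U_set {A : Set ι} (hA : R.Closed A) (hf : ∀ r ∈ A, R.pos r) {u : G} (hu : u ∈ S.U A)
    (h : ∀ c ∈ Z, Commute (hh.tor c) u) : u ∈ S.U {r | ∀ c ∈ Z, R.chi c r = 1} := by
  classical
  have hf' := fun r hr => htf_pos (hf r hr)
  obtain ⟨t, rfl⟩ := exists_prod hA _ hf' (Finset.nodup_toList (Finset.univ.filter (· ∈ A))) (by simp) hu
  refine list_prod_mem (List.forall_mem_map.2 fun r hr => ?_)
  by_cases h0 : t r = 0
  · simp [h0]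
  refine x_mem_U (fun c hc => ?_) _
  have h1 := map_list_prod (conj (hh.tor c)) ((Finset.univ.filter (· ∈ A)).toList.map fun r => S.x r (t r))
  simp only [MulAut.conj_apply, (h c hc).mul_inv_cancel, List.map_map, Function.comp_def, hh.tor_conj] at h1
  have := hS.uniq _ _ (Finset.nodup_toList _) (by simpa using hf') _ _ h1 r hr
  exact Units.ext (mul_right_cancel₀ h0 (this.symm.trans (one_mul _).symm))

theorem canon (hG : S.U Set.univ = ⊤) (g : G) : ∃ u' ∈ S.U {r | R.pos r}, ∃ n v, (n, v) ∈ S.NW ∧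
    ∃ u ∈ S.U {r | R.pos r}, g = u' * n * u ∧ ∀ t ∈ S.H, ∀ t' ∈ S.H, t' * g = g * t →
      Commute t' u' ∧ t' * n = n * t ∧ Commute t u := by
  obtain ⟨v, hv⟩ := exists_cell (hG ▸ mem_top g : g ∈ S.U Set.univ)
  obtain ⟨n0, h0⟩ := exists_NW_of_W (S := S.toPreSt) hv.mem_W
  obtain ⟨b, hb, u, hu, rfl⟩ := hv.canonical h0
  obtain ⟨u', hu', k, hk, rfl⟩ := mem_B_iff.1 hb
  have hn : (k * n0, v) ∈ S.NW := by simpa using NW.mul (mem_NW_of_H hk) h0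
  refine ⟨u', hu', _, v, hn, u, U_mono (fun _ h => h.1) hu, by group, fun t ht t' ht' e => ?_⟩
  have h1 : t' * (k * n0 * t⁻¹ * (k * n0)⁻¹) ∈ S.H := mul_mem ht' (N_conj_mem_H (NW.mem_N hn) (inv_mem ht))
  have h2 := H_conj_mem_U ht' hu'
  obtain ⟨a1, a2⟩ := canonical_unique hS hn (mul_mem (U_le_B h2) (H_le_B h1)) (U_le_B hu') (H_conj_mem_U ht hu) hu (by
    rw [← mul_assoc u', eq_mul_inv_of_mul_eq e.symm]; group)
  have a4 := inv_mul_eq_one.1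
    (hS.eq_one_of_mem_H (mul_mem (inv_mem h2) hu') (by rw [inv_mul_eq_iff_eq_mul.2 a1.symm]; exact h1))
  rw [a4, mul_eq_left, ← mul_assoc, ← mul_assoc, mul_inv_eq_one, mul_inv_eq_iff_eq_mul] at a1
  exact ⟨mul_inv_eq_iff_eq_mul.1 a4, a1, mul_inv_eq_iff_eq_mul.1 a2⟩

theorem cb (hG : S.U Set.univ = ⊤) {g : G} (h : ∀ c ∈ Z, Commute (hh.tor c) g) :
    ∃ u' ∈ S.U {r | ∀ c ∈ Z, R.chi c r = 1}, ∃ n v, (n, v) ∈ S.NW ∧ (∀ c ∈ Z, Commute (hh.tor c) n) ∧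
      ∃ u ∈ S.U {r | ∀ c ∈ Z, R.chi c r = 1}, g = u' * n * u := by
  obtain ⟨u', hu', n, v, hn, u, hu, e, key⟩ := canon hS hG g
  have k := fun c hc => key _ (hh.range_tor.le ⟨c, rfl⟩) _ (hh.range_tor.le ⟨c, rfl⟩) (h c hc)
  exact ⟨u', mem_U_set hh hS closed_pos (fun _ => id) hu' fun c hc => (k c hc).1, _, v, hn, fun c hc => (k c hc).2.1, u,
    mem_U_set hh hS closed_pos (fun _ => id) hu fun c hc => (k c hc).2.2, e⟩

theorem nb (hG : S.U Set.univ = ⊤) (hZ : ∀ r, ∃ c ∈ Z, R.chi c r ≠ 1) {g : G} (h : ∀ c ∈ Z, g * hh.tor c * g⁻¹ ∈ S.H)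
    (h' : ∀ c ∈ Z, g⁻¹ * hh.tor c * g ∈ S.H) : g ∈ S.N := by
  obtain ⟨u', hu', n, v, hn, u, hu, e, key⟩ := canon hS hG g
  have h0 : S.U {r | ∀ c ∈ Z, R.chi c r = 1} ≤ ⊥ := U_le.2 fun r hr => have ⟨c, h1, h2⟩ := hZ r; (h2 (hr c h1)).elim
  have h1 : u' = 1 := h0 (mem_U_set hh hS closed_pos (fun _ => id) hu' fun c hc =>
    (key _ (h' c hc) _ (hh.range_tor.le ⟨c, rfl⟩) (by group)).1)
  have h2 : u = 1 := h0 (mem_U_set hh hS closed_pos (fun _ => id) hu fun c hc =>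
    (key _ (hh.range_tor.le ⟨c, rfl⟩) _ (h c hc) (by group)).2.2)
  rw [e, h1, h2, one_mul, mul_one]; exact NW.mem_N hn
end

theorem z1 : ∀ t : ZMod 5, (t + 1) * (t + 1) + (t + 1) + 1 ≠ 0 := by decide
theorem z2 : ∀ t : ZMod 5, t = 0 ∨ t = 1 ∨ t = -1 ∨ t = 2 ∨ t = -2 := by decide
theorem z3 : ∀ t : ZMod 5, t + t + t + t + t = 0 := by decide

theorem fix_of_three {A : Type*} [CommGroup A] {B : Subgroup A} (hB : B.index = 5) (h5 : ∀ a : A, a ^ 5 = 1) (φ : A →* A)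
    (h1 : ∀ b ∈ B, φ b = b) (h3 : ∀ a, φ (φ (φ a)) = a) (a : A) : φ a = a := by
  by_cases ha : a ∈ B
  · exact h1 a ha
  have : Fact (Nat.Prime 5) := ⟨by decide⟩
  obtain ⟨k, hk⟩ := mem_powers_of_prime_card (G := A ⧸ B) hB (g' := ((φ a * a⁻¹ : A) : A ⧸ B))
    (mt (QuotientGroup.eq_one_iff a).1 ha)
  obtain ⟨d, hd⟩ : ∃ d, φ a = d * a := ⟨φ a * a⁻¹, by simp⟩
  have h2 : (a ^ k)⁻¹ * d ∈ B := QuotientGroup.eq.1 (by simpa [hd] using hk)
  have h4 : φ d = d ^ (k + 1) := by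
    have := h1 _ h2
    rw [map_mul, map_inv, map_pow, hd, inv_mul_eq_iff_eq_mul, mul_pow, mul_assoc, mul_inv_cancel_left] at this
    rw [this, pow_succ]
  have h6 := h3 a
  rw [hd, map_mul, map_mul, h4, map_pow, h4, hd, map_mul, h4, hd, ← mul_assoc, ← mul_assoc, mul_eq_right, ← pow_mul,
    ← pow_add, ← pow_succ] at h6
  have h7 : d = 1 := (pow_eq_one_iff_of_coprime (n := 5) ((Nat.Prime.coprime_iff_not_dvd (by decide)).2 fun h => by
    exact z1 k (by exact_mod_cast (ZMod.natCast_eq_zero_iff _ 5).2 h)).symm).1 ⟨h6, h5 d⟩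
  rw [hd, h7, one_mul]

theorem mem_Ψ {r s : I} (h : ∀ y : V, y ⬝ᵥ κ r = 0 → y ⬝ᵥ κ s = 0) : s ∈ Ψ r := by
  have : Fact (Nat.Prime 5) := ⟨by decide⟩
  obtain ⟨i, hi⟩ := Function.ne_iff.1 (κ_ne r)
  replace hi : κ r i ≠ 0 := hi
  have h1 : κ s = (κ s i / κ r i) • κ r := funext fun j => by
    have := h (Pi.single j (κ r i) - Pi.single i (κ r j)) (by simp [mul_comm])
    simp only [sub_dotProduct, single_dotProduct] at this
    rw [Pi.smul_apply, smul_eq_mul]; field_simp; linear_combination this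
  generalize κ s i / κ r i = t at h1
  rcases z2 t with rfl | rfl | rfl | rfl | rfl
  · exact (κ_ne s (by simpa using h1)).elim
  · exact .inl (κ_inj (by simpa using h1))
  · exact .inr (.inl (κ_inj (by rw [κ_neg, h1, neg_one_smul])))
  · exact .inr (.inr (.inl (κ_inj (by rw [κ_w, h1]))))
  · exact .inr (.inr (.inr (κ_inj (by rw [κ_neg, κ_w, h1, neg_smul]))))

theorem Ψ_neg (r : I) : ∀ s ∈ Ψ r, R.neg s ∈ Ψ r := by
  rintro _ (rfl | rfl | rfl | rfl) <;> simp [Ψ]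

theorem refl_not_C (r : I) : R.refl r ∉ C := fun h => by
  have := (mem_C.1 h).2 r
  rw [refl_eq_self_of_pair _ ((pair_comm _ _).trans (pair_w_self r)), refl_self, Aut.neg w_aut] at this
  exact R.neg_ne _ this.symm

theorem card_ker (r : I) : Nat.card {y : V // y ⬝ᵥ κ r = 0} = 125 := by
  have : Fact (Nat.Prime 5) := ⟨by decide⟩
  let f : V →+ ZMod 5 := AddMonoidHom.mk' (· ⬝ᵥ κ r) fun _ _ => add_dotProduct ..
  obtain ⟨i, hi⟩ := Function.ne_iff.1 (κ_ne r)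
  replace hi : κ r i ≠ 0 := hi
  have h1 : f.range = ⊤ := AddMonoidHom.range_eq_top.2 fun t => ⟨Pi.single i (t / κ r i), by simp [f, hi]⟩
  have h2 := f.ker.card_mul_index
  rw [AddSubgroup.index_ker, h1, AddSubgroup.card_top, Nat.card_zmod, Nat.card_fun, Nat.card_zmod, Nat.card_fin] at h2
  exact (by omega : Nat.card f.ker = 125)

namespace Su
variable {K G : Type} [Field K] [CharP K 2] [IsAlgClosed K] [Group G] {X : Su K G}

theorem ζ_inj {t t' : ZMod 5} (h : X.ζ ^ t.val = X.ζ ^ t'.val) : t = t' := by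
  rw [pow_eq_pow_iff_modEq, X.ord] at h
  simpa using (ZMod.natCast_eq_natCast_iff _ _ 5).2 h

theorem A_comm : ∀ a ∈ X.A, ∀ b ∈ X.A, a * b = b * a := fun a ha b hb => X.F.hmul.comm a ha.1 b hb.1

theorem nw {n : G} {v : Equiv.Perm I} (h : (n, v) ∈ X.S.NW) (hn : n ∈ X.F.fix) : v ∈ C ∧ n ∈ normalizer (X.A : Set G) := by
  have h1 := X.F.NW_σ h
  rw [Fr.mem_fix.1 hn, X.ρ] at h1
  refine ⟨⟨NW.mem_W h, mem_centralizer_singleton_iff.2 (mul_inv_eq_iff_eq_mul.1 (NW.unique X.F.sep h1 h)).symm⟩,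
    mem_normalizer_iff.2 fun a => ⟨fun ha => mem_inf.2 ⟨N_conj_mem_H (NW.mem_N h) ha.1, mul_mem (mul_mem hn ha.2) (inv_mem hn)⟩,
      fun ha => ?_⟩⟩
  have : n⁻¹ * (n * a * n⁻¹) * n⁻¹⁻¹ ∈ X.A :=
    mem_inf.2 ⟨N_conj_mem_H (inv_mem (NW.mem_N h)) ha.1, mul_mem (mul_mem (inv_mem hn) ha.2) (inv_mem (inv_mem hn))⟩
  simpa [mul_assoc] using this

variable (T : X.TT)
include T

theorem TT.a_mem (y : V) : X.a y ∈ X.A := (T.mem _).2 ⟨y, rfl⟩

theorem TT.chi_one {y : V} {s : I} : R.chi (X.c y) s = 1 ↔ y ⬝ᵥ κ s = 0 := by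
  rw [T.chi]; exact ⟨fun h => ζ_inj (X := X) (by simpa using h), fun h => by simp [h]⟩

theorem TT.dot {y : V} {n : G} {v : Equiv.Perm I} (h : (n, v) ∈ X.S.NW) (e : Commute (X.a y) n) (s : I) :
    y ⬝ᵥ κ (v s) = y ⬝ᵥ κ s := ζ_inj (X := X) (by rw [← T.chi, ← T.chi]; exact X.F.hmul.chi_of_commute X.F.sep h e s)

theorem TT.reg (r : I) : ∃ c ∈ Set.range X.c, R.chi c r ≠ 1 := by
  obtain ⟨i, hi⟩ := Function.ne_iff.1 (κ_ne r)
  exact ⟨_, ⟨Pi.single i 1, rfl⟩, fun h => hi (by simpa using T.chi_one.1 h)⟩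

theorem TT.pow5 {a : G} (h : a ∈ X.A) : a ^ 5 = 1 := by
  obtain ⟨y, rfl⟩ := (T.mem _).1 h
  have h0 : X.a 0 = 1 := by simpa using T.add 0 0
  have : y + y + y + y + y = 0 := funext fun i => z3 _
  rw [← h0, ← this, T.add, T.add, T.add, T.add]; simp only [pow_succ, pow_zero, one_mul]

theorem nn : X.NN where
  cent g hg := by
    have h : ∀ c ∈ Set.range X.c, Commute (X.F.hmul.tor c) g := by rintro _ ⟨y, rfl⟩; exact hg _ (T.a_mem y)
    have k : ∀ c ∈ Set.range X.c, X.F.hmul.tor c ∈ X.S.H := fun c _ => X.F.hmul.range_tor.le ⟨c, rfl⟩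
    obtain ⟨v, hv⟩ := exists_NW_of_N (nb X.F.hmul X.F.sep X.F.top T.reg (fun c hc => by rw [← h c hc]; simpa using k c hc)
      fun c hc => by rw [mul_assoc, h c hc]; simpa using k c hc)
    obtain rfl : v = 1 := Equiv.ext fun s => κ_inj (funext fun i => by
      simpa using T.dot (y := Pi.single i 1) hv (h _ ⟨_, rfl⟩) s)
    exact mem_H_of_NW hv
  norm g hg h := by
    obtain ⟨v, hv⟩ := exists_NW_of_N (nb X.F.hmul X.F.sep X.F.top T.reg
      (by rintro _ ⟨y, rfl⟩; exact ((mem_normalizer_iff.1 h _).1 (T.a_mem y)).1)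
      (by rintro _ ⟨y, rfl⟩; exact ((mem_normalizer_iff''.1 h _).1 (T.a_mem y)).1))
    exact ⟨v, (nw hv hg).1, hv⟩
  rep v hv := X.F.exists_rep hv.1 (by rw [X.ρ, mul_inv_eq_iff_eq_mul]; exact (mem_centralizer_singleton_iff.1 hv.2).symm)
  nw _ _ := nw

theorem hy (w3 : W3) : X.HY := fun B hB hc x hx h3 hxc => by
  let Z : Set (Fin chevE8.rank → Kˣ) := X.c '' {y | X.a y ∈ B}
  have hZ : ∀ g ∈ centralizer (B : Set G), ∀ c ∈ Z, Commute (X.F.hmul.tor c) g := by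
    rintro g hg _ ⟨y, hy, rfl⟩; exact hg _ hy
  have k : ∀ c ∈ Z, X.F.hmul.tor c ∈ X.S.H := fun c _ => X.F.hmul.range_tor.le ⟨c, rfl⟩
  by_cases h : ∀ r, ∃ c ∈ Z, R.chi c r ≠ 1
  · obtain ⟨v, hv⟩ := exists_NW_of_N (nb X.F.hmul X.F.sep X.F.top h (fun c hc => by rw [← hZ x hxc c hc]; simpa using k c hc)
      fun c hc => by rw [mul_assoc, hZ x hxc c hc]; simpa using k c hc)
    have h1 := (nw hv hx).2
    letI : CommGroup X.A := { (inferInstance : Group X.A) with mul_comm a b := Subtype.ext (A_comm _ a.2 _ b.2) }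
    have h2 : (B.subgroupOf X.A).index = 5 := by
      have := (B.subgroupOf X.A).card_mul_index
      rw [Nat.card_congr (subgroupOfEquivOfLe hB).toEquiv, hc, T.card] at this; omega
    have h4 := fix_of_three h2 (fun a => Subtype.ext (T.pow5 a.2)) (X.A.normalizerMonoidHom ⟨x, h1⟩).toMonoidHom
      (fun b hb => Subtype.ext (mul_inv_eq_iff_eq_mul.2 (hxc _ hb).symm)) fun a => Subtype.ext (by
        have : x ^ 3 = 1 := h3 ▸ pow_orderOf_eq_one x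
        change x * (x * (x * a * x⁻¹) * x⁻¹) * x⁻¹ = a
        rw [show x * (x * (x * a * x⁻¹) * x⁻¹) * x⁻¹ = x ^ 3 * a * (x ^ 3)⁻¹ by rw [pow_three]; group, this]; simp)
    have h5 : x ∈ X.A := ⟨(nn T).cent fun a ha => (mul_inv_eq_iff_eq_mul.1 (congrArg Subtype.val (h4 ⟨a, ha⟩))).symm, hx⟩
    exact absurd (h3 ▸ orderOf_dvd_of_pow_eq_one (T.pow5 h5)) (by decide)
  push Not at h
  obtain ⟨r, hr⟩ := h
  have h1 : {y | X.a y ∈ B} = {y : V | y ⬝ᵥ κ r = 0} := by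
    refine Set.eq_of_subset_of_ncard_le (fun y hy => T.chi_one.1 (hr _ ⟨y, hy, rfl⟩)) ?_
    rw [← Set.ncard_image_of_injective {y | X.a y ∈ B} T.inj, show X.a '' {y | X.a y ∈ B} = B from
      Set.image_preimage_eq_of_subset fun b hb => have ⟨y, e⟩ := (T.mem b).1 (hB hb); ⟨y, e.symm⟩]
    exact ((card_ker r).trans hc.symm).le
  have h2 : ∀ {n v}, (n, v) ∈ X.S.NW → (∀ c ∈ Z, Commute (X.F.hmul.tor c) n) → _ := fun hn e =>
    w3 r _ (NW.mem_W hn) fun s y hy => T.dot hn (e _ ⟨y, h1.ge hy, rfl⟩) s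
  have h4 : X.S.U {s | ∀ c ∈ Z, R.chi c s = 1} ≤ X.S.U (Ψ r) ⊔ X.S.H :=
    le_trans (U_mono fun s hs => mem_Ψ fun y hy => T.chi_one.1 (hs _ ⟨y, h1.ge hy, rfl⟩)) le_sup_left
  refine ⟨r, fun g hg => ?_, fun n v hn h5 h6 => ?_⟩
  · obtain ⟨u', a1, n, v, a2, a3, u, a4, rfl⟩ := cb X.F.hmul X.F.sep X.F.top (hZ g hg)
    refine mul_mem (mul_mem (h4 a1) (NW.mem_of_WA (Ψ_neg r) a2 ?_)) (h4 a4)
    have b1 : R.refl r ∈ R.WA (Ψ r) := refl_mem_WA (.inl rfl)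
    have b2 : R.refl (w r) ∈ R.WA (Ψ r) := refl_mem_WA (.inr (.inr (.inl rfl)))
    rcases h2 a2 a3 with rfl | rfl | rfl | rfl
    exacts [one_mem _, b1, b2, mul_mem b1 b2]
  · rcases h2 hn (hZ n h6) with rfl | rfl | rfl | rfl
    exacts [.inl rfl, (refl_not_C _ (nw hn h5).1).elim, (refl_not_C _ (nw hn h5).1).elim, .inr rfl]

end Su
end H14.O8
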