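/-
Subgroups `Ω₈⁺(4)` of `E₈(2)`: the setting exists; assembly of the chunks.
-/
import Cfsg.Agent.H14.O81
import Cfsg.Agent.S1065

set_option autoImplicit false
set_option linter.unusedSectionVars false
set_option maxRecDepth 100000

namespace H14.O8
open Cfsg Cfsg.Lie H14.RootSys H14.PreSt H14.St Matrix Subgroup Function
open MulAut (conj)
universe u

theorem nprod_x {ι κ : Type*} [Fintype κ] [DecidableEq κ] [Fintype ι] [DecidableEq ι] {R : RootSys ι κ} {C : Chev R}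
    {K G : Type*} [Field K] [CharP K 2] [Group G] (S : St C K G) (L : List κ) (s : ι) (t : K) :
    S.nprod L * S.x s t = S.x (R.wprod L s) t * S.nprod L := by
  induction L with
  | nil => simp
  | cons i L ih =>
    have e := eta_sq C K (R.simple i) (R.wprod L s)
    rw [mul_self_eq_one_iff, CharTwo.neg_eq, or_self] at e
    rw [nprod_cons, mul_assoc, ih, ← mul_assoc, S.nconj _ _ _ one_ne_zero, e]; simp [mul_assoc]

theorem exists_su : ∃ (K G : Type) (_ : Field K) (_ : CharP K 2) (_ : IsAlgClosed K) (_ : Group G) (X : Su K G)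
    (ε : chevE8.group (ZMod 2) →* G), Injective ε ∧ ε.range = X.F.fix := by
  obtain ⟨Φ, h1, h2, h3, h4⟩ := goodE8.exists_fr' (ZMod 2) kerE8
  obtain ⟨ζ, hζ⟩ := exists_orderOf (AlgebraicClosure (ZMod 2)) (n := 5) (by
    rw [Ne, CharP.cast_eq_zero_iff _ 2]; decide)
  have hn := nprod_mem_NW (S := (goodE8.SG (AlgebraicClosure (ZMod 2))).toPreSt) Lw
  obtain ⟨g, hg⟩ := Φ.exists_conj hn
  let ε := (conj g⁻¹).toMonoidHom.comp (goodE8.mapG (algebraMap (ZMod 2) (AlgebraicClosure (ZMod 2))))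
  have a1 : Injective ε := (conj g⁻¹).injective.comp (goodE8.mapG_inj _)
  have a2 : ε.range = (Φ.tw hn).fix := Subgroup.ext fun y => by
    rw [hg, ← h1]
    exact ⟨fun ⟨z, e⟩ => ⟨z, by rw [← e]; simp [ε, mul_assoc]⟩, fun ⟨z, e⟩ => ⟨z, by simp [ε, e, mul_assoc]⟩⟩
  have a3 : Nat.card (Φ.tw hn).fix = Nat.card (chevE8.group (ZMod 2)) :=
    a2 ▸ (Nat.card_congr (MonoidHom.ofInjective a1).toEquiv).symm
  rw [Cfsg.Agent.S1065.result (ZMod.card 2)] at a3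
  refine ⟨_, _, _, inferInstance, inferInstance, _, ⟨_, Φ.tw hn, ζ, ?_, fun r t => ?_, fun r => (h3 r).trans (ZMod.card 2),
    goodE8.tor_inj kerE8, hζ, Nat.finite_of_card_ne_zero (by rw [a3]; decide), by rw [a3]; decide⟩, ε, a1, a2⟩
  · change w * Φ.ρ = w
    rw [h2, mul_one]
  · rw [Fr.tw_σ, Φ.σ_x, h2, h3, h4, one_mul, ZMod.card, nprod_x, mul_inv_cancel_right]; rfl

namespace Su
variable {K G : Type} [Field K] [CharP K 2] [IsAlgClosed K] [Group G] {X : Su K G}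

theorem into (w3 : W3) (w4 : W4) (w6 : W6) (T : X.TT) {Ω : Type*} [Group Ω] (D : OmD Ω) {ψ : Ω →* G} (hi : Injective ψ)
    (hf : ∀ g, ψ g ∈ X.F.fix) (hA : D.A.map ψ = X.A) : ∃ n ∈ X.F.fix, ∃ j, ∀ g, n * ψ g * n⁻¹ ∈ X.M j := by
  have cm : ∀ {B : Subgroup Ω} {g}, g ∈ centralizer (B : Set Ω) ↔ ψ g ∈ centralizer (B.map ψ : Set G) := fun {B g} =>
    ⟨by rintro h _ ⟨b, hb, rfl⟩; rw [← map_mul, h b hb, map_mul], fun h b hb => hi (by simpa using h _ ⟨b, hb, rfl⟩)⟩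
  have ci : ∀ {g v}, (ψ g, v) ∈ X.S.NW → (g ∈ centralizer (D.A : Set Ω) ↔ v = 1) := fun {g v} h => by
    rw [cm, hA]
    exact ⟨fun a => NW.unique X.F.sep h (mem_NW_of_H ((nn T).cent a)),
      fun a b hb => X.F.hmul.comm _ hb.1 _ (mem_H_of_NW (a ▸ h))⟩
  choose r h1 h2 using fun i => hy T w3 ((D.B i).map ψ) (hA ▸ map_mono (D.le i))
    ((card_map_of_injective hi).trans (D.cardB i)) _ (hf (D.x i)) ((orderOf_injective ψ hi _).trans (D.x3 i)) (cm.1 (D.xc i))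
  have h3 : ∀ i, (ψ (D.n i), O8.ρ (r i)) ∈ X.S.NW := fun i => by
    obtain ⟨v, -, hv⟩ := (nn T).norm _ (hf (D.n i)) (hA ▸ le_normalizer_map ψ ⟨_, D.nn i, rfl⟩)
    exact (h2 i _ v hv (hf _) (cm.1 (D.nc i))).elim (fun e => (D.n1 i ((ci hv).2 e)).elim) fun e => e ▸ hv
  have h4 : ∀ i j, (ψ (D.n i * D.n j), O8.ρ (r i) * O8.ρ (r j)) ∈ X.S.NW := fun i j => map_mul ψ _ _ ▸ NW.mul (h3 i) (h3 j)
  obtain ⟨v, hv, j, h5⟩ := w4 r fun i j hij => ⟨fun e => D.ne i j hij ((ci (h4 i j)).2 (by rw [e, ρ_mul_self])),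
    (ci (by simpa using pow_mem (h4 i j) (m i j))).1 (D.rel i j hij)⟩
  obtain ⟨n, hn, h6⟩ := (nn T).rep v hv
  refine ⟨n, hn, j, fun g => mem_inf.2 ⟨?_, mul_mem (mul_mem hn (hf g)) (inv_mem hn)⟩⟩
  have h7 : ∀ i, X.S.U (Ψ (r i)) ⊔ X.S.H ≤ (X.S.U (Ξ j)).comap (conj n).toMonoidHom := fun i =>
    sup_le (fun u hu => NW.conj_mem_U h6 (by
      have a : v (w (r i)) ∈ Ξ j := by rw [(mem_C.1 hv).2, w6.w_mem]; exact h5 i
      rintro _ (rfl | rfl | rfl | rfl)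
      exacts [h5 i, Aut.neg (C_aut hv) _ ▸ (w6.cl j).neg (h5 i), a, Aut.neg (C_aut hv) _ ▸ (w6.cl j).neg a]) hu)
      fun k hk => T.le j (N_conj_mem_H (NW.mem_N h6) hk)
  exact (D.gen.ge.trans (iSup_le fun i g hg => h7 i (h1 i (cm.1 hg))) :
    ⊤ ≤ ((X.S.U (Ξ j)).comap (conj n).toMonoidHom).comap ψ) (mem_top g)

end Su

theorem main (w3 : W3) (w4 : W4) (w6 : W6) (om : OM.{u}) (oi : OI.{u}) (fin : FIN.{u})
    (h : ∀ {K G : Type} [Field K] [CharP K 2] [IsAlgClosed K] [Group G] (X : Su K G),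
      X.TT ∧ X.S5 ∧ Su.MI.{u} X ∧ X.NM ∧ X.CM) (F₄ : Type u) [Field F₄] [Fintype F₄] (h4 : Fintype.card F₄ = 4)
    (Γ : Type) [Group Γ] {K G : Type} [Field K] [CharP K 2] [IsAlgClosed K] [Group G] (X : Su K G) {ε : Γ →* G}
    (hi : Injective ε) (hr : ε.range = X.F.fix) :
    Cls (fun H : Subgroup Γ => Nonempty (H ≃* Omega F₄ (quadFormPlus 4 F₄))) 2 ∧
    Cls (fun H : Subgroup Γ => Nonempty (generalizedFittingSubgroup H ≃* Omega F₄ (quadFormPlus 4 F₄)) ∧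
      (generalizedFittingSubgroup H).index = 3) 1 ∧
    Cls (fun H : Subgroup Γ => Nonempty (generalizedFittingSubgroup H ≃* Omega F₄ (quadFormPlus 4 F₄)) ∧
      (generalizedFittingSubgroup H).index = 4) 2 ∧
    Cls (fun H : Subgroup Γ => Nonempty (generalizedFittingSubgroup H ≃* Omega F₄ (quadFormPlus 4 F₄)) ∧
      (generalizedFittingSubgroup H).index = 12) 1 := by
  obtain ⟨T, s5, mi, nm, cm⟩ := h X
  obtain ⟨⟨e0⟩, hs, hz, h5⟩ := oi F₄ h4
  obtain ⟨D⟩ := om F₄ h4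
  generalize Omega F₄ (quadFormPlus 4 F₄) = Ω at *
  have := X.fin
  have hf : ∀ g, ε g ∈ X.F.fix := fun g => hr.le ⟨g, rfl⟩
  have : Finite Γ := .of_injective (fun g => (⟨ε g, hf g⟩ : X.F.fix)) fun _ _ e => hi (congrArg Subtype.val e)
  have e1 : ∀ j, X.M j ≃* Ω := fun j => (mi F₄ h4 j).some.trans e0
  have hM : ∀ j, ((X.M j).comap ε).map ε = X.M j := fun j => map_comap_eq_self (hr ▸ inf_le_right)
  have e2 : ∀ j, (X.M j).comap ε ≃* Ω := fun j =>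
    (equivMapOfInjective _ ε hi).trans ((MulEquiv.subgroupCongr (hM j)).trans (e1 j))
  refine fin Γ Ω (fun j => (X.M j).comap ε) (fun j => ⟨e2 j⟩) (fun H ⟨e⟩ => ?_) (fun j => eq_bot_iff.2 fun g hg => ?_) fun j => ?_
  · let φ : Ω →* G := ε.comp (H.subtype.comp e.symm.toMonoidHom)
    have a1 : Injective φ := hi.comp (H.subtype_injective.comp e.symm.injective)
    obtain ⟨g, hg, a2⟩ := s5 (D.A.map φ) (by rintro _ ⟨y, -, rfl⟩; exact hf _) ((card_map_of_injective a1).trans D.cardA) (by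
      rintro _ ⟨a, ha, rfl⟩ _ ⟨b, hb, rfl⟩; rw [← map_mul, D.comm a ha b hb, map_mul])
    obtain ⟨n, hn, j, a3⟩ := Su.into w3 w4 w6 T D (ψ := (conj g).toMonoidHom.comp φ) ((conj g).injective.comp a1)
      (fun y => mul_mem (mul_mem hg (hf _)) (inv_mem hg)) (by rw [← Subgroup.map_map, a2])
    obtain ⟨g, rfl⟩ := hr.ge hg
    obtain ⟨n, rfl⟩ := hr.ge hn
    refine ⟨j, n * g, eq_of_le_of_card_ge ?_ ?_⟩
    · rintro _ ⟨y, hy, rfl⟩
      simpa [φ, mul_assoc] using a3 (e ⟨y, hy⟩)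
    · rw [card_map_of_injective (conj (n * g)).injective, Nat.card_congr e.toEquiv, Nat.card_congr (e2 j).toEquiv]
  · have a1 : center (X.M j) = ⊥ := eq_bot_iff.2 fun z h => by
      simpa using hz.le (mem_center_iff.2 fun y => by
        rw [← (e1 j).apply_symm_apply y, ← map_mul, mem_center_iff.1 h, map_mul] : e1 j z ∈ center Ω)
    have a2 : ε g ∈ centralizer (X.M j : Set G) := fun y hy => by
      obtain ⟨y, hy, rfl⟩ := (hM j).ge hy
      rw [← map_mul, hg y hy, map_mul]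
    exact hi (by simpa using (cm j a1).le ⟨a2, hf g⟩)
  · rw [← nm j (by rwa [Nat.card_congr (e1 j).toEquiv]), relIndex_comap, ← hr, inf_comm, ← map_comap_eq]
    congr 2
    refine le_antisymm (fun g hg => ?_) (le_normalizer_comap ε)
    exact hM j ▸ le_normalizer_map ε ⟨g, hg, rfl⟩

end H14.O8
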