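import Cfsg.Agent.H14.P8R

/-! Root elements of type `D₄` over the field with three elements. -/

set_option autoImplicit false
set_option linter.unusedSectionVars false

open Subgroup
namespace H14.P8
open Equiv (Perm)
open scoped MatrixGroups commutatorElement

variable {G : Type*} [Group G] {t : Fin 3 → G} {R : Fin 3 → Fin 4 → G → Prop} {a b c : Fin 3} {i j k : Fin 4}
  {p q r s u v w x y : G} {P : Subgroup G}

theorem cp1 (h : Commute ⁅x, y⁆ y) (n : ℕ) : ⁅x, y ^ n⁆ = ⁅x, y⁆ ^ n := by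
  rw [commutatorElement_def x (y ^ n), ← conj_pow, show x * y * x⁻¹ = ⁅x, y⁆ * y by rw [commutatorElement_def]; group,
    h.mul_pow, mul_inv_cancel_right]
theorem cp (h1 : Commute ⁅x, y⁆ x) (h2 : Commute ⁅x, y⁆ y) (m n : ℕ) : ⁅x ^ m, y ^ n⁆ = ⁅x, y⁆ ^ (n * m) := by
  rw [← commutatorElement_inv, cp1 (by rw [← commutatorElement_inv, cp1 h2]; exact (h1.pow_left n).inv_left),
    ← commutatorElement_inv, cp1 h2, inv_pow, inv_inv, pow_mul]
theorem cjx (h : Commute x y) : x * y * x⁻¹ = y := by rw [h.eq]; group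
theorem zpc (h : Commute x y) (m : s ∈ zpowers y) : Commute x s := let ⟨k, e⟩ := m; e ▸ h.zpow_right k
theorem modl (br : x * y⁻¹ * x = y⁻¹ * x * y⁻¹) (ya : Commute y p) (xb : Commute x ⁅x, p⁆) (ab : Commute p ⁅x, p⁆)
    (hc : ⁅y, ⁅x, p⁆⁆ ∈ zpowers p) (n : ∀ v ∈ zpowers p, Commute x v → v = 1) : ⁅y, ⁅x, p⁆⁆ = p := by
  have e1 : x * p * x⁻¹ = ⁅x, p⁆ * p := by rw [commutatorElement_def]; group
  have e2 : y⁻¹ * ⁅x, p⁆ * y⁻¹⁻¹ = ⁅y, ⁅x, p⁆⁆⁻¹ * ⁅x, p⁆ := by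
    rw [eq_inv_mul_iff_mul_eq, ← mul_assoc, ← mul_assoc, (zpc ya hc).symm.inv_right.eq, commutatorElement_def y]; group
  have e3 : y⁻¹ * p * y⁻¹⁻¹ = p := cjx ya.inv_left
  have cc : ∀ a b c : G, a * b * c * (a * b)⁻¹ = a * (b * c * b⁻¹) * a⁻¹ := fun a b c => by group
  have e := congrArg (fun g => g * p * g⁻¹) br
  simp only [cc, e1, e3, ← conj_mul, e2] at e
  rw [cjx xb, ← ab.eq, ← mul_assoc, mul_assoc _ ⁅x, p⁆ p, mul_assoc _ ⁅x, p⁆ p] at e
  nth_rw 2 [← ab.eq] at e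
  rw [← mul_assoc _ p, mul_left_inj, ← e1, conj_mul] at e
  exact inv_mul_eq_one.1 (n _ (mul_mem (inv_mem hc) (mem_zpowers p)) (mul_inv_eq_iff_eq_mul.1 e))
theorem quasi {X : Type*} [Group X] (h : commutator X = ⊤) [IsSimpleGroup (X ⧸ center X)] (N : Subgroup X) [hN : N.Normal] :
    N ≤ center X ∨ N = ⊤ := by
  refine (IsSimpleGroup.eq_bot_or_eq_top_of_normal _ (hN.map _ (QuotientGroup.mk'_surjective (center X)))).imp
    (fun e => by rwa [Subgroup.map_eq_bot_iff, QuotientGroup.ker_mk'] at e) fun e => top_le_iff.1 (h ▸ ?_)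
  refine commutator_le.2 fun x _ y _ => ?_
  obtain ⟨n, hn, k⟩ : (x : X ⧸ center X) ∈ N.map (QuotientGroup.mk' (center X)) := e ▸ mem_top _
  have := mem_center_iff.1 (QuotientGroup.eq.1 k)
  convert mul_mem hn (hN.conj_mem _ (inv_mem hn) y) using 1
  calc _ = n * ((n⁻¹ * x) * y * (n⁻¹ * x)⁻¹) * n⁻¹ * y⁻¹ := by rw [commutatorElement_def]; group
    _ = _ := by rw [← this]; group
theorem pw3 (h : x * x * x = 1) {a b : ℕ} (e : a % 3 = b % 3) : x ^ a = x ^ b := by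
  rw [← Nat.div_add_mod a 3, ← Nat.div_add_mod b 3, pow_add, pow_add, pow_mul, pow_mul, pow_three', h, one_pow, one_pow, e]
theorem zp3 (h : x * x * x = 1) (m : s ∈ zpowers x) : s = 1 ∨ s = x ∨ s = x⁻¹ := by
  obtain ⟨k, rfl⟩ := m
  have e : x ^ (3 : ℤ) = 1 := by rw [← h, ← pow_three', ← zpow_natCast]; rfl
  rw [← Int.emod_add_mul_ediv k 3]
  simp only [zpow_add, zpow_mul, e, one_zpow, mul_one]
  rcases (by omega : k % 3 = 0 ∨ k % 3 = 1 ∨ k % 3 = 2) with k | k | k <;> rw [k]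
  exacts [.inl (zpow_zero x), .inr (.inl (zpow_one x)), .inr (.inr (by rw [zpow_two]; exact eq_inv_of_mul_eq_one_left h))]

/-- opposite root elements -/
structure Pp (t : Fin 3 → G) (R : Fin 3 → Fin 4 → G → Prop) (a b : Fin 3) (i : Fin 4) (x y : G) : Prop where
  rx : R a i x
  ry : R a i y
  br : x * y * x = y * x * y
  sq : x * y * x * (x * y * x) = t a
  cj : x * y * x * t b * (x * y * x)⁻¹ = t a * t b
  un : ∀ r, R a i r → r = x ∨ r = x⁻¹ ∨ r = y ∨ r = y⁻¹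
theorem Pp.symm (k : Pp t R a b i x y) : Pp t R a b i y x :=
  ⟨k.ry, k.rx, k.br.symm, k.br ▸ k.sq, k.br ▸ k.cj, fun r h => by have := k.un r h; tauto⟩
theorem Pp.mem (k : Pp t R a b i x y) (hx : x ∈ P) (hy : y ∈ P) (h : R a i r) : r ∈ P := by
  rcases k.un r h with rfl | rfl | rfl | rfl
  exacts [hx, inv_mem hx, hy, inv_mem hy]

/-- the configuration of root elements -/
structure D4 (t : Fin 3 → G) (R : Fin 3 → Fin 4 → G → Prop) : Prop where
  tt : ∀ a, t a * t a = 1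
  t1 : ∀ a, t a ≠ 1
  tm : ∀ {a b c}, a ≠ b → a ≠ c → b ≠ c → t a * t b = t c
  x3 : ∀ {a i x}, R a i x → x * x * x = 1
  inv : ∀ {a i x}, R a i x → R a i x⁻¹
  idx : ∀ {a i j x}, R a i x → R a j x → i = j
  ct : ∀ {a i x}, R a i x → Commute (t a) x
  iv : ∀ {a b i x}, R a i x → a ≠ b → t b * x * (t b)⁻¹ = x⁻¹
  op : ∀ {a b i x}, R a i x → a ≠ b → ∃ y, Pp t R a b i x y
  cm : ∀ {a i j x y}, R a i x → R a j y → i ≠ j → Commute x y
  tr : ∀ {a b c w}, a ≠ b → a ≠ c → w * t a * w⁻¹ = t a → w * t b * w⁻¹ = t c →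
    ∃ κ : Perm (Fin 4), ∀ j x, R b j x → R c (κ j) (w * x * w⁻¹)
  ex : ∀ a i, ∃ x, R a i x
  co : ∀ {a b i x}, R a i x → a ≠ b → ∀ j, ∃ u, R b j u ∧ Commute x u
  tri : ∀ {a b c i j k x y s}, R a i x → R b j y → R c k s → a ≠ c → b ≠ c → Commute s x → Commute s y → ⁅x, y⁆ ∈ zpowers s

/-- all root elements of a type lie in a subgroup -/
def Sb (R : Fin 3 → Fin 4 → G → Prop) (P : Subgroup G) (a : Fin 3) (i : Fin 4) : Prop := ∀ x, R a i x → x ∈ P
/-- the rank one subgroups -/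
def Kr (R : Fin 3 → Fin 4 → G → Prop) (a : Fin 3) (i : Fin 4) : Subgroup G := closure {x | R a i x}
theorem Kle : Kr R a i ≤ P ↔ Sb R P a i := closure_le _
theorem Km (h : R a i x) : x ∈ Kr R a i := subset_closure h

namespace D4
variable (h : D4 t R)
include h

theorem zr (k : R a i x) (m : s ∈ zpowers x) (n : s ≠ 1) : R a i s := by
  rcases zp3 (h.x3 k) m with rfl | rfl | rfl
  exacts [(n rfl).elim, k, h.inv k]
theorem nc (k : Pp t R a b i x y) : ¬ Commute x y := fun c => h.t1 a (by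
  have e := k.br
  rw [c.eq, mul_right_inj] at e
  rw [← k.sq, ← e, h.x3 k.rx, mul_one])
theorem tK (a : Fin 3) (i : Fin 4) : t a ∈ Kr R a i := by
  obtain ⟨x, k⟩ := h.ex a i
  obtain ⟨b, n⟩ := exists_ne a
  obtain ⟨y, k⟩ := h.op k n.symm
  have := mul_mem (mul_mem (Km k.rx) (Km k.ry)) (Km k.rx)
  exact k.sq ▸ mul_mem this this
theorem nb {l : Fin 4} (k : R a i x) (n : a ≠ b) (k1 : R b j u) (k2 : R b l v) (c1 : Commute x u) (c2 : Commute x v) : Commute u v := by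
  refine commutatorElement_eq_one_iff_commute.1 (by_contra fun e => e ?_)
  have r := h.zr k (h.tri k1 k2 k n.symm n.symm c1 c2) e
  have := h.iv r n
  rw [cjx (y := ⁅u, v⁆) ((((h.ct k1).mul_right (h.ct k2)).mul_right (h.ct k1).inv_right).mul_right (h.ct k2).inv_right)]
    at this
  rw [← h.x3 r, mul_eq_one_iff_eq_inv.2 this, one_mul]
theorem cz (k : R a i x) (k' : R a i y) (c : Commute x y) : y ∈ zpowers x := by
  obtain ⟨b, n⟩ := exists_ne a
  obtain ⟨p, e⟩ := h.op k n.symm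
  rcases e.un y k' with rfl | rfl | rfl | rfl
  exacts [mem_zpowers _, inv_mem (mem_zpowers _), (h.nc e c).elim, (h.nc e (Commute.inv_right_iff.1 c)).elim]
theorem four (k : R a i x) (k' : R a i y) (c : ¬ Commute x y) (hx : x ∈ P) (hy : y ∈ P) : Sb R P a i := fun r hr => by
  obtain ⟨b, n⟩ := exists_ne a
  obtain ⟨p, e⟩ := h.op k n.symm
  refine e.mem hx ?_ hr
  rcases e.un y k' with rfl | rfl | rfl | rfl
  exacts [(c (Commute.refl _)).elim, (c (Commute.refl _).inv_right).elim, hy, inv_mem_iff.1 hy]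
theorem one (k : R a i x) (n : a ≠ b) (e : Pp t R b c j u v) : Commute x u ∧ ¬ Commute x v ∨ Commute x v ∧ ¬ Commute x u := by
  obtain ⟨p, k1, c⟩ := h.co k n j
  have A := fun c1 c2 => h.nc e (h.nb k n e.rx e.ry c1 c2)
  rcases e.un p k1 with rfl | rfl | rfl | rfl
  exacts [.inl ⟨c, A c⟩, .inl ⟨Commute.inv_right_iff.1 c, A (Commute.inv_right_iff.1 c)⟩, .inr ⟨c, fun c' => A c' c⟩,
    .inr ⟨Commute.inv_right_iff.1 c, fun c' => A c' (Commute.inv_right_iff.1 c)⟩]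

variable (ab : a ≠ b) (ac : a ≠ c) (bc : b ≠ c)
include ab ac bc

theorem trw (e : Pp t R a b i u v) : ∃ κ : Perm (Fin 4), ∀ j x, R b j x → R c (κ j) (u * v * u * x * (u * v * u)⁻¹) :=
  h.tr ab ac (cjx (((h.ct e.rx).mul_right (h.ct e.ry)).mul_right (h.ct e.rx)).symm) (e.cj.trans (h.tm ab ac bc))
theorem wy (e : Pp t R b a j u v) (kx : R a i x) (ks : R c k s) (es : u * v * u * x * (u * v * u)⁻¹ = s) :
    Commute s x ∧ (Commute x v → Commute s u) := by
  refine ⟨(commutatorElement_eq_one_iff_commute.1 (by_contra fun n => ?_)).symm, fun c => ?_⟩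
  · have A : ∀ l, j ≠ l → R b l ⁅x, s⁆ := fun l m => by
      obtain ⟨p, k1, c⟩ := h.co kx ab l
      have := ((h.cm e.rx k1 m).mul_left (h.cm e.ry k1 m)).mul_left (h.cm e.rx k1 m)
      exact h.zr k1 (h.tri kx ks k1 ab bc.symm c.symm (es ▸ ((this.mul_left c).mul_left this.inv_left).symm)) n
    obtain ⟨n1, n2, n3⟩ := (by decide : ∀ j : Fin 4, j ≠ j + 1 ∧ j ≠ j + 2 ∧ j + 1 ≠ j + 2) j
    exact n3 (h.idx (A _ n1) (A _ n2))
  · have := c.conj (u * v * u)
    rwa [es, show u * v * u * v * (u * v * u)⁻¹ = u by rw [mul_inv_eq_iff_eq_mul]; nth_rewrite 2 [e.br]; group] at this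
theorem com (kx : R a i x) (kv : R b j v) (n : ¬ Commute x v) :
    ∃ k, R c k ⁅v, x⁆ ∧ Commute ⁅v, x⁆ x ∧ Commute ⁅v, x⁆ v := by
  obtain ⟨u, e⟩ := h.op kv ab.symm
  obtain ⟨κ, f⟩ := h.trw ab.symm bc ac e
  obtain ⟨c1, c2⟩ := h.wy ab ac bc e kx (f i x kx) rfl
  replace c2 := c2 ((h.one kx ab e).resolve_left fun k => n k.1).1
  have m := h.tri kv kx (f i x kx) bc ac c2 c1
  exact ⟨_, h.zr (f i x kx) m fun e => n (commutatorElement_eq_one_iff_commute.1 e).symm, (zpc c1.symm m).symm,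
    (zpc c2.symm m).symm⟩
theorem md (kx : R a i x) (ky : R a i y) (br : x * y⁻¹ * x = y⁻¹ * x * y⁻¹) (kp : R b j p) (n : ¬ Commute p x)
    (c : Commute y p) : ⁅y, ⁅x, p⁆⁆ = p := by
  obtain ⟨k, r, c1, c2⟩ := h.com ab.symm bc ac kp kx n
  refine modl br c c2.symm c1.symm (h.tri ky r kp ab bc.symm c.symm c1.symm) fun v m e => by_contra fun k => n ?_
  exact (zpc e (h.cz (h.zr kp m k) kp (zpc (Commute.refl p) m).symm)).symm
theorem md2 (kx : R a i x) (ky : R a i y) (br : x * y⁻¹ * x = y⁻¹ * x * y⁻¹) (kp : R b j p) (n : ¬ Commute p x)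
    (c : Commute y p) : ⁅⁅p, x⁆, y⁆ = p := by
  obtain ⟨k, r, c1, c2⟩ := h.com ab.symm bc ac kp kx n
  rw [← commutatorElement_inv x p, show ∀ b : G, ⁅b⁻¹, y⁆ = b⁻¹ * ⁅y, b⁆ * b⁻¹⁻¹ from fun b => by
    simp only [commutatorElement_def]; group, h.md ab ac bc kx ky br kp n c, cjx c1.inv_left]

theorem lat : ∃ κ : Fin 4 → Perm (Fin 4), (∀ i j, Sb R P a i → Sb R P b j → Sb R P c (κ i j)) ∧
    ∀ j, Function.Injective fun i => κ i j := by
  choose u k using h.ex a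
  choose v e using fun i => h.op (k i) ab
  choose κ f using fun i => h.trw ab ac bc (e i)
  refine ⟨κ, fun i j s1 s2 => ?_, fun j i i' m => by_contra fun n => ?_⟩ <;> obtain ⟨x, kx⟩ := h.ex b j
  · obtain ⟨y, p⟩ := h.op kx bc
    have m := mul_mem (mul_mem (s1 _ (k i)) (s1 _ (e i).ry)) (s1 _ (k i))
    exact h.four (f i j x kx) (f i j y p.ry) (fun c => h.nc p (by simpa [mul_assoc] using c.conj (u i * v i * u i)⁻¹))
      (mul_mem (mul_mem m (s2 x kx)) (inv_mem m)) (mul_mem (mul_mem m (s2 y p.ry)) (inv_mem m))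
  have r := f i j x kx
  have r' := f i' j x kx
  rw [← show κ i j = κ i' j from m] at r'
  have c1 := h.wy ab.symm bc ac (e i) kx r rfl
  have m := h.cz r r' (h.nb kx bc r r' c1.1.symm (h.wy ab.symm bc ac (e i') kx r' rfl).1.symm)
  have A : ∀ p, R a i p → Commute (u i * v i * u i * x * (u i * v i * u i)⁻¹) p → Commute x p := fun p kp c => by
    have := ((h.cm kp (k i') n).mul_right (h.cm kp (e i').ry n)).mul_right (h.cm kp (k i') n)
    simpa [mul_assoc] using ((this.inv_right.mul_right (zpc c.symm m)).mul_right this).symm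
  rcases h.one kx ab.symm (e i) with ⟨c, n⟩ | ⟨c, n⟩
  · exact n (A _ (e i).ry ((h.wy ab.symm bc ac (e i).symm kx r (by rw [(e i).br])).2 c))
  · exact n (A _ (k i) (c1.2 c))
theorem genA (s1 : ∀ l, l ≠ i → Sb R P a l) (s2 : Sb R P b j) : ∃ k, ∀ l, l ≠ k → Sb R P c l := by
  obtain ⟨κ, f, inj⟩ := h.lat ab ac bc (P := P)
  refine ⟨κ i j, fun l n => ?_⟩
  obtain ⟨m, rfl⟩ := Finite.injective_iff_surjective.1 (inj j) l
  exact f m j (s1 m fun e => n (e ▸ rfl)) s2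
theorem genB (s1 : ∀ l, l ≠ i → Sb R P a l) (s2 : ∀ l, l ≠ j → Sb R P b l) (k : Fin 4) : Sb R P c k := by
  obtain ⟨κ, f, inj⟩ := h.lat ab ac bc (P := P)
  obtain ⟨n1, n2, n3⟩ := (by decide : ∀ j : Fin 4, j + 1 ≠ j ∧ j + 2 ≠ j ∧ j + 1 ≠ j + 2) i
  have A : ∀ m, m ≠ i → κ m j ≠ k → Sb R P c k := fun m n e =>
    (κ m).apply_symm_apply k ▸ f m _ (s1 m n) (s2 _ fun s => e (by rw [← s, Equiv.apply_symm_apply]))
  by_cases e : κ (i + 1) j = k
  exacts [A _ n2 fun e' => n3 (inj j (e.trans e'.symm)), A _ n1 e]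

theorem edge (i j : Fin 4) : ∃ η : SL(3, ZMod 3) →* G, Function.Injective η ∧ η.range = Kr R a i ⊔ Kr R b j ∧
    (η.comp H11.Rec.ea).range = Kr R a i := by
  obtain ⟨x, kx⟩ := h.ex b j
  obtain ⟨y, f⟩ := h.op kx bc
  obtain ⟨u, v, e, xu, xv⟩ : ∃ u v, Pp t R a b i u v ∧ Commute x u ∧ ¬ Commute x v := by
    obtain ⟨u, k⟩ := h.ex a i
    obtain ⟨v, e⟩ := h.op k ab
    exact (h.one kx ab.symm e).elim (fun k => ⟨u, v, e, k⟩) fun k => ⟨v, u, e.symm, k⟩
  have uy : ¬ Commute u⁻¹ y⁻¹ := fun c => ((h.one e.rx ab f).resolve_right fun k => k.2 xu.symm).2 (Commute.inv_inv_iff.1 c)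
  have vy := ((h.one e.ry ab f).resolve_left fun k => xv k.1.symm).1
  have ku := h.inv e.rx
  have ky := h.inv f.ry
  obtain ⟨k1, r1, c1, c2⟩ := h.com ab.symm bc ac kx e.ry xv
  obtain ⟨k2, r2, c3, c4⟩ := h.com ab ac bc ku ky uy
  let g : Fin 3 → Fin 3 → G := ![![1, v, ⁅v, x⁆], ![u⁻¹, 1, x], ![⁅y⁻¹, u⁻¹⁆, y⁻¹, 1]]
  have p3 : ∀ a b, g a b * g a b * g a b = 1 := fun a b => by
    fin_cases a <;> fin_cases b
    exacts [by simp [g], h.x3 e.ry, h.x3 r1, h.x3 ku, by simp [g], h.x3 kx, h.x3 r2, h.x3 ky, by simp [g]]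
  have b1 : ∀ {x y : G}, x * y * x = y * x * y → x * y⁻¹⁻¹ * x = y⁻¹⁻¹ * x * y⁻¹⁻¹ := fun e => by rwa [inv_inv]
  have b2 : ∀ {x y : G}, x * y * x = y * x * y → x⁻¹ * y⁻¹ * x⁻¹ = y⁻¹ * x⁻¹ * y⁻¹ := fun e => by
    simpa [mul_assoc] using congrArg Inv.inv e
  have ch : ∀ a b c, a ≠ b → a ≠ c → b ≠ c → ⁅g a b, g b c⁆ = g a c := fun a' b' c' k1 k2 k3 => by
    fin_cases a' <;> fin_cases b' <;> fin_cases c' <;> simp at k1 k2 k3
    exacts [rfl, h.md2 ab.symm bc ac kx ky (b1 f.br) e.ry (fun c => xv c.symm) vy.symm.inv_left,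
      h.md ab ac bc e.ry ku (b1 e.br.symm) kx xv xu.symm.inv_left,
      h.md ab.symm bc ac ky kx (b2 f.br.symm) ku uy xu.inv_right,
      h.md2 ab ac bc ku e.ry (b2 e.br) ky (fun c => uy c.symm) vy.inv_right, rfl]
  have cm : ∀ a b c d, a ≠ b → c ≠ d → a ≠ d → b ≠ c → Commute (g a b) (g c d) := fun a' b' c' d' k1 k2 k3 k4 => by
    fin_cases a' <;> fin_cases b' <;> fin_cases c' <;> fin_cases d' <;> simp at k1 k2 k3 k4 <;>
      first | exact Commute.refl _ | exact c1 | exact c1.symm | exact c2 | exact c2.symm | exact c3 | exact c3.symm |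
        exact c4 | exact c4.symm | exact xu.inv_right | exact xu.inv_right.symm | exact vy.inv_right | exact vy.inv_right.symm
  obtain ⟨η, hη⟩ := H11.PSL.exists_hom_sl' (ι := Fin 3) (K := ZMod 3) (by simp) (fun a b s => g a b ^ s.val)
    (fun a b s t => by rw [← pow_add]; exact pw3 (p3 a b) (by rw [ZMod.val_add, Nat.mod_mod]))
    (fun k1 k2 k3 k4 s t => (cm _ _ _ _ k1 k2 k3 k4).pow_pow _ _) fun {a b c} k1 k2 k3 s t => by
      rw [cp (ch _ _ _ k1 k2 k3 ▸ cm _ _ _ _ k2 k1 k1 k2.symm) (ch _ _ _ k1 k2 k3 ▸ cm _ _ _ _ k2 k3 k2 k3.symm), ch _ _ _ k1 k2 k3]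
      exact pw3 (p3 a c) (by rw [ZMod.val_mul, Nat.mod_mod, mul_comm])
  have g1 : ∀ a b (k : a ≠ b), η (Matrix.SpecialLinearGroup.transvection k 1) = g a b := fun a b k =>
    (hη a b k 1).trans (pow_one _)
  have := H11.psl_simple (ι := Fin 3) (F := ZMod 3) (by simp)
  have c1 : center SL(3, ZMod 3) = ⊥ := eq_bot_of_card_eq _ (H11.card_center_sl.trans (by simp))
  refine ⟨η, (MonoidHom.ker_eq_bot_iff _).1 (eq_bot_iff.2 (c1 ▸ (quasi (H11.sl_commutator_eq_top (by simp)) η.ker).resolve_right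
    fun k => xv ?_)), le_antisymm ?_ (sup_le (Kle.2 fun r => e.mem (inv_mem_iff.1 ⟨_, g1 1 0 (by decide)⟩) ⟨_, g1 0 1 (by decide)⟩)
      (Kle.2 fun r => f.mem ⟨_, g1 1 2 (by decide)⟩ (inv_mem_iff.1 ⟨_, g1 2 1 (by decide)⟩))), le_antisymm ?_
    (Kle.2 fun r => e.mem (inv_mem_iff.1 ⟨_, (congrArg η (H11.Rec.ea_y 1)).trans (g1 1 0 (by decide))⟩)
      ⟨_, (congrArg η (H11.Rec.ea_x 1)).trans (g1 0 1 (by decide))⟩)⟩
  · rw [show v = 1 from (g1 0 1 (by decide)).symm.trans (k ▸ mem_top _ : _ ∈ η.ker)]; exact Commute.one_right x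
  · rw [MonoidHom.range_eq_map, map_le_iff_le_comap, top_le_iff]
    refine H11.sl_subgroup_eq_top _ fun a' b' k c => ?_
    rw [mem_comap, hη]
    have y1 : v ∈ Kr R a i ⊔ Kr R b j := mem_sup_left (Km e.ry)
    have y2 : u⁻¹ ∈ Kr R a i ⊔ Kr R b j := mem_sup_left (Km ku)
    have z1 : x ∈ Kr R a i ⊔ Kr R b j := mem_sup_right (Km kx)
    have z2 : y⁻¹ ∈ Kr R a i ⊔ Kr R b j := mem_sup_right (Km ky)
    refine pow_mem ?_ _
    fin_cases a' <;> fin_cases b'
    exacts [one_mem _, y1, mul_mem (mul_mem (mul_mem y1 z1) (inv_mem y1)) (inv_mem z1), y2, one_mem _, z1,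
      mul_mem (mul_mem (mul_mem z2 y2) (inv_mem z2)) (inv_mem y2), z2, one_mem _]
  · rw [MonoidHom.range_eq_map, map_le_iff_le_comap, top_le_iff]
    refine H11.sl_subgroup_eq_top _ fun a' b' k c => mem_comap.2 ?_
    have m1 : η (H11.Rec.ea (H13.SL2.x c)) ∈ Kr R a i :=
      ((congrArg η (H11.Rec.ea_x c)).trans (hη 0 1 (by decide) c)).symm ▸ pow_mem (Km e.ry) _
    have m2 : η (H11.Rec.ea (H13.SL2.y c)) ∈ Kr R a i :=
      ((congrArg η (H11.Rec.ea_y c)).trans (hη 1 0 (by decide) c)).symm ▸ pow_mem (Km ku) _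
    fin_cases a' <;> fin_cases b'
    · exact (k rfl).elim
    · convert m1 using 1; refine congrArg (η.comp H11.Rec.ea) ?_; ext i j
      fin_cases i <;> fin_cases j <;> simp [Matrix.SpecialLinearGroup.transvection_coe, H13.SL2.x]
    · convert m2 using 1; refine congrArg (η.comp H11.Rec.ea) ?_; ext i j
      fin_cases i <;> fin_cases j <;> simp [Matrix.SpecialLinearGroup.transvection_coe, H13.SL2.y]
    · exact (k rfl).elim

omit ab ac bc

theorem iso0 [Finite G] (hZ : center G = ⊥) (hg : ∀ P : Subgroup G, (∀ a i, Sb R P a i) → P = ⊤) :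
    Nonempty (G ≃* Cfsg.POmega (ZMod 3) (Cfsg.quadFormPlus 4 (ZMod 3))) := by
  let A : Fin 4 → Fin 3 := ![0, 1, 0, 0]
  have E : ∀ i, Nonempty (SL(2, ZMod 3) ≃* Kr R (A i) i) := fun i => by
    obtain ⟨η, k1, -, k2⟩ := h.edge (a := A i) (b := A i + 1) (c := A i + 2) (by revert i; decide) (by revert i; decide)
      (by revert i; decide) i i
    exact ⟨(MonoidHom.ofInjective (f := η.comp H11.Rec.ea) (k1.comp fun a b e => by
      ext i j; fin_cases i <;> fin_cases j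
      exacts [congrFun (congrFun (congrArg Subtype.val e) 0) 0, congrFun (congrFun (congrArg Subtype.val e) 0) 1,
        congrFun (congrFun (congrArg Subtype.val e) 1) 0, congrFun (congrFun (congrArg Subtype.val e) 1) 1])).trans
      (MulEquiv.subgroupCongr k2)⟩
  have tc : ∀ a i, t a ∈ centralizer (Kr R a i : Set G) := fun a i =>
    le_centralizer_iff.1 (Kle.2 fun x k => mem_centralizer_iff.2 fun y m => (zpc (h.ct k).symm m).symm) (mem_zpowers _)
  have c01 : Commute (t 0) (t 1) := by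
    have e := h.tt 2
    rw [← h.tm (a := 0) (b := 1) (by decide) (by decide) (by decide)] at e
    rw [Commute, SemiconjBy, eq_inv_of_mul_eq_one_left e, _root_.mul_inv_rev, inv_eq_of_mul_eq_one_left (h.tt 0),
      inv_eq_of_mul_eq_one_left (h.tt 1)]
  have : Nontrivial G := ⟨_, _, h.t1 0⟩
  refine P8R.typeD 4 le_rfl hZ (ZMod 3) (by simp [Nat.odd_iff]) (fun i => Kr R (A i) i) (fun i => (E i).some)
    (hg _ ?_) (fun i => t (A i)) (fun i => ⟨h.tK _ _, tc _ _, h.t1 _, h.tt _⟩) _ (fun _ _ => Iff.rfl)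
    (fun i j n k => ?_) (fun i j n k x hx y hy => ?_) (fun i j => ?_) _ rfl fun i => ?_
  · have s : ∀ i, Sb R (⨆ i, Kr R (A i) i) (A i) i := fun i => Kle.1 (le_iSup (fun i => Kr R (A i) i) i)
    have s0 : ∀ l, l ≠ 1 → Sb R (⨆ i, Kr R (A i) i) 0 l := fun l n => by
      fin_cases l
      exacts [s 0, (n rfl).elim, s 2, s 3]
    obtain ⟨k, s2⟩ := h.genA (c := 2) (by decide) (by decide) (by decide) s0 (s 1)
    have s1 := h.genB (c := 1) (by decide) (by decide) (by decide) s0 s2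
    have s0 := h.genB (c := 0) (by decide) (by decide) (by decide) s2 fun l (_ : l ≠ 0) => s1 l
    intro a
    fin_cases a
    exacts [s0, s1, h.genB (by decide) (by decide) (by decide) (fun l (_ : l ≠ 0) => s0 l) fun l (_ : l ≠ 0) => s1 l]
  · obtain ⟨η, k1, k2, -⟩ := h.edge (a := A i) (b := A j) (c := 2) (by revert i j; decide) (by revert i j; decide)
      (by revert i j; decide) i j
    exact .inl ⟨((MonoidHom.ofInjective k1).trans (MulEquiv.subgroupCongr k2)).symm⟩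
  · have e : A j = A i := by clear hx hy; revert i j; decide
    refine (mem_centralizer_iff.1 ((Kle (P := centralizer (Kr R (A i) i : Set G))).2 (fun y ky => ?_) hy) x hx)
    exact le_centralizer_iff.1 (Kle.2 fun x k => mem_centralizer_iff.2 fun p m =>
      (zpc (h.cm k (e ▸ ky) n) m).symm) (mem_zpowers _)
  · fin_cases i <;> fin_cases j <;> first | rfl | exact c01 | exact c01.symm
  · obtain ⟨l, c, e⟩ : ∃ l, Commute (t (A i)) (t (A l)) ∧ ∀ j, A j = A i ∨ A j = A l := by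
      fin_cases i
      exacts [⟨1, c01, by decide⟩, ⟨0, c01.symm, by decide⟩, ⟨1, c01, by decide⟩, ⟨1, c01, by decide⟩]
    have B : ∀ x ∈ closure (Set.range fun i => t (A i)), x ∈ zpowers (t (A i)) ∨ x * t (A l) ∈ zpowers (t (A i)) := by
      intro x hx
      induction hx using closure_induction with
      | mem x m => obtain ⟨j, rfl⟩ := m; exact (e j).imp (fun e => by simp [e]) fun e => by simp [e, h.tt]
      | one => exact .inl (one_mem _)
      | mul x y _ _ k1 k2 =>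
        rcases k1 with k1 | k1 <;> rcases k2 with k2 | k2
        · exact .inl (mul_mem k1 k2)
        · exact .inr (mul_assoc x y _ ▸ mul_mem k1 k2)
        · exact .inr (by rw [mul_assoc, ← (zpc c.symm k2).eq, ← mul_assoc]; exact mul_mem k1 k2)
        · exact .inl (by
            have := mul_mem k1 k2
            rwa [mul_assoc, (zpc c.symm k2).eq, mul_assoc y, h.tt, mul_one] at this)
      | inv x _ k =>
        refine k.imp inv_mem fun k => ?_
        have := (zpc c.symm k).mul_right (Commute.refl _).inv_right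
        rw [mul_inv_cancel_right] at this
        convert inv_mem k using 1
        rw [_root_.mul_inv_rev, inv_eq_of_mul_eq_one_left (h.tt _), this.inv_right.eq]
    refine Nat.le_of_dvd two_pos (index_dvd_two_iff.2 ⟨⟨_, subset_closure ⟨l, rfl⟩⟩, fun x => (B x x.2).symm.imp
      (fun k => ⟨(mul_mem x.2 (subset_closure ⟨l, rfl⟩) :), zpowers_le.2 (tc _ _) k⟩) fun k => ⟨x.2, zpowers_le.2 (tc _ _) k⟩⟩)

theorem sub (hP : ∀ a i, Sb R P a i) :
    D4 (fun a => (⟨t a, Kle.2 (hP a 0) (h.tK a 0)⟩ : P)) fun a i x => R a i x.1 := by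
  refine ⟨fun a => Subtype.ext (h.tt a), fun a e => h.t1 a (congrArg Subtype.val e), fun a b c => Subtype.ext (h.tm a b c),
    fun k => Subtype.ext (h.x3 k), h.inv, h.idx, fun k => Subtype.ext (h.ct k), fun k n => Subtype.ext (h.iv k n),
    fun k n => ?_, fun k l n => Subtype.ext (h.cm k l n), fun a b c d => ?_, fun a i => ?_, fun k n j => ?_,
    fun k1 k2 k3 a b c d => ?_⟩
  · obtain ⟨y, e⟩ := h.op k n
    exact ⟨⟨y, hP _ _ y e.ry⟩, k, e.ry, Subtype.ext e.br, Subtype.ext e.sq, Subtype.ext e.cj, fun r l =>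
      (e.un r l).imp Subtype.ext (Or.imp Subtype.ext (Or.imp Subtype.ext Subtype.ext))⟩
  · obtain ⟨κ, f⟩ := h.tr a b (congrArg Subtype.val c) (congrArg Subtype.val d)
    exact ⟨κ, fun j x => f j x⟩
  · obtain ⟨x, k⟩ := h.ex a i
    exact ⟨⟨x, hP a i x k⟩, k⟩
  · obtain ⟨u, l, c⟩ := h.co k n j
    exact ⟨⟨u, hP _ _ u l⟩, l, Subtype.ext c⟩
  · obtain ⟨n, e⟩ := h.tri k1 k2 k3 a b (congrArg Subtype.val c) (congrArg Subtype.val d)
    exact ⟨n, Subtype.ext e⟩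

theorem iso [Finite G] (hZ : ∀ x ∈ P, x ∈ centralizer (P : Set G) → x = 1) (hP : ∀ a i, Sb R P a i)
    (hg : ∀ A : Subgroup G, (∀ a i, Sb R A a i) → P ≤ A) :
    Nonempty (P ≃* Cfsg.POmega (ZMod 3) (Cfsg.quadFormPlus 4 (ZMod 3))) :=
  (h.sub hP).iso0 ((eq_bot_iff_forall _).2 fun x m => Subtype.ext (hZ x x.2 fun y hy =>
    congrArg Subtype.val (mem_center_iff.1 m ⟨y, hy⟩))) fun A k => top_le_iff.1 fun x _ => by
    obtain ⟨y, m, e⟩ := hg (A.map P.subtype) (fun a i x l => ⟨⟨x, hP a i x l⟩, k a i _ l, rfl⟩) x.2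
    exact Subtype.ext e ▸ m

end D4

end H14.P8
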