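import Cfsg.Agent.H8.LieSm2
import Cfsg.Agent.H13.SL2Syl
import Cfsg.Prelude.Def_LocalEven

/-!
Groups in which a Sylow subgroup lies in a unique maximal subgroup: the action on the parabolic subgroups of a normal
subgroup with a split BN-pair.
-/

namespace H14

open H8 H28 Cfsg Subgroup

set_option linter.unusedSectionVars false

section PM

variable {K K' : Type*} [Group K] [Group K'] {p : ℕ} {c t : Prop}

/-- invariance under a group of automorphisms -/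
def AInv (A : Subgroup (MulAut K)) (L : Subgroup K) : Prop := ∀ α ∈ A, ∀ x ∈ L, α x ∈ L

theorem AInv.iff {A : Subgroup (MulAut K)} {L : Subgroup K} (h : AInv A L) {α : MulAut K} (hα : α ∈ A) (x : K) :
    α x ∈ L ↔ x ∈ L := ⟨fun a => by simpa using h _ (inv_mem hα) _ a, h α hα x⟩

/-- the trace of `p`-minimality on a normal subgroup -/
def PM (p : ℕ) (U : Subgroup K) (c t : Prop) : Prop := U.Normal ∨
  ∃ (A : Subgroup (MulAut K)) (Q : Subgroup K), IsPGroup p A ∧ AInv A U ∧ Q ≠ ⊤ ∧ normalizer (U : Set K) ≤ Q ∧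
    AInv A Q ∧ (∀ L, U ≤ L → L ≠ ⊤ → AInv A L → L ≤ Q) ∧ (Q ≤ normalizer (U : Set K) → c) ∧
    (t → ∀ α ∈ A, ∃ u ∈ U, ∀ x, α x = u * x * u⁻¹)

theorem pm_of_min {X : Type*} [Group X] [Finite X] [Fact p.Prime] (hX : IsPMinimal p X) (K : Subgroup X) [hK : K.Normal]
    (U : Sylow p K) : PM p (U : Subgroup K)
      (IsCoatom (normalizer (((U : Subgroup K).map K.subtype : Subgroup X) : Set X))) (K = ⊤) := by
  obtain ⟨T, hT⟩ := (U.isPGroup'.map K.subtype).exists_le_sylow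
  have h1 : ∀ x : K, (x : X) ∈ (T : Subgroup X) ↔ x ∈ (U : Subgroup K) := fun x => by
    rw [← U.is_maximal' (T.isPGroup'.comap_subtype (K := K)) (map_le_iff_le_comap.1 hT)]; rfl
  obtain ⟨M, ⟨hM, hTM⟩, hu⟩ := (hX T).2
  have h2 : ∀ L, (T : Subgroup X) ≤ L → L ≠ ⊤ → L ≤ M := fun L a b => by
    obtain ⟨M', c, d⟩ := (eq_top_or_exists_le_coatom L).resolve_left b
    exact hu M' ⟨c, a.trans d⟩ ▸ d
  have h3 : ∀ (L : Subgroup K) g, (∀ x ∈ L, MulAut.conjNormal g x ∈ L) →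
      g ∈ normalizer ((L.map K.subtype : Subgroup X) : Set X) := fun L g a => by
    rw [← inv_mem_iff]
    refine Cin.mem_normalizer ?_
    rintro _ ⟨x, hx, rfl⟩
    exact ⟨_, a x hx, by simp⟩
  have h4 : AInv ((T : Subgroup X).map MulAut.conjNormal) (U : Subgroup K) := by
    rintro _ ⟨g, hg, rfl⟩ x hx
    rw [← h1] at hx ⊢
    simpa using mul_mem (mul_mem hg hx) (inv_mem hg)
  refine or_iff_not_imp_left.2 fun hn => ?_
  have h5 := h2 _ (fun g hg => h3 U g (h4 _ ⟨g, hg, rfl⟩)) fun e => hn ⟨fun x hx g => by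
    obtain ⟨y, hy, e1⟩ := (mem_normalizer_iff.1 (e.ge (mem_top g.1)) _).1 (mem_map_of_mem K.subtype hx)
    rwa [show g * x * g⁻¹ = y from Subtype.ext e1.symm]⟩
  refine ⟨_, M.subgroupOf K, T.isPGroup'.map _, h4, fun e => hM.1 ?_, fun x hx => h5 (le_normalizer_map _ ⟨x, hx, rfl⟩),
    ?_, fun L a b d x hx => ?_, fun a => ?_, ?_⟩
  · rw [eq_top_iff, ← U.normalizer_sup_eq_top]
    exact sup_le h5 (subgroupOf_eq_top.1 e)
  · rintro _ ⟨g, hg, rfl⟩ x hx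
    simpa [mem_subgroupOf] using mul_mem (mul_mem (hTM hg) hx) (inv_mem (hTM hg))
  · refine h2 (L.map K.subtype ⊔ T) le_sup_right (fun e => b (eq_top_iff.2 fun k _ => ?_))
      (mem_sup_left (mem_map_of_mem _ hx))
    obtain ⟨_, ⟨l, hl, rfl⟩, g, hg, e1⟩ := (mem_sup_of_le_normalizer' fun g hg => h3 L g (d _ ⟨g, hg, rfl⟩)).1
      (e.ge (mem_top k.1))
    have := a ((h1 (l⁻¹ * k)).1 (by simpa [← e1] using hg))
    simpa using mul_mem hl this
  · rw [le_antisymm h5 fun g hg => h3 U g fun x hx => ?_]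
    · exact hM
    have := (U.isPGroup'.map (MulAut.conjNormal g).toMonoidHom).inf_normalizer_sylow U
    refine (this.le ⟨mem_map_of_mem _ hx, a ?_⟩).2
    simpa [mem_subgroupOf] using mul_mem (mul_mem hg (hTM ((h1 x).2 hx))) (inv_mem hg)
  · rintro rfl _ ⟨g, hg, rfl⟩
    exact ⟨⟨g, trivial⟩, (h1 _).1 hg, fun x => Subtype.ext (by simp)⟩

theorem PM.equiv {U : Subgroup K} {U' : Subgroup K'} (h : PM p U c t) (e : K ≃* K') (hU : ∀ x, e x ∈ U' ↔ x ∈ U) :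
    PM p U' c t := by
  have hU' : ∀ x, x ∈ U' ↔ e.symm x ∈ U := fun x => by rw [← hU, e.apply_symm_apply]
  have hN : ∀ x, x ∈ normalizer (U' : Set K') ↔ e.symm x ∈ normalizer (U : Set K) := fun x => by
    simp only [mem_normalizer_iff, hU', map_mul, map_inv]
    exact ⟨fun a y => by simpa using a (e y), fun a y => a _⟩
  refine h.imp (fun a => ⟨fun x hx g => by simpa [hU'] using a.1 _ ((hU' x).1 hx) (e.symm g)⟩) ?_
  rintro ⟨A, Q, h1, h2, h3, h4, h5, h6, h7, h8⟩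
  refine ⟨A.map (MulAut.congr e).toMonoidHom, Q.comap e.symm.toMonoidHom, h1.map _, ?_,
    fun a => h3 (eq_top_iff.2 fun x _ => by simpa using a.ge (mem_top (e x))), fun x hx => h4 ((hN x).1 hx), ?_,
    fun L a b d x hx => h6 (L.comap e.toMonoidHom) (fun y hy => a ((hU y).2 hy)) (fun f => b (eq_top_iff.2 fun y _ => by
      simpa using f.ge (mem_top (e.symm y)))) (fun α hα y hy => by simpa using d _ ⟨α, hα, rfl⟩ _ hy) (by simpa using hx),
    fun a => h7 fun x hx => by simpa using (hN (e x)).1 (a (by simpa using hx)), ?_⟩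
  · rintro _ ⟨α, hα, rfl⟩ x hx
    simpa [hU] using h2 α hα _ ((hU' x).1 hx)
  · rintro _ ⟨α, hα, rfl⟩ x hx
    simpa using h5 α hα _ hx
  · rintro a _ ⟨α, hα, rfl⟩
    obtain ⟨u, hu, e1⟩ := h8 a α hα
    exact ⟨e u, (hU u).2 hu, fun x => by simp [e1]⟩

/-- an automorphism of `U` carries `V` onto `W` -/
def Swap (U V W : Subgroup K) : Prop := ∃ β : U ≃* U, ∀ u : U, (β u).1 ∈ W ↔ u.1 ∈ V

theorem Swap.of_aut {U V W : Subgroup K} (α : MulAut K) (h : ∀ x, α x ∈ U ↔ x ∈ U) (h' : ∀ x ∈ U, α x ∈ W ↔ x ∈ V) :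
    Swap U V W :=
  ⟨{ toFun u := ⟨α u, (h _).2 u.2⟩
     invFun u := ⟨α.symm u, (h _).1 (by simp)⟩
     left_inv u := by simp
     right_inv u := by simp
     map_mul' u v := by simp }, fun u => h' _ u.2⟩

theorem Swap.symm {U V W : Subgroup K} (h : Swap U V W) : Swap U W V := by
  obtain ⟨β, h⟩ := h
  exact ⟨β.symm, fun u => by rw [← h, β.apply_symm_apply]⟩

theorem Swap.of_map {U V W : Subgroup K} {U' V' W' : Subgroup K'} (h : Swap U' V' W') (e : U ≃* U')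
    (hV : ∀ u, (e u).1 ∈ V' ↔ u.1 ∈ V) (hW : ∀ u, (e u).1 ∈ W' ↔ u.1 ∈ W) : Swap U V W := by
  obtain ⟨β, h⟩ := h
  exact ⟨(e.trans β).trans e.symm, fun u => by simp [← hW, ← hV, h]⟩

theorem Swap.card {U V W : Subgroup K} (h : Swap U V W) (hV : V ≤ U) (hW : W ≤ U) : Nat.card V = Nat.card W := by
  obtain ⟨β, h⟩ := h
  rw [← Nat.card_congr (subgroupOfEquivOfLe hV).toEquiv, ← Nat.card_congr (subgroupOfEquivOfLe hW).toEquiv]
  exact Nat.card_congr (β.toEquiv.subtypeEquiv fun u => (h u).symm)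

theorem Swap.ex {U V W : Subgroup K} (h : Swap U V W) (hV : ∀ u ∈ U, u * u ∈ V) : ∀ u ∈ U, u * u ∈ W := by
  obtain ⟨β, h⟩ := h
  intro u hu
  simpa using (h (β.symm ⟨u, hu⟩ * β.symm ⟨u, hu⟩)).2 (hV _ (β.symm ⟨u, hu⟩).2)

theorem Swap.sq {U V W : Subgroup K} (h : Swap U V W) (hV : ∀ v ∈ V, ∀ u ∈ U, Commute (v * v) u) (hW : W ≤ U) :
    ∀ v ∈ W, ∀ u ∈ U, Commute (v * v) u := by
  obtain ⟨β, h⟩ := h
  intro v hv u hu
  have := hV _ ((h (β.symm ⟨v, hW hv⟩)).1 (by simpa using hv)) _ (β.symm ⟨u, hu⟩).2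
  have h1 : Commute (β.symm ⟨v, hW hv⟩ * β.symm ⟨v, hW hv⟩) (β.symm ⟨u, hu⟩) := Subtype.ext this
  simpa using (h1.map β).map U.subtype

end PM

section SB

open SB

variable {p : ℕ} {G : Type*} [Group G] [Finite G] {κ : Type*} {S : SB p G κ} {i j k l : κ} {c t : Prop}
  {α β : MulAut G}

variable (S) in
/-- the minimal parabolic subgroups -/
def Pm (i : κ) : Subgroup G := normalizer (S.V i : Set G)

theorem B_le_Pm : S.B ≤ Pm S i := fun _ hb => (B_cin_V hb).mem_normalizer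

theorem V_eq (h : S.X i = S.X j) : S.V i = S.V j := le_antisymm (V_le_V h.symm) (V_le_V h)

theorem s_mem_Pm : S.s j ∈ Pm S i ↔ S.X j = S.X i :=
  ⟨fun h => (X_le_V_or i j).resolve_left fun a => not_pos_s j ((cin_of_normalizer h).mono a V_le),
    fun h => by rw [Pm, ← V_eq h]; exact s_cin_V.mem_normalizer⟩

theorem Pm_le {M : Subgroup G} (hM : S.B ≤ M) (h : S.s i ∈ M) : Pm S i ≤ M :=
  le_of_s B_le_Pm hM fun _ a => by
    simpa using mul_mem (hM (H_le_B (s_mul_s_mem (s_mem_Pm.1 a)))) (inv_mem h)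

theorem s_not_mem_B (i : κ) : S.s i ∉ S.B := fun h => s_not_mem i (mem_H_of_B (S.s_mem i) h)

variable (S) in
/-- the automorphism moves the `i`-th minimal parabolic subgroup to the `j`-th one -/
def Mv (α : MulAut G) (i j : κ) : Prop := ∀ x, α x ∈ Pm S j ↔ x ∈ Pm S i

theorem Mv.inv (h : Mv S α i j) : Mv S α⁻¹ j i := fun x => by rw [← h]; simp

theorem Mv.mul (h : Mv S α j k) (h' : Mv S β i j) : Mv S (α * β) i k := fun x => by rw [← h', ← h]; rfl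

theorem mv_one : Mv S 1 i j ↔ S.X i = S.X j :=
  ⟨fun h => s_mem_Pm.1 ((h _).2 (s_mem_Pm.2 rfl)), fun h x => by rw [Pm, Pm, V_eq h]; rfl⟩

theorem Mv.eq_iff (h : Mv S α i j) (h' : Mv S α k l) : S.X i = S.X k ↔ S.X j = S.X l :=
  ⟨fun a => mv_one.1 (by simpa using (h'.mul (mv_one.2 a)).mul h.inv),
    fun a => mv_one.1 (by simpa [mul_assoc] using (h'.inv.mul (mv_one.2 a)).mul h)⟩

theorem aut_B (h : ∀ x, α x ∈ S.U ↔ x ∈ S.U) (x : G) : α x ∈ S.B ↔ x ∈ S.B := by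
  simp only [← normalizer_U, mem_normalizer_iff]
  exact ⟨fun a y => by rw [← h, a, ← h (x * y * x⁻¹)]; simp, fun a y => by
    rw [← α.apply_symm_apply y, h, a, ← h]; simp⟩

theorem exists_mv (h : ∀ x, α x ∈ S.U ↔ x ∈ S.U) (i : κ) : ∃ j, Mv S α i j := by
  have key : ∀ {α : MulAut G}, (∀ x, α x ∈ S.U ↔ x ∈ S.U) → ∀ i, ∃ j, ∀ x, α x ∈ Pm S j → x ∈ Pm S i := by
    intro α h i
    have h1 : S.B ≤ (Pm S i).comap α.symm.toMonoidHom := fun b hb => B_le_Pm ((aut_B h _).1 (by simpa using hb))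
    by_contra a
    push Not at a
    refine s_not_mem_B i ((aut_B h _).1 (le_of_s h1 le_rfl (fun j b => ?_) (by simpa using s_mem_Pm.2 rfl)))
    obtain ⟨x, h2, h3⟩ := a j
    exact absurd (by simpa using Pm_le h1 b h2) h3
  obtain ⟨j, hj⟩ := key h i
  obtain ⟨k, hk⟩ := key (α := α⁻¹) (fun x => by rw [← h]; simp) j
  have h1 := s_mem_Pm.1 (hj _ (hk _ (by simpa using s_mem_Pm.2 (rfl : S.X k = S.X k))))
  exact ⟨j, fun x => ⟨hj x, fun a => hk _ (by simpa using (mv_one.2 h1 x).1 a)⟩⟩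

theorem Mv.V (h : Mv S α i j) (hU : ∀ x, α x ∈ S.U ↔ x ∈ S.U) (x : G) : α x ∈ S.V j ↔ x ∈ S.V i := by
  have key : ∀ {α : MulAut G} {i j}, Mv S α i j → (∀ x, α x ∈ S.U ↔ x ∈ S.U) → ∀ x ∈ S.V i, α x ∈ S.V j := by
    intro α i j h hU x hx
    refine mem_V.2 ⟨(hU x).2 (V_le hx), ?_⟩
    simpa using (hU _).2 (V_le (cin_of_normalizer ((h.inv _).2 (s_mem_Pm.2 (rfl : S.X j = S.X j))) x hx))
  exact ⟨fun a => by simpa using key h.inv (fun x => by rw [← hU]; simp) _ a, key h hU x⟩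

variable (S) in
/-- adjacent nodes -/
def Adj (i j : κ) : Prop := S.X i ≠ S.X j ∧ S.Pos (S.s i * S.s j) j

theorem adj_iff : Adj S i j ↔ S.X i ≠ S.X j ∧ ¬ ∀ g ∈ Pm S i, Cin (S.V i ⊓ S.V j) (S.V i ⊓ S.V j) g := by
  refine and_congr_right fun h => ⟨fun a b => ?_, fun a => by_contra fun b => a fun g hg => ?_⟩
  · obtain ⟨y, hy, hne⟩ := S.exists_ne_one j
    have h1 := s_cin_V y ((X_le_V_or i j).resolve_right h.symm hy)
    have h2 := b _ (inv_mem (s_mem_Pm.2 rfl)) _ ⟨h1, mem_V.2 ⟨V_le h1, by simpa [mul_assoc] using a y hy⟩⟩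
    exact hne (eq_one_of_XV hy (by simpa [mul_assoc] using h2.2))
  · have h1 := (S.root _ (S.s_mem i) j j (s_cin_V.mono ((X_le_V_or i j).resolve_right h.symm) V_le)).resolve_left b
    refine cin_of_normalizer (Pm_le (fun b hb => Cin.mem_normalizer fun v hv =>
      mem_inf.2 ⟨B_cin_V hb v hv.1, B_cin_V hb v hv.2⟩) (Cin.mem_normalizer fun v hv => mem_inf.2 ⟨s_cin_V v hv.1, ?_⟩) hg)
    refine mem_V_of_not_pos (n := (S.s i)⁻¹ * S.s j) (mul_mem (inv_mem (S.s_mem i)) (S.s_mem j)) (fun d => ?_)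
      (V_le (s_cin_V v hv.1)) (by simpa [mul_assoc] using (mem_V.1 hv.2).2)
    exact not_pos_s j fun y hy => by simpa [mul_assoc] using d _ ((h1 y).1 hy)

theorem Mv.adj (h : Mv S α i j) (h' : Mv S α k l) (hU : ∀ x, α x ∈ S.U ↔ x ∈ S.U) (a : Adj S i k) : Adj S j l := by
  rw [adj_iff] at a ⊢
  refine ⟨(h.eq_iff h').not.1 a.1, fun b => a.2 fun g hg v hv => ?_⟩
  have := b _ ((h g).2 hg) _ ⟨(h.V hU v).2 hv.1, (h'.V hU v).2 hv.2⟩
  exact ⟨(h.V hU _).1 (by simpa using this.1), (h'.V hU _).1 (by simpa using this.2)⟩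

theorem U_not_normal [Nonempty κ] : ¬ S.U.Normal := fun _ =>
  s_not_mem_B (Classical.arbitrary κ) (normalizer_U (S := S) ▸ (normalizer_eq_top S.U).ge (mem_top _))

theorem PM.sb [Nonempty κ] (h : PM p S.U c t) (hR : S.Rad) : c ∧ ∃ A : Subgroup (MulAut G), IsPGroup p A ∧
    AInv A S.U ∧ (∀ i j, ∃ α ∈ A, Mv S α i j) ∧ (t → ∀ i j, S.X i = S.X j) := by
  obtain ⟨A, Q, h1, h2, h3, h4, h5, h6, h7, h8⟩ := h.resolve_left U_not_normal
  rw [normalizer_U] at h4 h7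
  obtain ⟨m, hm⟩ := exists_s_not_mem h4 h3
  have a1 : ∀ k, ∃ α ∈ A, Mv S α m k := fun k => by_contra fun a => by
    obtain ⟨R, r1, r2, r3, r4⟩ := hR k
    have b1 : S.B ≤ normalizer (R : Set G) := fun b hb => (r3 b hb).mem_normalizer
    have b2 : ∀ x, x ∈ ⨅ α : A, (normalizer (R : Set G)).comap α.1.toMonoidHom ↔
        ∀ α : A, α.1 x ∈ normalizer (R : Set G) := fun x => mem_iInf
    refine hm (h6 _ (fun u hu => (b2 u).2 fun α => b1 (U_le_B (h2 _ α.2 u hu)))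
      (fun e => not_pos_s k ((cin_of_normalizer ((b2 _).1 (e.ge (mem_top (S.s k))) 1)).mono r1 r2))
      (fun β hβ x hx => (b2 _).2 fun α => (b2 _).1 hx ⟨α * β, mul_mem α.2 hβ⟩) ((b2 _).2 fun α => ?_))
    obtain ⟨j, hj⟩ := exists_mv (h2.iff α.2) m
    exact Pm_le b1 (r4 j fun e => a ⟨α, α.2, by simpa using (mv_one.2 e).mul hj⟩).mem_normalizer
      ((hj _).2 (s_mem_Pm.2 rfl))
  have a2 : ∀ i j, ∃ α ∈ A, Mv S α i j := fun i j => by
    obtain ⟨α, a, b⟩ := a1 i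
    obtain ⟨β, d, e⟩ := a1 j
    exact ⟨_, mul_mem d (inv_mem a), e.mul b.inv⟩
  refine ⟨h7 (le_of_s h4 le_rfl fun i a => absurd ?_ hm), A, h1, h2, a2, fun a i j => ?_⟩
  · obtain ⟨α, b, d⟩ := a2 m i
    exact (h5.iff b _).1 (Pm_le h4 a ((d _).2 (s_mem_Pm.2 rfl)))
  · obtain ⟨α, b, d⟩ := a2 i j
    obtain ⟨u, hu, e⟩ := h8 a α b
    refine s_mem_Pm.1 ?_
    have := (d _).2 (s_mem_Pm.2 rfl)
    rw [e] at this
    simpa [mul_assoc] using mul_mem (mul_mem (inv_mem (B_le_Pm (U_le_B hu))) this) (B_le_Pm (U_le_B hu))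

theorem Mv.two [Fact p.Prime] {A : Subgroup (MulAut G)} (hA : IsPGroup p A) (hU : AInv A S.U) (hα : α ∈ A)
    (h : Mv S α i j) (hne : S.X i ≠ S.X j) (h2 : ∀ k, S.X k = S.X i ∨ S.X k = S.X j) : p = 2 := by
  obtain ⟨k, hk⟩ := exists_mv (hU.iff hα) j
  have h3 : Mv S α j i := by
    simpa using (mv_one.2 ((h2 k).resolve_right fun a => hne ((h.eq_iff hk).2 a.symm))).mul hk
  have h4 : ∀ n, Mv S (α ^ (2 * n + 1)) i j := fun n => by
    induction n with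
    | zero => simpa using h
    | succ n ih => rw [show 2 * (n + 1) + 1 = 2 * n + 1 + 1 + 1 by ring, pow_succ, pow_succ]; exact (ih.mul h3).mul h
  by_contra hp
  obtain ⟨m, hm⟩ := hA ⟨α, hα⟩
  obtain ⟨n, hn⟩ := ((Fact.out : p.Prime).odd_of_ne_two hp).pow (n := m)
  have := h4 n
  rw [← hn, show α ^ p ^ m = 1 from congrArg Subtype.val hm] at this
  exact hne (mv_one.1 this)

/-- the outcome for a tree -/
theorem PM.tree [Fact p.Prime] [Nonempty κ] (h : PM p S.U c t) (hR : S.Rad)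
    (h1 : ∃ k, ∀ i j, Adj S i k → Adj S j k → S.X i = S.X j)
    (h2 : ∀ P : κ → Prop, (∀ i j, S.X i = S.X j ∨ Adj S j i ∧ Adj S i j → P i → P j) → ∀ i j, P i → P j) :
    c ∧ ∀ a b, S.X a ≠ S.X b → (∀ k, S.X k = S.X a ∨ S.X k = S.X b) ∧ p = 2 ∧ ¬ t ∧ Swap S.U (S.V a) (S.V b) := by
  obtain ⟨hc, A, a1, a2, a3, a4⟩ := h.sb hR
  obtain ⟨m, hm⟩ := h1
  have b1 : ∀ k i j, Adj S i k → Adj S j k → S.X i = S.X j := fun k i j d e => by
    obtain ⟨α, hα, f⟩ := a3 k m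
    obtain ⟨i', hi⟩ := exists_mv (a2.iff hα) i
    obtain ⟨j', hj⟩ := exists_mv (a2.iff hα) j
    exact (hi.eq_iff hj).2 (hm _ _ (hi.adj f (a2.iff hα) d) (hj.adj f (a2.iff hα) e))
  have b2 : ∀ {i j k l}, Adj S i j → S.X i = S.X k → S.X j = S.X l → Adj S k l := fun d e f =>
    (mv_one.2 e).adj (mv_one.2 f) (fun _ => Iff.rfl) d
  refine ⟨hc, fun a b hab => ?_⟩
  obtain ⟨d, d1, d2⟩ : ∃ d, Adj S d a ∧ Adj S a d := by_contra fun d => hab (h2 (S.X · = S.X a) (fun i j e f =>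
    e.elim (fun e => e.symm.trans f) fun e => absurd ⟨j, b2 e.1 rfl f, b2 e.2 f rfl⟩ d) a b rfl).symm
  have b3 : ∀ k, S.X k = S.X a ∨ S.X k = S.X d := fun k => h2 (fun k => S.X k = S.X a ∨ S.X k = S.X d) (fun i j e f =>
    e.elim (fun e => e ▸ f) fun e => f.elim (fun f => .inr (b1 a _ _ (b2 e.1 rfl f) d1))
      fun f => .inl (b1 d _ _ (b2 e.1 rfl f) d2)) a k (.inl rfl)
  have b4 : ∀ k, S.X k = S.X a ∨ S.X k = S.X b := fun k => (b3 b).resolve_left hab.symm ▸ b3 k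
  obtain ⟨α, hα, f⟩ := a3 a b
  exact ⟨b4, f.two a1 a2 hα hab b4, fun e => hab (a4 e a b), .of_aut α (a2.iff hα) fun x _ => f.V (a2.iff hα) x⟩

end SB

section Sm

open SB

variable {G : Type*} [Group G] [Finite G] {κ : Type*} {S : SB 2 G κ} {K : Subgroup G} {n : ℕ} {c t : Prop}

theorem sm_norm (hS : S.Sm K n) {g : G} (h : Cin (S.U ⊓ K) (S.U ⊓ K) g) : g ∈ S.U := by
  refine hS.B_eq.le (le_of_s (fun b hb => Cin.mem_normalizer fun y hy => mem_inf.2 ⟨B_cin_U hb y hy.1, hS.cin b y hy.2⟩)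
    le_rfl (fun i a => ?_) h.mem_normalizer)
  have h1 : ∀ y ∈ S.U, y ∈ K → y ∈ S.V i := fun y a1 a2 => mem_V.2 ⟨a1, (cin_of_normalizer a y ⟨a1, a2⟩).1⟩
  obtain ⟨v, hv, hv'⟩ := SetLike.not_le_iff_exists.1 (hS.V_not_le i)
  obtain ⟨y, hy, hne⟩ := S.exists_ne_one i
  refine absurd (eq_one_of_XV hy (by_contra fun b => b ?_)) hne
  simpa using mul_mem (h1 _ (mul_mem (S.X_le i hy) (V_le hv)) (hS.mul_mem_K (fun d => b (h1 y (S.X_le i hy) d)) hv'))
    (inv_mem hv)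

theorem sm_ne (hS : S.Sm K n) (i : κ) : ∃ j, S.X j ≠ S.X i := by_contra fun a => by
  push Not at a
  refine hS.W_ne i (le_bot_iff.1 (inf_le_left.trans (D_eq_bot (S.s_mem i) fun j => ?_).le))
  rw [Pos, a j]
  exact not_pos_s i

theorem sm_two (hS : S.Sm K n) {i j : κ} (h : S.X i ≠ S.X j) (k : κ) : S.X k = S.X i ∨ S.X k = S.X j := by
  obtain ⟨a, b, h2⟩ := hS.two
  rcases h2 i with a3 | a3 <;> rcases h2 j with a4 | a4 <;> rcases h2 k with a5 | a5 <;> simp_all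

theorem sm_le (hS : S.Sm K n) {i j : κ} (h : (Pm S i).subgroupOf K ≤ (Pm S j).subgroupOf K) : S.X i = S.X j := by
  obtain ⟨k, u, hu, e⟩ := hS.exists_mul (S.s i)
  have h1 : ∀ j, k.1 ∈ Pm S j ↔ S.X i = S.X j := fun j => by
    rw [← s_mem_Pm, e, mul_mem_cancel_right (B_le_Pm (U_le_B hu))]
  exact (h1 j).1 (h ((h1 i).2 rfl))

theorem sm_over (hS : S.Sm K n) (hT : S.BT) (hov : ∀ M : Subgroup K, pCore 2 M = ⊥ → ¬ 2 ∣ M.index → M = ⊤)
    {L : Subgroup K} (h1 : S.U.subgroupOf K ≤ L) (h2 : L ≠ ⊤) : ∃ i, L ≤ (Pm S i).subgroupOf K := by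
  have a1 : ¬ 2 ∣ L.index := fun a => by
    obtain ⟨P⟩ : Nonempty (Sylow 2 K) := inferInstance
    obtain ⟨g, hg⟩ := hS.exists_conj P
    refine P.not_dvd_index (a.trans ((index_dvd_of_le h1).trans (dvd_of_eq ?_)))
    rw [← index_comap_of_surjective _ (f := (MulAut.conj g⁻¹).toMonoidHom) (MulAut.conj g⁻¹).surjective]
    congr 1
    ext x
    simp [hg, mem_subgroupOf]
  obtain ⟨g, M, a2, a3, a4⟩ := hT _ (isPGroup_pCoreOf 2 (L.map K.subtype)) fun e => h2 (hov L (by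
    rwa [← map_pCoreOf K.subtype_injective, map_eq_bot_iff_of_injective _ K.subtype_injective, pCoreOf,
      map_eq_bot_iff_of_injective _ L.subtype_injective] at e) a1)
  have a5 : ∀ x ∈ L, g⁻¹ * x * g ∈ M := fun x hx => a4 _ (le_normalizer_pCoreOf 2 _ (mem_map_of_mem _ hx))
  have a6 := U_le_B.trans a3
  obtain ⟨R, hR⟩ := ((S.pU.to_le (inf_le_left : S.U ⊓ K ≤ _)).comap_of_injective
    ((MulAut.conj g).toMonoidHom.comp M.subtype) ((MulAut.conj g).injective.comp M.subtype_injective)).exists_le_sylow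
  obtain ⟨m, rfl⟩ := MulAction.exists_smul_eq M (S.syl.subtype a6) R
  have a7 : g * m ∈ S.U := sm_norm hS fun y hy => mem_inf.2 ⟨by
    have := hR (x := ⟨_, a5 ⟨y, hy.2⟩ (h1 hy.1)⟩) (by simpa [mul_assoc] using hy)
    rw [Sylow.coe_subgroup_smul, mem_pointwise_smul_iff_inv_smul_mem] at this
    simpa [syl, mem_subgroupOf, mul_assoc] using this, hS.cin _ y hy.2⟩
  have a8 : g ∈ M := by simpa using mul_mem (a6 a7) (inv_mem m.2)
  obtain ⟨k, hk⟩ := exists_s_not_mem a3 a2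
  obtain ⟨i, hi⟩ := sm_ne hS k
  refine ⟨i, fun x hx => le_of_s a3 B_le_Pm (fun j a => s_mem_Pm.2 ((sm_two hS hi j).resolve_right (X_ne_of_mem a3 a hk))) ?_⟩
  simpa [mul_assoc] using mul_mem (mul_mem a8 (a5 x hx)) (inv_mem a8)

theorem PM.sm [Nonempty κ] (h : PM 2 (S.U.subgroupOf K) c t) (hS : S.Sm K n) (hT : S.BT)
    (hov : ∀ M : Subgroup K, pCore 2 M = ⊥ → ¬ 2 ∣ M.index → M = ⊤) : c ∧ ¬ t ∧ ∀ a b, S.X a ≠ S.X b →
      Swap (S.U.subgroupOf K) ((S.V a).subgroupOf K) ((S.V b).subgroupOf K) := by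
  obtain ⟨a⟩ := ‹Nonempty κ›
  obtain ⟨b, hb⟩ := sm_ne hS a
  have a0 : ∀ i, S.U.subgroupOf K ≤ (Pm S i).subgroupOf K := fun i => subgroupOf_mono _ (U_le_B.trans B_le_Pm)
  have a1 : ∀ i, (Pm S i).subgroupOf K ≠ ⊤ := fun i e => by
    obtain ⟨j, hj⟩ := sm_ne hS i
    exact hj (sm_le hS (e ▸ le_top))
  obtain ⟨A, Q, h1, h2, h3, h4, h5, h6, h7, h8⟩ := h.resolve_left fun hn => by
    obtain ⟨k, u, hu, e⟩ := hS.exists_mul (S.s a)
    exact s_not_mem_B a (U_le_B (e ▸ mul_mem (sm_norm hS fun y hy => mem_inf.2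
      ⟨by simpa [mem_subgroupOf] using hn.1 ⟨y, hy.2⟩ hy.1 k⁻¹, hS.cin _ y hy.2⟩) hu))
  have a2 : ∀ α ∈ A, ∀ i, ∃ j, ∀ x : K, x.1 ∈ Pm S i → (α x).1 ∈ Pm S j := fun α hα i => by
    obtain ⟨j, hj⟩ := sm_over hS hT hov (L := ((Pm S i).subgroupOf K).comap α.symm.toMonoidHom)
      (fun x hx => a0 i (h2 _ (inv_mem hα) x hx)) fun e => a1 i (eq_top_iff.2 fun x _ => by
        simpa using e.ge (mem_top (α x)))
    exact ⟨j, fun x hx => hj (by simpa [mem_subgroupOf] using hx)⟩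
  have a3 : ∀ α ∈ A, ∀ i j, (∀ x : K, x.1 ∈ Pm S i → (α x).1 ∈ Pm S j) → ∀ x : K, x.1 ∈ Pm S j → (α⁻¹ x).1 ∈ Pm S i :=
    fun α hα i j e x hx => by
      obtain ⟨k, hk⟩ := a2 _ (inv_mem hα) j
      exact (mv_one.2 (sm_le hS fun y hy => by simpa [mem_subgroupOf] using hk _ (e y hy)) _).1 (hk x hx)
  have a4 : ∀ α ∈ A, ∀ i j, (∀ x : K, x.1 ∈ Pm S j → (α⁻¹ x).1 ∈ Pm S i) → ∀ x : K, x.1 ∈ S.V i → (α x).1 ∈ S.V j :=
    fun α hα i j e x hx => by
      obtain ⟨k, u, hu, e1⟩ := hS.exists_mul (S.s j)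
      have b1 := e k (by simpa [e1] using mul_mem (s_mem_Pm.2 (rfl : S.X j = S.X j)) (inv_mem (B_le_Pm (U_le_B hu))))
      have b2 := h2 α hα ((α⁻¹ k)⁻¹ * x * α⁻¹ k) (V_le (cin_of_normalizer b1 _ hx))
      refine mem_V.2 ⟨h2 α hα x (V_le hx), ?_⟩
      simpa [e1, mul_assoc, mem_subgroupOf] using cin_of_mem hu _ b2
  obtain ⟨m, hm⟩ := sm_over hS hT hov (le_normalizer.trans h4) h3
  obtain ⟨α, hα, i, j, hij, e⟩ : ∃ α ∈ A, ∃ i j, S.X i ≠ S.X j ∧ ∀ x : K, x.1 ∈ Pm S i → (α x).1 ∈ Pm S j := by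
    by_contra d
    have b1 : ∀ i, S.X i = S.X m := fun i => sm_le hS ((h6 _ (a0 i) (a1 i) fun α hα x hx => by
      obtain ⟨j, hj⟩ := a2 α hα i
      exact (mv_one.2 (by_contra fun e => d ⟨α, hα, i, j, e, hj⟩) _).1 (hj x hx)).trans hm)
    exact hb ((b1 b).trans (b1 a).symm)
  have e' := a3 α hα i j e
  refine ⟨h7 fun x hx => le_normalizer (hS.B_eq.le (le_of_s (M := Pm S i ⊓ Pm S j) (le_inf B_le_Pm B_le_Pm) le_rfl
    (fun k d => absurd ((s_mem_Pm.1 d.1).symm.trans (s_mem_Pm.1 d.2)) hij) ?_)), fun d => hij (sm_le hS fun x hx => ?_), ?_⟩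
  · rcases sm_two hS hij m with d | d
    · exact ⟨(mv_one.2 d _).2 (hm hx), by simpa using e _ ((mv_one.2 d _).2 (hm (h5 _ (inv_mem hα) x hx)))⟩
    · exact ⟨by simpa using e' _ ((mv_one.2 d _).2 (hm (h5 _ hα x hx))), (mv_one.2 d _).2 (hm hx)⟩
  · obtain ⟨u, hu, e1⟩ := h8 d α hα
    have : α x ∈ (Pm S j).subgroupOf K := e x hx
    rw [e1] at this
    simpa [mul_assoc] using mul_mem (mul_mem (inv_mem (a0 j hu)) this) (a0 j hu)
  have b1 : Swap (S.U.subgroupOf K) ((S.V i).subgroupOf K) ((S.V j).subgroupOf K) := .of_aut α (h2.iff hα) fun x _ =>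
    ⟨fun d => by simpa [mem_subgroupOf] using a4 _ (inv_mem hα) j i (by simpa using e) _ d, a4 α hα i j e' x⟩
  intro a b hab
  rcases sm_two hS hij a with d | d <;> rcases sm_two hS hij b with d' | d' <;> rw [V_eq d, V_eq d']
  exacts [absurd (d.trans d'.symm) hab, b1, b1.symm, absurd (d.trans d'.symm) hab]

end Sm

theorem PM.ca {K : Type*} [Group K] [Finite K] {p : ℕ} [Fact p.Prime] {c t : Prop} {U : Sylow p K}
    (h : PM p (U : Subgroup K) c t) (hn : ¬ (U : Subgroup K).Normal)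
    (hc : ∀ x y z : K, x ≠ 1 → y * x = x * y → z * x = x * z → y * z = z * y)
    (hov : ∀ M : Subgroup K, pCore p M = ⊥ → ¬ p ∣ M.index → M = ⊤) : c := by
  obtain ⟨A, Q, -, -, h3, h4, -, -, h7, -⟩ := h.resolve_left hn
  have h5 := le_normalizer.trans h4
  obtain ⟨⟨x, hx⟩, h1⟩ := ne_bot_iff_exists_ne_one.1 (show pCoreOf p Q ≠ ⊥ from fun e => h3 (hov Q
    ((map_eq_bot_iff_of_injective _ Q.subtype_injective).1 e) fun a => U.not_dvd_index (a.trans (index_dvd_of_le h5))))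
  have h6 := H13.GL2.le_sylow_of_le_normalizer U (isPGroup_pCoreOf p Q) (h5.trans (le_normalizer_pCoreOf p Q))
  have h8 : x ≠ 1 := by simpa using h1
  have : Nontrivial U := ⟨⟨x, h6 hx⟩, 1, by simpa using h8⟩
  obtain ⟨z, hz, h2⟩ := SetLike.exists_of_lt U.isPGroup'.bot_lt_center
  have h9 : ∀ u ∈ U, ∀ v ∈ U, u * v = v * u := fun u hu v hv => hc z u v (by simpa using h2)
    (congrArg Subtype.val (mem_center_iff.1 hz ⟨u, hu⟩)) (congrArg Subtype.val (mem_center_iff.1 hz ⟨v, hv⟩))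
  refine h7 fun g hg => Cin.mem_normalizer fun u hu => (((U.isPGroup'.map (MulAut.conj g⁻¹).toMonoidHom).inf_normalizer_sylow
    U).le ⟨⟨u, hu, by simp⟩, Cin.mem_normalizer fun v hv => ?_⟩).2
  have := h9 u hu _ (h6 ((mem_normalizer_iff.1 (le_normalizer_pCoreOf p Q hg) x).1 hx))
  rw [mul_assoc, hc x v (g⁻¹ * u * g) h8 (h9 v hv x (h6 hx)) (by
    simpa [mul_assoc] using congrArg (fun y => g⁻¹ * y * g) this), inv_mul_cancel_left]
  exact hv

end H14
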