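import Cfsg.Agent.H14.PMin1
import Cfsg.Agent.S1074
import Cfsg.Agent.H8.Two2
import Cfsg.Prelude.Def_AlmostLie

/-!
Almost simple groups of Lie type in which a Sylow subgroup lies in a unique maximal subgroup.
-/

namespace H14

open H8 H28 H11 H12 Cfsg Cfsg.Lie Subgroup RootSys PreSt St St.Tw Good

set_option linter.unusedSectionVars false
set_option maxRecDepth 100000

section Map

open SB

variable {p : ℕ} [Fact p.Prime] {G G' : Type*} [Group G] [Group G'] {κ : Type*} {S : SB p G κ} {f : G →* G'}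
  {hf : Function.Surjective f} {hk : f.ker ≤ center G} {i j : κ}

theorem map_X_eq : (S.map f hf hk).X i = (S.map f hf hk).X j ↔ S.X i = S.X j :=
  ⟨map_inj hk (S.X_le i) (S.X_le j), congrArg (Subgroup.map f)⟩

theorem map_adj : Adj (S.map f hf hk) i j ↔ Adj S i j :=
  and_congr map_X_eq.not (by rw [← map_pos (hf := hf) (hk := hk), map_mul]; rfl)

theorem Swap.of_sbmap (h : Swap (S.map f hf hk).U ((S.map f hf hk).V i) ((S.map f hf hk).V j)) :
    Swap S.U (S.V i) (S.V j) := by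
  have key : ∀ i, ∀ u : S.U, f u ∈ (S.map f hf hk).V i ↔ u.1 ∈ S.V i := fun i u => by
    rw [mem_V, mem_V]
    exact ⟨fun a => ⟨u.2, SB.mem_of_map hk le_rfl u.2 (by rw [map_mul, map_mul, map_inv]; exact a.2)⟩,
      fun a => ⟨mem_map_of_mem f a.1, by simpa only [map_mul, map_inv] using! mem_map_of_mem f a.2⟩⟩
  refine h.of_map (MulEquiv.ofBijective (f.subgroupMap S.U) ⟨(injective_iff_map_eq_one _).2 fun u hu => Subtype.ext ?_,
    f.subgroupMap_surjective _⟩) (key i) (key j)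
  exact eq_one_of_U_H u.2 (center_le_H (hk (congrArg Subtype.val hu)))

theorem Swap.card_X [Finite G] (h : Swap S.U (S.V i) (S.V j)) : Nat.card (S.X i) = Nat.card (S.X j) := by
  have key : ∀ i, Nat.card S.U = Nat.card (S.X i) * Nat.card (S.V i) := fun i => by
    rw [← Nat.card_prod]
    refine (Nat.card_congr (Equiv.ofBijective (fun x : S.X i × S.V i => (⟨x.1 * x.2, mul_mem (S.X_le i x.1.2)
      (V_le x.2.2)⟩ : S.U)) ⟨fun x y e => ?_, fun u => ?_⟩)).symm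
    · have e : (x.1 : G) * x.2 = y.1 * y.2 := congrArg Subtype.val e
      have := eq_one_of_XV (mul_mem (inv_mem y.1.2) x.1.2) (by
        rw [eq_mul_inv_of_mul_eq e, mul_assoc, inv_mul_cancel_left]; exact mul_mem y.2.2 (inv_mem x.2.2))
      rw [inv_mul_eq_one] at this
      rw [this, mul_right_inj] at e
      exact Prod.ext (Subtype.ext this.symm) (Subtype.ext e)
    · obtain ⟨y, hy, v, hv, e⟩ := exists_XV i u.2
      exact ⟨(⟨y, hy⟩, ⟨v, hv⟩), Subtype.ext e.symm⟩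
  have := (key i).symm.trans (key j)
  rwa [h.card V_le V_le, Nat.mul_left_inj Nat.card_pos.ne'] at this

theorem sq_mem_V (h : ∀ y ∈ S.X i, y * y = 1) : ∀ u ∈ S.U, u * u ∈ S.V i := fun u hu => by
  obtain ⟨y, hy, v, hv, rfl⟩ := exists_XV i hu
  have := mul_mem (U_cin_V (S.X_le i hy) v hv) hv
  rwa [inv_eq_of_mul_eq_one_right (h y hy), mul_assoc] at this

theorem sm_sq [Finite G] {S : SB 2 G κ} {K : Subgroup G} {n : ℕ} (hS : S.Sm K n)
    (s : Swap (S.U.subgroupOf K) ((S.V i).subgroupOf K) ((S.V j).subgroupOf K)) (h : ∀ u ∈ S.U, u * u ∈ S.V i) {y : G}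
    (hy : y ∈ S.X j) : y * y ∈ S.V j := by_contra fun b2 => by
  have h := s.ex fun u hu => h u hu
  obtain ⟨v, b3, b4⟩ := SetLike.not_le_iff_exists.1 (hS.V_not_le j)
  have b5 := S.X_le _ hy
  have := h ⟨_, hS.mul_mem_K (fun a => b2 (h ⟨y, a⟩ b5)) b4⟩ (mul_mem b5 (V_le b3))
  have := mul_mem (inv_mem (U_cin_V (inv_mem b5) v b3)) (mul_mem (mem_subgroupOf.1 this) (inv_mem b3))
  exact b2 (by simpa [mul_assoc] using this)

end Map

variable {ι : Type*} {κ : Type} [Fintype κ] [DecidableEq κ] [Fintype ι] [DecidableEq ι] {R : RootSys ι κ}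
  {C : Chev R} {K G : Type*} [Field K] [Group G] {S : St C K G} {T : S.Tw} {Γ : Type*} [Group Γ] {e : Γ →* G}

variable (R) in
theorem RootSys.exists_leaf [Nonempty κ] : ∃ k, ∀ i j, i ≠ k → j ≠ k → R.A i k ≠ 0 → R.A j k ≠ 0 → i = j := by
  by_contra h
  push Not at h
  have h1 : ∀ k, R.pq (R.simple k) 1 ≤ 0 := fun k => by
    obtain ⟨i, j, a1, a2, a3, a4, a5⟩ := h k
    rw [← pair_simple_simple, Ne, pair_eq_zero_iff, pair_simple_simple] at a3 a4
    have b1 := R.A_nonpos a1.symm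
    have b2 := R.A_nonpos a2.symm
    have := Finset.sum_le_sum_of_subset_of_nonneg (f := fun l => -R.A k l) (Finset.subset_univ {i, j, k})
      fun l _ hl => neg_nonneg.2 (R.A_nonpos fun a => hl (by simp [a]))
    rw [Finset.sum_insert (by simp [a1, a5]), Finset.sum_pair a2, A_self, Finset.sum_neg_distrib] at this
    simp only [pq_simple, Matrix.mulVec, dotProduct, Pi.one_apply, mul_one]
    omega
  have h2 : R.kform 1 1 = ∑ k, R.kform (R.cf (R.simple k)) 1 := by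
    simp only [kform]
    rw [Finset.sum_comm]
    refine Finset.sum_congr rfl fun r _ => ?_
    rw [← Finset.sum_mul]
    simp only [pq, cf_simple, ← dotProduct_sum, ← Matrix.mulVec_sum]
    rw [Finset.univ_sum_single fun _ : κ => (1 : ℤ)]; rfl
  refine (R.kform_pos (μ := 1) one_ne_zero).not_ge (h2 ▸ Finset.sum_nonpos fun k _ => ?_)
  have := mul_nonpos_of_nonpos_of_nonneg (h1 k) (R.kform_pos (R.cf_ne_zero (R.simple k))).le
  rw [← kform_refl] at this
  omega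

variable [Finite K] [Finite Γ] {p : ℕ} [Fact p.Prime] [CharP K p] (h : TwE T e) {i j k : κ} {c t : Prop}

theorem tw_X_eq : (h.sb p).X i = (h.sb p).X j ↔ i ∈ T.orb j := by
  refine ⟨fun a => by_contra fun b => SB.not_pos_s (S := h.sb p) j ?_,
    fun a => congrArg (fun J => (T.Up J).comap e) (orb_eq a)⟩
  rw [SB.Pos, ← a]
  refine (h.pos_iff (h.s_NW j)).2 ?_
  rw [w0_inv]
  exact (R.pos_WJ_iff (R.w0_mem _) (R.inJ_simple.not.2 b)).2 (R.pos_simple i)

theorem tw_adj : Adj (h.sb p) i j ↔ i ∉ T.orb j ∧ ∃ k ∈ T.orb i, R.A k j ≠ 0 := by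
  refine (and_congr (tw_X_eq h).not (h.pos_iff (TwE.NW_mul (h.s_NW i) (h.s_NW j)))).trans
    (and_congr_right fun a => ?_)
  have a' : j ∉ T.orb i := fun b => a (orb_eq b ▸ T.mem_orb i)
  rw [mul_inv_rev, w0_inv, w0_inv, Equiv.Perm.mul_apply]
  refine ⟨fun b => by_contra fun d => ?_, fun ⟨k, b, d⟩ => by_contra fun f => w0_simple_ne b a' d (R.cf_inj ?_)⟩
  · push Not at d
    have : ∀ w ∈ R.WJ (T.orb i), w (R.simple j) = R.simple j := fun w hw => by
      refine R.WJ_induction (P := fun w => w (R.simple j) = R.simple j) rfl (fun w _ l hl _ ih => ?_) hw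
      exact (congrArg w (R.refl_eq_self_of_pair (by rw [pair_simple_simple, d l hl]))).trans ih
    rw [this _ (R.w0_mem _)] at b
    exact R.w0_neg (R.inJ_simple.2 (T.mem_orb j)) (R.pos_simple j) b
  · have := ((tw_root (T.w0_orb_mem i) ((R.pos_WJ_iff (R.w0_mem _) (R.inJ_simple.not.2 a')).2 (R.pos_simple j)) f _).1
      ⟨R.pos_simple j, R.inJ_simple.2 (T.mem_orb j)⟩).2
    funext l
    by_cases hl : l ∈ T.orb i
    · rw [this l fun g => a (orb_eq g ▸ orb_eq hl ▸ T.mem_orb i), cf_simple,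
        Pi.single_eq_of_ne (by rintro rfl; exact a' hl)]
    · exact R.cf_WJ (R.w0_mem _) _ hl

theorem tw_mem_V {u : Γ} : u ∈ (h.sb p).V i ↔ e u ∈ S.U {r | R.pos r ∧ ¬ R.InJ (T.orb i) r} :=
  SB.mem_V.trans ⟨fun a => (h.mem_rad a.1 (h.s_NW i)).1 a.2, fun a =>
    ⟨U_mono (fun _ b => b.1) a, (h.mem_rad (U_mono (fun _ b => b.1) a) (h.s_NW i)).2 a⟩⟩

theorem tw_card_X : Nat.card ((h.sb p).X i) = Nat.card (T.Up (T.orb i)) := by
  rw [← map_comap_eq_self (h.big i).1, card_map_of_injective h.inj]; rfl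

variable (p) in
/-- the outcome for a twisted group -/
def Out (c t : Prop) : Prop := c ∧ ∀ a b, a ∉ T.orb b → (∀ k, k ∈ T.orb a ∨ k ∈ T.orb b) ∧ p = 2 ∧ ¬ t ∧
  Swap (h.sb p).U ((h.sb p).V a) ((h.sb p).V b)

variable {X : Type*} [Group X] [Finite X] {U : Sylow p X}

theorem PM.syl {κ : Type*} (hP : PM p (U : Subgroup X) c t) (S : SB p X κ) : PM p S.U c t := by
  obtain ⟨g, hg⟩ := S.exists_conj U
  exact hP.equiv (MulAut.conj g⁻¹) fun x => by simp [hg]

theorem PM.out [Nonempty κ] (hP : PM p (U : Subgroup X) c t) (hc : R.Conn) {f : Γ →* X} (hf : Function.Surjective f)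
    (hk : f.ker ≤ center Γ) : Out p h c t := by
  obtain ⟨a1, a2⟩ := (hP.syl ((h.sb p).map f hf hk)).tree (h.rad p).map (by
    obtain ⟨k, hk⟩ := R.exists_leaf
    refine ⟨k, fun i j a b => ?_⟩
    obtain ⟨a1, l, a2, a3⟩ := (tw_adj h).1 (map_adj.1 a)
    obtain ⟨b1, l', b2, b3⟩ := (tw_adj h).1 (map_adj.1 b)
    obtain rfl := hk l l' (by rintro rfl; exact a1 (orb_eq a2 ▸ T.mem_orb i))
      (by rintro rfl; exact b1 (orb_eq b2 ▸ T.mem_orb j)) a3 b3
    exact map_X_eq.2 ((tw_X_eq h).2 (orb_eq b2 ▸ orb_eq a2 ▸ T.mem_orb i))) fun P hP => hc P fun i j a => by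
      refine hP i j (or_iff_not_imp_left.2 fun b => ?_)
      rw [map_X_eq, tw_X_eq] at b
      simp only [map_adj, tw_adj]
      exact ⟨⟨fun d => b (orb_eq d ▸ T.mem_orb i), j, T.mem_orb j, by
        rwa [← pair_simple_simple, Ne, pair_eq_zero_iff, pair_simple_simple]⟩, b, i, T.mem_orb i, a⟩
  simp only [Ne, map_X_eq, tw_X_eq] at a2
  exact ⟨a1, fun a b d => ⟨(a2 a b d).1, (a2 a b d).2.1, (a2 a b d).2.2.1, (a2 a b d).2.2.2.of_sbmap⟩⟩

theorem PM.out1 [Nonempty κ] (hP : PM p (U : Subgroup X) c t) (hc : R.Conn) (φ : X ≃* Γ) : Out p h c t :=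
  hP.out h hc (f := φ.symm.toMonoidHom) φ.symm.surjective
    (((MonoidHom.ker_eq_bot_iff _).2 φ.symm.injective).le.trans bot_le)

theorem PM.out2 [Nonempty κ] (hP : PM p (U : Subgroup X) c t) (hc : R.Conn) {Γ' : Type*} [Group Γ'] (ψ : Γ ≃* Γ')
    (φ : X ≃* Γ' ⧸ center Γ') : Out p h c t :=
  hP.out h hc (f := φ.symm.toMonoidHom.comp ((QuotientGroup.mk' _).comp ψ.toMonoidHom))
    (φ.symm.surjective.comp ((QuotientGroup.mk'_surjective _).comp ψ.surjective)) fun x hx => by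
      have : ψ x ∈ center Γ' := (QuotientGroup.eq_one_iff _).1 (φ.symm.injective (hx.trans (map_one _).symm))
      exact mem_center_iff.2 fun y => ψ.injective (by simpa using mem_center_iff.1 this (ψ y))

theorem Out.three {h : TwE T e} (o : Out p h c t) (h1 : i ∉ T.orb j) (h2 : k ∉ T.orb i) (h3 : k ∉ T.orb j) : False :=
  ((o.2 i j h1).1 k).elim h2 h3

theorem Out.id {hS : S.Sep} {hG : S.U Set.univ = ⊤} {hh : S.HMul} [Finite G] (o : Out p (twE_id hS hG hh) c t) :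
    Fintype.card κ ≤ 2 ∧ (Fintype.card κ = 2 → p = 2 ∧ ¬ t) := by
  refine ⟨by_contra fun a => ?_, fun a => ?_⟩
  · obtain ⟨i, j, k, a1, a2, a3⟩ := Fintype.two_lt_card_iff.1 (not_le.1 a)
    exact o.three (i := i) (j := j) (k := k) (by simpa [id_orb]) (by simpa [id_orb, eq_comm]) (by simpa [id_orb, eq_comm])
  · obtain ⟨i, j, b⟩ := Fintype.exists_pair_of_one_lt_card (a ▸ one_lt_two)
    have := o.2 i j (by simpa [id_orb])
    exact ⟨this.2.1, this.2.2.1⟩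

theorem sq_level [CharP K 2] {A : Set ι} (hA : R.Closed A) (f : (κ → ℤ) →+ ℤ) (hf : ∀ r ∈ A, 0 < f (R.cf r)) {g : G}
    (hg : g ∈ S.U A) : g * g ∈ S.U {s | s ∈ A ∧ 2 ≤ f (R.cf s)} := by
  refine U_induction (P := fun g => g * g ∈ S.U {s | s ∈ A ∧ 2 ≤ f (R.cf s)}) (by simp) (fun r hr t g hg ih => ?_) hg
  have := mul_mem (commutator_mem_level hA f hf 1 (x_mem_U (S := S.toPreSt) (And.intro hr (hf r hr)) t) hg) ih
  rw [x_inv, CharTwo.neg_eq] at this
  simpa [mul_assoc] using this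

section Two

variable [CharP K 2]

theorem tw_sq (h1 : ∀ j ∈ T.orb i, ∀ k ∈ T.orb i, j ≠ k → R.A j k = 0) : ∀ u ∈ (h.sb 2).U, u * u ∈ (h.sb 2).V i := by
  refine sq_mem_V (S := h.sb 2) fun y hy => h.inj ?_
  have hy' : e y ∈ S.U {r | R.pos r ∧ R.InJ (T.orb i) r} := hy.1
  rw [map_mul, map_one, ← sq]
  refine pow_eq_one_of_comm (S := S) 2 (fun r hr s hs t u => ?_) hy'
  obtain ⟨j, hj, rfl⟩ := simple_of_orth h1 hr.1 hr.2
  obtain ⟨k, hk, rfl⟩ := simple_of_orth h1 hs.1 hs.2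
  by_cases a : j = k
  · rw [a, Commute, SemiconjBy, ← S.x_add, ← S.x_add, add_comm]
  · exact S.orth_simple a (h1 j hj k hk a) _ (x_mem_U (by simp) _) _ (x_mem_U (by simp) _)

theorem tw_not_sq {g : G} (h1 : g ∈ T.Up (T.orb i)) (h2 : g * g ≠ 1) : ∃ y ∈ (h.sb 2).X i, y * y ∉ (h.sb 2).V i := by
  obtain ⟨y, rfl⟩ := (h.big i).1 h1
  exact ⟨y, h1, fun a => h2 (by rw [← map_mul, SB.eq_one_of_XV (mul_mem h1 h1) a, map_one])⟩

end Two

theorem card_Up_ne [Finite G] (hσ : ∀ g, T.σ (T.σ g) = g) (h1 : T.π i ≠ i) (h2 : R.A i (T.π i) = 0) (h3 : T.π j = j) {t : K}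
    (h4 : T.f (R.simple j) t ≠ t) : Nat.card (T.Up (T.orb i)) ≠ Nat.card (T.Up (T.orb j)) := fun a => by
  have a1 : Nat.card K ≤ Nat.card (T.Up (T.orb i)) := by
    refine Nat.card_le_card_of_injective (fun t => ⟨S.x (R.simple i) t * T.σ (S.x (R.simple i) t), mem_inf.2 ⟨?_, ?_⟩⟩)
      fun t u b => by_contra fun d => h1 (R.simple_inj ?_)
    · rw [T.σ_x, T.ρ_simple]
      refine mul_mem (x_mem_U ?_ _) (x_mem_U ?_ _)
      exacts [⟨R.pos_simple _, R.inJ_simple.2 (T.mem_orb i)⟩, ⟨R.pos_simple _, R.inJ_simple.2 (π_mem_orb.2 (T.mem_orb i))⟩]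
    · change T.σ _ = _
      rw [map_mul, hσ, T.σ_x, T.ρ_simple]
      exact (S.orth_simple h1.symm h2 _ (x_mem_U (by simp) _) _ (x_mem_U (by simp) _)).symm
    · have b := eq_mul_inv_of_mul_eq (congrArg Subtype.val b)
      simp only [T.σ_x, T.ρ_simple, mul_assoc] at b
      rw [← inv_mul_eq_iff_eq_mul, x_inv, x_inv, ← S.x_add, ← S.x_add] at b
      exact (root_eq_of_x_eq T.sep (fun e => d (neg_add_eq_zero.1 e).symm) b).symm
  have a2 : ∀ g : T.Up (T.orb j), ∃ t, g.1 = S.x (R.simple j) t := fun g => mem_U_singleton.1 (U_mono (fun r hr => by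
    have b : ∀ k ∈ T.orb j, k = j := orb_induction (fun k e => e ▸ h3) rfl
    obtain ⟨k, hk, rfl⟩ := simple_of_orth (fun k hk l hl d => absurd ((b k hk).trans (b l hl).symm) d) hr.1 hr.2
    rw [b k hk]; rfl) g.2.1)
  choose τ hτ using a2
  obtain ⟨g, rfl⟩ := (Function.Injective.bijective_of_nat_card_le (f := τ)
    (fun g g' e => Subtype.ext (by rw [hτ, hτ, e])) (a ▸ a1)).2 t
  have : T.σ g = g := g.2.2
  rw [hτ, T.σ_x, T.ρ_simple, h3] at this
  exact h4 (T.sep.x_inj this)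

section Fam

variable {F : Type*} [Field F] [Finite F]

theorem F4.exists_sq [CharP F 2] {φ : F →+* F} {h2 : ∀ t, φ (φ t) ^ 2 = t} :
    ∃ g ∈ (F4.T φ h2).Up ((F4.T φ h2).orb 1), g * g ≠ 1 := by
  refine ⟨_, F4.p1.2 ⟨1, 0, rfl⟩, ?_⟩
  have hK := GrD.fits_tits (g := grF4) Nat.prime_two h2
  have c : ∀ r ∈ [27, 25, 28, 30], ∀ s ∈ [28, 30], ∀ t u, Commute ((goodF4.SG F).x r t) ((goodF4.SG F).x s u) :=
    fun r hr s hs => commute_tw hK F4.P1 hr (by simp at hs ⊢; tauto) (by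
      revert r s; decide +kernel)
  have e1 := fun t u => (goodF4.SG F).comm' (F4.P1.ne_neg (r := 27) (s := 25) (by simp) (by simp)) t u
  rw [goodF4.terms_eq (L := [(28, -1, 1, 1), (30, -1, 2, 1)]) (by decide +kernel)] at e1
  simp only [wd_cons, wd_nil, mul_one]
  rw [four_mul ((goodF4.SG F).x_add 27) ((goodF4.SG F).x_add 25) ((goodF4.SG F).x_add 28) ((goodF4.SG F).x_add 30)
    (c 27 (by simp) 28 (by simp)) (c 27 (by simp) 30 (by simp)) (c 25 (by simp) 28 (by simp))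
    (c 25 (by simp) 30 (by simp)) (c 28 (by simp) 30 (by simp)) (f := fun t u => t * u) (g := fun t u => t ^ 2 * u)
    (fun t u => by simpa [PreChev.tval, CharTwo.neg_eq, mul_assoc] using e1 t u)]
  simpa [add_assoc, CharTwo.add_self_eq_zero] using (goodF4.SG_sep F).wd_ne_one F4.P1
    (w := [(27, 0), (25, 0), (28, 1), (30, 1)]) rfl (p := (28, 1)) (by simp) one_ne_zero

theorem F4.orth : ∀ j, okgrF4.pi.SameCycle 0 j → ∀ k, okgrF4.pi.SameCycle 0 k → j ≠ k → goodF4.R.A j k = 0 := by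
  simp only [A_eq]; decide +kernel

theorem G2.sq [CharP F 2] {g u : chevG2.group F}
    (hg : g ∈ (goodG2.SG F).U {r | goodG2.R.pos r ∧ ¬ goodG2.R.InJ {0} r}) (hu : u ∈ (goodG2.SG F).U {r | goodG2.R.pos r}) :
    Commute (g * g) u := by
  have h1 := sq_level (closed_rad _) (Pi.evalAddMonoidHom (fun _ => ℤ) 1) (by
    simp only [Set.mem_ofPred_eq, InJ, pos, Pi.le_def]; decide +kernel) hg
  have h2 := commutator_mem_level closed_pos (htf _) (fun _ => htf_pos) 5 (U_mono (B := {s | _ ∧ _}) (by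
    simp only [Set.subset_def, Set.mem_ofPred_eq, InJ, pos, Pi.le_def, htf_cf, ht]; decide +kernel) h1) hu
  have h3 := U_mono (B := ∅) (by
    simp only [Set.subset_def, Set.mem_ofPred_eq, pos, Pi.le_def, htf_cf, ht]; decide +kernel) h2
  rwa [U_empty, mem_bot, mul_inv_eq_one, mul_inv_eq_iff_eq_mul] at h3

theorem G2.not_sq [CharP F 2] : ¬ Commute ((goodG2.SG F).x 7 1 * (goodG2.SG F).x 8 1 *
    ((goodG2.SG F).x 7 1 * (goodG2.SG F).x 8 1)) ((goodG2.SG F).x 6 1) := fun h => by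
  have c : ∀ r s : Fin chevG2.nroots, s.val ≠ chevG2.neg r → nl 0 (chevG2.commTerms r s) = [] →
      Commute ((goodG2.SG F).x r 1) ((goodG2.SG F).x s 1) := fun r s a b =>
    goodG2.commute_of_nl (p := 0) _ Int.cast_zero a b 1 1
  have sq : ∀ r g, (goodG2.SG F).x r 1 * ((goodG2.SG F).x r 1 * g) = g := fun r g => by
    rw [← mul_assoc, ← PreSt.x_add, CharTwo.add_self_eq_zero, x_zero, one_mul]
  have e1 := (goodG2.SG F).comm' (r := 7) (s := 8) (by decide +kernel) 1 1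
  rw [goodG2.terms_eq (L := [(9, -2, 1, 1), (10, -3, 2, 1), (11, 3, 1, 2)]) (by decide +kernel)] at e1
  have h3 : (3 : F) = 1 := by linear_combination CharTwo.two_eq_zero (R := F)
  simp only [PreChev.tval, List.map_cons, List.map_nil, List.prod_cons, List.prod_nil, one_pow, mul_one, Int.cast_neg,
    Int.cast_ofNat, CharTwo.neg_eq, CharTwo.two_eq_zero, h3, x_zero, one_mul] at e1
  rw [mul_assoc, ← mul_assoc ((goodG2.SG F).x 8 1), e1, mul_assoc, mul_assoc, sq,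
    ← ((c 8 10 (by decide) (by decide +kernel)).mul_right (c 8 11 (by decide) (by decide +kernel))).eq, sq] at h
  have := eq_zero_of_commute (goodG2.SG_sep F) (r := 6) (s := 10) (k := 11) (m := 1) (by decide +kernel)
    (goodG2.terms_eq (by decide +kernel)) (by
      simpa only [mul_inv_cancel_right] using (h.mul_left (c 6 11 (by decide) (by decide +kernel)).symm.inv_left).symm)
  simp at this

theorem G2.mem_V [CharP F 2] [Finite (chevG2.group F)] (r : Fin chevG2.nroots) (hr : 7 ≤ r.1) : (goodG2.SG F).x r 1 ∈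
    ((twE_id (goodG2.SG_sep F) (goodG2.SG_top F) (goodG2.SG_hmul F)).sb 2).V 1 := by
  refine (tw_mem_V _).2 (x_mem_U ?_ 1)
  simp only [id_orb, Set.mem_ofPred_eq, InJ, pos, Pi.le_def]
  revert r
  decide +kernel

theorem G2.sq' [CharP F 2] [Finite (chevG2.group F)] {g u : chevG2.group F}
    (hg : g ∈ ((twE_id (goodG2.SG_sep F) (goodG2.SG_top F) (goodG2.SG_hmul F)).sb 2).V 0)
    (hu : u ∈ (goodG2.SG F).U {r | goodG2.R.pos r}) : Commute (g * g) u := by
  rw [tw_mem_V, id_orb] at hg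
  exact G2.sq hg hu

theorem G2.mem_U : (goodG2.SG F).x 6 1 ∈ (goodG2.SG F).U {r | goodG2.R.pos r} :=
  x_mem_U ((goodG2.isPosRoot_iff _).1 (by decide +kernel)) 1

theorem SUT.exists_sq [CharP F 2] {φ : F →+* F} (h2 : ∀ t, φ (φ t) = t) (h1 : φ ≠ RingHom.id F) :
    ∃ g ∈ (SUT.T 4 φ).Up ((SUT.T 4 φ).orb 1), g * g ≠ 1 := by
  obtain ⟨e, he⟩ : ∃ e, e + φ e = 1 := by
    obtain ⟨d, hd⟩ : ∃ d, d + φ d ≠ 0 := by
      by_contra c
      push Not at c
      exact h1 (RingHom.ext fun t => (CharTwo.add_eq_zero.1 (c t)).symm)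
    exact ⟨d / (d + φ d), by rw [map_div₀, map_add, h2, add_comm (φ d), ← add_div, div_self hd]⟩
  have a1 : (1 : Fin (4 + 1)) ≠ 2 := by decide
  have a2 : (2 : Fin (4 + 1)) ≠ 3 := by decide
  have a3 : (1 : Fin (4 + 1)) ≠ 3 := by decide
  have hA := SUT.roots_adj (J := (SUT.T 4 φ).orb 1) (i := 1) (fun j => by rw [SUT.mem_orb]; revert j; decide)
    rfl rfl rfl a1 a2 a3
  refine ⟨SUT.y a1 a2 a3 1 1 e, mem_inf.2 ⟨?_, (SUT.σ_y a1 a2 a3 rfl rfl 1 1 e).trans ?_⟩, fun a => ?_⟩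
  · rw [SUT.y, ← slSt_x, ← slSt_x, ← slSt_x]
    refine mul_mem (mul_mem (x_mem_U ?_ _) (x_mem_U ?_ _)) (x_mem_U ?_ _)
    exacts [(hA _).2 (.inr (.inl rfl)), (hA _).2 (.inl rfl), (hA _).2 (.inr (.inr rfl))]
  · rw [map_one, CharTwo.neg_eq, mul_one, ← he, add_sub_cancel_right, he]; rfl
  · have := congrFun (congrFun (congrArg Subtype.val a) 1) 3
    rw [SUT.y_mul, SUT.y_val] at this
    simp [CharTwo.add_self_eq_zero] at this

end Fam

section Main

variable {X : Type*} [Group X] [Finite X] {p : ℕ} [Fact p.Prime] {U : Sylow p X} {c t : Prop}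

/-- the groups of rank two -/
def RkTwo (X : Type*) [Group X] : Prop :=
  (∃ (F : Type) (_ : Field F) (_ : Fintype F) (_ : CharP F 2), Nonempty (X ≃* Matrix.ProjectiveSpecialLinearGroup (Fin 3) F)) ∨
    (∃ (F : Type) (_ : Field F) (_ : Fintype F) (_ : CharP F 2), 4 ≤ Fintype.card F ∧ Nonempty (X ≃* PSp 2 F)) ∨
      Nonempty (X ≃* alternatingGroup (Fin 6))

theorem PM.st {ι κ : Type} [Fintype κ] [DecidableEq κ] [Fintype ι] [DecidableEq ι] [Nonempty κ] {R : RootSys ι κ}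
    {C : Chev R} {K A : Type} [Field K] [Finite K] [CharP K p] [Group A] [Finite A] {S : St C K A}
    (hP : PM p (U : Subgroup X) c t) (hS : S.Sep) (hG : S.U Set.univ = ⊤) (hc : R.Conn) (φ : X ≃* A ⧸ center A) :
    Fintype.card κ ≤ 2 ∧ (Fintype.card κ = 2 → p = 2 ∧ ¬ t) :=
  Out.id (hh := hmul_of_finite S) (hP.out2 (twE_id hS hG (hmul_of_finite S)) hc (MulEquiv.refl _) φ)

theorem PM.good {K : Type} [Field K] [Finite K] [CharP K p] {D : ChevalleyDatum} (Y : Good D)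
    (hP : PM p (U : Subgroup X) c t) (φ : X ≃* D.group K) :
    have := Finite.of_equiv _ φ.toEquiv
    Out p (twE_id (Y.SG_sep K) (Y.SG_top K) (Y.SG_hmul K)) c t :=
  have := Finite.of_equiv _ φ.toEquiv
  have := Y.nontrivial_rank
  hP.out1 _ Y.conn φ

theorem PM.rank {K : Type} [Field K] [Finite K] [CharP K p] {D : ChevalleyDatum} (Y : Good D)
    (hP : PM p (U : Subgroup X) c t) (φ : X ≃* D.group K) : D.rank ≤ 2 :=
  have := Finite.of_equiv _ φ.toEquiv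
  (Fintype.card_fin _).ge.trans (Out.id (hh := Y.SG_hmul K) (hP.good Y φ)).1

theorem PM.isTw {K : Type} [Field K] [Finite K] [CharP K p] {D : ChevalleyDatum} {Y : Good D} {T : (Y.SG K).Tw}
    {Γ : Subgroup (GL D.Idx K)} (hP : PM p (U : Subgroup X) c t) (h : IsTw T Γ) (φ : X ≃* Γ) :
    Out p (twE_emb h.emb (Y.SG_hmul K)) c t :=
  have := Y.nontrivial_rank
  hP.out1 _ Y.conn φ

theorem PM.su {F : Type} [Field F] [Fintype F] [CharP F p] {n q : ℕ} (hP : PM p (U : Subgroup X) c t) (hn : 3 ≤ n)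
    (hF : Fintype.card F = q ^ 2) (φ : X ≃* PSU n F q) : n = 3 := by
  obtain ⟨m, rfl⟩ : ∃ m, n = m + 1 := ⟨n - 1, by omega⟩
  have : Nonempty (Fin m) := ⟨⟨0, by omega⟩⟩
  obtain ⟨e⟩ := nonempty_suMat_equiv hF (M := SUT.J m F) (n := m + 1) (by
    ext a b
    simp [-frob_apply, SUT.J, Matrix.one_apply, apply_ite (frob hF), Fin.rev_eq_iff, eq_comm (a := b)])
    (left_ne_zero_of_mul_eq_one (by rw [← Matrix.det_mul, SUT.J_J, Matrix.det_one])) (Fintype.card_fin _)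
  have h : (SUT.T m (frob hF)).Emb (suMat hF (SUT.J m F)).subtype :=
    ⟨Subtype.val_injective, by ext g; rw [Subgroup.range_subtype]; exact (SUT.σ_eq_iff _ g).symm,
      SUT.ex (frob_frob hF) (frob_ne_id hF)⟩
  have o := hP.out2 (twE_emb h (slSt_hmul m F)) connA e φ
  by_contra h3
  obtain h5 | h5 := le_or_gt 5 m
  · exact o.three (i := ⟨0, by omega⟩) (j := ⟨1, by omega⟩) (k := ⟨2, by omega⟩)
      (by simp [SUT.mem_orb, Fin.ext_iff]; omega) (by simp [SUT.mem_orb, Fin.ext_iff]; omega)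
      (by simp [SUT.mem_orb, Fin.ext_iff]; omega)
  obtain rfl | rfl : m = 3 ∨ m = 4 := by omega
  all_goals obtain ⟨-, rfl, -, s⟩ := o.2 0 1 (by rw [SUT.mem_orb]; decide)
  · obtain ⟨t, ht⟩ := DFunLike.ne_iff.1 (frob_ne_id hF)
    have := s.card_X
    rw [tw_card_X, tw_card_X] at this
    exact card_Up_ne (SUT.σ_σ (frob_frob hF)) (by decide : Fin.rev (0 : Fin 3) ≠ 0)
      (SUT.A_eq_zero (k := 2) (by decide) (by decide) (by decide)) rfl (t := t)
      (fun a => ht ((CharTwo.neg_eq _).symm.trans a)) this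
  · obtain ⟨g, a1, a2⟩ := SUT.exists_sq (frob_frob hF) (frob_ne_id hF)
    obtain ⟨y, b1, b2⟩ := tw_not_sq (twE_emb h (slSt_hmul 4 F)) a1 a2
    refine b2 (s.ex (tw_sq _ fun j hj k hk d => ?_) y (SB.X_le _ _ b1))
    rw [SUT.mem_orb] at hj hk
    refine SUT.A_eq_zero (Fin.val_ne_of_ne d) ?_ ?_ <;> revert j k <;> decide

theorem PM.omM {F : Type} [Field F] [Fintype F] [CharP F p] {m : ℕ} (hP : PM p (U : Subgroup X) c t) (hm : 3 ≤ m)
    {a b : F} (hab : ∀ z₁ z₂ : F, z₁ ^ 2 + a * z₁ * z₂ + b * z₂ ^ 2 = 0 → z₁ = 0 ∧ z₂ = 0)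
    (φ : X ≃* POmega F (quadFormMinus m F a b)) : False := by
  have := fact_of_aniso hab
  have : CharP (QuadraticAlgebra F (-b) a) p := charP_of_injective_algebraMap (algebraMap F _).injective p
  have h := OmT.twE (m := m) (by omega) (φ := starRingEnd (QuadraticAlgebra F (-b) a)) (F := F) (a := a) (b := b)
    (ω := ⟨0, 1⟩) (by simp) (fun t => ⟨fun h => ⟨_, eq_algebraMap_of_star h⟩, by
      rintro ⟨c, rfl⟩; ext <;> simp [starRingEnd_apply]⟩) (fun e => by simpa using congrArg QuadraticAlgebra.im (eq_algebraMap_of_star e))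
    (by ext <;> simp [starRingEnd_apply]) (by ext <;> simp [starRingEnd_apply])
  refine (hP.out2 h (connD (by omega)) ((MulEquiv.subgroupCongr ?_).trans (omegaEquiv _ (coe_qMinus m a b)).symm) φ).three
    (i := ⟨0, by omega⟩) (j := ⟨1, by omega⟩) (k := ⟨m, by omega⟩) (fun d => ?_) (fun d => ?_) fun d => ?_
  · exact eichGroup_eq_commutator (qMinus_nondeg m (disc_ne_zero_of_aniso hab)) (.inr (by simp; omega)) (by simp; omega)
      ⟨Pi.single (.inl (.inl ⟨0, by omega⟩)) 1, by simp, by simp [quadFormMinus]⟩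
  all_goals
    have := OmT.mem_orb _ d
    simp only [Fin.ext_iff, OmT.π_val] at this
    split_ifs at this <;> (try simp only [false_or] at this) <;> omega

theorem PM.lie (hP : PM p (U : Subgroup X) c t) (hX : IsLieTypeChar p X) :
    c ∧ (IsLieRankOneChar p X ∨ p = 2 ∧ ¬ t ∧ RkTwo X) := by
  refine ⟨by obtain ⟨κ, _, _, S, -, h, -⟩ := lieSB_of_lieType hX; exact ((hP.syl S).sb h).1, ?_⟩
  rcases hX with ⟨F, _, _, _, n, hn, h, ⟨φ⟩⟩ | ⟨F, _, _, _, m, hm, h, ⟨φ⟩⟩ | ⟨F, _, _, _, n, q, hF, hn, h, ⟨φ⟩⟩ |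
    ⟨F, _, _, _, m, hm, ho, ⟨φ⟩⟩ | ⟨F, _, _, _, m, hm, ⟨φ⟩⟩ | ⟨F, _, _, _, m, a, b, hm, hab, ⟨φ⟩⟩ |
    ⟨F, _, _, _, h⟩ | ⟨F, _, _, _, q, hq, h⟩ | h | ⟨rfl, F, _, _, m, hm, hF, ⟨φ⟩⟩ | h
  · obtain ⟨m, rfl⟩ : ∃ m, n = m + 1 := ⟨n - 1, by omega⟩
    have : Nonempty (Fin m) := ⟨⟨0, by omega⟩⟩
    obtain ⟨h1, h2⟩ := hP.st (slSt_sep m F) (slSt_top m F) connA φ
    rw [Fintype.card_fin] at h1 h2
    obtain rfl | rfl : m = 1 ∨ m = 2 := by omega
    · exact .inl (.inl ⟨F, _, ‹_›, ‹_›, h rfl, ⟨φ⟩⟩)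
    · obtain ⟨rfl, h3⟩ := h2 rfl
      exact .inr ⟨rfl, h3, .inl ⟨F, _, ‹_›, ‹_›, ⟨φ⟩⟩⟩
  · have : Nonempty (Fin m) := ⟨⟨0, by omega⟩⟩
    obtain ⟨h1, h2⟩ := hP.st (spSt_sep m F) (spSt_top m F) connC φ
    rw [Fintype.card_fin] at h1 h2
    obtain rfl : m = 2 := by omega
    obtain ⟨rfl, h3⟩ := h2 rfl
    refine .inr ⟨rfl, h3, .inr (.inl ⟨F, _, ‹_›, ‹_›, ?_, ⟨φ⟩⟩)⟩
    have := h rfl
    obtain ⟨k, hk⟩ := even_card_of_two_eq_zero (CharTwo.two_eq_zero (R := F))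
    omega
  · obtain rfl := hP.su hn hF φ
    exact .inl (.inr (.inl ⟨F, _, ‹_›, ‹_›, q, hF, fun a => h ⟨rfl, a⟩, ⟨φ⟩⟩))
  · have : Nonempty (Fin m) := ⟨⟨0, by omega⟩⟩
    have := (hP.st (stPull_sep _ (omToGL_injective F _) (range_omB m F (by omega) fun h =>
      Nat.not_even_iff_odd.2 ho (even_card_of_two_eq_zero h)) ((wbB m).nat_sep F)) (stPull_top _ _ _) connB φ).1
    rw [Fintype.card_fin] at this
    omega
  · have : Nonempty (Fin m) := ⟨⟨0, by omega⟩⟩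
    have := (hP.st (stPull_sep _ (omToGL_injective F _) (range_omD m F (by omega)
      (Or.inr (by simp; omega))) ((wbD m _).nat_sep F)) (stPull_top _ _ _) (connD (by omega)) φ).1
    rw [Fintype.card_fin] at this
    omega
  · exact (hP.omM (by omega) hab φ).elim
  · rcases h with ⟨-, ⟨φ⟩⟩ | ⟨⟨φ⟩⟩ | ⟨⟨φ⟩⟩ | ⟨⟨φ⟩⟩ | ⟨⟨φ⟩⟩
    · have := Finite.of_equiv _ φ.toEquiv
      obtain ⟨-, rfl, -, s⟩ := (hP.good goodG2 φ).2 0 1 (by rw [id_orb]; decide)
      exact (G2.not_sq (s.sq (fun v hv u hu => G2.sq' hv hu) SB.V_le _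
        (mul_mem (G2.mem_V 7 (by decide)) (G2.mem_V 8 (by decide))) _ G2.mem_U)).elim
    · exact absurd (hP.rank goodF4 φ) (by decide)
    · exact absurd (hP.rank goodE6 φ) (by decide)
    · exact absurd (hP.rank goodE7 φ) (by decide)
    · exact absurd (hP.rank goodE8 φ) (by decide)
  · rcases h with ⟨hF, ⟨φ⟩⟩ | ⟨hF, ⟨φ⟩⟩
    · obtain ⟨ψ, h2, hψ⟩ := E6.exists_hom hq hF
      refine ((hP.isTw (E6.isTw (h2 := h2) hψ) φ).three (i := 0) (j := 1) (k := 2) ?_ ?_ ?_).elim <;>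
        change ¬ okgrE6.pi.SameCycle _ _ <;> decide +kernel
    · obtain ⟨ψ, h2, hψ⟩ := D4.exists_hom hq hF
      have := ((hP.isTw (D4.isTw (h3 := h2) hψ) φ).2 0 1 (by
        change ¬ okgrD4.pi.SameCycle _ _; decide +kernel)).2.2.2.card_X
      obtain ⟨l, a1, a2⟩ := D4.card_Up (h3 := h2) hψ hq.one_lt (Nat.card_eq_fintype_card.trans hF) 0
      obtain ⟨l', b1, b2⟩ := D4.card_Up (h3 := h2) hψ hq.one_lt (Nat.card_eq_fintype_card.trans hF) 1
      rw [tw_card_X, tw_card_X, a2, b2] at this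
      have c1 := D4.P0.len_w0.symm.trans a1
      have c2 := D4.P1.len_w0.symm.trans b1
      have := Nat.pow_right_injective hq.one_lt this
      simp at c1 c2
      omega
  · exact .inl (.inr (.inr (.inl h)))
  · obtain ⟨_, ψ, h2, hψ⟩ := exists_tits Nat.prime_two hF
    obtain ⟨g, a1, a2⟩ := F4.exists_sq (φ := ψ) (h2 := h2)
    obtain ⟨y, b1, b2⟩ := tw_not_sq (twE_emb (F4.isTw (h2 := h2) hψ).emb (goodF4.SG_hmul F)) a1 a2
    exact (b2 (((hP.isTw (F4.isTw (h2 := h2) hψ) φ).2 0 1 (by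
      change ¬ okgrF4.pi.SameCycle _ _; decide +kernel)).2.2.2.ex (tw_sq _ F4.orth) y (SB.X_le _ _ b1))).elim
  · exact .inl (.inr (.inr (.inr ⟨h.1, .inl h.2⟩)))

theorem PM.small {A κ : Type*} [Group A] [Finite A] {S : SB 2 A κ} {K : Subgroup A} {n : ℕ} {U : Sylow 2 X}
    (hP : PM 2 (U : Subgroup X) c t) (hX : IsChevSimple 2 X) (hS : S.Sm K n) (hT : S.BT) (φ : X ≃* K) :
    c ∧ ¬ t ∧ ∀ a b, S.X a ≠ S.X b → Swap (S.U.subgroupOf K) ((S.V a).subgroupOf K) ((S.V b).subgroupOf K) := by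
  obtain ⟨g, hg⟩ := hS.exists_conj (U.mapSurjective (f := φ.toMonoidHom) φ.surjective)
  have : Nonempty κ := hS.two.nonempty
  exact (hP.equiv (φ.trans (MulAut.conj g⁻¹)) fun x => by simpa [mem_subgroupOf] using (hg (φ x)).symm).sm hS hT
    (over_equiv φ.symm (over_of_chev Agent.S1074.result.1 hX))

theorem PM.alt {U : Sylow 2 X} (hP : PM 2 (U : Subgroup X) c t) (φ : X ≃* alternatingGroup (Fin 6)) : c ∧ ¬ t := by
  obtain ⟨e⟩ := b2_two (F := ZMod 2) (by simp)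
  have := Finite.of_equiv _ e.symm.toEquiv
  have h := twE_id (goodB2.SG_sep (ZMod 2)) (goodB2.SG_top _) (goodB2.SG_hmul _)
  have hS : (h.sb 2).Sm ((alternatingGroup (Fin 6)).comap e.toMonoidHom) 2 :=
    { conn := h.conn 2 goodB2.conn
      rad := h.rad 2
      hH := (congrArg _ (two_H goodB2 (by simp))).trans (comap_id _)
      idx := (index_comap_of_surjective _ e.surjective).trans alternatingGroup.index_eq_two
      two := ⟨0, 1, fun i => by
        have : ∀ i : Fin chevB2.rank, i = 0 ∨ i = 1 := by decide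
        rcases this i with rfl | rfl <;> simp⟩
      card i := (card_le_of_range _ fun g hg => (id_up _ _ i g).1 hg).trans (by simp)
      big := by
        rw [SB.card_U, Nat.card_congr e.toEquiv, Nat.card_perm, show (Nat.card (Fin 6)).factorial = 2 ^ 4 * 45 by
          simp [Nat.factorial], Nat.factorization_mul (by norm_num) (by norm_num), Nat.prime_two.factorization_pow]
        simp [Nat.factorization_eq_zero_of_not_dvd] }
  have := hP.small (.inr (.inl ⟨rfl, .inl ⟨φ⟩⟩)) hS (h.bt 2) (φ.trans ((e.symm.subgroupMap _).trans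
    (MulEquiv.subgroupCongr (map_equiv_eq_comap_symm _ _))))
  exact ⟨this.1, this.2.1⟩

theorem PM.u33 {U : Sylow 2 X} (hP : PM 2 (U : Subgroup X) c t) {F : Type} [Field F] [Fintype F]
    (hF : Fintype.card F = 9) (φ : X ≃* PSU 3 F 3) : False := by
  obtain ⟨f⟩ := g2_two_der (F := ZMod 2) (by simp) hF
  obtain ⟨e, he⟩ := g2_two (F := ZMod 2) (by simp)
  have hK : ∀ g, g ∈ _root_.commutator (chevG2.group (ZMod 2)) ↔ (e g).right = 1 := fun g => by
    rw [← mem_commutator_GU9, ← map_commutator_equiv e]; simp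
  have s := (hP.small (.inr (.inl ⟨rfl, .inr (.inl ⟨F, _, _, hF, ⟨φ⟩⟩)⟩)) (smG2 index_G2_two) (TwE.bt 2 _)
    (φ.trans f.symm)).2.2 0 1 ((tw_X_eq _).not.2 (by rw [id_orb]; decide))
  have h1 := s.sq (fun v hv u hu => Subtype.ext
    (G2.sq' (mem_subgroupOf.1 hv) (mem_subgroupOf.1 hu)).eq) (subgroupOf_mono _ SB.V_le)
    ⟨(goodG2.SG _).x 7 1 * (goodG2.SG _).x 8 1, (hK _).2 (by rw [map_mul, he, he]; decide +kernel)⟩
    (mem_subgroupOf.2 (mul_mem (G2.mem_V 7 (by decide)) (G2.mem_V 8 (by decide))))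
    ⟨(goodG2.SG _).x 6 1, (hK _).2 (by rw [he]; decide +kernel)⟩ (mem_subgroupOf.2 G2.mem_U)
  exact G2.not_sq (congrArg Subtype.val h1.eq)

theorem PM.tits {U : Sylow 2 X} (hP : PM 2 (U : Subgroup X) c t) (φ : X ≃* TitsGroup) : False := by
  have hS := sm2F4 Agent.S1074.result.1
  obtain ⟨g, a1, a2⟩ := F4.exists_sq (φ := RingHom.id (ZMod 2)) (h2 := tits_two)
  obtain ⟨y, b1, b2⟩ := tw_not_sq twE_2F4 a1 a2
  exact b2 (sm_sq hS ((hP.small (.inr (.inl ⟨rfl, .inr (.inr ⟨φ⟩)⟩)) hS (twE_2F4.bt 2) φ).2.2 0 1 ((tw_X_eq _).not.2 (by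
    change ¬ okgrF4.pi.SameCycle _ _; decide +kernel))) (tw_sq twE_2F4 F4.orth) b1)

theorem PM.l28 {U : Sylow 3 X} (hP : PM 3 (U : Subgroup X) c t) {F : Type} [Field F] [Fintype F]
    (hF : Fintype.card F = 8) (φ : X ≃* Matrix.ProjectiveSpecialLinearGroup (Fin 2) F) : c := by
  classical
  have hz : center (Matrix.SpecialLinearGroup (Fin 2) F) = ⊥ := by
    rw [← Subgroup.card_eq_one, card_center_sl, hF]; simp
  have h1 := card_psl_two (F := F)
  rw [hF, ← Nat.card_congr φ.toEquiv] at h1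
  have := psl2_simple (F := F) (by omega)
  have := φ.isSimpleGroup
  have e := φ.trans (quotCenterEquivOfBot hz)
  refine hP.ca (fun a => ?_) (fun x y z a b d => e.injective ?_)
    (over_of_chev Agent.S1074.result.1 (.inr (.inr ⟨rfl, F, _, _, hF, ⟨φ⟩⟩)))
  · have h2 := U.card_eq_multiplicity
    rw [show Nat.card X = 3 ^ 2 * 56 by simpa using h1, Nat.factorization_mul (by norm_num) (by norm_num),
      Nat.prime_three.factorization_pow] at h2
    rcases a.eq_bot_or_eq_top with b | b <;> simp [b, Nat.factorization_eq_zero_of_not_dvd] at h2 h1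
    omega
  · simp only [map_mul]
    exact H13.GL2.cent_comm (x := e x) (by simpa [hz] using a) (by rw [← map_mul, b, map_mul])
      (by rw [← map_mul, d, map_mul])

theorem PM.chev (hP : PM p (U : Subgroup X) c t) (hX : IsChevSimple p X) :
    c ∧ (IsLieRankOneChar p X ∨ p = 2 ∧ ¬ t ∧ RkTwo X) := by
  rcases hX with h | ⟨rfl, ⟨⟨φ⟩⟩ | ⟨F, _, _, hF, ⟨φ⟩⟩ | ⟨⟨φ⟩⟩⟩ | ⟨rfl, F, _, _, hF, ⟨φ⟩⟩
  · exact hP.lie h
  · exact ⟨(hP.alt φ).1, .inr ⟨rfl, (hP.alt φ).2, .inr (.inr ⟨φ⟩)⟩⟩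
  · exact (hP.u33 hF φ).elim
  · exact (hP.tits φ).elim
  · exact ⟨hP.l28 hF φ, .inl (.inr (.inr (.inr ⟨rfl, .inr ⟨F, _, _, hF, ⟨φ⟩⟩⟩)))⟩

end Main

end H14
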