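/-
S3860: the chunk `BN2`.
-/
import Cfsg.Agent.H9.RL0

set_option autoImplicit false
set_option linter.unusedVariables false
set_option linter.unusedSectionVars false

namespace H14.RL
open Cfsg Subgroup H19 H17.GS H9.RL
open scoped commutatorElement

universe u

/-- outer automorphism groups of simple groups with a strongly embedded subgroup have cyclic Sylow 2-subgroups -/
def KE : Prop := ∀ {G : Type u} [Group G] [Finite G] {X Y : Subgroup G}, Sim X → SE Y X →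
  ∀ Q ≤ N(X), H19.PG 2 Q → ∃ t ∈ Q, Q ≤ zpowers t ⊔ (X ⊔ C(X))

variable {G : Type u} [Group G] [Finite G] {L T S H P : Subgroup G} {s t x y z : G}

theorem two (t : G) (h : ∀ y ∈ S, y ∈ H ∨ t⁻¹ * y ∈ H) : #S ≤ 2 * #H := by
  have k : (S : Set G) ⊆ (H : Set G) ∪ (fun x => t * x) '' (H : Set G) := fun y hy =>
    (h y hy).imp id fun m => ⟨_, m, by simp⟩
  have a := Set.ncard_le_ncard k
  have b := Set.ncard_union_le (H : Set G) ((fun x => t * x) '' (H : Set G))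
  have c := Set.ncard_image_le (f := fun x => t * x) (s := (H : Set G))
  have e : ∀ K : Subgroup G, (K : Set G).ncard = #K := fun K => rfl
  rw [e] at a c; rw [e] at b
  omega

theorem two' (l : H ≤ S) (c : #S ≤ 2 * #H) (ht : t ∈ S) (nt : t ∉ H) (hy : y ∈ S) : y ∈ H ∨ t⁻¹ * y ∈ H := by
  have i : H.relIndex S = 2 := by
    have a := card_mul_relIndex l
    have p := card_pos H
    have n : H.relIndex S ≠ 1 := fun e => nt (relIndex_eq_one.1 e ht)
    have z := relIndex_pos H S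
    have : H.relIndex S ≤ 2 := by
      by_contra! k
      nlinarith
    omega
  have := mul_mem_iff_of_index_two (H := H.subgroupOf S) i (a := ⟨t, ht⟩⁻¹) (b := ⟨y, hy⟩)
  simp only [mem_subgroupOf, coe_mul, coe_inv, inv_mem_iff] at this
  by_cases m : y ∈ H
  · exact .inl m
  · exact .inr (this.2 (iff_of_false nt m))

theorem mem2 (h : t * t = 1) (m : x ∈ zpowers t) : x = 1 ∨ x = t := by
  obtain ⟨k, rfl⟩ := m
  have e : t ^ (2 : ℤ) = 1 := by rw [zpow_two, h]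
  obtain ⟨j, rfl | rfl⟩ := Int.even_or_odd' k
  · left; simp only [zpow_mul, e, one_zpow]
  · right; simp only [zpow_add, zpow_mul, e, one_zpow, one_mul, zpow_one]

theorem zder (pf : ⁅L, L⁆ = L) (pz : H19.PG 2 Z(L)) (hT : Syl 2 T L) : Z(L) ≤ ⁅T, T⁆ := fun z hz => by
  have xN := hT.le
  let y : L := ⟨z, hz.1⟩
  have t := MonoidHom.transfer_eq_pow (Abelianization.of : T.subgroupOf L →* _) y fun k g _ => Subtype.ext (by
    have := mem_cent.1 (pow_mem hz k).2 _ g.2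
    simp only [y, coe_mul, coe_inv, coe_pow, mul_assoc, ← this, inv_mul_cancel_left])
  have y1 : y ∈ commutator L := by
    obtain ⟨w, hw, e⟩ : z ∈ (commutator L).map L.subtype := by
      rw [commutator_def, map_commutator, ← MonoidHom.range_eq_map, range_subtype, pf]; exact y.2
    exact (Subtype.ext e : w = y) ▸ hw
  rw [Abelianization.commutator_subset_ker _ y1, eq_comm, ← MonoidHom.mem_ker, Abelianization.ker_of] at t
  have m : z ^ T.relIndex L ∈ ⁅T, T⁆ := by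
    have := mem_map_of_mem (L.subtype.comp (T.subgroupOf L).subtype) t
    rwa [commutator_def, map_commutator, ← MonoidHom.range_eq_map, MonoidHom.range_comp, range_subtype,
      subgroupOf_map_subtype, inf_eq_left.2 xN] at this
  obtain ⟨j, e⟩ := exists_pow_eq_self_of_coprime (x := z) (hT.idx.coprime' (pz.elt hz))
  exact e ▸ pow_mem m j

/-- the end of the argument -/
theorem fin2 (pf : ⁅L, L⁆ = L) (pz : H19.PG 2 Z(L)) (hT : Syl 2 T L) (sq : ∀ y ∈ T, y * y ∈ Z(L))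
    (cj : ∀ y ∈ T, y ∉ Z(L) → ∃ w, ∃ z ∈ Z(L), w ∈ L ∧ w * w = t ∧ y = w * z) :
    ∀ z ∈ Z(L), z * z = 1 ∧ (t * t = 1 → z = 1 ∨ z = t) := by
  have zc : ∀ z ∈ Z(L), ∀ y ∈ L, y * z = z * y := fun z hz y hy => mem_cent.1 hz.2 y hy
  have cm : ∀ x ∈ T, ∀ y ∈ T, ⁅x, y⁆ = x * x * (x⁻¹ * y * (x⁻¹ * y)) * (y⁻¹ * y⁻¹) := fun x _ y _ => by
    simp only [commutatorElement_def]; group
  have cz : ∀ x ∈ T, ∀ y ∈ T, ⁅x, y⁆ ∈ Z(L) := fun x hx y hy => by
    rw [cm x hx y hy]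
    exact mul_mem (mul_mem (sq x hx) (sq _ (mul_mem (inv_mem hx) hy))) (sq _ (inv_mem hy))
  let E : Subgroup G :=
    { carrier := {z | z ∈ Z(L) ∧ z * z = 1}
      one_mem' := ⟨one_mem _, mul_one _⟩
      mul_mem' := fun {a b} ha hb => ⟨mul_mem ha.1 hb.1, by
        rw [mul_assoc, ← mul_assoc b, zc a ha.1 b hb.1.1, mul_assoc, hb.2, mul_one, ha.2]⟩
      inv_mem' := fun {a} ha => ⟨inv_mem ha.1, by rw [← mul_inv_rev, ha.2, inv_one]⟩ }
  have dE : ⁅T, T⁆ ≤ E := commutator_le.2 fun x hx y hy => ⟨cz x hx y hy, by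
    have a := zc _ (cz x hx y hy) y (hT.le hy)
    have b := zc _ (sq y hy) x (hT.le hx)
    calc ⁅x, y⁆ * ⁅x, y⁆ = ⁅x, y⁆ * (y * ⁅x, y⁆) * y⁻¹ := by rw [a]; group
      _ = x * (y * y) * x⁻¹ * (y * y)⁻¹ := by simp only [commutatorElement_def]; group
      _ = 1 := by rw [b]; group⟩
  have z2 : ∀ z ∈ Z(L), z * z = 1 := fun z hz => (dE (zder pf pz hT hz)).2
  have st : ∀ y ∈ T, y ∉ Z(L) → y * y = t := fun y hy n => by
    obtain ⟨w, z, hz, wL, e, rfl⟩ := cj y hy n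
    rw [mul_assoc, ← mul_assoc z, ← zc z hz w wL, mul_assoc, z2 z hz, mul_one, e]
  refine fun z hz => ⟨z2 z hz, fun tt => mem2 tt (commutator_le.2 (fun x hx y hy => ?_) (zder pf pz hT hz))⟩
  have c1 : x * y = y * x → ⁅x, y⁆ ∈ zpowers t := fun e => by
    rw [commutatorElement_eq_one_iff_mul_comm.2 e]; exact one_mem _
  by_cases a : x ∈ Z(L)
  · exact c1 (zc x a y (hT.le hy)).symm
  by_cases b : y⁻¹ ∈ Z(L)
  · exact c1 (zc y ((Subgroup.inv_mem_iff _).1 b) x (hT.le hx))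
  by_cases c : x⁻¹ * y ∈ Z(L)
  · refine c1 ?_
    have := zc _ c x (hT.le hx)
    calc x * y = x * (x * (x⁻¹ * y)) := by group
      _ = y * x := by rw [this]; group
  rw [cm x hx y hy, st x hx a, st _ (mul_mem (inv_mem hx) hy) c, st _ (inv_mem hy) b]
  exact mul_mem (mul_mem (mem_zpowers t) (mem_zpowers t)) (mem_zpowers t)

theorem bn2 (r2 : R2.{u}) (ke : KE.{u}) : BN2.{u} := by
  intro G B _ _ _ _ a b L φ s Y cf br a2 sL rr sC se bd
  haveI := cf.nm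
  obtain ⟨P, hP⟩ := exists_syl 2 C[s]
  obtain ⟨S, hS, PS⟩ := hP.pi.exists_syl (le_top (a := P))
  have eP : S ⊓ C[s] = P := hP.max (le_inf PS hP.le) inf_le_right (hS.pi.infl _)
  have cP := cf.hy s rr.re rr.nc P hP
  have cS := cf.sy S hS
  have al := r2 cf.toSt rr hS (eP ▸ hP)
  have mP : ∀ y ∈ S, y * s = s * y → y ∈ P := fun y hy e => eP ▸ ⟨hy, mem_cent1.2 e⟩
  have Pc : ∀ y ∈ P, y * s = s * y := fun y hy => mem_cent1.1 (hP.le hy)
  have zc : ∀ z ∈ center G, z ∈ L → z ∈ Z(L) := fun z hz l => ⟨l, mem_cent.2 fun h _ => mem_center_iff.1 hz h⟩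
  have ss : s * s ∈ Z(L) := zc _ rr.sq (mul_mem sL sL)
  have alZ : ∀ y ∈ S, y * s * y⁻¹ * s⁻¹ ∈ Z(L) := fun y hy =>
    zc _ (al y hy) (mul_mem (cf.nm.conj_mem s sL y) (inv_mem sL))
  have al2 : ∀ y ∈ S, y * s * y⁻¹ * s⁻¹ * (y * s * y⁻¹ * s⁻¹) = 1 := fun y hy => by
    have a := mem_center_iff.1 (al y hy) s
    have b := mem_center_iff.1 rr.sq y
    calc _ = y * s * y⁻¹ * s⁻¹ * (y * s * y⁻¹ * s⁻¹ * s) * s⁻¹ := by group
      _ = y * (s * s) * y⁻¹ * (s * s)⁻¹ := by rw [← a]; group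
      _ = 1 := by rw [b]; group
  have sqP : ∀ y ∈ S, y * y ∈ P := fun y hy => mP _ (mul_mem hy hy) (by
    have a := mem_center_iff.1 (al y hy) y
    have b := al2 y hy
    calc y * y * s = y * (y * s * y⁻¹ * s⁻¹) * (s * y) := by group
      _ = y * s * y⁻¹ * s⁻¹ * (y * s * y⁻¹ * s⁻¹) * (s * (y * y)) := by rw [a]; group
      _ = _ := by rw [b, one_mul])
  have e2 : ∀ l : G, ∀ n, l ^ 2 ^ n ∈ Z(L) → PiE {2} l := fun l n m => by
    refine ((PiN.prime_pow Nat.prime_two n).mul (cf.pz.elt m)).dvd (orderOf_dvd_of_pow_eq_one ?_)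
    rw [pow_mul, pow_orderOf_eq_one]
  have sP : s ∈ P := hP.mem_of_norm (mem_cent1_self s) (e2 s 1 (by simpa [pow_two] using ss))
    (cent_le_norm _ (le_cent1_iff.1 hP.le))
  have nL : ∀ K : Subgroup G, K ≤ N(L) := fun K => le_top.trans (normalIn_top (H := L)).norm
  have hT : Syl 2 (S ⊓ L) L := hS.inf_normal normalIn_top
  have nT : S ≤ N(S ⊓ L) := norms_inf le_normalizer (nL S)
  have ZS : Z(L) ≤ S := hS.le_of_norm' le_top cf.pz (norms_inf (nL S) (norms_cent (nL S)))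
  have ZP : Z(L) ≤ (S ⊓ L) ⊓ P := fun z hz => ⟨⟨ZS hz, hz.1⟩, mP z (ZS hz) (mem_cent.1 hz.2 s sL).symm⟩
  -- the cyclic outer part
  have nX : ∀ g : G, φ g ∈ N(L.map φ) := fun g => mem_norm_of_cj_le (by
    rintro _ ⟨_, ⟨l, hl, rfl⟩, rfl⟩
    exact ⟨g * l * g⁻¹, cf.nm.conj_mem l hl g, by simp⟩)
  obtain ⟨_, ⟨t, tS, rfl⟩, ht⟩ := ke br.sim se (S.map φ) (by rintro _ ⟨g, -, rfl⟩; exact nX g) (hS.map φ).pi
  have cb : ∀ c : G, φ c ∈ C(L.map φ) → c ∈ C(L) := fun c hc =>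
    qs_cents cf.qs (nL (zpowers c)) (commutator_le.2 fun l hl y hy => ((br.ker _).1 (by
      have : φ y ∈ C(L.map φ) := by
        obtain ⟨k, rfl⟩ := hy
        rw [map_zpow]; exact zpow_mem hc k
      rw [map_commutatorElement]
      exact commutatorElement_eq_one_iff_mul_comm.2 (mem_cent.1 this _ (mem_map_of_mem φ hl)))).2) (mem_zpowers c)
  have dec : ∀ y ∈ S, ∃ k : ℤ, (t ^ k)⁻¹ * y ∈ (S ⊓ L) ⊔ P := fun y hy => by
    obtain ⟨_, ⟨k, rfl⟩, w, hw, e⟩ := (mem_sup_of_norm' (zpowers_le.2 (norms_sup (A := ⊤)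
      (fun g _ => (br.sur g).elim fun g e => e ▸ nX g) (norms_cent fun g _ => (br.sur g).elim fun g e => e ▸ nX g)
      (mem_top _)))).1 (ht (mem_map_of_mem φ hy))
    obtain ⟨_, ⟨l, hl, rfl⟩, c, hc, rfl⟩ := (mem_sup_of_norm (cent_le_norm _)).1 hw
    refine ⟨k, ?_⟩
    have yS : (t ^ k)⁻¹ * y ∈ S := mul_mem (inv_mem (zpow_mem tS k)) hy
    have cC : l⁻¹ * ((t ^ k)⁻¹ * y) ∈ C(L) := cb _ (by
      simp only [map_mul, map_inv, map_zpow, e]
      simpa [mul_assoc] using hc)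
    generalize (t ^ k)⁻¹ * y = v at yS cC
    obtain ⟨c, rfl⟩ : ∃ c, v = l * c := ⟨l⁻¹ * v, by group⟩
    rw [inv_mul_cancel_left] at cC
    obtain ⟨n, hn⟩ := (hS.pi.elt yS).exists_pow (orderOf_pos _).ne'
    have cm : Commute l c := mem_cent.1 cC l hl
    have pw : l ^ 2 ^ n * c ^ 2 ^ n = 1 := by rw [← cm.mul_pow, ← hn, pow_orderOf_eq_one]
    have lT : l ∈ S ⊓ L := hT.mem_of_norm hl (e2 l n ⟨pow_mem hl _, by
      rw [eq_inv_of_mul_eq_one_left pw]; exact C(L).inv_mem (pow_mem cC _)⟩) (by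
        rw [show l = l * c * c⁻¹ by group]
        exact mul_mem (nT yS) (inv_mem (cent_le_norm _ (cent_mono inf_le_right cC))))
    refine mul_mem (mem_sup_left lT) (mem_sup_right (mP c ?_ (mem_cent.1 cC s sL).symm))
    simpa using mul_mem (S.inv_mem lT.1) yS
  have c1 : #S ≤ 2 * #((S ⊓ L) ⊔ P) := two t fun y hy => by
    obtain ⟨k, m⟩ := dec y hy
    have t2 : ∀ j : ℤ, t ^ (2 * j) ∈ (S ⊓ L) ⊔ P := fun j => by
      rw [zpow_mul, zpow_two]; exact zpow_mem (mem_sup_right (sqP t tS)) j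
    obtain ⟨j, rfl | rfl⟩ := Int.even_or_odd' k
    · exact .inl (by simpa using mul_mem (t2 j) m)
    · refine .inr ?_
      have := mul_mem (t2 j) m
      rwa [show t ^ (2 * j) * ((t ^ (2 * j + 1))⁻¹ * y) = t⁻¹ * y by group] at this
  have c2 := card_sup_mul_inf (PS.trans nT)
  have c3 := bd _ hT
  have c4 : #((S ⊓ L) ⊓ P) ≤ 2 * #Z(L) := by
    rw [cS] at c1; rw [cP] at c2
    have p : 0 < 2 ^ (a + b) := by positivity
    refine Nat.le_of_mul_le_mul_left ?_ p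
    calc 2 ^ (a + b) * #((S ⊓ L) ⊓ P) ≤ 2 * #((S ⊓ L) ⊔ P) * #((S ⊓ L) ⊓ P) := Nat.mul_le_mul_right _ c1
      _ = 2 * (#(S ⊓ L) * 2 ^ b) := by rw [mul_assoc, c2]
      _ ≤ 2 * (2 ^ a * #Z(L) * 2 ^ b) := Nat.mul_le_mul_left _ (Nat.mul_le_mul_right _ c3)
      _ = _ := by ring
  have sZ : s ∉ Z(L) := fun m => sC m.2
  have cs : ∀ y ∈ S ⊓ L, y * s = s * y → y ∈ Z(L) ∨ s⁻¹ * y ∈ Z(L) := fun y hy e =>
    two' ZP c4 ⟨⟨PS sP, sL⟩, sP⟩ sZ ⟨hy, mP y hy.1 e⟩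
  have zm : ∀ z ∈ Z(L), ∀ y ∈ L, y * z = z * y := fun z hz y hy => mem_cent.1 hz.2 y hy
  have sq : ∀ y ∈ S ⊓ L, y * y ∈ Z(L) := fun y hy => by
    refine (cs _ (mul_mem hy hy) (Pc _ (sqP y hy.1))).elim id fun m => ?_
    have a := zm _ m y hy.2
    rcases cs y hy (by
      calc y * s = s * (s⁻¹ * (y * y) * y) * (y * y)⁻¹ * s := by group
        _ = s * y := by rw [← a]; group) with k | k
    · exact mul_mem k k
    · have b := zm _ k s sL
      rw [show y * y = s * (s⁻¹ * y * s) * (s⁻¹ * y) by group, ← b,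
        show s * (s * (s⁻¹ * y)) * (s⁻¹ * y) = s * s * (s⁻¹ * y) * (s⁻¹ * y) by group]
      exact mul_mem (mul_mem ss k) k
  have o2 : ∀ y ∈ L, y * y ∈ Z(L) → y ∉ Z(L) → orderOf (φ y) = 2 := fun y hy m n =>
    orderOf_eq_prime (by rw [pow_two, ← map_mul]; exact (br.ker _).2 m) fun e => n ((br.ker _).1 e)
  have fz := fin2 (t := s * s) (qs_perfect cf.qs) cf.pz hT sq fun y hy n => by
    obtain ⟨_, ⟨g, hg, rfl⟩, e⟩ := se.conj (mem_map_of_mem φ sL) (mem_map_of_mem φ hy.2) (o2 s sL ss sZ)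
      (o2 y hy.2 (sq y hy) n)
    refine ⟨g * s * g⁻¹, (g * s * g⁻¹)⁻¹ * y, (br.ker _).1 (by simp only [map_mul, map_inv, e, inv_mul_cancel]),
      cf.nm.conj_mem s sL g, ?_, by group⟩
    calc _ = g * (s * s) * g⁻¹ := by group
      _ = _ := by rw [mem_center_iff.1 rr.sq g]; group
  have ff : ∀ y ∈ S, y ∉ P → y * s * y⁻¹ * s⁻¹ = s * s := fun y hy n =>
    ((fz _ (alZ y hy)).2 (fz _ ss).1).resolve_left fun e => n (mP y hy (by
      calc y * s = y * s * y⁻¹ * s⁻¹ * (s * y) := by group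
        _ = _ := by rw [e, one_mul]))
  have c5 : #S ≤ 2 * #P := by
    by_cases l : S ≤ P
    · exact two 1 fun y hy => .inl (l hy)
    obtain ⟨v, vS, vP⟩ := SetLike.not_le_iff_exists.1 l
    refine two v fun y hy => (em _).imp id fun n => mP _ (mul_mem (inv_mem vS) hy) ?_
    calc v⁻¹ * y * s = v⁻¹ * (y * s * y⁻¹ * s⁻¹) * (s * y) := by group
      _ = _ := by rw [ff y hy n, ← ff v vS vP]; group
  rw [cS, cP, pow_add] at c5
  have : 2 ^ 2 ≤ 2 ^ a := Nat.pow_le_pow_right two_pos a2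
  have p : 0 < 2 ^ b := by positivity
  nlinarith

end H14.RL
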