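import Cfsg.Agent.H9.RU1
import Cfsg.Agent.H16.RU1
import Cfsg.Agent.H0.RU2

/-! S2196: chunk `N2b` (notes/RU.md). -/

set_option autoImplicit false
set_option linter.unusedSectionVars false
set_option linter.unusedVariables false

open Module MulAction H13.R3 H12 H0.RU Pointwise
open H11 (hermT frob)
open H11.RS (PO)

namespace H14.RU

universe u

attribute [-simp] H11.frob_apply

variable {F : Type u} [Field F] [Fintype F] {q : ℕ} {hF : Fintype.card F = q ^ 2}
  {V : Type u} [AddCommGroup V] [Module F V] [Fintype V] {C : CForm (hermT hF) V}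
  {G : Type u} [Group G] [Fintype G] [DistribMulAction G V] [SMulCommClass G F V] {H : Subgroup G}
  {x y z : V} {u : ℕ}

theorem sm_ln (g : G) (x y : V) : g • ln F x y = ln F (g • x) (g • y) := by
  rw [ln, Submodule.smul_span, ln, Set.smul_set_insert, Set.smul_set_singleton]
theorem sm_sp (g : G) (x : V) : g • (F ∙ x) = F ∙ (g • x) := by
  rw [Submodule.smul_span, Set.smul_set_singleton]

theorem n2b1 (un : Un C G) (tw : Tw C H z u) {r : ℕ} (od : Od q r (finrank F V - 2)) :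
    r ∣ Nat.card ↥(H ⊓ St G (F ∙ z)) := by
  have n6 := un.n6
  have iz := tw.iz
  obtain ⟨y0, f0⟩ := ex_fl un.nd (by omega) iz
  have st : ∀ j : G, j • z ∈ F ∙ z → ∀ y, Fl C z y → Fl C z (j • y) ∧ j • ln F z y = ln F z (j • y) :=
    fun j hj y hy => by
      obtain ⟨c, hc⟩ := Submodule.mem_span_singleton.1 hj
      have c0 : c ≠ 0 := fun e => iz.1 (by
        rw [e, zero_smul] at hc; exact (smul_eq_zero_iff_eq j).1 hc.symm)
      have f1 : Fl C z (j • y) := by
        have := (un.fl_smul (g := j)).2 hy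
        rw [← hc] at this
        simpa using (fl_tr (y := j • y) 0 c0 one_ne_zero).1 (by simpa using this)
      exact ⟨f1, by
        rw [sm_ln]; exact ln_eq ((un.fl_smul (g := j)).2 hy).ind (sp_le_ln hj) r_ln⟩
  have d1 := orb_dvd (J := H ⊓ St G (F ∙ z)) le_rfl (S := ln F z '' {y | Fl C z y}) (a := ln F z y0)
    (fun j hj => by
      have := st j ((hj.2 z).2 (Submodule.mem_span_singleton_self z)) _ f0
      exact ⟨_, this.1, this.2.symm⟩)
    (by
      rintro _ ⟨y, hy, rfl⟩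
      obtain ⟨j, hj, e1, e2⟩ := tw.s1 _ _ f0 hy
      have := st j e1 _ f0
      exact ⟨j, ⟨hj, mem_St_sp e1⟩, this.2.trans (ln_eq this.1.ind l_ln e2)⟩)
  have d2 := dcount {y | Fl C z y} (ln F z '' {y | Fl C z y}) (fun y W => ln F z y = W) (m := 1)
    (n := q ^ 2 * (q ^ 2 - 1)) (fun y hy => by
      rw [Set.ncard_eq_one]
      exact ⟨ln F z y, Set.ext fun W => ⟨fun h => h.2.symm, fun h => ⟨⟨y, hy, h.symm⟩, h.symm⟩⟩⟩) (by
      rintro _ ⟨y, hy, rfl⟩
      have := ncard_off iz.1 (l_ln : z ∈ ln F z y)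
      rw [(Fl.ind hy).finrank, hF] at this
      rw [Nat.mul_sub_one, ← sq, ← this]
      congr 1
      exact Set.ext fun w => ⟨fun h => ⟨h.2 ▸ r_ln, h.1.2.2.2⟩, fun h =>
        ⟨Fl.of_mem hy l_ln h.1 ⟨iz.1, h.2⟩, ln_eq ⟨iz.1, h.2⟩ l_ln h.1⟩⟩)
  have d3 := (H16.RU.cnt un.nd (by omega)).2.2.2.2 z iz
  have q1 : 1 ≤ q ^ 2 := Nat.one_le_pow _ _ (by have := un.q3; omega)
  have d4 : r ∣ (ln F z '' {y | Fl C z y}).ncard * (q ^ 2 * (q ^ 2 - 1)) := by
    rw [← d2, mul_one, ← Int.natCast_dvd_natCast, d3]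
    exact ((od.dvd_aa.2 dvd_rfl).mul_right _).mul_left _
  refine ((od.1.dvd_mul.1 d4).resolve_right fun n => ?_).trans d1
  refine (od.1.dvd_mul.1 n).elim (fun n => od.not_dvd (by omega) (od.1.dvd_of_dvd_pow n)) fun n =>
    od.not_dvd_sq (by omega) ?_
  simpa [Nat.cast_sub q1] using Int.natCast_dvd_natCast.2 n

theorem n2b3 (un : Un C G) (tw : Tw C H z 3) (q3 : q = 3) : False := by
  subst q3
  have n6 := un.n6
  have iz := tw.iz
  obtain ⟨y, f0⟩ := ex_fl un.nd (by omega) iz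
  have c1 := tw.cnt y f0
  have c2 := Set.ncard_add_ncard_compl {c : F | PO F H z (y + c • z)}
  rw [Nat.card_eq_fintype_card, hF] at c2
  have ind := ind_iff.1 f0.ind
  have inj : Function.Injective fun c : F => F ∙ (y + c • z) := fun c c' e => by
    obtain ⟨a, ha⟩ := Submodule.mem_span_singleton.1
      ((show F ∙ (y + c • z) = F ∙ (y + c' • z) from e).le (Submodule.mem_span_singleton_self _))
    have := ind (a * c' - c) (a - 1) (by linear_combination (norm := module) ha)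
    linear_combination c' * this.2 - this.1
  have n0 : ∀ c : F, y + c • z ≠ 0 := fun c => (f0.add c).isr.1
  haveI : Fact (Nat.Prime 7) := ⟨by norm_num⟩
  have ml : ∀ c : F, y + c • z ∈ ln F z y := fun c => add_mem r_ln (Submodule.smul_mem _ _ l_ln)
  have el : ∀ c : F, ln F (y + c • z) z = ln F z y := fun c => ln_eq (f0.add c).symm.ind (ml c) l_ln
  obtain ⟨P, p1, p2, p3⟩ := sylow_trans (J := H ⊓ St G (ln F z y)) (p := 7) (k := 1)
    (S := (fun c : F => F ∙ (y + c • z)) '' {c : F | PO F H z (y + c • z)}ᶜ) (by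
      rintro j hj _ ⟨c, hc, rfl⟩
      obtain ⟨a, b, e⟩ := mem_ln.1 ((hj.2 _).2 (ml c))
      have np : ¬ PO F H z (j • (y + c • z)) := fun n => hc ((po_smul hj.1).1 n)
      have b0 : b ≠ 0 := fun n => np (by
        have a0 : a ≠ 0 := fun m => n0 c ((smul_eq_zero_iff_eq j).1 (by rw [← e, n, m]; simp))
        rw [← e, n]; simpa using (po_sml a0).2 (PO.refl z))
      have e2 : j • (y + c • z) = b • (y + (a / b) • z) := by
        rw [← e, smul_add, smul_smul, mul_div_cancel₀ _ b0, add_comm]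
      refine ⟨a / b, fun n => np (e2 ▸ (po_sml b0).2 n), ?_⟩
      simp only [sm_sp, e2]
      exact (Submodule.span_singleton_smul_eq b0.isUnit _).symm) (by
      rintro _ ⟨c, hc, rfl⟩ _ ⟨c', hc', rfl⟩
      obtain ⟨j, hj, e1, e2⟩ := tw.s2 y c c' f0 hc hc'
      refine ⟨j, ⟨hj, ?_⟩, ?_⟩
      · rw [← el c]
        exact mem_St_ln (by rw [el c]; exact (Submodule.span_singleton_le_iff_mem _ _).2 (ml c') e1)
          (by rw [el c, ← el c']; exact e2)
      · simp only [sm_sp]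
        obtain ⟨a, ha⟩ := Submodule.mem_span_singleton.1 e1
        have a0 : a ≠ 0 := fun m => n0 c ((smul_eq_zero_iff_eq j).1 (by
          rw [m, zero_smul] at ha; exact ha.symm))
        rw [← (ha : a • (y + c' • z) = j • (y + c • z))]
        exact Submodule.span_singleton_smul_eq a0.isUnit _) (by
      rw [Set.ncard_image_of_injective _ inj]; omega)
  obtain ⟨c, hc, c', hc', ne⟩ := (Set.one_lt_ncard (s := {c : F | PO F H z (y + c • z)}ᶜ)).1 (by omega)
  obtain ⟨g, hg, e⟩ := p3 _ ⟨c, hc, rfl⟩ _ ⟨c', hc', rfl⟩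
  obtain ⟨k, hk⟩ := p2 ⟨g, hg⟩
  have hk' : g ^ 7 ^ k = 1 := by simpa using congrArg Subtype.val hk
  have d := H9.RU.fpf (by norm_num) hk'
    (S := {v | v ∈ ln F z y ∧ v ∉ ln F z y ⊓ H9.RU.fx F V g})
    (fun s hs => ⟨((p1 hg).2 _).2 hs.1, fun n => hs.2 ⟨hs.1, smul_left_cancel g n.2⟩⟩)
    fun s hs n => hs.2 ⟨hs.1, n⟩
  have lt : finrank F ↥(ln F z y ⊓ H9.RU.fx F V g) < finrank F (ln F z y) :=
    Submodule.finrank_lt_finrank_of_lt (lt_of_le_of_ne inf_le_left fun n => ne (inj (by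
      have : g • (y + c • z) = y + c • z := (n.ge (ml c)).2
      simpa only [sm_sp, this] using e)))
  rw [ncard_diff inf_le_left, hF, f0.ind.finrank] at d
  rw [f0.ind.finrank] at lt
  generalize finrank F ↥(ln F z y ⊓ H9.RU.fx F V g) = i at d lt
  interval_cases i <;> norm_num at d

theorem n2b2 (un : Un C G) (tw : Tw C H z 1) (q3 : q = 3) (ev : Ev C H z) {r : ℕ}
    (od : Od q r (finrank F V - 2)) : ¬ (Ob F H z).ncard ≡ 16 [MOD r] := by
  subst q3
  intro md
  have n6 := un.n6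
  have iz := tw.iz
  have c1 := Set.ncard_union_eq (s := {v | v ∈ Ob F H z ∧ C.B z v ≠ 0})
    (t := {v | v ∈ (F ∙ z) ∧ v ≠ 0}) (Set.disjoint_left.2 fun v h k => h.2 (by
      obtain ⟨c, rfl⟩ := Submodule.mem_span_singleton.1 k.1
      simp [iz.2]))
  rw [ncard_ne0, finrank_span_singleton iz.1, hF, show {v | v ∈ Ob F H z ∧ C.B z v ≠ 0} ∪
    {v | v ∈ (F ∙ z) ∧ v ≠ 0} = Ob F H z from Set.ext fun v =>
    ⟨fun h => h.elim And.left fun h => ⟨h.2, (PO.of_mem h.1).symm h.2⟩, fun h => by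
      by_contra n
      simp only [Set.mem_union, Set.mem_setOf_eq, not_or, not_and, not_not] at n
      have := tw.cnt v ⟨iz, (un.is_ob iz h).2, n.1 h, fun m => h.1 (n.2 m)⟩
      rw [Nat.add_eq_right, Set.ncard_eq_zero] at this
      exact (this.le (show (0 : F) ∈ _ by simpa using h.2) :)⟩] at c1
  obtain ⟨α, ha, ev⟩ := ev
  have np := Np_mul (q := 3) (d := finrank F V) (by omega)
  have h8 : (8 : ZMod r) ≠ 0 := fun n => od.not_dvd_sq (by omega) (by
    rw [← ZMod.intCast_zmod_eq_zero_iff_dvd]; norm_num; exact n)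
  have pw := fun i => od.pow_iff (i := i)
  haveI : Fact r.Prime := ⟨od.1⟩
  have m2 := (ZMod.natCast_eq_natCast_iff _ _ _).2 md
  generalize (Ob F H z).ncard = O at *
  generalize {v | v ∈ Ob F H z ∧ C.B z v ≠ 0}.ncard = O' at *
  obtain ⟨m, hm⟩ : ∃ m, finrank F V = m + 3 := ⟨finrank F V - 3, by omega⟩
  have m3 : 3 ≤ m := by omega
  rw [hm] at ev np ha pw
  subst c1
  have t2 : (3 : ℤ) ^ (2 * (m + 3) - 3) = 27 * ((-3) ^ m) ^ 2 := by
    rw [← pow_mul, mul_comm m, Even.neg_pow (by simp), show 2 * (m + 3) - 3 = 2 * m + 3 by omega]; ring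
  have t3 : aa 3 (m + 3) * aa 3 (m + 3 - 1) = -((-27) * (-3) ^ m - 1) * (9 * (-3) ^ m - 1) := by
    have : ((-1 : ℤ) ^ m) ^ 2 = 1 := by rw [← pow_mul, Even.neg_one_pow (by simp)]
    rw [aa_eq, aa_eq, show m + 3 - 1 = m + 2 by omega]
    push_cast
    linear_combination (-((-27) * (-3) ^ m - 1) * (9 * (-3) ^ m - 1) : ℤ) * this
  have t4 : 27 ≤ |(-3 : ℤ) ^ m| := by
    rw [abs_pow]; exact pow_le_pow_right₀ (a := (3 : ℤ)) (by norm_num) m3
  have y1 := (pw (m + 1)).2 dvd_rfl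
  simp only [show m + 3 - 2 = m + 1 by omega, show m + 3 - 3 = m by omega, pow_succ] at ha y1
  rw [show ((3 : ℕ) : ℤ) = 3 from rfl, t2] at ev
  rw [t3] at np
  push_cast at ev np ha y1 m2 pw
  have hT : ((-3 : ZMod r) ^ m) = (((-3 : ℤ) ^ m : ℤ) : ZMod r) := by push_cast; rfl
  rw [hT] at y1
  have t6 : m = 3 → (-3 : ℤ) ^ m = -27 := by rintro rfl; norm_num
  generalize (-3 : ℤ) ^ m = t at *
  have t5 : ∀ a : ℤ, a * t - 1 ≠ 0 := fun a n => by
    have : t ∣ 1 := ⟨a, by linear_combination -n⟩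
    have := Int.le_of_dvd one_pos ((abs_dvd _ _).2 this)
    omega
  obtain rfl | rfl := ha
  · have e : (O' : ℤ) + 8 = 8 * (1 + 27 * t) := mul_left_cancel₀ (mul_ne_zero (t5 9) (t5 (-3))) (by
      linear_combination (O' - 24 * t) * np - 8 * ev)
    have e2 := congrArg (Int.cast (R := ZMod r)) e
    push_cast at e2
    have e3 : (10 : ZMod r) = 0 := mul_left_cancel₀ h8 (by linear_combination e2 - m2 - 72 * y1)
    have := Nat.le_of_dvd (by norm_num) ((pw 4).1 (by linear_combination 8 * e3))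
    have := t6 (by omega)
    omega
  · have e : (O' : ℤ) + 8 = 8 * (1 - 9 * t) := mul_left_cancel₀ (mul_ne_zero (t5 (-27)) (t5 1)) (by
      linear_combination (O' + 8 * t) * np - 8 * ev)
    have e2 := congrArg (Int.cast (R := ZMod r)) e
    push_cast at e2
    exact h8 (by
      have : (8 : ZMod r) * 2 = 0 := by linear_combination m2 - e2 - 24 * y1
      have h2 : (2 : ZMod r) = 0 := (mul_eq_zero.1 this).resolve_left h8
      linear_combination 4 * h2)

theorem n2b : N2b C H := fun un z u tw => ⟨fun r od => n2b1 un tw od, fun hu q3 ev r od => by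
  have := tw.dvd
  have : u = 1 ∨ u = 3 := by
    subst q3
    interval_cases u <;> omega
  obtain rfl | rfl := this
  · exact n2b2 un tw q3 ev od
  · exact (n2b3 un tw q3).elim⟩

end H14.RU
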