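/-
S3694, chunks [PF] [KF0] [KF]: invariant fields of matrices.
-/
import Cfsg.Agent.H22.SB3
import Cfsg.Agent.H27.IR1

set_option autoImplicit false
set_option linter.unusedSectionVars false

namespace H14.SM
open Matrix H22.SB Module

universe u
variable {F : Type} [Field F] [Fintype F] {n : ℕ} (Φ : Fm F) {𝔄 : Subalgebra F (Mat n F)} {a b N : Mat n F}

theorem mext {a b : Mat n F} (h : ∀ v, a *ᵥ v = b *ᵥ v) : a = b := toLin'.injective (LinearMap.ext h)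

theorem finv (h : IsField 𝔄) (hb : b ∈ 𝔄) (b0 : b ≠ 0) : ∃ c ∈ 𝔄, c * b = 1 ∧ b * c = 1 :=
  let ⟨c, e⟩ := h.mul_inv_cancel (a := ⟨b, hb⟩) fun e => b0 (congrArg Subtype.val e)
  ⟨c, c.2, congrArg Subtype.val ((h.mul_comm _ _).trans e), congrArg Subtype.val e⟩

theorem fcm (h : IsField 𝔄) (ha : a ∈ 𝔄) (hb : b ∈ 𝔄) : a * b = b * a := congrArg Subtype.val (h.mul_comm ⟨a, ha⟩ ⟨b, hb⟩)

theorem fz (h : IsField 𝔄) (hb : b ∈ 𝔄) {x : Fin n → F} (x0 : x ≠ 0) (e : b *ᵥ x = 0) : b = 0 := by_contra fun b0 => by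
  obtain ⟨c, -, a, -⟩ := finv h hb b0
  exact x0 (by rw [← one_mulVec x, ← a, ← mulVec_mulVec, e, mulVec_zero])

theorem fz' (h : IsField 𝔄) (hb : b ∈ 𝔄) (N0 : N ≠ 0) (e : b * N = 0) : b = 0 := by_contra fun b0 => by
  obtain ⟨c, -, a, -⟩ := finv h hb b0
  exact N0 (by rw [← Matrix.one_mul N, ← a, Matrix.mul_assoc, e, Matrix.mul_zero])

theorem sc_iff : a ∈ (⊥ : Subalgebra F (Mat n F)) ↔ Sc a := by
  simp [Algebra.mem_bot, Sc, Algebra.algebraMap_eq_smul_one, eq_comm]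

theorem ex_ns (h : 𝔄 ≠ ⊥) : ∃ a ∈ 𝔄, ¬ Sc a := by
  simpa only [sc_iff] using SetLike.exists_of_lt (bot_lt_iff_ne_bot.2 h)

theorem eig (h : IsField 𝔄) (ha : a ∈ 𝔄) {w : Fin n → F} (w0 : w ≠ 0) {l : F} (e : a *ᵥ w = l • w) : Sc a :=
  ⟨l, sub_eq_zero.1 (fz h (sub_mem ha (𝔄.smul_mem 𝔄.one_mem l)) w0 (by rw [sub_mulVec, e, smul_mulVec, one_mulVec, sub_self]))⟩

theorem ex_θ (hu : Φ.u) : ∃ θ, Φ.c θ ≠ θ := by
  by_contra! h
  obtain ⟨g, hg⟩ := IsCyclic.exists_ofOrder_eq_natCard (α := Fˣ)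
  have a : g ^ (Φ.q - 1) = 1 := by
    have := (Φ.cq g).symm.trans (h g)
    rw [← Units.val_pow_eq_pow_val, Units.val_inj] at this
    rw [pow_sub _ (by have := Φ.q2; omega), this]; simp
  have := Nat.le_of_dvd (by have := Φ.q2; omega) (hg ▸ orderOf_dvd_of_pow_eq_one a)
  rw [Nat.card_units, Nat.card_eq_fintype_card, Φ.cU hu] at this
  have := Φ.q2
  have : 2 * Φ.q ≤ Φ.q ^ 2 := by nlinarith
  omega

theorem ex_δ (hu : Φ.u) : ∃ δ, δ ≠ 0 ∧ Φ.c δ = -δ :=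
  let ⟨θ, h⟩ := ex_θ Φ hu; ⟨θ - Φ.c θ, sub_ne_zero.2 h.symm, by simp [Φ.c_c]⟩

theorem upow (h : N * N = 0) (m : ℕ) : (1 + N) ^ m = 1 + (m : F) • N := by
  induction m with
  | zero => simp
  | succ m ih => rw [pow_succ, ih]; simp [mul_add, add_mul, h, add_smul, add_assoc]

theorem uinv (h : N * N = 0) : (1 - N) * (1 + N) = 1 := by simp [mul_add, sub_mul, h]

theorem upp (h : N * N = 0) : (1 + N) ^ Φ.p = 1 := by
  have := Φ.ch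
  rw [upow h, CharP.cast_eq_zero, zero_smul, add_zero]

/-- the unipotent element `1 + N` -/
noncomputable def un (h : N * N = 0) (hu : Φ.u → Φ.adj N = -N) : Φ.S (Fin n) := Φ.mkS (1 + N) (by
    have := Φ.ch; have := Fact.mk Φ.pp
    exact frobenius_inj F Φ.p (by rw [frobenius_def, ← det_pow, upp Φ h, det_one, map_one]))
  fun u => by rw [Φ.adj_add, Φ.adj_one, hu u, ← sub_eq_add_neg, uinv h]

theorem un_inv (h : N * N = 0) (hu : Φ.u → Φ.adj N = -N) : mt (un Φ h hu)⁻¹ = 1 - N := by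
  rw [← Matrix.one_mul (mt (un Φ h hu)⁻¹), ← uinv h, Matrix.mul_assoc, uinv h]
  exact (congrArg _ (mt_mul_inv (un Φ h hu))).trans (Matrix.mul_one _)

theorem ex_tv (h3 : 3 ≤ n) : ∃ w φ : Fin n → F, w ≠ 0 ∧ φ ≠ 0 ∧ φ ⬝ᵥ w = 0 ∧ (Φ.u → Φ.adj (vecMulVec w φ) = -vecMulVec w φ) := by
  obtain ⟨n, rfl⟩ : ∃ m, n = m + 2 := ⟨n - 2, by omega⟩
  by_cases hu : Φ.u
  · obtain ⟨δ, d0, d⟩ := ex_δ Φ hu
    obtain ⟨θ, hθ⟩ := ex_θ Φ hu
    obtain ⟨t, ht⟩ := H27.IR.exists_norm (φ := (Φ.c : F →+* F)) Φ.c_c (fun e => hθ (DFunLike.congr_fun e θ)) (l := -1) (by simp)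
    let w : Fin (n + 2) → F := Pi.single 0 1 + Pi.single 1 t
    refine ⟨w, δ • (Φ.c ∘ w), fun e => by simpa [w] using congrFun e 0, fun e => by simpa [w, d0] using congrFun e 0, ?_, fun _ => ?_⟩
    · rw [smul_dotProduct, dotProduct_comm, ← Φ.B_dot]
      simp only [w, Φ.B_add_left, Φ.B_single_left]
      simp [show t * Φ.c t = -1 from ht]
    · ext i j; simp [Φ.adj_apply, vecMulVec_apply, d, Φ.c_c, -neg_inj]; ring
  · exact ⟨Pi.single 0 1, Pi.single 1 1, by simp, by simp, by simp, fun h => absurd h hu⟩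

theorem pf : PF := fun F _ _ Φ n h2 hn 𝔄 h ne => by_contra fun c => by
  obtain ⟨a, ha, ns⟩ := ex_ns ne
  have st : ∀ N (h : N * N = 0), (Φ.u → Φ.adj N = -N) → (1 + N) * a * (1 - N) ∈ 𝔄 := fun N h hu => by
    have := (not_not.1 (not_exists.1 c (un Φ h hu)) a).1 ha
    rwa [← mt_inv, un_inv] at this
  rcases h2.eq_or_lt with rfl | h3
  · obtain ⟨hu, h4⟩ := hn rfl
    obtain ⟨t, t0, t1⟩ : ∃ t : F, t ≠ 0 ∧ t ≠ 1 := by
      classical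
      by_contra! k
      have := Finset.card_le_card (show Finset.univ ⊆ ({0, 1} : Finset F) from fun x _ => by simpa [or_iff_not_imp_left] using k x)
      have := Finset.card_le_two (a := (0 : F)) (b := 1)
      rw [Finset.card_univ, Φ.cL hu] at *; omega
    have k : ∀ t : F, a 1 0 * (t * (a 1 1 - a 0 0 - t * a 1 0)) = 0 := fun t => by
      have := congrFun (congrFun (fcm h ha (st !![0, t; 0, 0] (by ext i j; fin_cases i <;> fin_cases j <;> simp) (absurd · hu))) 0) 0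
      simp [mul_apply, Fin.sum_univ_two, one_apply] at this
      linear_combination -this
    have : a 1 0 = 0 := by have := k t; have := k 1; grind
    exact ns (eig h ha (w := Pi.single 0 1) (by simp) (l := a 0 0) (by ext i; fin_cases i <;> simp [this]))
  obtain ⟨w, φ, w0, φ0, e, hu⟩ := ex_tv Φ h3
  have nn : vecMulVec w φ * vecMulVec w φ = 0 := by rw [vecMulVec_mul_vecMulVec, e, zero_smul, vecMulVec_zero]
  have mv : ∀ x, vecMulVec w φ *ᵥ x = (φ ⬝ᵥ x) • w := fun x => by rw [vecMulVec_mulVec, op_smul_eq_smul]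
  obtain ⟨x, hx, x0⟩ := Submodule.exists_mem_ne_zero_of_ne_bot (LinearMap.ker_ne_bot_of_finrank_lt
    (f := (dotProductBilin F F φ).prod (dotProductBilin F F φ ∘ₗ toLin' a)) (by simp; omega))
  have z := sub_eq_zero.1 (fz h (sub_mem (st _ nn hu) ha) x0 (by
    simp only [LinearMap.mem_ker, LinearMap.prod_apply, Prod.ext_iff] at hx
    simp only [sub_mulVec, ← mulVec_mulVec, add_mulVec, one_mulVec, mv]
    simp [show φ ⬝ᵥ x = 0 from hx.1, show φ ⬝ᵥ a *ᵥ x = 0 from hx.2]))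
  obtain ⟨i, hi⟩ := Function.ne_iff.1 φ0
  have := congrArg (fun m => (m * (1 + vecMulVec w φ)) *ᵥ Pi.single i 1) z
  simp only [Matrix.mul_assoc, uinv nn, Matrix.mul_one] at this
  simp only [← mulVec_mulVec, add_mulVec, one_mulVec, mv, mulVec_add, mulVec_smul, add_right_inj, dotProduct_single_one] at this
  exact ns (eig h ha w0 (l := (φ i)⁻¹ * _) (by rw [mul_smul, this, inv_smul_smul₀ hi]))

theorem rep (h : IsField 𝔄) (i : Fin n) : (∀ y ∈ 𝔄, (∀ a ∈ 𝔄, (y * a) i i = 0) → y = 0) ∧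
    ∃ e : Dual F 𝔄 →ₗ[F] 𝔄, ∀ ψ (a : 𝔄), ((e ψ).1 * a.1) i i = ψ a := by
  have k : ∀ y ∈ 𝔄, (∀ a ∈ 𝔄, (y * a) i i = 0) → y = 0 := fun y hy e => by_contra fun y0 => by
    obtain ⟨c, hc, -, a⟩ := finv h hy y0
    simpa [a] using e c hc
  let L : 𝔄 →ₗ[F] Dual F 𝔄 := (LinearMap.mul F 𝔄).compr₂ (entryLinearMap F F i i ∘ₗ 𝔄.val.toLinearMap)
  have j : Function.Injective L := (injective_iff_map_eq_zero _).2 fun y e =>
    Subtype.ext (k y y.2 fun a ha => DFunLike.congr_fun e ⟨a, ha⟩)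
  let E := LinearEquiv.ofBijective L ⟨j, (LinearMap.injective_iff_surjective_of_finrank_eq_finrank Subspace.dual_finrank_eq.symm).1 j⟩
  exact ⟨k, E.symm.toLinearMap, fun ψ a => DFunLike.congr_fun (E.apply_symm_apply ψ) a⟩

/-- the functional `a ↦ φ (a x)` -/
def fn (𝔄 : Subalgebra F (Mat n F)) (φ : Fin n → F) : (Fin n → F) →ₗ[F] Dual F 𝔄 :=
  LinearMap.mk₂ F (fun x a => φ ⬝ᵥ a.1 *ᵥ x) (by simp [mulVec_add]) (by simp [mulVec_smul]) (by simp [add_mulVec])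
    (by simp [smul_mulVec])

theorem mkN (h : IsField 𝔄) (i : Fin n) {φ w : Fin n → F} (φ0 : φ ≠ 0) (w0 : w ≠ 0) (e : ∀ a ∈ 𝔄, φ ⬝ᵥ a *ᵥ w = 0) :
    ∃ N : Mat n F, N ≠ 0 ∧ N * N = 0 ∧ (∀ a ∈ 𝔄, N * a = a * N) ∧
      ∀ x, ∃ y ∈ 𝔄, N *ᵥ x = y *ᵥ w ∧ ∀ a ∈ 𝔄, (y * a) i i = φ ⬝ᵥ a *ᵥ x := by
  obtain ⟨k, E, hE⟩ := rep h i
  let H := E ∘ₗ fn 𝔄 φ
  have hH : ∀ x, ∀ a ∈ 𝔄, ((H x).1 * a) i i = φ ⬝ᵥ a *ᵥ x := fun x a ha => hE _ ⟨a, ha⟩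
  let N := LinearMap.toMatrix' ((toLin'.toLinearMap.flip w ∘ₗ 𝔄.val.toLinearMap) ∘ₗ H)
  have hN : ∀ x, N *ᵥ x = (H x).1 *ᵥ w := LinearMap.toMatrix'_mulVec _
  have c : ∀ a ∈ 𝔄, ∀ x, (H (a *ᵥ x)).1 = a * (H x).1 := fun a ha x => sub_eq_zero.1 (k _ (sub_mem (H _).2 (mul_mem ha (H x).2))
    fun b hb => by rw [sub_mul, Matrix.sub_apply, hH _ b hb, fcm h ha (H x).2, Matrix.mul_assoc, hH _ _ (mul_mem ha hb), mulVec_mulVec,
      fcm h ha hb, sub_self])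
  refine ⟨N, fun z => φ0 (funext fun j => ?_), mext fun x => ?_, fun a ha => mext fun x => ?_, fun x => ⟨_, (H x).2, hN x, hH x⟩⟩
  · have := hH (Pi.single j 1) 1 𝔄.one_mem
    rw [fz h (H _).2 w0 ((hN _).symm.trans (by rw [z, zero_mulVec]))] at this
    rw [one_mulVec] at this
    simpa using this.symm
  · rw [← mulVec_mulVec, hN x, hN, c _ (H x).2, k _ (H w).2 fun a ha => (hH w a ha).trans (e a ha)]; simp
  · rw [← mulVec_mulVec, ← mulVec_mulVec, hN, hN, c a ha, mulVec_mulVec]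

theorem ex_φ (h : IsField 𝔄) {x : Mat n F} (c : ∀ a ∈ 𝔄, x * a = a * x) (nx : x ∉ 𝔄) (v : Fin n → F) :
    ∃ φ : Fin n → F, φ ≠ 0 ∧ ∀ a ∈ 𝔄, φ ⬝ᵥ a *ᵥ v = 0 := by
  let L := toLin'.toLinearMap.flip v ∘ₗ 𝔄.val.toLinearMap
  obtain ⟨φ, φ0, e⟩ := Submodule.exists_dual_map_eq_bot_of_lt_top (p := LinearMap.range L) (lt_top_iff_ne_top.2 fun t => by
    obtain ⟨a, ha⟩ := t.ge (Submodule.mem_top (x := x *ᵥ v))
    refine nx (mext (a := x) (b := a.1) (fun y => ?_) ▸ a.2)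
    obtain ⟨b, rfl⟩ := t.ge (Submodule.mem_top (x := y))
    change x *ᵥ b.1 *ᵥ v = a.1 *ᵥ b.1 *ᵥ v
    rw [mulVec_mulVec, c _ b.2, ← mulVec_mulVec, ← ha, mulVec_mulVec, fcm h a.2 b.2, ← mulVec_mulVec]; rfl) inferInstance
  have k : ∀ y, (fun i => φ (Pi.single i 1)) ⬝ᵥ y = φ y := fun y => by
    rw [LinearMap.pi_apply_eq_sum_univ φ y]; simp [dotProduct, mul_comm, Pi.single_apply, eq_comm, ← funext_iff]
    exact Finset.sum_congr rfl fun i _ => congrArg _ (congrArg φ (funext fun j => by simp [Pi.single_apply, eq_comm]))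
  exact ⟨_, fun z => φ0 (LinearMap.ext fun y => by rw [← k, z]; simp), fun a ha =>
    (k _).trans (e.le ⟨_, ⟨⟨a, ha⟩, rfl⟩, rfl⟩)⟩

/-- the adjoint as an automorphism of the field -/
def st (h : IsField 𝔄) (ad : ∀ x ∈ 𝔄, Φ.adj x ∈ 𝔄) : 𝔄 →+* 𝔄 where
  toFun a := ⟨Φ.adj a.1, ad _ a.2⟩
  map_one' := Subtype.ext Φ.adj_one
  map_zero' := Subtype.ext Φ.adj_zero
  map_add' _ _ := Subtype.ext (Φ.adj_add _ _)
  map_mul' a b := Subtype.ext ((Φ.adj_mul _ _).trans (fcm h (ad _ b.2) (ad _ a.2)))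

theorem kf0 : KF0 := fun F _ _ Φ n 𝔄 h ad ⟨x, c, nx⟩ => by
  obtain ⟨i, -⟩ := Function.ne_iff.1 (show x ≠ 0 from fun e => nx (e ▸ 𝔄.zero_mem))
  obtain ⟨φ, φ0, e⟩ := ex_φ h c nx (Pi.single i 1)
  by_cases hu : Φ.u; swap
  · obtain ⟨N, a, b, c, -⟩ := mkN h i φ0 (by simp) e
    exact ⟨N, a, b, c, (absurd · hu)⟩
  replace ad := ad hu
  obtain ⟨k, E, hE⟩ := rep h i
  obtain ⟨δ, d0, d⟩ := ex_δ Φ hu
  have cc : ∀ v : Fin n → F, Φ.c ∘ Φ.c ∘ v = v := fun v => funext fun j => Φ.c_c _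
  have c0 : ∀ {v : Fin n → F}, v ≠ 0 → Φ.c ∘ v ≠ 0 := fun {v} h e => h (by rw [← cc v, e]; ext; simp)
  obtain ⟨w, w0, hw⟩ : ∃ w, w ≠ 0 ∧ ∀ a ∈ 𝔄, Φ.B (a *ᵥ w) w = 0 := by
    let v := Φ.c ∘ φ
    have e1 : ∀ a ∈ 𝔄, Φ.B (a *ᵥ Pi.single i 1) v = 0 := fun a ha => by rw [Φ.B_dot, cc, dotProduct_comm, e a ha]
    obtain ⟨y, hy, ey⟩ : ∃ y ∈ 𝔄, ∀ a ∈ 𝔄, (y * a) i i = Φ.B (a *ᵥ v) v :=
      ⟨_, (E (fn 𝔄 φ v)).2, fun a ha => (hE _ ⟨a, ha⟩).trans (by rw [Φ.B_dot, cc, dotProduct_comm]; rfl)⟩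
    have sy : Φ.adj y = y := sub_eq_zero.1 (k _ (sub_mem (ad y hy) hy) fun a ha => by
      rw [sub_mul, Matrix.sub_apply, ey a ha, Φ.B_mulVec, ← Φ.B_symm, ← ey _ (ad a ha), ← Φ.adj_apply, Φ.adj_mul, Φ.adj_adj,
        fcm h ha (ad y hy), sub_self])
    obtain ⟨θ, hθ⟩ := ex_θ Φ hu
    letI := h.toField
    obtain ⟨t, ht⟩ := H27.IR.exists_norm (φ := st Φ h ad) (fun a => Subtype.ext (Φ.adj_adj _)) (fun e => hθ (by
      simpa [st, Φ.adj_apply] using congrArg (fun a : 𝔄 => a.1 i i) (DFunLike.congr_fun e ⟨θ • 1, 𝔄.smul_mem 𝔄.one_mem θ⟩))) (l := -⟨y, hy⟩)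
      (Subtype.ext ((Φ.adj_neg _).trans (congrArg _ sy)))
    replace ht : t.1 * Φ.adj t.1 = -y := congrArg Subtype.val ht
    by_cases y0 : y = 0
    · exact ⟨v, c0 φ0, fun a ha => by rw [← ey a ha, y0]; simp⟩
    refine ⟨t.1 *ᵥ Pi.single i 1 + v, fun z => y0 (k y hy fun a ha => ?_), fun a ha => ?_⟩
    · rw [ey a ha, ← neg_eq_of_add_eq_zero_right z, ← neg_mulVec, mulVec_mulVec, neg_mulVec, neg_eq_of_add_eq_zero_right z]
      exact e1 _ (mul_mem ha (neg_mem t.2))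
    · rw [mulVec_add, Φ.B_add_left, Φ.B_add_right, Φ.B_add_right, mulVec_mulVec, e1 _ (mul_mem ha t.2), ← ey a ha,
        Φ.B_mulVec a v, ← Φ.B_symm _ v, mulVec_mulVec, e1 _ (mul_mem (ad a ha) t.2), ← Φ.adj_adj t.1, ← Φ.B_mulVec, Φ.adj_adj,
        mulVec_mulVec, fcm h (ad _ t.2) (mul_mem ha t.2), Matrix.mul_assoc, ht, fcm h hy ha, Φ.B_single_right]
      simp
  obtain ⟨N, a, b, c, s⟩ := mkN h i (φ := Φ.c ∘ w) (w := δ • w) (c0 w0) (smul_ne_zero d0 w0) fun a ha => by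
    rw [mulVec_smul, dotProduct_smul, dotProduct_comm, ← Φ.B_dot, hw a ha, smul_zero]
  refine ⟨N, a, b, c, fun _ => mext fun y => ?_⟩
  have key : ∀ x y p p', p ∈ 𝔄 → N *ᵥ x = p *ᵥ δ • w → (∀ a ∈ 𝔄, (p' * a) i i = (Φ.c ∘ w) ⬝ᵥ a *ᵥ y) →
      Φ.B (N *ᵥ x) y = δ * (p * Φ.adj p') i i := fun x y p p' hp e1 e2 => by
    rw [e1, mulVec_smul, Φ.B_smul_left, Φ.B_mulVec, ← Φ.B_symm, Φ.B_dot, dotProduct_comm, ← e2 _ (ad p hp), ← Φ.adj_apply,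
      Φ.adj_mul, Φ.adj_adj]
  rw [neg_mulVec, ← add_eq_zero_iff_eq_neg]
  refine Φ.B_nd fun x => ?_
  obtain ⟨p, hp, e1, e2⟩ := s x
  obtain ⟨p', hp', e3, e4⟩ := s y
  rw [Φ.B_add_left, Φ.B_mulVec, Φ.adj_adj, ← Φ.B_symm, key x y p p' hp e1 e4, key y x p' p hp' e3 e2, map_mul, d, ← Φ.adj_apply,
    Φ.adj_mul, Φ.adj_adj]
  ring

theorem kf (kp : KP.{u}) (kq : KQ.{u}) : KF.{u} := fun F _ _ Φ G _ _ n X hr 𝔄 h x c => by_contra fun nx => by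
  obtain ⟨N, N0, nn, cN, aN⟩ := kf0 F Φ n 𝔄 h.fld h.adj ⟨x, c, nx⟩
  have P := pf F Φ n X.n2 X.nL 𝔄 h.fld h.ne
  have z : ∀ a ∈ 𝔄, ∀ b ∈ 𝔄, a * N * (b * N) = 0 := fun a _ b hb => by
    rw [← cN b hb, Matrix.mul_assoc, ← Matrix.mul_assoc N, nn]; simp
  have m : ∀ a ∈ 𝔄, ∀ b ∈ 𝔄, (1 + a * N) * (1 + b * N) = 1 + (a + b) * N := fun a ha b hb => by
    simp only [mul_add, add_mul, z a ha b hb, Matrix.one_mul, Matrix.mul_one]; abel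
  let U : Subgroup (Φ.S (Fin n)) :=
    { carrier := {s | ∃ a ∈ 𝔄, mt s = 1 + a * N}
      one_mem' := ⟨0, zero_mem _, by simp [mt_one]⟩
      mul_mem' := fun ⟨a, ha, e⟩ ⟨b, hb, f⟩ => ⟨a + b, add_mem ha hb, by rw [mt_mul, e, f, m a ha b hb]⟩
      inv_mem' := fun {s} ⟨a, ha, e⟩ => ⟨-a, neg_mem ha, by
        rw [← Matrix.one_mul (mt _), show (1 : Mat n F) = (1 + -a * N) * mt s by rw [e, m _ (neg_mem ha) a ha]; simp,
          Matrix.mul_assoc, mt_mul_inv, Matrix.mul_one, e, m _ (neg_mem ha) a ha]; simp⟩ }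
  have cU : ∀ t ∈ U, ∀ x ∈ 𝔄, mt t * x = x * mt t := fun t ⟨a, ha, e⟩ x hx => by
    rw [e, add_mul, mul_add, Matrix.mul_assoc, cN x hx, ← Matrix.mul_assoc, ← Matrix.mul_assoc, fcm h.fld ha hx]; simp
  have pU : ∀ t ∈ U, t ^ Φ.p = 1 := fun t ⟨a, ha, e⟩ => mt_inj (by rw [mt_pow, e, upp Φ (z a ha a ha)]; rfl)
  let t := un Φ nn aN
  have tU : t ∈ U := ⟨1, one_mem _, by rw [Matrix.one_mul]; rfl⟩
  have t1 : t ≠ 1 := fun e => N0 (by simpa using show 1 + N = 1 from congrArg H22.SB.mt e)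
  refine t1 (kp F Φ G n X hr _ h.inv P t (cU t tU) (pU t tU) fun y hy cy => (Subgroup.mem_centralizer_singleton_iff.1
    (kq F Φ G n X hr _ h.inv P U (Subgroup.centralizer {t}) cU pU ?_ ?_ ?_ y hy cy)))
  · rintro s ⟨a, ha, e⟩ s' ⟨b, hb, f⟩
    exact mt_inj (by rw [mt_mul, mt_mul, e, f, m a ha b hb, m b hb a ha, add_comm a])
  · obtain ⟨a, ha, ns, sa⟩ : ∃ a ∈ 𝔄, ¬ Sc a ∧ (Φ.u → Φ.adj a = a) := by
      obtain ⟨a, ha, ns⟩ := ex_ns h.ne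
      by_cases hu : Φ.u; swap
      · exact ⟨a, ha, ns, (absurd · hu)⟩
      obtain ⟨θ, hθ⟩ := ex_θ Φ hu
      by_contra! k
      have k : ∀ b ∈ 𝔄, Sc (b + Φ.adj b) := fun b hb => by_contra fun e =>
        (k _ (add_mem hb (h.adj hu b hb)) e).2 (by rw [Φ.adj_add, Φ.adj_adj, add_comm])
      obtain ⟨l, e⟩ := k a ha
      obtain ⟨l', e'⟩ := k _ (𝔄.smul_mem ha θ)
      rw [Φ.adj_smul, eq_sub_of_add_eq' e] at e'
      refine ns ⟨(θ - Φ.c θ)⁻¹ * (l' - Φ.c θ * l), ?_⟩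
      rw [mul_smul, eq_inv_smul_iff₀ (sub_ne_zero.2 hθ.symm), sub_smul l', ← e']; module
    have := Fact.mk Φ.pp
    rw [← orderOf_eq_prime (pU t tU) t1, ← Nat.card_zpowers]
    refine lt_of_le_of_ne (Subgroup.card_le_of_le (Subgroup.zpowers_le.2 tU)) fun e => ns ?_
    obtain ⟨j, hj⟩ := (mem_powers_iff_mem_zpowers (y := un Φ (z a ha a ha) fun hu => by
      rw [Φ.adj_mul, aN hu, sa hu, neg_mul, cN a ha])).2
        ((Subgroup.eq_of_le_of_card_ge (Subgroup.zpowers_le.2 tU) e.ge).ge ⟨a, ha, rfl⟩)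
    have : (1 + N) ^ j = 1 + a * N := (mt_pow t j).symm.trans (congrArg H22.SB.mt hj)
    rw [upow nn, add_right_inj] at this
    exact ⟨j, sub_eq_zero.1 (fz' h.fld (sub_mem ha (𝔄.smul_mem 𝔄.one_mem _)) N0 (by rw [sub_mul, ← this]; simp))⟩
  · rintro s ⟨a, ha, e⟩ s1 y - cy cs
    obtain ⟨b, -, f, -⟩ := finv h.fld ha fun z => s1 (mt_inj (by rw [e, z]; simp [mt_one]))
    rw [mt_comm, e, mul_add, add_mul, Matrix.mul_one, Matrix.one_mul, add_right_inj, ← Matrix.mul_assoc, cy a ha] at cs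
    have := congrArg (b * ·) cs
    simp only [← Matrix.mul_assoc, f, Matrix.one_mul] at this
    exact Subgroup.mem_centralizer_singleton_iff.2 (mt_comm.2 (show _ * (1 + N) = (1 + N) * _ by simp [mul_add, add_mul, this]))

end H14.SM
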