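/-
S3694, chunks [FT] [EF]: maximal tori and subfields.
-/
import Cfsg.Agent.H14.SM1

set_option autoImplicit false
set_option linter.unusedSectionVars false

namespace H14.SM
open Matrix H22.SB Module Polynomial

universe u
variable {F : Type} [Field F] [Fintype F] {n : ℕ} {Φ : Fm F} {𝔄 𝔅 : Subalgebra F (Mat n F)} {a b : Mat n F}

theorem cnt {Γ α : Type*} [Group Γ] [Finite Γ] [Finite α] (A : Subgroup Γ) (K : Set Γ) (S : Set α) (φ : Γ → α)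
    (hS : ∀ g ∈ A, φ g ∈ S) (h : ∀ g ∈ A, ∀ g' ∈ A, φ g = φ g' → g⁻¹ * g' ∈ K) : Nat.card A ≤ Nat.card S * Nat.card K := by
  have : Nonempty A := ⟨1⟩
  let r := Function.invFun fun g : A => φ g
  rw [← Nat.card_prod]
  refine Nat.card_le_card_of_injective (fun g => (⟨φ g, hS g g.2⟩, ⟨_, h _ (r (φ g)).2 g g.2
    (Function.invFun_eq (f := fun g : A => φ g) ⟨g, rfl⟩)⟩)) fun g g' e => ?_
  simp only [Prod.ext_iff, Subtype.mk.injEq] at e
  exact Subtype.ext (by simpa [e.1] using e.2)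

theorem rts (h : IsField 𝔄) {f : F[X]} (f0 : f ≠ 0) : Nat.card {x | x ∈ 𝔄 ∧ aeval x f = 0} ≤ f.natDegree := by
  letI := h.toField
  refine (Nat.card_le_card_of_injective (fun x => (⟨⟨x.1, x.2.1⟩, mem_rootSet_of_ne f0 |>.2 (Subtype.ext
    ((aeval_algHom_apply 𝔄.val _ _).symm.trans x.2.2))⟩ : f.rootSet 𝔄)) fun x y e => ?_).trans (ncard_rootSet_le f 𝔄)
  simpa [Subtype.ext_iff] using e

theorem sub_iff (h : IsField 𝔄) (h' : IsField 𝔅) (l : 𝔅 ≤ 𝔄) : a ∈ 𝔅 ↔ a ∈ 𝔄 ∧ a ^ Nat.card 𝔅 = a := by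
  letI := h'.toField
  have := Fintype.ofFinite 𝔅
  have o : 1 < Nat.card 𝔅 := Finite.one_lt_card
  have := rts h (FiniteField.X_pow_card_sub_X_ne_zero F o)
  rw [FiniteField.X_pow_card_sub_X_natDegree_eq F o] at this
  have := Set.eq_of_subset_of_ncard_le (s := (𝔅 : Set (Mat n F))) (t := {x | x ∈ 𝔄 ∧ aeval x (X ^ Nat.card 𝔅 - X : F[X]) = 0}) (fun x hx => ⟨l hx, by
    simpa [sub_eq_zero, Subtype.ext_iff, Nat.card_eq_fintype_card] using FiniteField.pow_card (⟨x, hx⟩ : 𝔅)⟩) (by exact this)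
  simpa [sub_eq_zero] using Set.ext_iff.1 this a

variable {G : Type u} [Group G] [Finite G] {X : Cx Φ G n}

theorem cen (kf : KF.{u}) (hr : X.r ≠ Φ.p) (h : X.Fl 𝔄) (hb : b ∈ 𝔄) (ns : ¬ Sc b) (c : a * b = b * a) : a ∈ 𝔄 := by
  let 𝔅 := 𝔄 ⊓ Subalgebra.centralizer F {a}
  have m : ∀ {x}, x ∈ 𝔅 ↔ x ∈ 𝔄 ∧ a * x = x * a := by simp [𝔅, Subalgebra.mem_centralizer_iff]
  have f : IsField 𝔅 := ⟨let ⟨x, y, e⟩ := h.fld.exists_pair_ne; ⟨0, 1, fun z => e (Subtype.ext (by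
    rw [← Matrix.one_mul x.1, ← Matrix.one_mul y.1, ← show (0 : Mat n F) = 1 from congrArg Subtype.val z]; simp))⟩,
    fun x y => Subtype.ext (fcm h.fld x.2.1 y.2.1), fun {x} x0 => by
      obtain ⟨y, hy, e, e'⟩ := finv h.fld x.2.1 fun z => x0 (Subtype.ext z)
      exact ⟨⟨y, m.2 ⟨hy, by rw [← Matrix.one_mul (a * y), ← e, Matrix.mul_assoc, ← Matrix.mul_assoc x.1, ← (m.1 x.2).2,
        Matrix.mul_assoc, e', Matrix.mul_one]⟩⟩, Subtype.ext e'⟩⟩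
  have s := fun a => sub_iff (a := a) h.fld f inf_le_left
  exact (kf F Φ G n X hr 𝔅 ⟨f, fun e => ns (sc_iff.1 (e ▸ m.2 ⟨hb, c⟩)), fun g hg x hx => (s _).2 ⟨h.inv g hg x hx.1, by
    rw [← X.th_pow, ((s x).1 hx).2]⟩, fun u x hx => (s _).2 ⟨h.adj u x hx.1, by rw [← Φ.adj_pow, ((s x).1 hx).2]⟩⟩ a
    fun x hx => (m.1 hx).2).1

/-- the units of the field -/
def Tu (h : IsField 𝔄) : Subgroup (GL (Fin n) F) where
  carrier := {g | g.val ∈ 𝔄}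
  one_mem' := 𝔄.one_mem
  mul_mem' := 𝔄.mul_mem
  inv_mem' {g} hg := by
    obtain ⟨c, hc, -, e⟩ := finv h hg fun z => let ⟨x, y, e⟩ := h.exists_pair_ne; e (Subtype.ext (by
      rw [← Matrix.one_mul x.1, ← Matrix.one_mul y.1, ← g.mul_inv, z]; simp))
    exact show g⁻¹.val ∈ 𝔄 by rwa [Units.inv_eq_of_mul_eq_one_right e]

theorem card_Tu (h : IsField 𝔄) : Nat.card 𝔄 ≤ Nat.card (Tu h) + 1 := by
  classical
  rw [← Finite.card_option]
  refine Nat.card_le_card_of_surjective (fun o => o.elim 0 fun g => ⟨g.1.val, g.2⟩) fun x => ?_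
  by_cases z : x.1 = 0
  · exact ⟨none, Subtype.ext z.symm⟩
  obtain ⟨c, -, e, e'⟩ := finv h x.2 z
  exact ⟨some ⟨⟨x.1, c, e', e⟩, x.2⟩, rfl⟩

theorem ft (kf : KF.{u}) (sz : SZ.{u}) : FT.{u} := fun F _ _ Φ G _ _ n X hr 𝔄 h => by
  have P := pf F Φ n X.n2 X.nL 𝔄 h.fld h.ne
  obtain ⟨a, ha, ns⟩ := ex_ns h.ne
  obtain ⟨i⟩ := X.ne
  let T := Tu h.fld ⊓ Φ.Γ (Fin n)
  let T1 := (Tu h.fld).subgroupOf (Φ.S (Fin n))
  let Z := {y : Φ.S (Fin n) | Sc (mt y)}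
  let R := {x | x ∈ 𝔄 ∧ aeval x a.charpoly = 0}
  have cR : Nat.card R ≤ n := (rts h.fld a.charpoly_monic.ne_zero).trans_eq (by simp)
  have mR : ∀ g ∈ St (𝔄 : Set (Mat n F)), g.val * a * g⁻¹.val ∈ R := fun g hg =>
    ⟨(hg a).1 ha, by rw [← charpoly_units_conj g a, coe_units_inv]; exact aeval_self_charpoly _⟩
  have eR : ∀ g g' : GL (Fin n) F, g.val * a * g⁻¹.val = g'.val * a * g'⁻¹.val → (g⁻¹ * g').val ∈ 𝔄 := fun g g' e =>
    cen kf hr h ha ns (by simpa [Matrix.mul_assoc] using congrArg (g⁻¹.val * · * g'.val) e.symm)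
  have h1 : Nat.card (St (𝔄 : Set (Mat n F)) ⊓ Φ.Γ (Fin n) : Subgroup _) ≤ Nat.card R * Nat.card T :=
    cnt (St (𝔄 : Set (Mat n F)) ⊓ Φ.Γ (Fin n)) T R (fun g : GL (Fin n) F => g.val * a * g⁻¹.val) (fun g hg => mR g hg.1)
      fun g hg g' hg' e => ⟨eR g g' e, (Φ.Γ _).mul_mem ((Φ.Γ _).inv_mem hg.2) hg'.2⟩
  have h2 : Nat.card T ≤ Φ.z * Nat.card T1 := by
    rw [← Φ.card_Mu, ← Subgroup.card_map_of_injective (Φ.S _).subtype_injective, Subgroup.subgroupOf_map_subtype]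
    exact cnt T (Tu h.fld ⊓ Φ.S (Fin n) : Subgroup _) _ (fun g : GL (Fin n) F => g.val.det) (fun g hg => Fm.det_Mu hg.2) fun g hg g' hg' e =>
      ⟨(T.mul_mem (T.inv_mem hg) hg').1, Φ.mem_S.2 ⟨(T.mul_mem (T.inv_mem hg) hg').2, by
        rw [Units.val_mul, det_mul, ← show g.val.det = _ from e, ← det_mul, Units.inv_mul, det_one]⟩⟩
  have h3 : Nat.card T1 ≤ X.d * Nat.card (T1 ⊓ X.D : Subgroup _) :=
    (cnt T1 (T1 ⊓ X.D : Subgroup _) ((QuotientGroup.mk : _ → _ ⧸ X.D) '' X.M) QuotientGroup.mk (fun g hg => ⟨g,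
      (X.MX h.inv P g).2 (mem_St_of_comm fun x hx => fcm h.fld hg hx), rfl⟩) fun g hg g' hg' e =>
        ⟨T1.mul_mem (T1.inv_mem hg) hg', QuotientGroup.eq.1 e⟩).trans (Nat.mul_le_mul_right _
      ((X.OB _ fun m _ y hy => QuotientGroup.mk_mul_of_mem m hy).trans X.d0_le))
  have h4 : Nat.card (T1 ⊓ X.D : Subgroup _) ≤ Nat.card R * Nat.card Z :=
    cnt (T1 ⊓ X.D) Z R (fun y => mt (X.s⁻¹ * y * X.s) * a * ((X.s⁻¹ * y * X.s).1)⁻¹.val)
      (fun y hy => mR _ ((X.MX h.inv P _).1 (X.mem_D.1 hy.2).2)) fun y hy y' hy' e => by_contra fun nz => by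
        have b : mt (y⁻¹ * y') ∈ 𝔄 := T1.mul_mem (T1.inv_mem hy.1) hy'.1
        have b' : mt (X.s⁻¹ * (y⁻¹ * y') * X.s) ∈ 𝔄 := by convert eR _ _ e using 2; push_cast; group
        refine X.sH ((X.MX h.inv P _).2 (mem_St_of_maps fun x hx => cen kf hr h b nz ?_))
        have := congrArg (mt X.s * · * mt X.s⁻¹) (fcm h.fld hx b')
        simp only [mt_mul, ← Matrix.mul_assoc, mt_mul_inv, Matrix.one_mul] at this ⊢
        rw [Matrix.mul_assoc _ (mt X.s), mt_mul_inv, Matrix.mul_one] at this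
        exact this
  have h5 : Nat.card Z ≤ min n Φ.z := by
    have j : Function.Injective fun y : Z => mt y.1 i i := fun ⟨y, c, e⟩ ⟨y', c', e'⟩ f =>
      Subtype.ext (mt_inj (by simp only [e, e'] at f ⊢; simpa using congrArg (· • (1 : Mat n F)) f))
    refine le_min ?_ ((Nat.card_le_card_of_injective (fun y : Z => (⟨mt y.1 i i, ?_⟩ : {a | Φ.Mu a}))
      fun _ _ e => j (congrArg Subtype.val e)).trans_eq Φ.card_Mu)
    · have n0 : 0 < n := i.pos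
      have m : ∀ y : Z, mt y.1 i i ∈ (Polynomial.X ^ n - C (1 : F)).rootSet F := fun ⟨y, c, e⟩ =>
        (mem_rootSet_of_ne (X_pow_sub_C_ne_zero n0 (1 : F))).2 (by simpa [e, sub_eq_zero] using mt_det y)
      exact (Nat.card_le_card_of_injective (fun y : Z => (⟨_, m y⟩ : (Polynomial.X ^ n - C (1 : F)).rootSet F))
        fun _ _ e => j (congrArg Subtype.val e)).trans ((ncard_rootSet_le _ F).trans_eq natDegree_X_pow_sub_C)
    · obtain ⟨y, c, e⟩ := y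
      have := X.ne
      simpa [e] using sc_Mu e
  have h6 : Nat.card T ≤ Φ.z * (X.d * (n * min n Φ.z)) := h2.trans (by gcongr; exact h3.trans (by gcongr; exact h4.trans (by gcongr)))
  refine ⟨Nat.le_of_mul_le_mul_right (((sz F Φ G n X.toTx X.H).2 _ h.inv).2.trans ?_) Φ.z_pos, ?_⟩
  · have := min_le_left n Φ.z
    calc _ ≤ 2 * Φ.f * (n * (Φ.z * (X.d * (n * n)))) := by gcongr; exact h1.trans (by gcongr; exact h6.trans (by gcongr))
      _ = _ := by ring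
  have h7 : Fintype.card F ^ n ≤ Nat.card 𝔄 := by
    rw [natCard_eq_pow_finrank (K := F), Nat.card_eq_fintype_card, ← Subspace.dual_finrank_eq]
    refine Nat.pow_le_pow_right Fintype.card_pos ((finrank_fin_fun F).ge.trans (LinearMap.finrank_le_finrank_of_injective
      (f := fn 𝔄 (Pi.single i 1)) ((injective_iff_map_eq_zero _).2 fun w e => by_contra fun w0 => ?_)))
    obtain ⟨N, N0, nn, c, -⟩ := mkN h.fld i (φ := Pi.single i 1) (by simp) w0 fun a ha => DFunLike.congr_fun e ⟨a, ha⟩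
    exact N0 (fz' h.fld (kf F Φ G n X hr 𝔄 h N c) N0 nn)
  have h8 := card_Tu h.fld
  suffices k : Φ.q ^ n ≤ Nat.card T + 1 by
    have := Φ.z_le
    calc _ ≤ (Φ.q + 1) * (X.d * (n * min n (Φ.q + 1))) + 1 := k.trans (by gcongr; exact h6.trans (by gcongr))
      _ = _ := by ring
  by_cases hu : Φ.u; swap
  · rw [show T = Tu h.fld from inf_eq_left.2 fun g _ => Φ.mem_Γ.2 (absurd · hu), ← Φ.cL hu]; omega
  let S := {x | x ∈ 𝔄 ∧ Φ.adj x = x}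
  have h9 : Nat.card (Tu h.fld) ≤ Nat.card S * Nat.card T := cnt (Tu h.fld) T S (fun g : GL (Fin n) F => Φ.adj g.val * g.val)
    (fun g hg => ⟨mul_mem (h.adj hu _ hg) hg, by rw [Φ.adj_mul, Φ.adj_adj]⟩) fun g hg g' hg' e =>
      ⟨(Tu h.fld).mul_mem ((Tu h.fld).inv_mem hg) hg', Φ.mem_Γ.2 fun _ => by
        have i : g⁻¹.val ∈ 𝔄 := (Tu h.fld).inv_mem hg
        rw [Units.val_mul, fcm h.fld i hg', Φ.adj_mul, Matrix.mul_assoc, ← Matrix.mul_assoc (Φ.adj g'.val),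
          ← show Φ.adj g.val * g.val = _ from e, Matrix.mul_assoc, Units.mul_inv, Matrix.mul_one, ← Φ.adj_mul, Units.mul_inv, Φ.adj_one]⟩
  obtain ⟨θ, hθ⟩ := ex_θ Φ hu
  have h10 : Nat.card S * Nat.card S ≤ Nat.card 𝔄 := by
    rw [← Nat.card_prod]
    refine Nat.card_le_card_of_injective (fun x => ⟨x.1.1 + θ • x.2.1, add_mem x.1.2.1 (𝔄.smul_mem x.2.2.1 θ)⟩)
      fun ⟨⟨a, _, ha⟩, b, _, hb⟩ ⟨⟨a', _, ha'⟩, b', _, hb'⟩ e => ?_
    replace e : a + θ • b = a' + θ • b' := congrArg Subtype.val e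
    have f := congrArg Φ.adj e
    rw [Φ.adj_add, Φ.adj_add, Φ.adj_smul, Φ.adj_smul, ha, hb, ha', hb'] at f
    obtain rfl : b = b' := smul_right_injective _ (sub_ne_zero.2 hθ) (by simp only [sub_smul]; linear_combination (norm := abel_nf) f - e)
    obtain rfl : a = a' := add_right_cancel e
    rfl
  rw [Φ.cU hu, ← pow_mul, mul_comm, pow_mul] at h7
  have : 2 ≤ Φ.q ^ n := Φ.q2.trans (Nat.le_self_pow i.pos.ne' _)
  generalize Φ.q ^ n = Q at *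
  by_contra! k
  have : Nat.card S * Q ≤ Nat.card 𝔄 := by
    by_contra! c; nlinarith [Nat.mul_le_mul h7 h10]
  have := Nat.mul_le_mul_left (Nat.card S) (show Nat.card T + 2 ≤ Q from k)
  rcases Nat.eq_zero_or_pos (Nat.card S) with z | z <;> nlinarith

theorem ef : EF := fun F _ _ Φ r d hr rd d4 h => by_contra fun c => by
  obtain ⟨fd, np⟩ := not_or.1 c
  have := Φ.ch; have := Fact.mk Φ.pp
  have p2 := Φ.pp.two_le
  let o := Φ.z.gcd (rr r)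
  have r0 : 0 < rr r ∧ rr r ≤ d := by have := hr.pos; unfold rr; split_ifs <;> omega
  have : NeZero o := ⟨(Nat.gcd_pos_of_pos_right _ r0.1).ne'⟩
  have cF : Φ.q - 1 ∣ Fintype.card F - 1 ∧ Fintype.card F - 1 ∣ Φ.p ^ (2 * Φ.f) - 1 := by
    have : Φ.q - 1 ∣ Φ.q ^ 2 - 1 := by simpa using Nat.sub_dvd_pow_sub_pow Φ.q 1 2
    rw [mul_comm, pow_mul, ← Φ.hq]
    by_cases hu : Φ.u
    · rw [Φ.cU hu]; exact ⟨this, dvd_rfl⟩
    · rw [Φ.cL hu]; exact ⟨dvd_rfl, this⟩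
  have m : 1 ≡ Φ.p ^ (2 * Φ.f) [MOD o] := (Nat.modEq_iff_dvd' (Nat.one_le_pow _ _ Φ.pp.pos)).2
    (((Nat.gcd_dvd_left _ _).trans Φ.z_dvd).trans cF.2)
  have cp : Φ.p.Coprime o := (Nat.coprime_pow_left_iff (n := 2 * Φ.f) (by omega) _ _).1 (by rw [Nat.Coprime, ← m.gcd_eq]; simp)
  let u := ZMod.unitOfCoprime _ cp
  have k : ∀ e, orderOf u ∣ e ↔ 1 ≡ Φ.p ^ e [MOD o] := fun e => by
    rw [orderOf_dvd_iff_pow_eq_one, ← ZMod.natCast_eq_natCast_iff, Units.ext_iff, eq_comm]; simp [u]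
  have l : orderOf u ≤ d := orderOf_le_card.trans (((Nat.card_le_card_of_injective _ Units.val_injective).trans_eq
    (Nat.card_zmod o)).trans ((Nat.gcd_le_right _ r0.1).trans r0.2))
  obtain ⟨e, he, g2, gf⟩ : ∃ e, orderOf u ∣ e ∧ 2 ≤ e.gcd Φ.f ∧ e.gcd Φ.f < Φ.f := by
    by_cases g : (orderOf u).Coprime Φ.f
    · exact ⟨orderOf u * Φ.f.minFac, dvd_mul_right _ _, by
        rw [g.gcd_mul_left_cancel, Nat.gcd_eq_left (Nat.minFac_dvd _)]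
        exact ⟨(Nat.minFac_prime (by omega)).two_le, (Nat.not_prime_iff_minFac_lt (by omega)).1 np⟩⟩
    · have := Nat.gcd_le_left Φ.f (orderOf_pos u)
      have := Nat.gcd_pos_of_pos_left Φ.f (orderOf_pos u)
      exact ⟨_, dvd_rfl, by unfold Nat.Coprime at g; omega, by omega⟩
  obtain ⟨g, hg⟩ := IsCyclic.exists_ofOrder_eq_natCard (α := Fˣ)
  rw [Nat.card_units, Nat.card_eq_fintype_card] at hg
  have ex : ∀ j, j ∣ Φ.q - 1 → ∃ a : F, IsPrimitiveRoot a j := fun j hj =>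
    let ⟨t, ht⟩ := hj.trans cF.1
    ⟨_, (IsPrimitiveRoot.coe_units_iff.2 (hg ▸ IsPrimitiveRoot.orderOf g)).pow (Nat.sub_pos_of_lt Fintype.one_lt_card)
      (ht.trans (mul_comm _ _))⟩
  have fx : ∀ (a : F) j, a ^ (Φ.p ^ j - 1) = 1 → a ^ Φ.p ^ j = a := fun a j h => by
    rw [← Nat.sub_add_cancel (Nat.one_le_pow j _ Φ.pp.pos), pow_succ, h, one_mul]
  have gc := Nat.pow_sub_one_gcd_pow_sub_one Φ.p e Φ.f
  have := h ((iterateFrobenius F Φ.p e).eqLocusField (.id F)) (fun a h1 h2 => by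
    exact (pow_eq_pow_of_modEq ((k e).1 he) (pow_gcd_eq_one.2 ⟨h1, h2⟩)).symm.trans (pow_one _)) (by
      obtain ⟨a, ha⟩ := ex _ dvd_rfl
      refine ⟨a, by rw [Φ.cq, Φ.hq, fx _ _ (Φ.hq ▸ ha.pow_eq_one)], fun z => ?_⟩
      have a0 := ha.ne_zero (by have := Φ.q2; omega)
      have : a ^ (Φ.p ^ e - 1) = 1 := by rw [pow_sub₀ _ a0 (Nat.one_le_pow _ _ Φ.pp.pos), show a ^ Φ.p ^ e = a from z]; simp [a0]
      rw [Nat.gcd_eq_right (Φ.hq ▸ ha.dvd_of_pow_eq_one _ this)] at gc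
      have := Nat.pow_lt_pow_right Φ.pp.one_lt gf
      have := Nat.one_le_pow (e.gcd Φ.f) _ Φ.pp.pos
      omega)
  obtain ⟨a, ha⟩ := ex ((Φ.p ^ e - 1).gcd (Φ.p ^ Φ.f - 1)) (by rw [Φ.hq]; exact Nat.gcd_dvd_right _ _)
  have n3 : 3 ≤ (Φ.p ^ e - 1).gcd (Φ.p ^ Φ.f - 1) := by
    have := (Nat.pow_le_pow_left p2 2).trans (Nat.pow_le_pow_right Φ.pp.pos g2); omega
  have w : ∀ i : ℕ, (a ^ i) ^ Φ.p ^ e = a ^ i ∧ Φ.c (a ^ i) = a ^ i := fun i => by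
    rw [Φ.cq, Φ.hq, pow_right_comm, pow_right_comm _ i, fx a e ((ha.pow_eq_one_iff_dvd _).2 (Nat.gcd_dvd_left _ _)),
      fx a _ ((ha.pow_eq_one_iff_dvd _).2 (Nat.gcd_dvd_right _ _))]
    exact ⟨rfl, rfl⟩
  refine absurd ((Nat.card_le_card_of_injective (fun i : Option (Fin 3) => i.elim ⟨0, zero_mem _, map_zero _⟩ fun i => ⟨a ^ i.1, w i⟩)
    ?_).trans this) (by simp)
  have a0 := ha.ne_zero (by omega)
  rintro (_ | i) (_ | j) e <;> simp [Subtype.ext_iff, a0, eq_comm] at e ⊢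
  exact Fin.ext (ha.pow_inj (by omega) (by omega) e)

end H14.SM
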