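/-
S3694, chunks [CL1] [CL2] [CL3]: vector counts for block systems.
-/
import Cfsg.Agent.H14.SM1

set_option autoImplicit false
set_option linter.unusedSectionVars false

namespace H14.SM
open Matrix H22.SB

universe u
variable {F : Type} [Field F] [Fintype F] {n k : ℕ} {Φ : Fm F} {β : Fin n → Fin k} {v w : Fin n → F} {o c : ℕ}

theorem cov {α γ : Type*} [Finite γ] (O : Set α) (f : γ → α) (h : ∀ w ∈ O, ∃ b, f b = w) : Nat.card O ≤ Nat.card γ :=
  (Nat.card_mono (Set.finite_range f) h).trans (Finite.card_range_le f)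

/-- restriction to a block -/
def rs (β : Fin n → Fin k) (i : Fin k) (v : Fin n → F) : Fb β i → F := fun j => v j.1
/-- block stabilizer -/
abbrev Q (Φ : Fm F) (β : Fin n → Fin k) : Subgroup (GL (Fin n) F) := St (Set.range (eb F β)) ⊓ Φ.Γ (Fin n)

theorem rs_ext (h : ∀ i, rs β i v = rs β i w) : v = w := funext fun a => congrFun (h (β a)) ⟨a, rfl⟩

theorem B_rs (v w : Fin n → F) : Φ.B v w = ∑ i, Φ.B (rs β i v) (rs β i w) := (Fintype.sum_fiberwise β _).symm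

theorem eb_ap (i : Fin k) (v : Fin n → F) (a : Fin n) : (eb F β i *ᵥ v) a = if β a = i then v a else 0 := by
  simp [eb, mulVec_diagonal]

theorem st_of {x : GL (Fin n) F} (h : ∀ a b, β a ≠ β b → x.val a b = 0) : x ∈ St (Set.range (eb F β)) :=
  mem_St_of_comm (by
    rintro _ ⟨i, rfl⟩; ext a b
    by_cases e : β a = β b <;> simp [eb, e, h a b])

theorem ex_bd (g : ∀ i, GL (Fb β i) F) (hg : ∀ i, g i ∈ Φ.Γ _) : ∃ x ∈ Q Φ β, x.val.det = ∏ i, (g i).val.det ∧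
    ∀ v i, rs β i (x.val *ᵥ v) = (g i).val *ᵥ rs β i v := by
  let y : Mat n F := fun a b => if h : β b = β a then (g (β a)).val ⟨a, rfl⟩ ⟨b, h⟩ else 0
  have y0 : ∀ a b, β a ≠ β b → y a b = 0 := fun a b h => dif_neg h.symm
  have y1 : ∀ i (a b : Fb β i), y a.1 b.1 = (g i).val a b := fun i ⟨a, e⟩ ⟨b, e'⟩ => by subst e; exact dif_pos e'
  have d : y.det = ∏ i, (g i).val.det := (BlockTriangular.det_fintype fun a b h => y0 a b h.ne').trans
    (Finset.prod_congr rfl fun i _ => by congr! 1; ext a b; exact y1 i a b)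
  have r : ∀ v i, rs β i (y *ᵥ v) = (g i).val *ᵥ rs β i v := fun v i => funext fun a =>
    (Fintype.sum_fiberwise β _).symm.trans ((Finset.sum_eq_single i (fun j _ h => Finset.sum_eq_zero fun b _ =>
      mul_eq_zero_of_left (y0 _ _ (by rw [a.2, b.2]; exact h.symm)) _) (by simp)).trans (Finset.sum_congr rfl fun b _ => congrArg (· * _) (y1 i a b)))
  refine ⟨Fm.mkG y (d ▸ Finset.prod_ne_zero_iff.2 fun i _ => (Fm.det_Mu (hg i)).ne), ⟨st_of y0, fun hu => Φ.mem_Γ_of_B (fun v w => ?_) hu⟩, d, r⟩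
  simp only [Fm.coe_mkG, B_rs (β := β), r, Fm.B_Γ (hg _) hu]

theorem ex_dg (β : Fin n → Fin k) (d : Fin n → F) (hd : ∀ j, Φ.Mu (d j)) : ∃ x ∈ Q Φ β, x.val = diagonal d :=
  ⟨Fm.mkG (diagonal d) (by rw [det_diagonal]; exact Finset.prod_ne_zero_iff.2 fun i _ => (hd i).ne),
    ⟨st_of fun a b h => diagonal_apply_ne _ fun e => h (by rw [e]), fun hu => by
      simp [Fm.coe_mkG, Fm.adj, mul_comm, (Φ.mu_U hu).1 (hd _)]⟩, rfl⟩

theorem ob_mem {x : GL (Fin n) F} (hx : x ∈ Q Φ β) {b : F} (hb : Φ.Mu b) (e : x.val.det = b ^ n) : x.val *ᵥ v ∈ Ob Φ β v := by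
  obtain ⟨s, hs, es⟩ := ex_dg β (fun _ => b) fun _ => hb
  have m := (Q Φ β).mul_mem ((Q Φ β).inv_mem hs) hx
  have f : s.val * (s⁻¹ * x).val = x.val := by rw [← Units.val_mul, mul_inv_cancel_left]
  refine ⟨b, hb, ⟨s⁻¹ * x, Φ.mem_S.2 ⟨m.2, mul_left_cancel₀ (pow_ne_zero n hb.ne) ?_⟩⟩, m.1, ?_⟩
  · have := congrArg det f; rw [det_mul, e, es] at this; simpa using this
  · show _ = b • (s⁻¹ * x).val *ᵥ v
    generalize (s⁻¹ * x).val = y at f
    rw [← f, ← mulVec_mulVec, es]; ext; simp [mulVec_diagonal]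

theorem ob_fix (h : ∀ a, Φ.Mu a → ∃ y ∈ Q Φ β, y.val *ᵥ v = v ∧ y.val.det = a) {x : GL (Fin n) F} (hx : x ∈ Q Φ β) :
    x.val *ᵥ v ∈ Ob Φ β v := by
  obtain ⟨y, hy, e, d⟩ := h _ (Fm.det_Mu hx.2).inv
  rw [← e, mulVec_mulVec, e]
  exact ob_mem ((Q Φ β).mul_mem hx hy) Φ.mu_one (by simp [d, (Fm.det_Mu hx.2).ne])

open Classical in
/-- the support -/
noncomputable def sp (β : Fin n → Fin k) (v : Fin n → F) : Finset (Fin k) := {i | rs β i v ≠ 0}

theorem mem_sp {i : Fin k} : i ∈ sp β v ↔ ∃ j, β j = i ∧ v j ≠ 0 := by simp [sp, rs, funext_iff]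

theorem card_sp : (sp β v).card = sup β v := by
  rw [sup, ← Nat.card_eq_finsetCard]; exact Nat.card_congr (Equiv.subtypeEquivRight fun _ => mem_sp)

/-- the product of the orbits -/
def O (Φ : Fm F) (β : Fin n → Fin k) (v : Fin n → F) : Set (Fin n → F) :=
  {w | ∀ i, ∃ g ∈ Φ.Γ (Fb β i), g.val *ᵥ rs β i v = rs β i w}

theorem card_O (h : ∀ i, Φ.Oc (Fb β i) o c) : o ^ sup β v ≤ Nat.card (O Φ β v) := by
  classical
  refine le_trans ?_ (Nat.card_le_card_of_surjective (fun w i => (⟨rs β i w.1, w.2 i⟩ :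
    {w | ∃ g ∈ Φ.Γ (Fb β i), g.val *ᵥ rs β i v = w})) fun f => ?_)
  · rw [Nat.card_pi, ← card_sp, ← Finset.prod_const, sp, Finset.prod_filter]
    refine Finset.prod_le_prod' fun i _ => ?_
    split_ifs with e
    · exact (h i).1 _ e
    · exact Nat.card_pos_iff.2 ⟨⟨_, 1, one_mem _, rfl⟩, inferInstance⟩
  have e : ∀ i, rs β i (fun a => (f (β a)).1 ⟨a, rfl⟩) = (f i).1 := fun i => funext fun ⟨a, e⟩ => by subst e; rfl
  exact ⟨⟨_, fun i => e i ▸ (f i).2⟩, funext fun i => Subtype.ext (e i)⟩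

theorem O_Q (h : w ∈ O Φ β v) : sp β w = sp β v ∧ ∃ x ∈ Q Φ β, x.val *ᵥ v = w := by
  choose g hg e using h
  obtain ⟨x, hx, -, r⟩ := ex_bd g hg
  refine ⟨?_, x, hx, rs_ext fun i => (r v i).trans (e i)⟩
  ext i
  simp only [sp, Finset.mem_filter, ← e]
  exact and_congr_right fun _ => not_congr ⟨fun z => by simpa using congrArg ((g i)⁻¹.val *ᵥ ·) z, fun z => by simp [z]⟩

theorem cl2 : CL2 := fun F _ _ Φ n k β m o c m1 hm h v lt => by
  classical
  obtain ⟨i, hi⟩ : ∃ i, i ∉ sp β v := by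
    by_contra! z; rw [← card_sp, Finset.eq_univ_of_forall z] at lt; simp at lt
  obtain ⟨j⟩ : Nonempty (Fb β i) := Fintype.card_pos_iff.1 (m1.trans (hm i).ge)
  have fx := fun x => ob_fix (Φ := Φ) (β := β) (v := v) (x := x) fun a ha => by
    obtain ⟨y, hy, e⟩ := ex_dg (Φ := Φ) β (Function.update 1 j.1 a) fun l => by
      by_cases e : l = j.1 <;> simp [e, ha, Φ.mu_one]
    refine ⟨y, hy, funext fun l => ?_, by simp [e, Finset.prod_update_of_mem]⟩
    by_cases z : l = j.1 <;> simp [e, z, mulVec_diagonal, show v j.1 = 0 from by_contra fun z => hi (mem_sp.2 ⟨_, j.2, z⟩)]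
  have P : ∀ A : Finset.powersetCard (sup β v) (Finset.univ : Finset (Fin k)), ∃ x ∈ Q Φ β, sp β (x.val *ᵥ v) = A := fun ⟨A, hA⟩ => by
    obtain ⟨τ, hτ⟩ := Equiv.Perm.exists_map_finset_eq A (sp β v) ((Finset.mem_powersetCard.1 hA).2.trans card_sp.symm)
    let e : Equiv.Perm (Fin n) := Equiv.ofFiberEquiv (f := τ ∘ β) (g := β) fun c => Fintype.equivOfCardEq
      ((Fintype.card_congr (Equiv.subtypeEquivRight fun a => τ.apply_eq_iff_eq_symm_apply)).trans ((hm _).trans (hm _).symm))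
    have he : ∀ a, β (e a) = τ (β a) := Equiv.ofFiberEquiv_map _
    refine ⟨⟨e.permMatrix F, e⁻¹.permMatrix F, by simp [← permMatrix_mul], by simp [← permMatrix_mul]⟩,
      ⟨mem_St_of_maps ?_, Φ.mem_Γ_of_B fun v w => ?_⟩, Finset.ext fun l => ?_⟩
    · rintro _ ⟨l, rfl⟩
      exact ⟨τ.symm l, mext fun u => funext fun a => by
        simp [← mulVec_mulVec, permMatrix_mulVec, eb_ap, he, Equiv.apply_eq_iff_eq_symm_apply]⟩
    · simpa [permMatrix_mulVec, Fm.B] using Equiv.sum_comp e fun i => v i * Φ.c (w i)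
    · rw [← Finset.mem_map' τ.toEmbedding (s := A), hτ, mem_sp, mem_sp, e.surjective.exists (p := fun j => β j = τ.toEmbedding l ∧ _)]
      simp [permMatrix_mulVec, he]
  choose x hx e using P
  refine le_trans ?_ (Nat.card_le_card_of_injective (fun w : Σ A, O Φ β ((x A).val *ᵥ v) => ⟨w.2.1, ?_⟩) ?_)
  · rw [Nat.card_sigma]
    refine le_trans (by simp [mul_comm]) (Finset.card_nsmul_le_sum _ _ (o ^ sup β v) fun A _ => ?_)
    rw [← (Finset.mem_powersetCard.1 A.2).2, ← e, card_sp]; exact card_O h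
  · obtain ⟨y, hy, f⟩ := (O_Q w.2.2).2
    rw [← f, mulVec_mulVec]; exact fx _ ((Q Φ β).mul_mem hy (hx _))
  · rintro ⟨A, w, hw⟩ ⟨A', w', hw'⟩ f
    obtain rfl : w = w' := congrArg Subtype.val f
    obtain rfl : A = A' := Subtype.ext (by rw [← e, ← e, ← (O_Q hw).1, (O_Q hw').1])
    rfl

theorem cl3 : CL3 := fun F _ _ Φ n k β o c k1 h v e => by
  classical
  obtain ⟨i, hi⟩ : (sp β v).Nonempty := Finset.card_pos.1 (by rw [card_sp]; omega)
  have co := e ▸ card_O (v := v) h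
  refine ⟨co.trans ?_, fun hs => co.trans (Nat.card_mono (Set.toFinite _) fun w hw => ?_)⟩
  · obtain ⟨j, -⟩ := mem_sp.1 hi
    obtain ⟨ζ, hζ⟩ := Φ.exists_gen
    have : NeZero Φ.z := ⟨Nat.ne_of_gt Φ.z_pos⟩
    have z : Φ.Mu ζ := hζ.pow_eq_one
    choose y hy f using fun r : Fin (n.gcd Φ.z) => ex_dg (Φ := Φ) β (Function.update 1 j (ζ ^ r.1)) fun l => by
      by_cases e : l = j <;> simp [e, z.pow, Φ.mu_one]
    refine (cov _ (fun p : Fin (n.gcd Φ.z) × Ob Φ β v => (y p.1).val *ᵥ p.2.1) fun w hw => ?_).trans_eq (by simp)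
    obtain ⟨x, hx, rfl⟩ := (O_Q hw).2
    obtain ⟨t, -, ht⟩ := hζ.eq_pow_of_pow_eq_one (Fm.det_Mu hx.2)
    let r : Fin (n.gcd Φ.z) := ⟨_, Nat.mod_lt t (Nat.gcd_pos_of_pos_right _ Φ.z_pos)⟩
    have g : (ζ ^ n.gcdA Φ.z) ^ n = ζ ^ n.gcd Φ.z := by
      rw [← zpow_natCast, ← zpow_natCast ζ, Nat.gcd_eq_gcd_ab, zpow_add₀ z.ne, _root_.zpow_mul _ (Φ.z : ℤ), zpow_natCast, zpow_natCast,
        hζ.pow_eq_one, _root_.one_zpow, mul_one, mul_comm, _root_.zpow_mul, zpow_natCast]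
    refine ⟨⟨r, _, ob_mem ((Q Φ β).mul_mem ((Q Φ β).inv_mem (hy r)) hx) (b := (ζ ^ n.gcdA Φ.z) ^ (t / n.gcd Φ.z))
      (Fm.Mu.pow (by rw [Fm.Mu, ← zpow_natCast, zpow_comm, zpow_natCast, hζ.pow_eq_one, _root_.one_zpow]) _)
      (mul_left_cancel₀ (Fm.det_Mu (hy r).2).ne ?_)⟩, by simp [← Matrix.mul_assoc]⟩
    rw [← det_mul, ← Units.val_mul, mul_inv_cancel_left, ← ht, f, pow_right_comm, g, ← pow_mul]
    simp [Finset.prod_update_of_mem, r, ← pow_add, Nat.mod_add_div]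
  obtain ⟨x, hx, rfl⟩ := (O_Q hw).2
  refine ob_fix (fun a ha => ?_) hx
  obtain ⟨g, hg, f, d⟩ := hs i _ (Finset.mem_filter.1 hi).2 a ha
  obtain ⟨y, hy, d', r⟩ := ex_bd (Φ := Φ) (Function.update 1 i g) fun l => by
    by_cases e : l = i
    · subst e; simpa
    · simp [e, one_mem]
  refine ⟨y, hy, rs_ext fun l => (r v l).trans ?_, d'.trans ((Finset.prod_eq_single i (fun l _ e => by simp [e]) (by simp)).trans (by simpa))⟩
  by_cases e : l = i
  · subst e; simpa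
  · simp [e]

theorem cl1 (ps : PS) : CL1.{u} := fun F _ _ Φ G _ _ n X k β o c hβ h => by
  classical
  have mx := X.MX hβ.inv (ps F Φ n k β X.u3 hβ.sj hβ.two)
  obtain ⟨v, i, hv, a, a', ha, ha', ne⟩ : ∃ (v : Fin n → F) (i : Fin k), (∀ j, β j ≠ i → v j = 0) ∧
      ∃ a a', (mt X.s *ᵥ v) a ≠ 0 ∧ (mt X.s *ᵥ v) a' ≠ 0 ∧ β a ≠ β a' := by
    by_contra! H
    have H1 : ∀ a a' b, mt X.s a b ≠ 0 → mt X.s a' b ≠ 0 → β a = β a' := fun a a' b h h' =>
      H (Pi.single b 1) (β b) (fun j e => Pi.single_eq_of_ne (fun z => e (by rw [z])) _) a a' (by simpa) (by simpa)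
    have K : ∀ a a' b b', mt X.s a b ≠ 0 → mt X.s a' b' ≠ 0 → β b = β b' → β a = β a' := fun a a' b b' h h' e => by_contra fun z => by
      have p : mt X.s a' b = 0 := by_contra fun y => z (H1 a a' b h y)
      have q : mt X.s a b' = 0 := by_contra fun y => z (H1 a a' b' y h')
      exact z (H (Pi.single b 1 + Pi.single b' 1) (β b) (fun j y => by
        rw [Pi.add_apply, Pi.single_eq_of_ne (fun z => y (by rw [z])), Pi.single_eq_of_ne (fun z => y (by rw [z, e])), add_zero])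
        a a' (by simpa [mulVec_add, q]) (by simpa [mulVec_add, p]))
    have d : (mt X.s).det ≠ 0 := by simp [mt_det]
    choose b hb using hβ.sj
    choose a ha using fun i => show ∃ a, mt X.s a (b i) ≠ 0 by
      by_contra! z; exact d (det_eq_zero_of_column_eq_zero _ z)
    have J : ∀ x y, mt X.s x y ≠ 0 → β x = β (a (β y)) := fun x y e => K _ _ _ _ e (ha _) (hb _).symm
    have j : Function.Injective fun i => β (a i) := Finite.injective_iff_surjective.2 fun i => by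
      obtain ⟨y, e⟩ : ∃ y, mt X.s (b i) y ≠ 0 := by by_contra! z; exact d (det_eq_zero_of_row_eq_zero _ z)
      exact ⟨β y, (J _ _ e).symm.trans (hb i)⟩
    refine X.sH ((mx _).2 (mem_St_of_maps ?_))
    rintro _ ⟨i, rfl⟩
    refine ⟨β (a i), (Units.mul_inv_eq_iff_eq_mul _).2 ?_ |>.symm⟩
    ext x y
    by_cases e : mt X.s x y = 0
    · simp [eb, e]
    · simp [eb, J _ _ e, show β (a (β y)) = β (a i) ↔ β y = i from j.eq_iff]
  have v0 : v ≠ 0 := by rintro rfl; simp at ha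
  refine ⟨mt X.s *ᵥ v, (Finset.one_lt_card.2 ⟨_, mem_sp.2 ⟨a, rfl, ha⟩, _, mem_sp.2 ⟨a', rfl, ha'⟩, ne⟩).trans_eq card_sp, ?_⟩
  obtain ⟨T, hT, cv⟩ := X.CV
  refine (cov _ (fun p : T × Σ i, {w : Fb β i → F | w ≠ 0 ∧ (Φ.u → Φ.B w w = Φ.B v v)} =>
    mt (p.1.1 * X.s) *ᵥ fun a => if h : β a = p.2.1 then p.2.2.1 ⟨a, h⟩ else 0) ?_).trans ?_
  · rintro _ ⟨b, hb, m, hm, rfl⟩
    obtain ⟨t, ht, -, y, hy, rfl⟩ := cv m ((mx m).2 hm)
    set m' := X.s⁻¹ * y * X.s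
    obtain ⟨l, e⟩ := ((mx m').1 (X.mem_D.1 hy).2 _).1 ⟨i, rfl⟩
    have ev : eb F β i *ᵥ v = v := funext fun a => by rw [eb_ap]; split_ifs with z; exacts [rfl, (hv a z).symm]
    have z : ∀ a, β a ≠ l → (b • mt m' *ᵥ v) a = 0 := fun a z => by
      rw [← ev, mulVec_mulVec, (Units.mul_inv_eq_iff_eq_mul _).1 e.symm, ← mulVec_mulVec, Pi.smul_apply, eb_ap, if_neg z, smul_zero]
    have z' : ∀ l', l' ≠ l → rs β l' (b • mt m' *ᵥ v) = 0 := fun l' ne => funext fun a => z _ (by rwa [a.2])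
    refine ⟨⟨⟨t, ht⟩, l, rs β l (b • mt m' *ᵥ v), fun y => v0 ?_, fun hu => ?_⟩, ?_⟩
    · have : b • mt m' *ᵥ v = 0 := rs_ext fun l' => by by_cases e : l' = l; exacts [e ▸ y, z' l' e]
      simpa [mt_inv_mul] using congrArg (mt m'⁻¹ *ᵥ ·) ((smul_eq_zero.1 this).resolve_left hb.ne)
    · rw [← mt_B hu m', ← one_mul (Φ.B (_ *ᵥ v) _), ← (Φ.mu_U hu).1 hb, mul_assoc, ← Φ.B_smul_right, ← Φ.B_smul_left, B_rs (β := β),
        Finset.sum_eq_single l (fun l' _ e => by rw [z' l' e, Φ.B_zero_left]) (by simp)]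
    · refine (congrArg (mt (t * X.s) *ᵥ ·) (show _ = b • mt m' *ᵥ v from funext fun a => by
        split_ifs with e; exacts [rfl, (z a e).symm])).trans ?_
      rw [mulVec_smul, mulVec_mulVec, mulVec_mulVec, ← mt_mul, ← mt_mul]
      congr 3; simp only [m']; group
  · rw [Nat.card_prod, Nat.card_sigma, mul_assoc, Nat.card_eq_finsetCard]
    exact Nat.mul_le_mul (hT.trans X.d0_le) ((Finset.sum_le_card_nsmul _ _ c fun i _ => (h i).2 _).trans_eq (by simp))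

end H14.SM
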